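import Mathlib

set_option autoImplicit false

namespace Cfsg.Agent.Lib.helper25.AutOrbB

open scoped commutatorElement

/-- Basic structure when the commutator subgroup has order 2 and is central: `D = {1, c}`. -/
theorem exists_c {G : Type*} [Group G] [Finite G] (hD : Nat.card (commutator G) = 2)
    (hDZ : commutator G ≤ Subgroup.center G) :
    ∃ c : G, c ∈ commutator G ∧ c ≠ 1 ∧ c ^ 2 = 1 ∧ (∀ g : G, g * c = c * g) ∧
      (∀ d ∈ commutator G, d = 1 ∨ d = c) ∧
      (∀ x y : G, ¬ Commute x y → x * y = c * y * x) := by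
  obtain ⟨⟨c, hcD⟩, hc1, hcu⟩ := (Nat.card_eq_two_iff' (1 : commutator G)).mp hD
  have hc1' : c ≠ 1 := fun h => hc1 (Subtype.ext h)
  have hdc : ∀ d ∈ commutator G, d = 1 ∨ d = c := by
    intro d hd
    by_cases h1 : d = 1
    · exact Or.inl h1
    · right
      have h2 := hcu ⟨d, hd⟩ (fun h => h1 (congrArg Subtype.val h))
      exact congrArg Subtype.val h2
  have hc2 : c ^ 2 = 1 := by
    have h1 : (⟨c, hcD⟩ : commutator G) ^ Nat.card (commutator G) = 1 := pow_card_eq_one'
    rw [hD] at h1
    exact congrArg Subtype.val h1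
  refine ⟨c, hcD, hc1', hc2, Subgroup.mem_center_iff.mp (hDZ hcD), hdc, ?_⟩
  intro x y hxy
  have hmem : ⁅x, y⁆ ∈ commutator G := by
    rw [commutator_def]
    exact Subgroup.commutator_mem_commutator (Subgroup.mem_top x) (Subgroup.mem_top y)
  rcases hdc _ hmem with h | h
  · exact absurd (commutatorElement_eq_one_iff_commute.mp h) hxy
  · rw [← h, commutatorElement_def]
    group

theorem sq_mem_center {G : Type*} [Group G] (c : G) (hc2 : c ^ 2 = 1)
    (hcc : ∀ g : G, g * c = c * g)
    (hcomm : ∀ x y : G, ¬ Commute x y → x * y = c * y * x) (x : G) :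
    x ^ 2 ∈ Subgroup.center G := by
  rw [Subgroup.mem_center_iff]
  intro y
  by_cases hxy : Commute y x
  · exact (hxy.pow_right 2).eq
  · have h1 := hcomm y x hxy
    rw [pow_two, ← mul_assoc, h1, mul_assoc (c * x) y x, h1]
    have h2 : c * x * (c * x * y) = c ^ 2 * (x * x * y) := by
      rw [pow_two]
      simp only [mul_assoc]
      rw [← mul_assoc x c, hcc x, mul_assoc]
    rw [h2, hc2, one_mul]

theorem exists_u {G : Type*} [Group G] [Finite G] (hD : Nat.card (commutator G) = 2)
    (hDZ : commutator G ≤ Subgroup.center G)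
    (hE : ∀ e ∈ Subgroup.center G, e ^ 2 = 1 → e ∈ commutator G) (c : G)
    (hcD : c ∈ commutator G) (hc1 : c ≠ 1) (hc2 : c ^ 2 = 1) (hcc : ∀ g : G, g * c = c * g)
    (hdc : ∀ d ∈ commutator G, d = 1 ∨ d = c)
    (hcomm : ∀ x y : G, ¬ Commute x y → x * y = c * y * x) :
    ∃ u : G, u ∉ Subgroup.center G ∧ u ^ 2 = c := by
  classical
  have hcomm' : ∀ x y : G, ¬ Commute x y → x * y = y * x * c := by
    intro x y hxy
    rw [hcomm x y hxy, mul_assoc, ← hcc (y * x)]
  let sq : Subgroup.center G →* Subgroup.center G := MonoidHom.mk' (fun z => z ^ 2) (by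
    intro a b
    have hab : Commute a b := Subtype.ext (Subgroup.mem_center_iff.mp a.2 (b : G)).symm
    exact hab.mul_pow 2)
  have hker : sq.ker = (commutator G).subgroupOf (Subgroup.center G) := by
    ext z
    rw [MonoidHom.mem_ker, Subgroup.mem_subgroupOf]
    constructor
    · intro h
      apply hE _ z.2
      have h1 := congrArg Subtype.val h
      simpa [sq] using h1
    · intro h
      rcases hdc _ h with h1 | h1
      · apply Subtype.ext
        simp [sq, h1]
      · apply Subtype.ext
        simp [sq, h1, hc2]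
  have hkcard : Nat.card sq.ker = 2 := by
    rw [hker, Nat.card_congr (Subgroup.subgroupOfEquivOfLe hDZ).toEquiv, hD]
  have hidx : sq.range.index = 2 := by
    rw [Subgroup.index_range, hkcard]
  have hnc : ∃ g h : G, ¬ Commute g h := by
    by_contra hall
    push Not at hall
    have hle : commutator G ≤ ⊥ := by
      rw [commutator_def, Subgroup.commutator_le]
      intro g₁ _ g₂ _
      rw [Subgroup.mem_bot]
      exact commutatorElement_eq_one_iff_commute.mpr (hall g₁ g₂)
    exact hc1 (Subgroup.mem_bot.mp (hle hcD))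
  obtain ⟨g, h, hgh⟩ := hnc
  have hsq : (g * h) ^ 2 = g ^ 2 * h ^ 2 * c := by
    rw [pow_two, pow_two, pow_two]
    have h1 : h * g = g * h * c := hcomm' h g (fun hc => hgh hc.symm)
    calc g * h * (g * h) = g * (h * g) * h := by simp only [mul_assoc]
      _ = g * (g * h * c) * h := by rw [h1]
      _ = g * g * (h * h) * c := by
          simp only [mul_assoc]
          rw [← hcc h]
  have key : ∃ x : G, x ∉ Subgroup.center G ∧
      ∃ z : Subgroup.center G, (z : G) ^ 2 = c * x ^ 2 := by
    let cZ : Subgroup.center G := ⟨c, hDZ hcD⟩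
    let sqZ : G → Subgroup.center G := fun x => ⟨x ^ 2, sq_mem_center c hc2 hcc hcomm x⟩
    have hP : ∀ x : G, (cZ * sqZ x ∈ sq.range) →
        ∃ z : Subgroup.center G, (z : G) ^ 2 = c * x ^ 2 := by
      rintro x ⟨z, hz⟩
      exact ⟨z, by simpa [sq, cZ, sqZ] using congrArg Subtype.val hz⟩
    have hgZ : g ∉ Subgroup.center G :=
      fun hg => hgh ((Subgroup.mem_center_iff.mp hg h).symm)
    have hhZ : h ∉ Subgroup.center G := fun hh => hgh (Subgroup.mem_center_iff.mp hh g)
    have hghZ : g * h ∉ Subgroup.center G := by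
      intro hm
      have h1 := Subgroup.mem_center_iff.mp hm h
      apply hgh
      have h2 : h * g * h = g * h * h := by
        rw [mul_assoc]
        exact h1
      exact (mul_right_cancel h2).symm
    have hmul : sqZ (g * h) = sqZ g * sqZ h * cZ := Subtype.ext (by simpa [sqZ, cZ] using hsq)
    have i1 := Subgroup.mul_mem_iff_of_index_two hidx (a := cZ) (b := sqZ g)
    have i2 := Subgroup.mul_mem_iff_of_index_two hidx (a := cZ) (b := sqZ h)
    have i3 := Subgroup.mul_mem_iff_of_index_two hidx (a := cZ) (b := sqZ g * sqZ h * cZ)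
    have i4 := Subgroup.mul_mem_iff_of_index_two hidx (a := sqZ g * sqZ h) (b := cZ)
    have i5 := Subgroup.mul_mem_iff_of_index_two hidx (a := sqZ g) (b := sqZ h)
    by_cases h1 : cZ * sqZ g ∈ sq.range
    · exact ⟨g, hgZ, hP g h1⟩
    · by_cases h2 : cZ * sqZ h ∈ sq.range
      · exact ⟨h, hhZ, hP h h2⟩
      · refine ⟨g * h, hghZ, hP (g * h) ?_⟩
        rw [hmul]
        tauto
  obtain ⟨x, hxZ, z, hz⟩ := key
  refine ⟨x * (z : G)⁻¹, ?_, ?_⟩
  · intro hm
    apply hxZ
    have h1 := (Subgroup.center G).mul_mem hm z.2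
    simpa using h1
  · have hzc : Commute x (z : G)⁻¹ :=
      Subgroup.mem_center_iff.mp ((Subgroup.center G).inv_mem z.2) x
    rw [hzc.mul_pow, inv_pow, hz, mul_inv_rev, mul_inv_cancel_left]
    exact inv_eq_of_mul_eq_one_left (by rw [← pow_two]; exact hc2)

theorem exists_aut {G : Type*} [Group G] [Finite G] (c u : G) (hc2 : c ^ 2 = 1)
    (hcc : ∀ g : G, g * c = c * g) (hu2 : u ^ 2 = c)
    (hcomm : ∀ x y : G, ¬ Commute x y → x * y = y * x * c) :
    ∃ φ : MulAut G, ∀ x : G, ¬ Commute x u → φ x = x * u := by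
  classical
  let f : G →* G := MonoidHom.mk' (fun x => if Commute x u then x else x * u) (by
    intro x y
    by_cases hx : Commute x u <;> by_cases hy : Commute y u
    · have hxy : Commute (x * y) u := hx.mul_left hy
      simp [hx, hy, hxy]
    · have hxy : ¬ Commute (x * y) u := by
        intro h
        apply hy
        have h1 := hx.inv_left.mul_left h
        simpa using h1
      simp [hx, hy, hxy, mul_assoc]
    · have hxy : ¬ Commute (x * y) u := by
        intro h
        apply hx
        have h1 := h.mul_left hy.inv_left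
        simpa using h1
      simp only [hx, hy, hxy, if_true, if_false]
      rw [mul_assoc, hy.eq, ← mul_assoc]
    · have h1 := hcomm x u hx
      have h2 := hcomm y u hy
      have h3 := hcomm u y (fun hc => hy hc.symm)
      have hxy : Commute (x * y) u := by
        show x * y * u = u * (x * y)
        calc x * y * u = x * (y * u) := mul_assoc _ _ _
          _ = x * (u * y * c) := by rw [h2]
          _ = (x * u) * y * c := by simp only [mul_assoc]
          _ = (u * x * c) * y * c := by rw [h1]
          _ = u * (x * y) * (c * c) := by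
              simp only [mul_assoc]
              rw [← mul_assoc c y, ← hcc y]
              simp only [mul_assoc]
          _ = u * (x * y) := by rw [← pow_two, hc2, mul_one]
      simp only [hx, hy, hxy, if_true, if_false]
      symm
      calc x * u * (y * u) = x * (u * y) * u := by simp only [mul_assoc]
        _ = x * (y * u * c) * u := by rw [h3]
        _ = x * y * (u * u) * c := by
            simp only [mul_assoc]
            rw [← hcc u]
        _ = x * y := by
            rw [← pow_two, hu2, mul_assoc (x * y) c c, ← pow_two, hc2, mul_one])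
  have hinj : Function.Injective f := by
    rw [injective_iff_map_eq_one]
    intro x hx
    by_cases hxu : Commute x u
    · simpa [f, hxu] using hx
    · exfalso
      have h1 : x * u = 1 := by simpa [f, hxu] using hx
      apply hxu
      have h2 : x = u⁻¹ := eq_inv_of_mul_eq_one_left h1
      rw [h2]
      exact (Commute.refl u).inv_left
  have hbij : Function.Bijective f := ⟨hinj, Finite.surjective_of_injective hinj⟩
  refine ⟨MulEquiv.ofBijective f hbij, ?_⟩
  intro x hx
  simp [f, hx]

/-- (B) of S4067: commutator subgroup central of order 2 containing all central involutions. -/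
theorem caseB_two {G : Type*} [Group G] [Finite G] (hD : Nat.card (commutator G) = 2)
    (hDZ : commutator G ≤ Subgroup.center G)
    (hE : ∀ e ∈ Subgroup.center G, e ^ 2 = 1 → e ∈ commutator G) :
    ∃ u : G, u ∉ Subgroup.center G ∧
      ∀ g : G, ¬ Commute g u → 2 ^ 2 ≤ Nat.card (MulAction.orbit (MulAut G) g) := by
  classical
  obtain ⟨c, hcD, hc1, hc2, hcc, hdc, hcomm⟩ := exists_c hD hDZ
  have hcomm' : ∀ x y : G, ¬ Commute x y → x * y = y * x * c := by
    intro x y hxy
    rw [hcomm x y hxy, mul_assoc, ← hcc (y * x)]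
  obtain ⟨u, huZ, hu2⟩ := exists_u hD hDZ hE c hcD hc1 hc2 hcc hdc hcomm
  obtain ⟨φ, hφ⟩ := exists_aut c u hc2 hcc hu2 hcomm'
  refine ⟨u, huZ, ?_⟩
  intro g hg
  have hcZ : c ∈ Subgroup.center G := hDZ hcD
  have h1' : u * g = g * u * c := hcomm' u g (fun hc => hg hc.symm)
  have m00 : g * 1 * 1 ∈ MulAction.orbit (MulAut G) g := ⟨1, by simp⟩
  have m01 : g * 1 * c ∈ MulAction.orbit (MulAut G) g := by
    refine ⟨MulAut.conj u, ?_⟩
    simp only [MulAut.smul_def, MulAut.conj_apply, mul_one]
    rw [h1', mul_assoc g u c, hcc u, ← mul_assoc, mul_inv_cancel_right]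
  have m10 : g * u * 1 ∈ MulAction.orbit (MulAut G) g := ⟨φ, by simp [MulAut.smul_def, hφ g hg]⟩
  have m11 : g * u * c ∈ MulAction.orbit (MulAut G) g := by
    refine ⟨MulAut.conj u * φ, ?_⟩
    simp only [MulAut.smul_def, MulAut.mul_apply, MulAut.conj_apply, hφ g hg]
    rw [← mul_assoc, mul_inv_cancel_right, h1']
  let f : Bool × Bool → MulAction.orbit (MulAut G) g := fun p =>
    ⟨g * (if p.1 then u else 1) * (if p.2 then c else 1), by
      rcases p with ⟨i, j⟩
      cases i <;> cases j
      · simpa using m00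
      · simpa using m01
      · simp only [if_true, Bool.false_eq_true, if_false]; exact m10
      · simpa using m11⟩
  have hu1 : u ≠ 1 := fun h1 => huZ (h1 ▸ Subgroup.one_mem _)
  have hu1' : (1 : G) ≠ u := fun h1 => hu1 h1.symm
  have huc : u ≠ c := fun h1 => huZ (h1 ▸ hcZ)
  have huc' : c ≠ u := fun h1 => huc h1.symm
  have hm : u * c ≠ 1 := by
    intro h1
    apply huZ
    have h2 : u = c⁻¹ := eq_inv_of_mul_eq_one_left h1
    rw [h2]
    exact (Subgroup.center G).inv_mem hcZ
  have hm' : (1 : G) ≠ u * c := fun h1 => hm h1.symm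
  have hc1' : (1 : G) ≠ c := fun h1 => hc1 h1.symm
  have hf : Function.Injective f := by
    rintro ⟨i, j⟩ ⟨i', j'⟩ h
    have h' : g * (if i then u else 1) * (if j then c else 1) =
        g * (if i' then u else 1) * (if j' then c else 1) := congrArg Subtype.val h
    rw [mul_assoc, mul_assoc] at h'
    have h'' := mul_left_cancel h'
    cases i <;> cases i' <;> cases j <;> cases j' <;> simp_all
  have h4 : Nat.card (Bool × Bool) = 4 := by
    rw [Nat.card_eq_fintype_card]
    rfl
  calc 2 ^ 2 = Nat.card (Bool × Bool) := by rw [h4]; norm_num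
    _ ≤ _ := Nat.card_le_card_of_injective f hf

end Cfsg.Agent.Lib.helper25.AutOrbB
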