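import Mathlib
import Cfsg.Prelude.Def_FusionSystem
import Cfsg.Agent.Lib.helper25.FusionSimple4

set_option autoImplicit false

namespace Cfsg.Agent.Lib.helper25

open Cfsg Cfsg.FusionSystem

/-- Version of `isSimple_groupFusion_of_closed_cover` for a subgroup `H` of an ambient group `Γ`,
with all conditions stated in the ambient group. -/
theorem isSimple_groupFusion_of_closed_cover_sub {Γ G : Type*} [Group Γ] [Group G] [Finite G]
    (H : Subgroup Γ) [Finite H] (p : ℕ) [Fact p.Prime]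
    (φ : H →* G) (hφ : Function.Surjective φ) (hker : φ.ker ≤ Subgroup.center H)
    (hcop : (Nat.card φ.ker).Coprime p) (U : Subgroup Γ) (hle : U ≤ H)
    (hUsyl : ∃ S0 : Sylow p H, (S0 : Subgroup H) = U.subgroupOf H) (hU1 : U ≠ ⊥)
    (hsc : ∀ T : Subgroup Γ, T ≤ U → T ≠ ⊥ →
      (∀ t ∈ T, ∀ g ∈ H, g * t * g⁻¹ ∈ U → g * t * g⁻¹ ∈ T) → U ≤ T)
    (hnorm : ∀ g ∈ H, (∀ x ∈ U, g * x * g⁻¹ ∈ U) →
      ∃ s ∈ U, ∀ x ∈ U, g * x * g⁻¹ = s * x * s⁻¹)
    (S : Sylow p G) : (Cfsg.groupFusionSystem (S : Subgroup G)).IsSimple p := by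
  apply isSimple_groupFusion_of_closed_cover p φ hφ hker hcop (U.subgroupOf H) hUsyl
  · intro hbot
    apply hU1
    rw [eq_bot_iff]
    intro x hx
    have h1 : (⟨x, hle hx⟩ : H) ∈ U.subgroupOf H := Subgroup.mem_subgroupOf.2 hx
    rw [hbot, Subgroup.mem_bot] at h1
    rw [Subgroup.mem_bot]
    exact congrArg Subtype.val h1
  · intro T' hT'S hT'0 hT'c
    have h1 : T'.map H.subtype ≤ U := by
      rintro _ ⟨t, ht, rfl⟩
      exact Subgroup.mem_subgroupOf.1 (hT'S ht)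
    have h2 : T'.map H.subtype ≠ ⊥ := by
      intro hbot
      apply hT'0
      rw [eq_bot_iff]
      intro t ht
      have h3 : (t : Γ) ∈ T'.map H.subtype := ⟨t, ht, rfl⟩
      rw [hbot, Subgroup.mem_bot] at h3
      rw [Subgroup.mem_bot]
      exact Subtype.ext h3
    have h3 := hsc _ h1 h2 (by
      rintro _ ⟨t, ht, rfl⟩ g hg hgt
      have h4 := hT'c t ht ⟨g, hg⟩ (Subgroup.mem_subgroupOf.2 hgt)
      exact ⟨_, h4, rfl⟩)
    intro x hx
    obtain ⟨t, ht, htx⟩ := h3 (Subgroup.mem_subgroupOf.1 hx)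
    have : t = x := Subtype.ext htx
    rw [← this]
    exact ht
  · intro g hg
    obtain ⟨s, hs, hsx⟩ := hnorm g g.2 (fun x hx =>
      Subgroup.mem_subgroupOf.1 (hg ⟨x, hle hx⟩ (Subgroup.mem_subgroupOf.2 hx)))
    refine ⟨⟨s, hle hs⟩, Subgroup.mem_subgroupOf.2 hs, fun x hx => ?_⟩
    apply Subtype.ext
    exact hsx x (Subgroup.mem_subgroupOf.1 hx)

end Cfsg.Agent.Lib.helper25
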