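import Mathlib
import Cfsg.Prelude.Def_FusionSystem
import Cfsg.Agent.Lib.helper25.FusionSimple3

set_option autoImplicit false

namespace Cfsg.Agent.Lib.helper25

open Cfsg Cfsg.FusionSystem
open scoped Pointwise

section coverker

variable {G Γ : Type*} [Group G] [Finite G] [Group Γ] [Finite Γ]

/-- Simplicity of the fusion system of a quotient `G` of `Γ` by a subgroup of the Sylow
`p`-subgroup `U` (for instance a central `p`-subgroup), from data in `Γ`. -/
theorem isSimple_groupFusion_of_cover_ker (p : ℕ) [Fact p.Prime]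
    (φ : Γ →* G) (hφ : Function.Surjective φ) (U : Subgroup Γ) (hkU : φ.ker ≤ U)
    (hU1 : ¬ U ≤ φ.ker) (S : Sylow p G) (hS : (S : Subgroup G) = U.map φ)
    (hsc : ∀ T : Subgroup Γ, T ≤ U → φ.ker ≤ T → ¬ T ≤ φ.ker →
      (∀ t ∈ T, ∀ g : Γ, g * t * g⁻¹ ∈ U → g * t * g⁻¹ ∈ T) → U ≤ T)
    (hgen : Subgroup.normalizer (U : Set Γ) ≤
      Subgroup.closure {x : Γ | x ∈ Subgroup.normalizer (U : Set Γ) ∧
        ∃ R : Subgroup Γ, φ.ker ≤ R ∧ R ≤ U ∧ U ≤ Subgroup.normalizer (R : Set Γ) ∧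
          (∀ g : Γ, (∀ r ∈ R, g * r * g⁻¹ * r⁻¹ ∈ φ.ker) → g ∈ R) ∧
          x ∈ Subgroup.closure {y : Γ | y ∈ Subgroup.normalizer (R : Set Γ) ∧
            ∃ k : ℕ, y ^ (p ^ k) = 1}}) :
    (Cfsg.groupFusionSystem (S : Subgroup G)).IsSimple p := by
  have hp := (Fact.out : p.Prime)
  have hpre : ∀ (R : Subgroup Γ), φ.ker ≤ R → ∀ v : Γ, φ v ∈ R.map φ → v ∈ R := by
    intro R hkR v hv
    obtain ⟨r, hr, hrv⟩ := hv
    have hz : r⁻¹ * v ∈ φ.ker := by
      rw [MonoidHom.mem_ker, map_mul, map_inv, hrv, inv_mul_cancel]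
    have : v = r * (r⁻¹ * v) := by group
    rw [this]
    exact R.mul_mem hr (hkR hz)
  have hnmap : ∀ (R : Subgroup Γ) (x : Γ), x ∈ Subgroup.normalizer (R : Set Γ) →
      φ x ∈ Subgroup.normalizer ((R.map φ : Subgroup G) : Set G) := by
    intro R x hx
    exact Subgroup.le_normalizer_map φ (Subgroup.mem_map_of_mem φ hx)
  apply isSimple_groupFusion_of_gen2 p S
  · rw [hS]
    intro hbot
    apply hU1
    intro u hu
    have h1 : φ u ∈ U.map φ := Subgroup.mem_map_of_mem φ hu
    rw [hbot, Subgroup.mem_bot] at h1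
    exact MonoidHom.mem_ker.2 h1
  · intro T hTS hT0 hTc
    rw [hS] at hTS hTc ⊢
    have h2 := hsc (U ⊓ T.comap φ) inf_le_left
      (le_inf hkU (fun z hz => by
        show φ z ∈ T
        rw [MonoidHom.mem_ker.1 hz]
        exact T.one_mem))
      (by
        intro hle
        apply hT0
        rw [eq_bot_iff]
        intro t ht
        obtain ⟨u, hu, rfl⟩ := hTS ht
        have h3 := hle (show u ∈ U ⊓ T.comap φ from ⟨hu, ht⟩)
        exact Subgroup.mem_bot.2 (MonoidHom.mem_ker.1 h3))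
      (by
        intro t ht g hg
        refine ⟨hg, ?_⟩
        show φ (g * t * g⁻¹) ∈ T
        have h3 := hTc (φ t) ht.2 (φ g) (by
          rw [← map_inv, ← map_mul, ← map_mul]
          exact Subgroup.mem_map_of_mem φ hg)
        rw [map_mul, map_mul, map_inv]
        exact h3)
    rintro _ ⟨u, hu, rfl⟩
    exact (h2 hu).2
  · have hnorm : ∀ γ : Γ, φ γ ∈ Subgroup.normalizer ((U.map φ : Subgroup G) : Set G) →
        γ ∈ Subgroup.normalizer (U : Set Γ) := by
      intro γ hγ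
      rw [Subgroup.mem_normalizer_iff]
      intro y
      apply conj_mem_iff_of_forall_conj_mem
      intro u hu
      apply hpre U hkU
      rw [map_mul, map_mul, map_inv]
      exact (Subgroup.mem_normalizer_iff.1 hγ (φ u)).1 (Subgroup.mem_map_of_mem φ hu)
    rw [hS]
    intro g hg
    obtain ⟨γ, rfl⟩ := hφ g
    have hγ := hgen (hnorm γ hg)
    have hmap : (Subgroup.closure {x : Γ | x ∈ Subgroup.normalizer (U : Set Γ) ∧
        ∃ R : Subgroup Γ, φ.ker ≤ R ∧ R ≤ U ∧ U ≤ Subgroup.normalizer (R : Set Γ) ∧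
          (∀ g : Γ, (∀ r ∈ R, g * r * g⁻¹ * r⁻¹ ∈ φ.ker) → g ∈ R) ∧
          x ∈ Subgroup.closure {y : Γ | y ∈ Subgroup.normalizer (R : Set Γ) ∧
            ∃ k : ℕ, y ^ (p ^ k) = 1}}).map φ ≤
        Subgroup.closure {x : G | x ∈ Subgroup.normalizer ((U.map φ : Subgroup G) : Set G) ∧
        ∃ R : Subgroup G, R ≤ U.map φ ∧
          U.map φ ≤ Subgroup.normalizer (R : Set G) ∧
          Subgroup.centralizer (R : Set G) ≤ R ∧
          x ∈ Subgroup.closure {y : G | y ∈ Subgroup.normalizer (R : Set G) ∧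
            ∃ k : ℕ, orderOf y = p ^ k}} := by
      rw [MonoidHom.map_closure, Subgroup.closure_le]
      rintro _ ⟨x, ⟨hxN, R, hkR, hRU, hUN, hcen, hx⟩, rfl⟩
      apply Subgroup.subset_closure
      refine ⟨hnmap U x hxN, R.map φ, Subgroup.map_mono hRU, ?_, ?_, ?_⟩
      · rintro _ ⟨u, hu, rfl⟩
        exact hnmap R u (hUN hu)
      · intro c hc
        obtain ⟨γ', rfl⟩ := hφ c
        have h1 : γ' ∈ R := by
          apply hcen
          intro r hr
          have h3 := (Subgroup.mem_centralizer_iff.1 hc) (φ r) (Subgroup.mem_map_of_mem φ hr)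
          rw [MonoidHom.mem_ker, map_mul, map_mul, map_mul, map_inv, map_inv, ← h3,
            mul_inv_cancel_right, mul_inv_cancel]
        exact Subgroup.mem_map_of_mem φ h1
      · have h1 : (Subgroup.closure {y : Γ | y ∈ Subgroup.normalizer (R : Set Γ) ∧
            ∃ k : ℕ, y ^ (p ^ k) = 1}).map φ ≤
            Subgroup.closure {y : G | y ∈ Subgroup.normalizer ((R.map φ : Subgroup G) : Set G) ∧
            ∃ k : ℕ, orderOf y = p ^ k} := by
          rw [MonoidHom.map_closure, Subgroup.closure_le]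
          rintro _ ⟨y, ⟨hyN, k, hyk⟩, rfl⟩
          apply Subgroup.subset_closure
          refine ⟨hnmap R y hyN, ?_⟩
          have hd : orderOf (φ y) ∣ p ^ k :=
            orderOf_dvd_of_pow_eq_one (by rw [← map_pow, hyk, map_one])
          obtain ⟨j, -, hj⟩ := (Nat.dvd_prime_pow hp).1 hd
          exact ⟨j, hj⟩
        exact h1 (Subgroup.mem_map_of_mem φ hx)
    exact hmap (Subgroup.mem_map_of_mem φ hγ)

end coverker

end Cfsg.Agent.Lib.helper25
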