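import Mathlib
import Cfsg.Prelude.Def_FusionSystem
import Cfsg.Agent.Lib.helper25.Hyperfocal
import Cfsg.Agent.Lib.helper25.SubgroupFusion
import Cfsg.Agent.Lib.helper10.Control

set_option autoImplicit false

namespace Cfsg.Agent.Lib.helper25

open Cfsg Cfsg.FusionSystem
open scoped commutatorElement

/-- In a commutative group, the subgroup generated by the `p'`-elements consists of `p'`-elements. -/
theorem coprime_orderOf_of_mem_pResidual_comm {A : Type*} [CommGroup A] (p : ℕ) {x : A}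
    (hx : x ∈ pResidual p A) : Nat.Coprime (orderOf x) p := by
  unfold pResidual at hx
  induction hx using Subgroup.closure_induction with
  | mem y hy => exact hy
  | one => rw [orderOf_one]; exact Nat.coprime_one_left p
  | mul a b _ _ ha hb =>
    have h1 : orderOf (a * b) ∣ Nat.lcm (orderOf a) (orderOf b) := (Commute.all a b).orderOf_mul_dvd_lcm
    have h2 : Nat.lcm (orderOf a) (orderOf b) ∣ orderOf a * orderOf b := Nat.lcm_dvd_mul _ _
    exact Nat.Coprime.coprime_dvd_left (h1.trans h2) (Nat.Coprime.mul_left ha hb)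
  | inv a _ ha => rw [orderOf_inv]; exact ha

/-- `O^p(O^p(G)) = O^p(G)`. -/
theorem pResidual_pResidual_eq_top {G : Type*} [Group G] (p : ℕ) :
    pResidual p (pResidual p G) = ⊤ := by
  have h := Subgroup.closure_closure_coe_preimage (k := {g : G | Nat.Coprime (orderOf g) p})
  have hset : {g : pResidual p G | Nat.Coprime (orderOf g) p} =
      (((↑) : Subgroup.closure {g : G | Nat.Coprime (orderOf g) p} → G) ⁻¹'
        {g : G | Nat.Coprime (orderOf g) p}) := by
    ext g
    show Nat.Coprime (orderOf g) p ↔ Nat.Coprime (orderOf (g : G)) p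
    rw [Subgroup.orderOf_coe]
  show Subgroup.closure {g : pResidual p G | Nat.Coprime (orderOf g) p} = ⊤
  rw [hset]
  exact h

/-- A `p`-element of `O^p(G)` lies in the derived subgroup of `O^p(G)`. -/
theorem mem_commutator_pResidual_of_pow {G : Type*} [Group G] (p : ℕ) [Fact p.Prime]
    {q : G} (hqN : q ∈ pResidual p G) {k : ℕ} (hq : q ^ p ^ k = 1) :
    q ∈ ⁅pResidual p G, pResidual p G⁆ := by
  have h1 : Abelianization.of (⟨q, hqN⟩ : pResidual p G) ∈ pResidual p (Abelianization (pResidual p G)) := by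
    apply map_pResidual_le p Abelianization.of
    refine ⟨⟨q, hqN⟩, ?_, rfl⟩
    rw [pResidual_pResidual_eq_top]
    trivial
  have h2 := coprime_orderOf_of_mem_pResidual_comm p h1
  have h3 : orderOf (Abelianization.of (⟨q, hqN⟩ : pResidual p G)) ∣ p ^ k := by
    apply orderOf_dvd_of_pow_eq_one
    rw [← map_pow]
    have : (⟨q, hqN⟩ : pResidual p G) ^ p ^ k = 1 := Subtype.ext hq
    rw [this, map_one]
  have h4 : orderOf (Abelianization.of (⟨q, hqN⟩ : pResidual p G)) = 1 :=
    Nat.Coprime.eq_one_of_dvd (Nat.Coprime.pow_right k h2) h3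
  have h5 : Abelianization.of (⟨q, hqN⟩ : pResidual p G) = 1 := orderOf_eq_one_iff.1 h4
  have h6 : (⟨q, hqN⟩ : pResidual p G) ∈ commutator (pResidual p G) := by
    rw [← Abelianization.ker_of]
    exact h5
  rw [← Subgroup.map_subtype_commutator]
  exact ⟨⟨q, hqN⟩, h6, rfl⟩

/-- A finite `p`-group `Q` that is the product of a normal subgroup `H` and its derived subgroup
equals `H`. -/
theorem le_of_le_sup_commutator {G : Type*} [Group G] {p : ℕ} [Fact p.Prime] {Q H : Subgroup G}
    [Finite Q] (hQ : IsPGroup p Q) (hHQ : H ≤ Q) (hn : ∀ s ∈ Q, ∀ t ∈ H, s * t * s⁻¹ ∈ H)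
    (h : Q ≤ H ⊔ ⁅Q, Q⁆) : Q ≤ H := by
  have hnorm : (H.subgroupOf Q).Normal := by
    constructor
    intro n hn' g
    rw [Subgroup.mem_subgroupOf] at hn' ⊢
    exact hn g g.2 n hn'
  have hnil : Group.IsNilpotent Q := hQ.isNilpotent
  have htop : H.subgroupOf Q ⊔ commutator Q = ⊤ := by
    have h1 : (H ⊔ ⁅Q, Q⁆).subgroupOf Q = ⊤ := Subgroup.subgroupOf_eq_top.2 h
    rw [Subgroup.subgroupOf_sup hHQ (Subgroup.commutator_le_self Q)] at h1
    have h2 : (⁅Q, Q⁆).subgroupOf Q = commutator Q := by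
      rw [← Subgroup.map_subtype_commutator]
      exact Subgroup.comap_map_eq_self_of_injective Q.subtype_injective _
    rw [h2] at h1
    exact h1
  have hsub : Subsingleton (Q ⧸ H.subgroupOf Q) := by
    by_contra hns
    rw [not_subsingleton_iff_nontrivial] at hns
    have hlt := Group.IsSolvable.commutator_lt_top_of_nontrivial (Q ⧸ H.subgroupOf Q)
    apply hlt.ne
    rw [eq_top_iff]
    intro y _
    obtain ⟨x, rfl⟩ := QuotientGroup.mk'_surjective (H.subgroupOf Q) y
    have hx : x ∈ H.subgroupOf Q ⊔ commutator Q := by rw [htop]; trivial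
    have h3 : (QuotientGroup.mk' (H.subgroupOf Q)) x ∈
        (H.subgroupOf Q ⊔ commutator Q).map (QuotientGroup.mk' (H.subgroupOf Q)) := ⟨x, hx, rfl⟩
    rw [Subgroup.map_sup, QuotientGroup.map_mk'_self, bot_sup_eq, commutator_def,
      Subgroup.map_commutator] at h3
    rw [commutator_def]
    exact Subgroup.commutator_mono le_top le_top h3
  have h4 := QuotientGroup.subgroup_eq_top_of_subsingleton _ hsub
  exact Subgroup.subgroupOf_eq_top.1 h4

variable {G : Type*} [Group G]

/-- Every element of `O^p(Aut_G(P))` is induced by an element of `O^p(G)` normalizing `P`. -/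
theorem exists_conj_of_mem_pResidual_autGroup [Finite G] {p : ℕ} [Fact p.Prime] {S P : Subgroup G}
    (hP : P ≤ S) (α : (Cfsg.groupFusionSystem S).autGroup P)
    (hα : α ∈ pResidual p ((Cfsg.groupFusionSystem S).autGroup P)) :
    ∃ n ∈ pResidual p G, ∀ x : P, (((α : MulAut P) x : P) : G) = n * x * n⁻¹ := by
  have hmem : ∀ n : Subgroup.normalizer (P : Set G),
      P.normalizerMonoidHom n ∈ (Cfsg.groupFusionSystem S).autGroup P := by
    intro n
    rw [Cfsg.Agent.Lib.helper26.mem_autGroup_iff _ hP]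
    exact ⟨hP, fun x => hP (P.normalizerMonoidHom n x).2, n, fun x => rfl⟩
  let f : Subgroup.normalizer (P : Set G) →* (Cfsg.groupFusionSystem S).autGroup P :=
    P.normalizerMonoidHom.codRestrict _ hmem
  have hf : Function.Surjective f := by
    rintro ⟨β, hβ⟩
    rw [Cfsg.Agent.Lib.helper26.mem_autGroup_iff _ hP] at hβ
    obtain ⟨-, -, g, hg⟩ := hβ
    have hgN : g ∈ Subgroup.normalizer (P : Set G) :=
      Cfsg.Agent.Lib.helper26.mem_normalizer_of_conj_aut β hg
    refine ⟨⟨g, hgN⟩, ?_⟩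
    apply Subtype.ext
    ext x
    exact (hg x).symm
  obtain ⟨n, hn, hnα⟩ := Cfsg.Agent.Lib.helper14.pResidual_le_map f hf hα
  refine ⟨(n : G), map_pResidual_le p (Subgroup.normalizer (P : Set G)).subtype ⟨n, hn, rfl⟩, fun x => ?_⟩
  rw [← hnα]
  rfl

/-- The hyperfocal subgroup theorem. -/
theorem hyperfocal_groupFusionSystem [Finite G] (p : ℕ) [Fact p.Prime] (S : Sylow p G) :
    (Cfsg.groupFusionSystem (S : Subgroup G)).hyperfocalSubgroup p =
      (S : Subgroup G) ⊓ Cfsg.pResidual p G := by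
  have hp : p.Prime := Fact.out
  have hNn := Cfsg.Agent.Lib.helper14.pResidual_normal' p G
  apply le_antisymm
  · refine le_inf (hyperfocal_le _ p) ?_
    unfold hyperfocalSubgroup
    rw [Subgroup.closure_le]
    rintro _ ⟨P, α, x, hP, hα, rfl⟩
    obtain ⟨n, hn, hnx⟩ := exists_conj_of_mem_pResidual_autGroup hP α hα
    rw [SetLike.mem_coe, hnx]
    have h1 : (x : G)⁻¹ * (n * x * n⁻¹) = ((x : G)⁻¹ * n * (x : G)⁻¹⁻¹) * n⁻¹ := by group
    rw [h1]
    exact Subgroup.mul_mem _ (hNn.conj_mem n hn _) (Subgroup.inv_mem _ hn)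
  · have hQN : (S : Subgroup G) ⊓ Cfsg.pResidual p G ≤ Cfsg.pResidual p G := inf_le_right
    have hQp : IsPGroup p ↥((S : Subgroup G) ⊓ Cfsg.pResidual p G) := S.isPGroup'.to_le inf_le_left
    have hcard : Nat.card ↥((S : Subgroup G) ⊓ Cfsg.pResidual p G) =
        p ^ (Nat.card ↥(Cfsg.pResidual p G)).factorization p := by
      apply sylCard_inf_of_le_normalizer (K := (S : Subgroup G)) (H := ⊤) le_top ?_ le_top ?_
      · rw [Subgroup.card_top]
        exact S.card_eq_multiplicity
      · rw [Subgroup.normalizer_eq_top]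
    have hsat := subFusion_saturated hQN hcard
    have hfoc := focal_eq_hyperfocal_sup hQp _ hsat
    -- the focal subgroup theorem in `O^p(G)`
    have hidx : ¬ p ∣ ((S : Subgroup G) ⊓ Cfsg.pResidual p G).relIndex (Cfsg.pResidual p G) := by
      obtain ⟨R, hR⟩ := (exists_sylow_subgroupOf_iff hQN).2 hcard
      have := R.not_dvd_index
      rw [hR] at this
      exact this
    have h1 : (S : Subgroup G) ⊓ Cfsg.pResidual p G ⊓ ⁅Cfsg.pResidual p G, Cfsg.pResidual p G⁆ ≤
        (Cfsg.fusionSystemOfSubgroup (Cfsg.pResidual p G)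
          ((S : Subgroup G) ⊓ Cfsg.pResidual p G) hQN).focalSubgroup := by
      apply Cfsg.Agent.Lib.helper10.inf_commutator_le_of_focal hQp hidx
      intro a ha y hy hya
      have hz : Subgroup.zpowers a ≤ (S : Subgroup G) ⊓ Cfsg.pResidual p G :=
        (Subgroup.zpowers_le).2 ha
      have hz' : Subgroup.zpowers a ≤
          ((S : Subgroup G) ⊓ Cfsg.pResidual p G).comap (MulAut.conj y).toMonoidHom := by
        rw [Subgroup.zpowers_le, Subgroup.mem_comap]
        show (MulAut.conj y) a ∈ (S : Subgroup G) ⊓ Cfsg.pResidual p G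
        rw [MulAut.conj_apply]
        exact hya
      have hφ : Cfsg.conjHom (Subgroup.zpowers a) y ∈ (Cfsg.fusionSystemOfSubgroup (Cfsg.pResidual p G)
          ((S : Subgroup G) ⊓ Cfsg.pResidual p G) hQN).Hom (Subgroup.zpowers a) := by
        refine ⟨hz, fun x => ?_, y, hy, fun x => rfl⟩
        have := hz' x.2
        rw [Subgroup.mem_comap] at this
        show y * (x : G) * y⁻¹ ∈ (S : Subgroup G) ⊓ Cfsg.pResidual p G
        simpa [MulAut.conj_apply] using this
      have hgen : a * (y * a⁻¹ * y⁻¹) ∈ (Cfsg.fusionSystemOfSubgroup (Cfsg.pResidual p G)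
          ((S : Subgroup G) ⊓ Cfsg.pResidual p G) hQN).focalSubgroup := by
        refine Subgroup.subset_closure ⟨Subgroup.zpowers a, Cfsg.conjHom (Subgroup.zpowers a) y,
          ⟨a⁻¹, Subgroup.inv_mem _ (Subgroup.mem_zpowers a)⟩, hφ, ?_⟩
        show a * (y * a⁻¹ * y⁻¹) = (a⁻¹)⁻¹ * (y * a⁻¹ * y⁻¹)
        rw [inv_inv]
      have h2 : y * a * y⁻¹ * a⁻¹ = (a * (y * a⁻¹ * y⁻¹))⁻¹ := by group
      rw [h2]
      exact Subgroup.inv_mem _ hgen
    have h3 : (S : Subgroup G) ⊓ Cfsg.pResidual p G ≤ ⁅Cfsg.pResidual p G, Cfsg.pResidual p G⁆ := by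
      intro q hq
      obtain ⟨k, hk⟩ := (S.isPGroup') ⟨q, hq.1⟩
      have hk' : q ^ p ^ k = 1 := by
        have := congrArg Subtype.val hk
        simpa using this
      exact mem_commutator_pResidual_of_pow p hq.2 hk'
    have h4 : (S : Subgroup G) ⊓ Cfsg.pResidual p G ≤
        (Cfsg.fusionSystemOfSubgroup (Cfsg.pResidual p G)
          ((S : Subgroup G) ⊓ Cfsg.pResidual p G) hQN).hyperfocalSubgroup p ⊔
        ⁅(S : Subgroup G) ⊓ Cfsg.pResidual p G, (S : Subgroup G) ⊓ Cfsg.pResidual p G⁆ := by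
      rw [← hfoc]
      exact (le_inf le_rfl h3).trans h1
    have h5 := le_of_le_sup_commutator hQp (hyperfocal_le _ p)
      (fun s hs t ht => hyperfocal_conj_mem _ p hs ht) h4
    refine h5.trans ?_
    unfold hyperfocalSubgroup
    rw [Subgroup.closure_le]
    rintro _ ⟨P, α, x, hP, hα, rfl⟩
    have hPS : P ≤ (S : Subgroup G) := hP.trans inf_le_left
    have hle : (Cfsg.fusionSystemOfSubgroup (Cfsg.pResidual p G)
          ((S : Subgroup G) ⊓ Cfsg.pResidual p G) hQN).autGroup P ≤
        (Cfsg.groupFusionSystem (S : Subgroup G)).autGroup P := by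
      intro β hβ
      rw [Cfsg.Agent.Lib.helper26.mem_autGroup_iff _ hP] at hβ
      rw [Cfsg.Agent.Lib.helper26.mem_autGroup_iff _ hPS]
      obtain ⟨-, -, g, -, hg⟩ := hβ
      exact ⟨hPS, fun x => hPS (β x).2, g, hg⟩
    have h6 : Subgroup.inclusion hle α ∈ pResidual p ((Cfsg.groupFusionSystem (S : Subgroup G)).autGroup P) :=
      map_pResidual_le p (Subgroup.inclusion hle) ⟨α, hα, rfl⟩
    exact mem_hyperfocal _ p hPS (Subgroup.inclusion hle α) h6 x

end Cfsg.Agent.Lib.helper25
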