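import Cfsg.Agent.Lib.helper25.FusionFactor
import Cfsg.Agent.Lib.helper25.FusionNormal
import Cfsg.Agent.Lib.helper25.SubgroupFusion
import Cfsg.Agent.Lib.helper25.KNorm2
import Cfsg.Agent.Lib.helper26.Saturation

set_option autoImplicit false
open Cfsg Cfsg.FusionSystem

namespace Cfsg.Agent.Lib.helper25

variable {Ω : Type*} [Group Ω] {S : Subgroup Ω}

/-- A central subgroup is strongly closed. -/
theorem stronglyClosed_of_isCentral (F : FusionSystem S) {Z : Subgroup Ω} (hZ : F.IsCentral Z) :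
    F.StronglyClosed Z := by
  refine ⟨hZ.1, fun R hR φ hφ x => ?_⟩
  obtain ⟨ψ, hψ, agree, hfix⟩ := hZ.2 R φ hφ
  have h1 := agree x
  have h2 := hfix ⟨x, hR x.2⟩
  have h3 : Subgroup.inclusion (le_sup_left : R ≤ R ⊔ Z) x =
      Subgroup.inclusion (le_sup_right : Z ≤ R ⊔ Z) ⟨x, hR x.2⟩ := Subtype.ext rfl
  rw [← h1, h3, h2]
  exact hR x.2

/-- In a saturated system over an abelian group, every map extends to an automorphism. -/
theorem exists_aut_extension_of_abelian [Finite S] {p : ℕ} [Fact p.Prime] (hS : IsPGroup p S)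
    (F : FusionSystem S) (hF : F.IsSaturated p) (hab : ∀ a ∈ S, ∀ b ∈ S, a * b = b * a)
    {P : Subgroup Ω} {φ : P →* Ω} (hφ : φ ∈ F.Hom P) :
    ∃ α : MulAut S, α ∈ F.autGroup S ∧
      ∀ x : P, ((α ⟨x, (F.le_of_mem hφ).1 x.2⟩ : S) : Ω) = φ x := by
  obtain ⟨hP, hφS⟩ := F.le_of_mem hφ
  have hcen : ∀ Q : Subgroup Ω, Q ≤ S → centralizerIn S Q = S := by
    intro Q hQ
    apply le_antisymm inf_le_left
    intro s hs
    refine ⟨hs, ?_⟩
    show s ∈ Subgroup.centralizer (Q : Set Ω)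
    rw [Subgroup.mem_centralizer_iff]
    intro q hq
    exact hab q (hQ hq) s hs
  have hrS : φ.range ≤ S := by
    rintro _ ⟨x, rfl⟩
    exact hφS x
  have hfc : F.IsFullyCentralized φ.range := by
    refine ⟨hrS, fun Q hQ => ?_⟩
    rw [hcen _ hrS, hcen _ (Cfsg.Agent.Lib.helper26.isConj_le_right F hQ)]
  have hrec := Cfsg.Agent.Lib.helper26.receptive_of_fullyCentralized hS F hF hfc
  obtain ⟨ψ, hψ, hψφ⟩ := hrec.2 P φ hφ rfl
  have hext : extender S P φ = S := by
    apply le_antisymm ((Cfsg.Agent.Lib.helper26.extender_le P φ).trans inf_le_left)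
    have h1 := Cfsg.Agent.Lib.helper26.centralizerIn_le_extender (S := S) (P := P) (φ := φ)
    rw [hcen P hP] at h1
    exact h1
  have hψ' := hom_cast F hext.symm hψ
  have hval : ∀ x : S, (ψ.comp (Subgroup.inclusion hext.symm.le)) x ∈ S :=
    fun x => (F.le_of_mem hψ').2 x
  obtain ⟨α, hα⟩ := exists_aut_of_forall_mem (F.injective_of_mem hψ') hval
  refine ⟨α, (Cfsg.Agent.Lib.helper26.mem_autGroup_iff F le_rfl α).2
    (hom_congr F hψ' (fun x => hα x)), fun x => ?_⟩
  rw [hα]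
  exact hψφ x x.2 _

/-- A quasisimple fusion system is over a nonabelian group. -/
theorem not_isMulCommutative_of_quasisimple [Finite S] {p : ℕ} [Fact p.Prime] (hS : IsPGroup p S)
    (F : FusionSystem S) (hq : F.Quasisimple p) : ¬ IsMulCommutative S := by
  intro hab
  obtain ⟨hF, hhyp, hfac⟩ := hq
  have hZc := isCentral_center F
  have hZsc := stronglyClosed_of_isCentral F hZc
  have hker : ∀ s : S, QuotientGroup.mk' (F.center.subgroupOf S) s = 1 ↔ (s : Ω) ∈ F.center := by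
    intro s
    rw [QuotientGroup.mk'_apply, QuotientGroup.eq_one_iff, Subgroup.mem_subgroupOf]
  have hrange : (QuotientGroup.mk' (F.center.subgroupOf S)).range = ⊤ :=
    MonoidHom.range_eq_top.2 (QuotientGroup.mk'_surjective _)
  have hEfac := isFactorSystem_factorSystem F F.center hZsc _ hker hrange
  obtain ⟨E, hEdef⟩ : ∃ E : FusionSystem (⊤ : Subgroup (S ⧸ (F.center).subgroupOf S)),
      E = factorSystem F F.center hZsc (QuotientGroup.mk' (F.center.subgroupOf S)) hker hrange :=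
    ⟨_, rfl⟩
  rw [← hEdef] at hEfac
  obtain ⟨hEsat, hne, hEsimple⟩ := hfac E hEfac
  have hcomm : ∀ a b : S ⧸ (F.center).subgroupOf S, a * b = b * a := by
    intro a b
    obtain ⟨s, rfl⟩ := QuotientGroup.mk'_surjective _ a
    obtain ⟨t, rfl⟩ := QuotientGroup.mk'_surjective _ b
    rw [← map_mul, ← map_mul, hab.is_comm.comm s t]
  have hconj : ∀ h x : S ⧸ (F.center).subgroupOf S, h * x * h⁻¹ = x := by
    intro h x
    rw [hcomm h x, mul_assoc, mul_inv_cancel, mul_one]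
  have hpT : IsPGroup p (⊤ : Subgroup (S ⧸ (F.center).subgroupOf S)) :=
    (hS.to_quotient _).to_subgroup ⊤
  have hcard : Nat.card (⊤ : Subgroup (S ⧸ (F.center).subgroupOf S)) =
      p ^ (Nat.card (⊤ : Subgroup (S ⧸ (F.center).subgroupOf S))).factorization p := by
    obtain ⟨n, hn⟩ := IsPGroup.iff_card.1 hpT
    rw [hn, Nat.Prime.factorization_pow Fact.out]
    simp
  have hE'sat := subFusion_saturated (le_rfl : (⊤ : Subgroup (S ⧸ (F.center).subgroupOf S)) ≤ ⊤) hcard
  have hnormal : (fusionSystemOfSubgroup (⊤ : Subgroup (S ⧸ (F.center).subgroupOf S)) ⊤ le_rfl).IsNormalIn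
      E p := by
    refine ⟨⟨hE'sat, hEsat, ?_, ?_, ?_, ?_⟩, ?_⟩
    · rintro P φ ⟨hP, hφT, h, hh, hφ⟩
      refine hom_congr E (subtype_mem E hP) (fun x => ?_)
      rw [hφ, hconj]
      rfl
    · exact ⟨le_rfl, fun R hR φ hφ x => Subgroup.mem_top _⟩
    · intro P hPT φ hφ α hα
      obtain ⟨-, hφT, h, hh, hφh⟩ := hφ
      refine ⟨Subgroup.subtype _, ⟨le_top, fun _ => Subgroup.mem_top _, 1, Subgroup.mem_top _,
        fun y => by rw [one_mul, inv_one, mul_one]; rfl⟩, ?_⟩
      intro x hφx hαx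
      have h1 : (⟨φ x, hφx⟩ : (⊤ : Subgroup (S ⧸ (F.center).subgroupOf S))) = ⟨x, hPT x.2⟩ := by
        apply Subtype.ext
        show φ x = x
        rw [hφh, hconj]
      rw [h1]
      rfl
    · intro P hPT φ hφ
      obtain ⟨α, hα, hαx⟩ := exists_aut_extension_of_abelian hpT E hEsat
        (fun a _ b _ => hcomm a b) hφ
      refine ⟨α, hα, Subgroup.subtype P, ⟨hPT, fun _ => Subgroup.mem_top _, 1, Subgroup.mem_top _,
        fun y => by rw [one_mul, inv_one, mul_one]; rfl⟩, fun x hx => ?_⟩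
      exact (hαx x).symm
    · intro α hα
      obtain ⟨-, -, h, hh, hαh⟩ := (Cfsg.Agent.Lib.helper26.mem_autGroup_iff _ le_rfl α).1 hα
      have hαh' : ∀ y : (⊤ : Subgroup (S ⧸ (F.center).subgroupOf S)),
          ((α y : (⊤ : Subgroup (S ⧸ (F.center).subgroupOf S))) : S ⧸ (F.center).subgroupOf S) =
            h * (y : S ⧸ (F.center).subgroupOf S) * h⁻¹ := hαh
      refine ⟨1, Subgroup.one_mem _, fun x => ?_, fun c hc => ?_⟩
      · rw [hαh', hconj]
        rfl
      · show (c : S ⧸ (F.center).subgroupOf S)⁻¹ * (c : S ⧸ (F.center).subgroupOf S) ∈ _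
        rw [inv_mul_cancel]
        exact Subgroup.one_mem _
  have hid : ∀ (P' : Subgroup (S ⧸ (F.center).subgroupOf S)) (φ' : P' →* S ⧸ (F.center).subgroupOf S),
      φ' ∈ E.Hom P' → ∀ y : P', φ' y = y := by
    intro P' φ' hφ' y
    rcases hEsimple ⊤ _ hnormal with h | ⟨-, h⟩
    · exact absurd h hne
    · rw [← h P'] at hφ'
      obtain ⟨-, -, k, -, hk⟩ := hφ'
      rw [hk, hconj]
  have hmor := (isSurjectiveMorphism_of_isFactorSystem hS F hF hZsc _ E hEfac).1.2
  have hfoc : ∀ (P : Subgroup Ω) (φ : P →* Ω), φ ∈ F.Hom P → ∀ x : P,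
      (x : Ω)⁻¹ * φ x ∈ F.center := by
    intro P φ hφ x
    obtain ⟨φ', hφ', hP, hφS, hP', hind⟩ := hmor P φ hφ
    have h1 := hind x
    rw [hid _ φ' hφ'] at h1
    have h2 : QuotientGroup.mk' (F.center.subgroupOf S)
        ((⟨x, hP x.2⟩ : S)⁻¹ * ⟨φ x, hφS x⟩) = 1 := by
      rw [map_mul, map_inv, ← h1]
      exact inv_mul_cancel _
    exact (hker _).1 h2
  have hle : F.hyperfocalSubgroup p ≤ F.center := by
    unfold hyperfocalSubgroup
    rw [Subgroup.closure_le]
    rintro y ⟨P, α, x, hP, -, rfl⟩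
    exact hfoc P _ ((Cfsg.Agent.Lib.helper26.mem_autGroup_iff F hP _).1 α.2) x
  rw [hhyp] at hle
  apply hne
  rw [Subgroup.eq_bot_iff_forall]
  intro y _
  obtain ⟨s, rfl⟩ := QuotientGroup.mk'_surjective _ y
  exact (hker s).2 (hle s.2)

end Cfsg.Agent.Lib.helper25
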