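import Mathlib
import Cfsg.Agent.Lib.helper13.S1454F2a
import Cfsg.Agent.Lib.helper21.S1455V1
import Cfsg.Agent.Lib.helper26.S1456M3
import Cfsg.Agent.Lib.helper15.RankTwo3

set_option autoImplicit false

namespace Cfsg.Agent.Lib.helper25.S1454F2

open scoped commutatorElement

theorem narrow_pow_centralizes {G : Type*} [Group G] [Finite G] (p : ℕ) [Fact p.Prime] (hp : p ≠ 2)
    (R : Subgroup G) (hR : IsPGroup p R) (hRn : Cfsg.IsNarrow p R) (hr3 : ¬ Cfsg.PRankLE p 2 R) :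
    ∀ a ∈ Subgroup.normalizer (R : Set G), (orderOf a).Coprime p →
      a ^ (p - 1) ∈ Subgroup.centralizer (R : Set G) := by
  classical
  have hpp : p.Prime := Fact.out
  obtain ⟨e₀, T₀, hTchar, hTidx, hTB⟩ :=
    Cfsg.Agent.Lib.helper13.S1454F2a.narrow_T p hp hR hRn hr3
  obtain ⟨N, hN⟩ : ∃ N : Subgroup G, N = Subgroup.normalizer (R : Set G) := ⟨_, rfl⟩
  have hRN : R ≤ N := hN ▸ Subgroup.le_normalizer
  obtain ⟨P, hPdef⟩ : ∃ P : Subgroup ↥N, P = R.subgroupOf N := ⟨_, rfl⟩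
  haveI hPn : P.Normal := by subst hN; subst hPdef; exact Subgroup.normal_in_normalizer
  have hmemP : ∀ x : ↥N, x ∈ P ↔ (x : G) ∈ R := by
    intro x; rw [hPdef, Subgroup.mem_subgroupOf]
  have hP : IsPGroup p P := by
    rw [hPdef]; exact hR.comap_subtype
  obtain ⟨φ, hφ⟩ : ∃ φ : ↥P ≃* ↥R, ∀ x : ↥P, ((φ x : ↥R) : G) = ((x : ↥N) : G) := by
    subst hPdef
    exact ⟨Subgroup.subgroupOfEquivOfLe hRN, fun x => rfl⟩
  obtain ⟨K, hKdef⟩ : ∃ K : Subgroup ↥P, K = T₀.comap φ.toMonoidHom := ⟨_, rfl⟩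
  haveI hKchar : K.Characteristic := by
    rw [Subgroup.characteristic_iff_comap_eq]
    intro ψ
    have h := Subgroup.characteristic_iff_comap_eq.mp hTchar ((φ.symm.trans ψ).trans φ)
    ext x
    rw [hKdef]
    simp only [Subgroup.mem_comap, MulEquiv.coe_toMonoidHom]
    have h1 : φ x ∈ Subgroup.comap ((φ.symm.trans ψ).trans φ).toMonoidHom T₀ ↔ φ x ∈ T₀ := by
      rw [h]
    have h2 : φ x ∈ Subgroup.comap ((φ.symm.trans ψ).trans φ).toMonoidHom T₀ ↔
        φ (ψ x) ∈ T₀ := by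
      simp [Subgroup.mem_comap]
    exact h2.symm.trans h1
  have hKidx : K.index = p := by
    rw [hKdef, Subgroup.index_comap_of_surjective _ φ.surjective]; exact hTidx
  obtain ⟨T, hTdef⟩ : ∃ T : Subgroup ↥N, T = K.map P.subtype := ⟨_, rfl⟩
  haveI hTn : T.Normal := by rw [hTdef]; exact ConjAct.normal_of_characteristic_of_normal
  have hTP : T ≤ P := by
    rw [hTdef]; rintro _ ⟨k, -, rfl⟩; exact k.2
  have hTrel : T.relIndex P = p := by
    rw [Subgroup.relIndex, hTdef]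
    have : (K.map P.subtype).subgroupOf P = K :=
      Subgroup.comap_map_eq_self_of_injective (Subgroup.subtype_injective _) K
    rw [this]; exact hKidx
  obtain ⟨D, hDP, hDexp, -, hDnorm, hDcrit⟩ :=
    Cfsg.Agent.Lib.helper15.GL2D.exists_critical p hp P hP
  have hPtop : Subgroup.normalizer (P : Set ↥N) = ⊤ := Subgroup.normalizer_eq_top_iff.mpr hPn
  haveI hDn : D.Normal := by
    rw [← Subgroup.normalizer_eq_top_iff]
    rw [hPtop] at hDnorm; exact top_le_iff.mp hDnorm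
  obtain ⟨X, hXdef⟩ : ∃ X : Subgroup ↥N, X = D ⊓ T := ⟨_, rfl⟩
  haveI hXn : X.Normal := by rw [hXdef]; infer_instance
  have hXD : X ≤ D := by rw [hXdef]; exact inf_le_left
  have hXT : X ≤ T := by rw [hXdef]; exact inf_le_right
  have hXP : X ≤ P := hXD.trans hDP
  obtain ⟨e, hedef⟩ : ∃ e : ↥N, (e : G) = (e₀ : G) := ⟨⟨(e₀ : G), hRN e₀.2⟩, rfl⟩
  have he : e ∈ P := by rw [hmemP, hedef]; exact e₀.2
  have hfix : Nat.card ↥(X ⊓ Subgroup.centralizer ({e} : Set ↥N)) ≤ p := by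
    obtain ⟨Y, hYdef⟩ : ∃ Y : Subgroup ↥N, Y = X ⊓ Subgroup.centralizer ({e} : Set ↥N) :=
      ⟨_, rfl⟩
    rw [← hYdef]
    have hYP : Y ≤ P := by rw [hYdef]; exact inf_le_left.trans hXP
    obtain ⟨B, hBdef⟩ : ∃ B : Subgroup ↥R, B = ((Y.subgroupOf P).map φ.toMonoidHom) := ⟨_, rfl⟩
    have hcard : Nat.card Y = Nat.card B := by
      rw [hBdef, Subgroup.card_map_of_injective φ.injective]
      exact (Nat.card_congr (Subgroup.subgroupOfEquivOfLe hYP).toEquiv).symm
    rw [hcard]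
    have hBmem : ∀ b : ↥R, b ∈ B → ∃ y : ↥N, y ∈ Y ∧ (y : G) = (b : G) := by
      intro b hb
      rw [hBdef] at hb
      obtain ⟨x, hx, rfl⟩ := hb
      exact ⟨(x : ↥N), Subgroup.mem_subgroupOf.mp hx, (hφ x).symm⟩
    apply hTB B
    · intro b hb
      obtain ⟨y, hy, hyb⟩ := hBmem b hb
      have hyT : y ∈ T := hXT (by rw [hYdef] at hy; exact hy.1)
      rw [hTdef] at hyT
      obtain ⟨k, hk, rfl⟩ := hyT
      rw [hKdef] at hk
      have : φ k = b := by
        apply Subtype.ext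
        rw [hφ k]; exact hyb
      rw [← this]; exact hk
    · intro b hb
      obtain ⟨y, hy, hyb⟩ := hBmem b hb
      have hyc : y ∈ Subgroup.centralizer ({e} : Set ↥N) := by rw [hYdef] at hy; exact hy.2
      have h1 := hyc e (Set.mem_singleton e)
      apply Subtype.ext
      have h2 := congrArg (Subtype.val) h1
      simp only [Subgroup.coe_mul] at h2 ⊢
      rw [hedef, hyb] at h2
      exact h2.symm
    · intro b hb
      obtain ⟨y, hy, hyb⟩ := hBmem b hb
      have hyD : y ∈ D := hXD (by rw [hYdef] at hy; exact hy.1)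
      have h1 := hDexp y hyD
      apply Subtype.ext
      have h2 := congrArg (Subtype.val) h1
      simp only [Subgroup.coe_pow, Subgroup.coe_one] at h2 ⊢
      rw [hyb] at h2
      exact h2
  have hV1 := Cfsg.Agent.Lib.helper21.S1455V1.pow_cent_of_small_fix p P X hP hXP e he hfix
  have hD : IsPGroup p D := hP.to_le hDP
  have hidx : Nat.card D ≤ p * Nat.card X := by
    have h1 : X.relIndex D = T.relIndex D := by
      rw [hXdef]; exact Subgroup.inf_relIndex_left D T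
    have h2 : T.relIndex D ≤ T.relIndex P :=
      Subgroup.relIndex_le_of_le_right hDP (by rw [hTrel]; exact hpp.ne_zero)
    have h3 : (⊥ : Subgroup ↥N).relIndex X * X.relIndex D = (⊥ : Subgroup ↥N).relIndex D :=
      Subgroup.relIndex_mul_relIndex _ _ _ bot_le hXD
    rw [Subgroup.relIndex_bot_left, Subgroup.relIndex_bot_left] at h3
    rw [← h3, h1, mul_comm]
    exact Nat.mul_le_mul_right _ (h2.trans hTrel.le)
  have hsec := Cfsg.Agent.Lib.helper21.S1455V1.pow_mem_of_card_le p D X hD hXD hidx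
  intro a ha hcop
  have haN : a ∈ N := hN ▸ ha
  obtain ⟨g, hgdef⟩ : ∃ g : ↥N, (g : G) = a := ⟨⟨a, haN⟩, rfl⟩
  have hgord : orderOf g = orderOf a := by
    rw [← hgdef]; exact (Subgroup.orderOf_coe g).symm
  have hgcop : (orderOf g).Coprime p := hgord ▸ hcop
  have h1 : g ^ (p - 1) ∈ Subgroup.centralizer (X : Set ↥N) := hV1 g hgcop
  have hcop' : (orderOf (g ^ (p - 1))).Coprime p :=
    Nat.Coprime.coprime_dvd_left (orderOf_pow_dvd (p - 1)) hgcop
  have h2 : ∀ d ∈ D, g ^ (p - 1) * d = d * g ^ (p - 1) := by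
    apply Cfsg.Agent.Lib.helper26.S1456M3.stab_trivial p D X (hD.to_le hXD) (g ^ (p - 1)) hcop'
    · intro d hd
      have := hsec g d hd
      rwa [commutatorElement_def] at this
    · intro m hm
      exact (h1 m hm).symm
  have h3 : g ^ (p - 1) ∈ Subgroup.centralizer (P : Set ↥N) := by
    apply hDcrit _ (by rw [hPtop]; trivial) hcop'
    intro d hd
    exact (h2 d hd).symm
  intro r hr
  have h4 := h3 ⟨r, hRN hr⟩ ((hmemP _).mpr hr)
  have h5 := congrArg (Subtype.val) h4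
  simp only [Subgroup.coe_mul, Subgroup.coe_pow] at h5
  rw [hgdef] at h5
  exact h5

/-- Part (2) of S1454 in the language of the statement (helper8's `part_two`). -/
theorem part_two {G : Type*} [Group G] [Finite G] (p : ℕ) [Fact p.Prime] (hp : p ≠ 2)
    (R A : Subgroup G) (hR : IsPGroup p R) (hRn : Cfsg.IsNarrow p R)
    (hA : A ≤ Subgroup.normalizer (R : Set G))
    (hfaith : A ⊓ Subgroup.centralizer (R : Set G) = ⊥) (hr3 : ¬ Cfsg.PRankLE p 2 R) :
    ∀ a ∈ A, (orderOf a).Coprime p → orderOf a ∣ p - 1 := by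
  intro a ha hcop
  have h1 := narrow_pow_centralizes p hp R hR hRn hr3 a (hA ha) hcop
  have h2 : a ^ (p - 1) ∈ A ⊓ Subgroup.centralizer (R : Set G) := ⟨A.pow_mem ha _, h1⟩
  rw [hfaith, Subgroup.mem_bot] at h2
  exact orderOf_dvd_of_pow_eq_one h2

/-- Part (2) of S1454, with the hypotheses of the statement in their order. -/
theorem s1454_part2 {G : Type*} [Group G] [Finite G] (p : ℕ) [Fact p.Prime] (hp : p ≠ 2)
    (R A : Subgroup G) (hR : IsPGroup p R) (hRn : Cfsg.IsNarrow p R)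
    (hA : A ≤ Subgroup.normalizer (R : Set G)) (hAs : Group.IsSolvable A)
    (hAodd : Odd (Nat.card A)) (hfaith : A ⊓ Subgroup.centralizer (R : Set G) = ⊥) :
    ¬ Cfsg.PRankLE p 2 R → ∀ a ∈ A, (orderOf a).Coprime p → orderOf a ∣ p - 1 :=
  fun hr3 => part_two p hp R A hR hRn hA hfaith hr3

end Cfsg.Agent.Lib.helper25.S1454F2
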