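import Mathlib
import Cfsg.Prelude.Def_FusionSystem
import Cfsg.Agent.Lib.helper25.SL3Odd4
import Cfsg.Agent.Lib.helper2.SLCard

set_option autoImplicit false
set_option linter.unusedSectionVars false
set_option linter.unusedSimpArgs false

namespace Cfsg.Agent.Lib.helper25.SL3Odd

open Matrix

variable {F : Type*} [Field F] [Fintype F]

theorem exists_b0_split (h2 : (2 : F) ≠ 0) (i : F) (hi : i * i = -1) :
    ∃ x0 y0 : F, am 1 x0 y0 * am 1 x0 y0 = am 1 0 1 ∨
      am 1 x0 y0 * am 1 x0 y0 = am 1 0 (-1) := by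
  obtain ⟨h, hh⟩ : ∃ h : F, 2 * h = 1 := ⟨2⁻¹, mul_inv_cancel₀ h2⟩
  refine ⟨h * (1 + i), h * (i - 1), Or.inr ?_⟩
  rw [am_mul]
  congr 1
  · linear_combination (2 * h * h) * hi
  · linear_combination (2 * h * h) * hi - (1 + 2 * h) * hh

theorem exists_sq_two (hi : ∀ i : F, i * i ≠ -1) : ∃ s : F, s * s = 2 ∨ s * s = -2 := by
  classical
  by_contra hcon
  rw [not_exists] at hcon
  have hm1 : ¬ IsSquare (-1 : F) := by
    rintro ⟨r, hr⟩
    exact hi r hr.symm
  have h2s : ¬ IsSquare (2 : F) := by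
    rintro ⟨r, hr⟩
    exact hcon r (Or.inl hr.symm)
  have hm2 : ¬ IsSquare (-2 : F) := by
    rintro ⟨r, hr⟩
    exact hcon r (Or.inr hr.symm)
  have e1 := quadraticChar_neg_one_iff_not_isSquare.2 hm1
  have e2 := quadraticChar_neg_one_iff_not_isSquare.2 h2s
  have e3 := quadraticChar_neg_one_iff_not_isSquare.2 hm2
  have e4 : quadraticChar F (-2) = quadraticChar F (-1) * quadraticChar F 2 := by
    rw [← map_mul]
    congr 1
    ring
  rw [e1, e2, e3] at e4
  norm_num at e4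

theorem exists_b0_nonsplit (h2 : (2 : F) ≠ 0) (hi : ∀ i : F, i * i ≠ -1) :
    ∃ x0 y0 : F, am (-1) x0 y0 * am (-1) x0 y0 = am (-1) 0 1 ∨
      am (-1) x0 y0 * am (-1) x0 y0 = am (-1) 0 (-1) := by
  obtain ⟨s, hs⟩ := exists_sq_two hi
  have hs0 : s ≠ 0 := by
    rintro rfl
    rcases hs with hs | hs
    · apply h2
      linear_combination -hs
    · apply h2
      linear_combination hs
  obtain ⟨t, ht⟩ : ∃ t : F, s * t = 1 := ⟨s⁻¹, mul_inv_cancel₀ hs0⟩
  rcases hs with hs | hs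
  · refine ⟨t, t, Or.inl ?_⟩
    rw [am_mul]
    congr 1
    · ring
    · linear_combination (-t * t) * hs + (s * t + 1) * ht
  · refine ⟨t, t, Or.inr ?_⟩
    rw [am_mul]
    congr 1
    · ring
    · linear_combination (t * t) * hs - (s * t + 1) * ht

end Cfsg.Agent.Lib.helper25.SL3Odd

namespace Cfsg.Agent.Lib.helper25

open Cfsg.Agent.Lib.helper25.SL3Odd

/-- The `2`-fusion system of `PSL_3(F)`, `F` of odd order, is simple. -/
theorem psl3_odd_fusion_simple {F : Type*} [Field F] [Fintype F]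
    (hodd : Fintype.card F % 2 = 1)
    (S : Sylow 2 (Matrix.ProjectiveSpecialLinearGroup (Fin 3) F)) :
    (Cfsg.groupFusionSystem
      (S : Subgroup (Matrix.ProjectiveSpecialLinearGroup (Fin 3) F))).IsSimple 2 := by
  haveI : Fact (Nat.Prime 2) := ⟨Nat.prime_two⟩
  have h2 : (2 : F) ≠ 0 := by
    apply Ring.two_ne_zero
    intro h
    have := FiniteField.even_card_iff_char_two.1 h
    omega
  obtain ⟨ε, hε, hcase, hb0⟩ : ∃ ε : F, ε * ε = 1 ∧ (ε = 1 ∨ (ε = -1 ∧ ∀ i : F, i * i ≠ -1)) ∧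
      ∃ x0 y0 : F, am ε x0 y0 * am ε x0 y0 = am ε 0 1 ∨
        am ε x0 y0 * am ε x0 y0 = am ε 0 (-1) := by
    by_cases hi : ∃ i : F, i * i = -1
    · obtain ⟨i, hi⟩ := hi
      exact ⟨1, one_mul 1, Or.inl rfl, exists_b0_split h2 i hi⟩
    · rw [not_exists] at hi
      exact ⟨-1, by ring, Or.inr ⟨rfl, hi⟩, exists_b0_nonsplit h2 hi⟩
  set φ : Matrix.SpecialLinearGroup (Fin 3) F →* Matrix.ProjectiveSpecialLinearGroup (Fin 3) F :=
    QuotientGroup.mk' (Subgroup.center (Matrix.SpecialLinearGroup (Fin 3) F)) with hφ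
  have hφker : φ.ker = Subgroup.center (Matrix.SpecialLinearGroup (Fin 3) F) :=
    QuotientGroup.ker_mk' _
  have hφsurj : Function.Surjective φ := QuotientGroup.mk'_surjective _
  have hcop : (Nat.card φ.ker).Coprime 2 := by
    rw [hφker, Cfsg.Agent.Lib.helper2.SLCard.card_center_SL F 3 (by omega)]
    exact Nat.Coprime.coprime_dvd_left (Nat.gcd_dvd_left 3 _) (by norm_num)
  exact isSimple_groupFusion_of_closed_cover 2 φ hφsurj hφker.le hcop (UU3 F ε)
    (exists_sylow_UU3 hε h2 hb0) (UU3_ne_bot ε h2) (hsc_UU3 hε h2 hcase)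
    (hnorm_UU3 hε h2 hb0) S

end Cfsg.Agent.Lib.helper25
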