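import Mathlib
import Cfsg.Agent.Lib.helper4.UFrames
import Cfsg.Agent.Lib.helper4.UPerp
import Cfsg.Agent.Lib.helper4.USU

set_option autoImplicit false
set_option linter.unusedSectionVars false
set_option linter.unusedSimpArgs false
set_option linter.unusedVariables false
set_option linter.unreachableTactic false
set_option linter.unusedTactic false

/-!
# Involutions of `SU_3(q)`, `q` odd

An involution of `SU_3(q)` is `x ↦ -x + 2 h(x, v) v` for a unit vector `v`, determined up to a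
scalar of norm one.
-/

namespace Cfsg.Agent.Lib.helper25.SU3Inv

open Matrix
open Cfsg.Agent.Lib.helper4

variable {F : Type*} [Field F] [Fintype F] {q : ℕ}

/-- Second coefficient of the characteristic polynomial of a `3 × 3` matrix. -/
def c2 (M : Matrix (Fin 3) (Fin 3) F) : F :=
  M 0 0 * M 1 1 - M 0 1 * M 1 0 + M 0 0 * M 2 2 - M 0 2 * M 2 0 + M 1 1 * M 2 2 - M 1 2 * M 2 1

theorem ch3 (M : Matrix (Fin 3) (Fin 3) F) :
    M * M * M = M.trace • (M * M) - c2 M • M + M.det • (1 : Matrix (Fin 3) (Fin 3) F) := by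
  ext i j
  fin_cases i <;> fin_cases j <;>
    simp [Matrix.mul_apply, Fin.sum_univ_three, Matrix.det_fin_three, Matrix.trace_fin_three, c2] <;>
    ring

theorem tr_sq (M : Matrix (Fin 3) (Fin 3) F) : M.trace ^ 2 - (M * M).trace = 2 * c2 M := by
  simp [Matrix.mul_apply, Fin.sum_univ_three, Matrix.trace_fin_three, c2]
  ring

theorem trace_invol (h2 : (2 : F) ≠ 0) {M : Matrix (Fin 3) (Fin 3) F} (hM2 : M * M = 1)
    (hdet : M.det = 1) (hne : M ≠ 1) : M.trace = -1 := by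
  have h1 := ch3 M
  rw [hM2, Matrix.one_mul, hdet, one_smul] at h1
  have h3 := tr_sq M
  rw [hM2, Matrix.trace_one, Fintype.card_fin] at h3
  have h3' : (2 : F) * c2 M = M.trace ^ 2 - 3 := by
    rw [← h3]
    norm_num
  by_contra hτ
  have hτ1 : M.trace + 1 ≠ 0 := fun h => hτ (eq_neg_of_add_eq_zero_left h)
  have e1 : (M.trace - 1) • M = (2 : F) • (1 : Matrix (Fin 3) (Fin 3) F) := by
    have key : (M.trace + 1) • ((M.trace - 1) • M - (2 : F) • (1 : Matrix (Fin 3) (Fin 3) F)) = 0 := by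
      ext i j
      have h1ij := congrFun (congrFun h1 i) j
      simp only [Matrix.add_apply, Matrix.sub_apply, Matrix.smul_apply, smul_eq_mul,
        Matrix.zero_apply] at h1ij ⊢
      linear_combination (2 : F) * h1ij - M i j * h3'
    rcases smul_eq_zero.1 key with h | h
    · exact absurd h hτ1
    · exact sub_eq_zero.1 h
  have e2 : (M.trace - 1) • (1 : Matrix (Fin 3) (Fin 3) F) = (2 : F) • M := by
    have := congrArg (fun X => X * M) e1
    simp only [Matrix.smul_mul, hM2, Matrix.one_mul] at this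
    exact this
  obtain ⟨μ, hμ⟩ : ∃ μ : F, μ = M.trace - 1 := ⟨_, rfl⟩
  rw [← hμ] at e1 e2
  have hM : M = (μ / 2) • (1 : Matrix (Fin 3) (Fin 3) F) := by
    rw [div_eq_inv_mul, mul_smul, e2, smul_smul, inv_mul_cancel₀ h2, one_smul]
  have hμ2 : μ * μ = 4 := by
    have h00 := congrFun (congrFun e1 0) 0
    rw [hM] at h00
    simp only [Matrix.smul_apply, Matrix.one_apply_eq, smul_eq_mul, mul_one] at h00
    field_simp at h00
    linear_combination h00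
  have hμ3 : (μ / 2) ^ 3 = 1 := by
    have := hdet
    rw [hM, Matrix.det_smul, Matrix.det_one, Fintype.card_fin, mul_one] at this
    exact this
  have hμ1 : μ / 2 = 1 := by
    have h4 : (μ / 2) ^ 2 = 1 := by
      field_simp
      linear_combination hμ2
    have h5 : (μ / 2) ^ 3 = μ / 2 := by rw [pow_succ, h4, one_mul]
    rw [← h5, hμ3]
  apply hne
  rw [hM, hμ1, one_smul]

theorem exists_range_vec (h2 : (2 : F) ≠ 0) {M : Matrix (Fin 3) (Fin 3) F} (hM2 : M * M = 1)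
    (htr : M.trace = -1) :
    ∃ w : Fin 3 → F, w ≠ 0 ∧ M *ᵥ w = w ∧ ∀ x : Fin 3 → F, ∃ c : F, x + M *ᵥ x = c • w := by
  obtain ⟨P, hP⟩ : ∃ P : Matrix (Fin 3) (Fin 3) F, P = (1 / 2 : F) • (1 + M) := ⟨_, rfl⟩
  have h2P : (2 : F) • P = 1 + M := by
    rw [hP, smul_smul, mul_one_div_cancel h2, one_smul]
  have hMP : M * P = P := by
    rw [hP, Matrix.mul_smul, Matrix.mul_add, Matrix.mul_one, hM2, add_comm]
  have hPP : P * P = P := by
    have e : (2 : F) • (P * P) = (2 : F) • P := by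
      rw [← Matrix.smul_mul, h2P, Matrix.add_mul, Matrix.one_mul, hMP, ← two_smul F P]
      exact h2P
    exact smul_right_injective _ h2 e
  have hPtr : P.trace = 1 := by
    rw [hP, Matrix.trace_smul, Matrix.trace_add, Matrix.trace_one, htr, Fintype.card_fin,
      smul_eq_mul]
    push_cast
    field_simp
    norm_num
  have hidem : IsIdempotentElem (Matrix.toLin' P) := by
    show Matrix.toLin' P * Matrix.toLin' P = Matrix.toLin' P
    rw [Module.End.mul_eq_comp, ← Matrix.toLin'_mul, hPP]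
  have hproj := (LinearMap.isProj_range_iff_isIdempotentElem (Matrix.toLin' P)).2 hidem
  have htrace := hproj.trace
  rw [Matrix.trace_toLin'_eq, hPtr] at htrace
  have hle : Module.finrank F (LinearMap.range (Matrix.toLin' P)) ≤ 3 := by
    have := Submodule.finrank_le (LinearMap.range (Matrix.toLin' P))
    simpa using this
  have hfr : Module.finrank F (LinearMap.range (Matrix.toLin' P)) = 1 := by
    generalize Module.finrank F (LinearMap.range (Matrix.toLin' P)) = r at htrace hle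
    interval_cases r
    · simp at htrace
    · rfl
    · exfalso
      push_cast at htrace
      apply one_ne_zero (α := F)
      linear_combination -htrace
    · exfalso
      push_cast at htrace
      apply h2
      linear_combination -htrace
  obtain ⟨⟨w, hw⟩, hw0, hall⟩ := finrank_eq_one_iff'.1 hfr
  obtain ⟨y, rfl⟩ := hw
  refine ⟨Matrix.toLin' P y, ?_, ?_, ?_⟩
  · intro h
    apply hw0
    exact Subtype.ext h
  · rw [Matrix.toLin'_apply, Matrix.mulVec_mulVec, hMP]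
  · intro x
    obtain ⟨c, hc⟩ := hall ⟨Matrix.toLin' P x, LinearMap.mem_range_self _ x⟩
    have hc' : c • Matrix.toLin' P y = Matrix.toLin' P x := congrArg Subtype.val hc
    refine ⟨2 * c, ?_⟩
    rw [mul_smul, hc', Matrix.toLin'_apply, ← Matrix.smul_mulVec, h2P, Matrix.add_mulVec,
      Matrix.one_mulVec]

theorem exists_refl_vec (hF : Fintype.card F = q ^ 2) (h2 : (2 : F) ≠ 0)
    {M : Matrix (Fin 3) (Fin 3) F} (hM2 : M * M = 1) (hdet : M.det = 1) (hne : M ≠ 1)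
    (hpres : ∀ u v : Fin 3 → F,
      Cfsg.hermForm 3 F q (M *ᵥ u) (M *ᵥ v) = Cfsg.hermForm 3 F q u v) :
    ∃ v : Fin 3 → F, Cfsg.hermForm 3 F q v v = 1 ∧
      ∀ x : Fin 3 → F, M *ᵥ x = -x + (2 * Cfsg.hermForm 3 F q x v) • v := by
  have hq2 := uq_ge_two hF
  obtain ⟨w, hw0, hMw, hall⟩ := exists_range_vec h2 hM2 (trace_invol h2 hM2 hdet hne)
  have hsa : ∀ x y, Cfsg.hermForm 3 F q (M *ᵥ x) y = Cfsg.hermForm 3 F q x (M *ᵥ y) := by
    intro x y
    have := hpres x (M *ᵥ y)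
    rw [Matrix.mulVec_mulVec, hM2, Matrix.one_mulVec] at this
    exact this
  have he : ∀ x, Cfsg.hermForm 3 F q (x + M *ᵥ x) w = 2 * Cfsg.hermForm 3 F q x w := by
    intro x
    rw [herm_add_left, hsa, hMw]
    ring
  have hN0 : Cfsg.hermForm 3 F q w w ≠ 0 := by
    intro hz
    apply hw0
    apply herm_nondeg hF
    intro y
    obtain ⟨c, hc⟩ := hall y
    have e := he y
    rw [hc, herm_smul_left, hz, mul_zero] at e
    have hyw : Cfsg.hermForm 3 F q y w = 0 := by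
      rcases mul_eq_zero.1 e.symm with h | h
      · exact absurd h h2
      · exact h
    rw [← herm_symm hF, hyw, zero_pow (by omega)]
  have hcoef : ∀ x, x + M *ᵥ x =
      (2 * Cfsg.hermForm 3 F q x w / Cfsg.hermForm 3 F q w w) • w := by
    intro x
    obtain ⟨c, hc⟩ := hall x
    have e := he x
    rw [hc, herm_smul_left] at e
    rw [hc]
    congr 1
    field_simp
    linear_combination e
  have hN0q : (Cfsg.hermForm 3 F q w w)⁻¹ ^ q = (Cfsg.hermForm 3 F q w w)⁻¹ := by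
    rw [inv_pow, herm_self_fixed hF]
  obtain ⟨l, hl⟩ := unorm_surj hF _ hN0q
  have hl' : l ^ q * l = (Cfsg.hermForm 3 F q w w)⁻¹ := by rw [← pow_succ, hl]
  refine ⟨l • w, ?_, ?_⟩
  · rw [herm_smul_left, herm_smul_right, ← mul_assoc, mul_comm l, hl']
    exact inv_mul_cancel₀ hN0
  · intro x
    have := hcoef x
    rw [herm_smul_right, smul_smul]
    rw [show 2 * (l ^ q * Cfsg.hermForm 3 F q x w) * l =
        2 * Cfsg.hermForm 3 F q x w / Cfsg.hermForm 3 F q w w by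
      rw [div_eq_mul_inv, ← hl']; ring]
    rw [← this]
    abel

/-- `v` is a unit vector and `M` is the map `x ↦ -x + 2 h(x, v) v`. -/
def IsR (q : ℕ) (M : Matrix (Fin 3) (Fin 3) F) (v : Fin 3 → F) : Prop :=
  Cfsg.hermForm 3 F q v v = 1 ∧
    ∀ x : Fin 3 → F, M *ᵥ x = -x + (2 * Cfsg.hermForm 3 F q x v) • v

/-- The matrix of an element of `SU_3`. -/
abbrev mt (t : ↥(Cfsg.SU 3 F q)) : Matrix (Fin 3) (Fin 3) F :=
  ((t : Matrix.SpecialLinearGroup (Fin 3) F) : Matrix (Fin 3) (Fin 3) F)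

theorem mt_mul (a b : ↥(Cfsg.SU 3 F q)) : mt (a * b) = mt a * mt b := rfl

theorem mt_one : mt (1 : ↥(Cfsg.SU 3 F q)) = 1 := rfl

theorem mt_inj {a b : ↥(Cfsg.SU 3 F q)} (h : mt a = mt b) : a = b :=
  Subtype.ext (Subtype.ext h)

theorem mt_mul_inv (a : ↥(Cfsg.SU 3 F q)) : mt a * mt a⁻¹ = 1 := by
  rw [← mt_mul, mul_inv_cancel, mt_one]

theorem mt_inv_mul (a : ↥(Cfsg.SU 3 F q)) : mt a⁻¹ * mt a = 1 := by
  rw [← mt_mul, inv_mul_cancel, mt_one]

theorem mt_pres (a : ↥(Cfsg.SU 3 F q)) (u v : Fin 3 → F) :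
    Cfsg.hermForm 3 F q (mt a *ᵥ u) (mt a *ᵥ v) = Cfsg.hermForm 3 F q u v := su_pres a u v

theorem two_ne_zero_of_odd (hF : Fintype.card F = q ^ 2) (hq : Odd q) : (2 : F) ≠ 0 := by
  apply Ring.two_ne_zero
  intro h
  have h1 := FiniteField.even_card_iff_char_two.1 h
  rw [hF] at h1
  have h3 : Odd (q ^ 2) := hq.pow
  rw [Nat.odd_iff] at h3
  omega

theorem exists_isR (hF : Fintype.card F = q ^ 2) (h2 : (2 : F) ≠ 0) (t : ↥(Cfsg.SU 3 F q))
    (ht : t ≠ 1) (ht2 : t * t = 1) : ∃ v, IsR q (mt t) v := by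
  apply exists_refl_vec hF h2
  · rw [← mt_mul, ht2, mt_one]
  · exact t.1.2
  · intro h
    exact ht (mt_inj h)
  · exact mt_pres t

theorem mat_eq_of_mulVec {M M' : Matrix (Fin 3) (Fin 3) F} (h : ∀ x, M *ᵥ x = M' *ᵥ x) :
    M = M' := by
  apply Matrix.toLin'.injective
  apply LinearMap.ext
  intro x
  simp only [Matrix.toLin'_apply]
  exact h x

theorem isR_unique_mat {M M' : Matrix (Fin 3) (Fin 3) F} {v : Fin 3 → F} (h : IsR q M v)
    (h' : IsR q M' v) : M = M' :=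
  mat_eq_of_mulVec (fun x => by rw [h.2, h'.2])

theorem isR_fix {M : Matrix (Fin 3) (Fin 3) F} {v : Fin 3 → F} (h : IsR q M v) : M *ᵥ v = v := by
  rw [h.2, h.1, mul_one, two_smul]
  abel

theorem isR_same (h2 : (2 : F) ≠ 0) {M : Matrix (Fin 3) (Fin 3) F} {v v' : Fin 3 → F}
    (h : IsR q M v) (h' : IsR q M v') :
    v' = Cfsg.hermForm 3 F q v' v • v ∧ Cfsg.hermForm 3 F q v' v ^ (q + 1) = 1 := by
  have e1 : v' = Cfsg.hermForm 3 F q v' v • v := by
    have e := isR_fix h'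
    rw [h.2] at e
    have e3 : (2 : F) • (Cfsg.hermForm 3 F q v' v • v) = (2 : F) • v' := by
      rw [smul_smul, two_smul F v']
      have e4 : -v' + (2 * Cfsg.hermForm 3 F q v' v) • v + v' = v' + v' := by rw [e]
      rw [← e4]
      abel
    exact (smul_right_injective _ h2 e3).symm
  refine ⟨e1, ?_⟩
  have e5 := h'.1
  rw [e1, herm_smul_left, herm_smul_right, h.1, mul_one] at e5
  rw [pow_succ']
  exact e5

theorem isR_smul {M : Matrix (Fin 3) (Fin 3) F} {v : Fin 3 → F} (h : IsR q M v) {c : F}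
    (hc : c ^ (q + 1) = 1) : IsR q M (c • v) := by
  have hc' : c ^ q * c = 1 := by rw [← pow_succ, hc]
  refine ⟨?_, fun x => ?_⟩
  · rw [herm_smul_left, herm_smul_right, h.1, mul_one, mul_comm, hc']
  · rw [h.2, herm_smul_right, smul_smul]
    congr 2
    linear_combination (-(2 * Cfsg.hermForm 3 F q x v)) * hc'

theorem isR_conj {t : ↥(Cfsg.SU 3 F q)} {v : Fin 3 → F} (h : IsR q (mt t) v)
    (g : ↥(Cfsg.SU 3 F q)) : IsR q (mt (g * t * g⁻¹)) (mt g *ᵥ v) := by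
  refine ⟨?_, fun x => ?_⟩
  · rw [mt_pres, h.1]
  · have e1 : mt g *ᵥ (mt g⁻¹ *ᵥ x) = x := by
      rw [Matrix.mulVec_mulVec, mt_mul_inv, Matrix.one_mulVec]
    have e2 : Cfsg.hermForm 3 F q (mt g⁻¹ *ᵥ x) v = Cfsg.hermForm 3 F q x (mt g *ᵥ v) := by
      rw [← mt_pres g (mt g⁻¹ *ᵥ x) v, e1]
    rw [mt_mul, mt_mul, ← Matrix.mulVec_mulVec, ← Matrix.mulVec_mulVec, h.2, Matrix.mulVec_add,
      Matrix.mulVec_neg, Matrix.mulVec_smul, e1, e2]

theorem herm_zero_of_symm (hF : Fintype.card F = q ^ 2) {u v : Fin 3 → F}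
    (h : Cfsg.hermForm 3 F q u v = 0) : Cfsg.hermForm 3 F q v u = 0 := by
  have hq2 := uq_ge_two hF
  rw [← herm_symm hF, h, zero_pow (by omega)]

theorem su_trans (hF : Fintype.card F = q ^ 2) {v v' : Fin 3 → F}
    (hv : Cfsg.hermForm 3 F q v v = 1) (hv' : Cfsg.hermForm 3 F q v' v' = 1) :
    ∃ g : ↥(Cfsg.SU 3 F q), mt g *ᵥ v = v' := by
  classical
  have hq2 := uq_ge_two hF
  have hv0 : v ≠ 0 := by
    rintro rfl
    rw [herm_zero_left] at hv
    exact zero_ne_one hv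
  have hv'0 : v' ≠ 0 := by
    rintro rfl
    rw [herm_zero_left] at hv'
    exact zero_ne_one hv'
  obtain ⟨A, hA, hAv⟩ := gu_trans_one hF v v' hv0 hv'0 (by rw [hv, hv'])
  obtain ⟨δ, hδ⟩ : ∃ δ : F, δ = (A : Matrix (Fin 3) (Fin 3) F).det := ⟨_, rfl⟩
  have hδ1 : δ ^ (q + 1) = 1 := by
    have h1 := Cfsg.Agent.S0783.det_pow_of_mem hF 3 A hA
    have h2 := congrArg (fun u : Fˣ => (u : F)) h1
    simp only [Units.val_pow_eq_pow_val, Units.val_one,
      Matrix.GeneralLinearGroup.val_det_apply] at h2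
    rw [hδ]; exact h2
  have hδ0 : δ ≠ 0 := by
    rintro rfl
    rw [zero_pow (by omega)] at hδ1
    exact zero_ne_one hδ1
  obtain ⟨u, -, hu1, hu2⟩ := exists_aniso_in hF (⊤ : Submodule F (Fin 3 → F)) (fun y _ hy => by
    by_contra hcon
    push_neg at hcon
    exact hy (herm_nondeg hF y (fun x => hcon x trivial))) (by simp) v' trivial
  obtain ⟨B, hB, hBx, hBdet⟩ := exists_gu_refl hF u hu2 δ⁻¹ (by rw [inv_pow, hδ1, inv_one])
  obtain ⟨g, hg⟩ := su_mk (q := q) ((B : Matrix (Fin 3) (Fin 3) F) * (A : Matrix (Fin 3) (Fin 3) F))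
    (by
      intro x y
      rw [← Matrix.mulVec_mulVec, ← Matrix.mulVec_mulVec, (mem_GU_iff B).1 hB,
        (mem_GU_iff A).1 hA])
    (by rw [Matrix.det_mul, hBdet, ← hδ, inv_mul_cancel₀ hδ0])
  refine ⟨g, ?_⟩
  show ((g : Matrix.SpecialLinearGroup (Fin 3) F) : Matrix (Fin 3) (Fin 3) F) *ᵥ v = v'
  rw [hg, ← Matrix.mulVec_mulVec, hAv, hBx, herm_zero_of_symm hF hu1, mul_zero, zero_smul,
    add_zero]

/-- Any two involutions of `SU_3(q)`, `q` odd, are conjugate. -/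
theorem invol_conj (hF : Fintype.card F = q ^ 2) (h2 : (2 : F) ≠ 0) (t x : ↥(Cfsg.SU 3 F q))
    (ht : t ≠ 1) (ht2 : t * t = 1) (hx : x ≠ 1) (hx2 : x * x = 1) :
    ∃ g : ↥(Cfsg.SU 3 F q), g * t * g⁻¹ = x := by
  obtain ⟨v, hv⟩ := exists_isR hF h2 t ht ht2
  obtain ⟨w, hw⟩ := exists_isR hF h2 x hx hx2
  obtain ⟨g, hg⟩ := su_trans hF hv.1 hw.1
  refine ⟨g, mt_inj ?_⟩
  have h1 := isR_conj hv g
  rw [hg] at h1
  exact isR_unique_mat h1 hw

theorem exists_invol_of_unit (hF : Fintype.card F = q ^ 2) (h2 : (2 : F) ≠ 0)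
    (t : ↥(Cfsg.SU 3 F q)) (ht : t ≠ 1) (ht2 : t * t = 1) {v : Fin 3 → F}
    (hv : Cfsg.hermForm 3 F q v v = 1) :
    ∃ x : ↥(Cfsg.SU 3 F q), x ≠ 1 ∧ x * x = 1 ∧ IsR q (mt x) v := by
  obtain ⟨v0, hv0⟩ := exists_isR hF h2 t ht ht2
  obtain ⟨g, hg⟩ := su_trans hF hv0.1 hv
  refine ⟨g * t * g⁻¹, ?_, ?_, ?_⟩
  · intro h
    apply ht
    have : t = g⁻¹ * (g * t * g⁻¹) * g := by group
    rw [this, h]
    group
  · have : g * t * g⁻¹ * (g * t * g⁻¹) = g * (t * t) * g⁻¹ := by group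
    rw [this, ht2]
    group
  · have h1 := isR_conj hv0 g
    rw [hg] at h1
    exact h1

theorem card_unit (hF : Fintype.card F = q ^ 2) (h2 : (2 : F) ≠ 0)
    (t : ↥(Cfsg.SU 3 F q)) (ht : t ≠ 1) (ht2 : t * t = 1) :
    Nat.card {v : Fin 3 → F // Cfsg.hermForm 3 F q v v = 1} =
      Nat.card {x : ↥(Cfsg.SU 3 F q) // x ≠ 1 ∧ x * x = 1} *
        Nat.card {c : F // c ^ (q + 1) = 1} := by
  classical
  have hW : ∀ x : {x : ↥(Cfsg.SU 3 F q) // x ≠ 1 ∧ x * x = 1}, ∃ v, IsR q (mt x.1) v :=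
    fun x => exists_isR hF h2 x.1 x.2.1 x.2.2
  choose W hWs using hW
  have hX : ∀ v : {v : Fin 3 → F // Cfsg.hermForm 3 F q v v = 1},
      ∃ x : {x : ↥(Cfsg.SU 3 F q) // x ≠ 1 ∧ x * x = 1}, IsR q (mt x.1) v.1 := by
    intro v
    obtain ⟨x, hx1, hx2, hx3⟩ := exists_invol_of_unit hF h2 t ht ht2 v.2
    exact ⟨⟨x, hx1, hx2⟩, hx3⟩
  choose X hXs using hX
  rw [← Nat.card_prod]
  apply Nat.card_congr
  refine ⟨fun v => (X v, ⟨Cfsg.hermForm 3 F q v.1 (W (X v)), (isR_same h2 (hWs (X v)) (hXs v)).2⟩),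
    fun p => ⟨p.2.1 • W p.1, (isR_smul (hWs p.1) p.2.2).1⟩, ?_, ?_⟩
  · intro v
    apply Subtype.ext
    exact (isR_same h2 (hWs (X v)) (hXs v)).1.symm
  · rintro ⟨x, c, hc⟩
    have hx : X ⟨c • W x, (isR_smul (hWs x) hc).1⟩ = x := by
      apply Subtype.ext
      apply mt_inj
      exact isR_unique_mat (hXs ⟨c • W x, (isR_smul (hWs x) hc).1⟩) (isR_smul (hWs x) hc)
    refine Prod.ext hx (Subtype.ext ?_)
    show Cfsg.hermForm 3 F q (c • W x) (W (X ⟨c • W x, (isR_smul (hWs x) hc).1⟩)) = c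
    rw [hx, herm_smul_left, (hWs x).1, mul_one]

theorem card_orbit (t : ↥(Cfsg.SU 3 F q)) (ht : t ≠ 1) (ht2 : t * t = 1)
    (hconj : ∀ x : ↥(Cfsg.SU 3 F q), x ≠ 1 → x * x = 1 → ∃ g : ↥(Cfsg.SU 3 F q), g * t * g⁻¹ = x) :
    Nat.card {x : ↥(Cfsg.SU 3 F q) // x ≠ 1 ∧ x * x = 1} *
      Nat.card ↥(Subgroup.centralizer ({t} : Set ↥(Cfsg.SU 3 F q))) =
      Nat.card ↥(Cfsg.SU 3 F q) := by
  classical
  have hγ : ∀ x : {x : ↥(Cfsg.SU 3 F q) // x ≠ 1 ∧ x * x = 1},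
      ∃ g : ↥(Cfsg.SU 3 F q), g * t * g⁻¹ = x.1 := fun x => hconj x.1 x.2.1 x.2.2
  choose γ hγs using hγ
  have hδ1 : ∀ g : ↥(Cfsg.SU 3 F q), g * t * g⁻¹ ≠ 1 := by
    intro g h
    apply ht
    have : t = g⁻¹ * (g * t * g⁻¹) * g := by group
    rw [this, h]
    group
  have hδ2 : ∀ g : ↥(Cfsg.SU 3 F q), g * t * g⁻¹ * (g * t * g⁻¹) = 1 := by
    intro g
    have : g * t * g⁻¹ * (g * t * g⁻¹) = g * (t * t) * g⁻¹ := by group
    rw [this, ht2]
    group
  obtain ⟨δ, hδ⟩ : ∃ δ : ↥(Cfsg.SU 3 F q) → {x : ↥(Cfsg.SU 3 F q) // x ≠ 1 ∧ x * x = 1},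
      ∀ g, (δ g).1 = g * t * g⁻¹ := ⟨fun g => ⟨g * t * g⁻¹, hδ1 g, hδ2 g⟩, fun g => rfl⟩
  have hmem : ∀ g : ↥(Cfsg.SU 3 F q),
      (γ (δ g))⁻¹ * g ∈ Subgroup.centralizer ({t} : Set ↥(Cfsg.SU 3 F q)) := by
    intro g
    rw [Subgroup.mem_centralizer_iff]
    intro y hy
    rw [Set.mem_singleton_iff] at hy
    subst hy
    have e := hγs (δ g)
    rw [hδ] at e
    have e2 : y = (γ (δ g))⁻¹ * (g * y * g⁻¹) * γ (δ g) := by
      rw [← e]
      group
    calc y * ((γ (δ g))⁻¹ * g) = (γ (δ g))⁻¹ * (g * y * g⁻¹) * γ (δ g) * ((γ (δ g))⁻¹ * g) := by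
          rw [← e2]
      _ = (γ (δ g))⁻¹ * g * y := by group
  rw [← Nat.card_prod]
  apply Nat.card_congr
  refine ⟨fun p => γ p.1 * p.2.1, fun g => (δ g, ⟨(γ (δ g))⁻¹ * g, hmem g⟩), ?_, ?_⟩
  · rintro ⟨x, c, hc⟩
    have hct : c * t = t * c := by
      rw [Subgroup.mem_centralizer_iff] at hc
      exact (hc t rfl).symm
    have hx : δ (γ x * c) = x := by
      apply Subtype.ext
      rw [hδ, ← hγs x]
      have : γ x * c * t * (γ x * c)⁻¹ = γ x * (c * t) * c⁻¹ * (γ x)⁻¹ := by group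
      rw [this, hct]
      group
    refine Prod.ext hx (Subtype.ext ?_)
    show (γ (δ (γ x * c)))⁻¹ * (γ x * c) = c
    rw [hx]
    group
  · intro g
    show γ (δ g) * ((γ (δ g))⁻¹ * g) = g
    group

theorem orth_of_commute (hF : Fintype.card F = q ^ 2) (h2 : (2 : F) ≠ 0)
    {t x : ↥(Cfsg.SU 3 F q)} {v w : Fin 3 → F} (hv : IsR q (mt t) v) (hw : IsR q (mt x) w)
    (hne : t ≠ x) (hc : Commute t x) : Cfsg.hermForm 3 F q v w = 0 := by
  by_contra hvw
  have hct : x * t * x⁻¹ = t := by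
    have := hc.eq
    rw [← this]
    group
  have h1 := isR_conj hv x
  rw [hct] at h1
  obtain ⟨e1, e2⟩ := isR_same h2 hv h1
  obtain ⟨c, hc'⟩ : ∃ c, c = Cfsg.hermForm 3 F q (mt x *ᵥ v) v := ⟨_, rfl⟩
  rw [← hc'] at e1 e2
  rw [hw.2] at e1
  obtain ⟨e, he⟩ : ∃ e, e = (c + 1) / (2 * Cfsg.hermForm 3 F q v w) := ⟨_, rfl⟩
  have e3 : w = e • v := by
    have h3 : (2 * Cfsg.hermForm 3 F q v w) • w = (c + 1) • v := by
      rw [add_smul, one_smul, ← e1]
      abel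
    rw [he, div_eq_inv_mul, mul_smul, ← h3, smul_smul, inv_mul_cancel₀ (mul_ne_zero h2 hvw),
      one_smul]
  have e4 : e ^ (q + 1) = 1 := by
    have h4 := hw.1
    rw [e3, herm_smul_left, herm_smul_right, hv.1, mul_one] at h4
    rw [pow_succ']
    exact h4
  have h5 := isR_smul hv e4
  rw [← e3] at h5
  exact hne (mt_inj (isR_unique_mat h5 hw))

theorem third_invol (hF : Fintype.card F = q ^ 2) (h2 : (2 : F) ≠ 0) (t x : ↥(Cfsg.SU 3 F q))
    (ht : t ≠ 1) (ht2 : t * t = 1) (hx : x ≠ 1) (hx2 : x * x = 1) (hxt : x ≠ t)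
    (hc : Commute t x) :
    Nat.card {y : ↥(Cfsg.SU 3 F q) // y ≠ 1 ∧ y * y = 1 ∧ y ≠ t ∧ y ≠ x ∧ Commute t y ∧
      Commute x y} = 1 := by
  have hcx : t * x = x * t := hc.eq
  have hz1 : t * x ≠ 1 := by
    intro h
    apply hxt
    have e1 : x = t⁻¹ := eq_inv_of_mul_eq_one_right h
    have e2 : t⁻¹ = t := inv_eq_of_mul_eq_one_right ht2
    rw [e1, e2]
  have hz2 : t * x * (t * x) = 1 := by
    have e1 : t * x * (t * x) = t * (x * t) * x := by group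
    rw [e1, ← hcx]
    have e2 : t * (t * x) * x = (t * t) * (x * x) := by group
    rw [e2, ht2, hx2, one_mul]
  rw [Nat.card_eq_one_iff_exists]
  refine ⟨⟨t * x, hz1, hz2, ?_, ?_, ?_, ?_⟩, ?_⟩
  · intro h
    apply hx
    exact mul_left_cancel (a := t) (by rw [h, mul_one])
  · intro h
    apply ht
    exact mul_right_cancel (b := x) (by rw [h, one_mul])
  · show t * (t * x) = t * x * t
    rw [mul_assoc t x t, hcx]
  · show x * (t * x) = t * x * x
    rw [← mul_assoc, hcx]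
  · rintro ⟨y, hy1, hy2, hyt, hyx, hty, hxy⟩
    apply Subtype.ext
    show y = t * x
    obtain ⟨v, hv⟩ := exists_isR hF h2 t ht ht2
    obtain ⟨w, hw⟩ := exists_isR hF h2 x hx hx2
    obtain ⟨u, hu⟩ := exists_isR hF h2 y hy1 hy2
    obtain ⟨u0, hu0⟩ := exists_isR hF h2 (t * x) hz1 hz2
    have huv : Cfsg.hermForm 3 F q u v = 0 :=
      herm_zero_of_symm hF (orth_of_commute hF h2 hv hu (Ne.symm hyt) hty)
    have huw : Cfsg.hermForm 3 F q u w = 0 :=
      herm_zero_of_symm hF (orth_of_commute hF h2 hw hu (Ne.symm hyx) hxy)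
    have hfix : mt (t * x) *ᵥ u = u := by
      rw [mt_mul, ← Matrix.mulVec_mulVec, hw.2, huw, mul_zero, zero_smul, add_zero,
        Matrix.mulVec_neg, hv.2, huv, mul_zero, zero_smul, add_zero, neg_neg]
    have e := hfix
    rw [hu0.2] at e
    have e1 : u = Cfsg.hermForm 3 F q u u0 • u0 := by
      have e3 : (2 : F) • (Cfsg.hermForm 3 F q u u0 • u0) = (2 : F) • u := by
        rw [smul_smul, two_smul F u]
        have e4 : -u + (2 * Cfsg.hermForm 3 F q u u0) • u0 + u = u + u := by rw [e]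
        rw [← e4]
        abel
      exact (smul_right_injective _ h2 e3).symm
    obtain ⟨c, hc'⟩ : ∃ c, c = Cfsg.hermForm 3 F q u u0 := ⟨_, rfl⟩
    rw [← hc'] at e1
    have e5 : c ^ (q + 1) = 1 := by
      have h4 := hu.1
      rw [e1, herm_smul_left, herm_smul_right, hu0.1, mul_one] at h4
      rw [pow_succ']
      exact h4
    have h3 := isR_smul hu0 e5
    rw [← e1] at h3
    exact mt_inj (isR_unique_mat hu h3)

theorem counts (hF : Fintype.card F = q ^ 2) (hq : Odd q) (t : ↥(Cfsg.SU 3 F q))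
    (ht : t ≠ 1) (ht2 : t * t = 1) :
    Nat.card {x : ↥(Cfsg.SU 3 F q) // x ≠ 1 ∧ x * x = 1} = q ^ 2 * (q ^ 2 - q + 1) ∧
    Nat.card ↥(Subgroup.centralizer ({t} : Set ↥(Cfsg.SU 3 F q))) =
      q * (q + 1) * (q ^ 2 - 1) := by
  have h2 := two_ne_zero_of_odd hF hq
  have hq2 := uq_ge_two hF
  have hA := card_unit hF h2 t ht ht2
  have hB := card_orbit t ht ht2 (fun x hx hx2 => invol_conj hF h2 t x ht ht2 hx hx2)
  have hC : Nat.card ↥(Cfsg.GU 3 F q) =
      Nat.card {v : Fin 3 → F // Cfsg.hermForm 3 F q v v = 1} * Nat.card ↥(Cfsg.GU 2 F q) :=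
    card_gu_succ hF 2
  have hD := card_su (n := 3) hF (by norm_num)
  have hE := card_norm_fiber hF 1 (one_pow q) one_ne_zero
  have hG3 := card_gu hF 3
  have hG2 := card_gu hF 2
  norm_num [Finset.prod_range_succ] at hG3 hG2
  rw [hE] at hA
  obtain ⟨N, hN⟩ : ∃ N, N = Nat.card {x : ↥(Cfsg.SU 3 F q) // x ≠ 1 ∧ x * x = 1} := ⟨_, rfl⟩
  obtain ⟨C, hCd⟩ : ∃ C, C = Nat.card ↥(Subgroup.centralizer ({t} : Set ↥(Cfsg.SU 3 F q))) :=
    ⟨_, rfl⟩
  rw [← hN] at hA hB ⊢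
  rw [← hCd] at hB ⊢
  obtain ⟨k, rfl⟩ : ∃ k, q = k + 2 := ⟨q - 2, by omega⟩
  have e1 : (k + 2) ^ 2 - 1 = (k + 1) * (k + 3) := by
    have : (k + 2) ^ 2 = (k + 1) * (k + 3) + 1 := by ring
    omega
  have e2 : (k + 2) ^ 2 - (k + 2) + 1 = k ^ 2 + 3 * k + 3 := by
    have : (k + 2) ^ 2 = k ^ 2 + 3 * k + 2 + (k + 2) := by ring
    omega
  rw [e1] at hG3 hG2
  rw [e1, e2]
  have hNv : N = (k + 2) ^ 2 * (k ^ 2 + 3 * k + 3) := by
    have h3 : N * ((k + 2 + 1) * ((k + 2) * ((k + 2 + 1) * ((k + 1) * (k + 3))))) =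
        ((k + 2) ^ 2 * (k ^ 2 + 3 * k + 3)) *
          ((k + 2 + 1) * ((k + 2) * ((k + 2 + 1) * ((k + 1) * (k + 3))))) := by
      calc N * ((k + 2 + 1) * ((k + 2) * ((k + 2 + 1) * ((k + 1) * (k + 3)))))
          = (N * (k + 2 + 1)) * ((k + 2) * ((k + 2 + 1) * ((k + 1) * (k + 3)))) := by ring
        _ = Nat.card ↥(Cfsg.GU 3 F (k + 2)) := by rw [hC, hA, hG2]
        _ = _ := by rw [hG3]; ring
    exact Nat.eq_of_mul_eq_mul_right (by positivity) h3
  have hCv : C = (k + 2) * (k + 2 + 1) * ((k + 1) * (k + 3)) := by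
    have h4 : ((k + 2 + 1) * ((k + 2) ^ 2 * (k ^ 2 + 3 * k + 3))) * C =
        ((k + 2 + 1) * ((k + 2) ^ 2 * (k ^ 2 + 3 * k + 3))) *
          ((k + 2) * (k + 2 + 1) * ((k + 1) * (k + 3))) := by
      calc ((k + 2 + 1) * ((k + 2) ^ 2 * (k ^ 2 + 3 * k + 3))) * C
          = (k + 2 + 1) * (N * C) := by rw [hNv]; ring
        _ = Nat.card ↥(Cfsg.GU 3 F (k + 2)) := by rw [hB, hD]
        _ = _ := by rw [hG3]; ring
    exact Nat.eq_of_mul_eq_mul_left (by positivity) h4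
  exact ⟨hNv, hCv⟩

/-- Involutions of `SU_3(q)`, `q` odd: conjugacy, number, centralizer order, and the third
involution commuting with two commuting involutions. -/
theorem su3_invol (hF : Fintype.card F = q ^ 2) (hq : Odd q) (t : ↥(Cfsg.SU 3 F q))
    (ht : t ≠ 1) (ht2 : t * t = 1) :
    (∀ x : ↥(Cfsg.SU 3 F q), x ≠ 1 → x * x = 1 → ∃ g : ↥(Cfsg.SU 3 F q), g * t * g⁻¹ = x) ∧
    Nat.card {x : ↥(Cfsg.SU 3 F q) // x ≠ 1 ∧ x * x = 1} = q ^ 2 * (q ^ 2 - q + 1) ∧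
    Nat.card ↥(Subgroup.centralizer ({t} : Set ↥(Cfsg.SU 3 F q))) =
      q * (q + 1) * (q ^ 2 - 1) ∧
    ∀ x : ↥(Cfsg.SU 3 F q), x ≠ 1 → x * x = 1 → x ≠ t → Commute t x →
      Nat.card {y : ↥(Cfsg.SU 3 F q) // y ≠ 1 ∧ y * y = 1 ∧ y ≠ t ∧ y ≠ x ∧ Commute t y ∧
        Commute x y} = 1 := by
  have h2 := two_ne_zero_of_odd hF hq
  obtain ⟨hc1, hc2⟩ := counts hF hq t ht ht2
  exact ⟨fun x hx hx2 => invol_conj hF h2 t x ht ht2 hx hx2, hc1, hc2,
    fun x hx hx2 hxt hc => third_invol hF h2 t x ht ht2 hx hx2 hxt hc⟩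

end Cfsg.Agent.Lib.helper25.SU3Inv
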