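import Mathlib
import Cfsg.Agent.Lib.helper25.SU3Inv
import Cfsg.Agent.Lib.helper4.UCount

set_option autoImplicit false
set_option linter.unusedSectionVars false
set_option linter.unusedSimpArgs false
set_option linter.unusedVariables false
set_option linter.unreachableTactic false
set_option linter.unusedTactic false

/-!
# The commuting involution graph of `SU_3(q)`, `q` odd
-/

namespace Cfsg.Agent.Lib.helper25.SU3Inv

open Matrix
open Cfsg.Agent.Lib.helper4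

variable {F : Type*} [Field F] [Fintype F] {q : ℕ}

theorem refl_comp {M M' : Matrix (Fin 3) (Fin 3) F} {v w : Fin 3 → F} (hv : IsR q M v)
    (hw : IsR q M' w) (h' : Cfsg.hermForm 3 F q w v = 0) (z : Fin 3 → F) :
    M *ᵥ (M' *ᵥ z) = z - (2 * Cfsg.hermForm 3 F q z v) • v -
      (2 * Cfsg.hermForm 3 F q z w) • w := by
  rw [hw.2, hv.2, herm_add_left, herm_neg_left, herm_smul_left, h', mul_zero, add_zero]
  simp only [neg_add, neg_neg, mul_neg, neg_smul]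
  abel

theorem comm_of_orth (hF : Fintype.card F = q ^ 2) {t x : ↥(Cfsg.SU 3 F q)} {v w : Fin 3 → F}
    (hv : IsR q (mt t) v) (hw : IsR q (mt x) w) (h : Cfsg.hermForm 3 F q v w = 0) :
    Commute t x := by
  have h' : Cfsg.hermForm 3 F q w v = 0 := herm_zero_of_symm hF h
  apply mt_inj
  apply mat_eq_of_mulVec
  intro z
  rw [mt_mul, mt_mul, ← Matrix.mulVec_mulVec, ← Matrix.mulVec_mulVec, refl_comp hv hw h',
    refl_comp hw hv h]
  abel

theorem invol_mul {t y : ↥(Cfsg.SU 3 F q)} (ht2 : t * t = 1) (hy2 : y * y = 1) (hty : t ≠ y)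
    (hc : Commute t y) : t * y ≠ 1 ∧ t * y * (t * y) = 1 := by
  have hcx : t * y = y * t := hc.eq
  constructor
  · intro h
    apply hty
    have e1 : y = t⁻¹ := eq_inv_of_mul_eq_one_right h
    have e2 : t⁻¹ = t := inv_eq_of_mul_eq_one_right ht2
    rw [e1, e2]
  · have e1 : t * y * (t * y) = t * (y * t) * y := by group
    rw [e1, ← hcx]
    have e2 : t * (t * y) * y = (t * t) * (y * y) := by group
    rw [e2, ht2, hy2, one_mul]

/-- Resolution of the identity along three mutually orthogonal unit vectors attached to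
`t`, `y`, `t * y`. -/
theorem res_id (hF : Fintype.card F = q ^ 2) (h2 : (2 : F) ≠ 0) {t y : ↥(Cfsg.SU 3 F q)}
    {v r r' : Fin 3 → F} (hv : IsR q (mt t) v) (hr : IsR q (mt y) r) (hr' : IsR q (mt (t * y)) r')
    (h : Cfsg.hermForm 3 F q v r = 0) (z : Fin 3 → F) :
    z = Cfsg.hermForm 3 F q z v • v + Cfsg.hermForm 3 F q z r • r +
      Cfsg.hermForm 3 F q z r' • r' := by
  have h' : Cfsg.hermForm 3 F q r v = 0 := herm_zero_of_symm hF h
  have e1 : mt (t * y) *ᵥ z = z - (2 * Cfsg.hermForm 3 F q z v) • v -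
      (2 * Cfsg.hermForm 3 F q z r) • r := by
    rw [mt_mul, ← Matrix.mulVec_mulVec, refl_comp hv hr h']
  rw [hr'.2] at e1
  have e2 : (2 : F) • z = (2 : F) • (Cfsg.hermForm 3 F q z v • v + Cfsg.hermForm 3 F q z r • r +
      Cfsg.hermForm 3 F q z r' • r') := by
    rw [smul_add, smul_add, smul_smul, smul_smul, smul_smul, two_smul F z]
    have e3 : z + z = (-z + (2 * Cfsg.hermForm 3 F q z r') • r') +
        (2 * Cfsg.hermForm 3 F q z v) • v + (2 * Cfsg.hermForm 3 F q z r) • r + z -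
        (2 * Cfsg.hermForm 3 F q z r') • r' + (2 * Cfsg.hermForm 3 F q z r') • r' := by
      rw [e1]
      abel
    rw [e3]
    abel
  exact smul_right_injective _ h2 e2

theorem ne_of_orth (h2 : (2 : F) ≠ 0) {t x : ↥(Cfsg.SU 3 F q)} {v w : Fin 3 → F}
    (hv : IsR q (mt t) v) (hw : IsR q (mt x) w) (h : Cfsg.hermForm 3 F q w v = 0) : x ≠ t := by
  intro hxt
  rw [hxt] at hw
  have e := (isR_same h2 hv hw).1
  rw [h, zero_smul] at e
  have e2 := hw.1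
  rw [e, herm_zero_left] at e2
  exact zero_ne_one e2

theorem p1_iff (hF : Fintype.card F = q ^ 2) (h2 : (2 : F) ≠ 0) {t x : ↥(Cfsg.SU 3 F q)}
    {v w : Fin 3 → F} (hv : IsR q (mt t) v) (hw : IsR q (mt x) w) :
    (x ≠ t ∧ Commute t x) ↔ Cfsg.hermForm 3 F q w v = 0 := by
  constructor
  · rintro ⟨hxt, hc⟩
    exact herm_zero_of_symm hF (orth_of_commute hF h2 hv hw (Ne.symm hxt) hc)
  · intro h
    exact ⟨ne_of_orth h2 hv hw h, comm_of_orth hF hv hw (herm_zero_of_symm hF h)⟩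

theorem norm_eq_zero (hF : Fintype.card F = q ^ 2) {b : F} (h : b * b ^ q = 0) : b = 0 := by
  rcases mul_eq_zero.1 h with h | h
  · exact h
  · exact pow_eq_zero_iff (by have := uq_ge_two hF; omega) |>.1 h

theorem p2_iff (hF : Fintype.card F = q ^ 2) (h2 : (2 : F) ≠ 0) {t x : ↥(Cfsg.SU 3 F q)}
    (ht : t ≠ 1) (ht2 : t * t = 1) (hx : x ≠ 1) (hx2 : x * x = 1)
    {v w : Fin 3 → F} (hv : IsR q (mt t) v) (hw : IsR q (mt x) w) :
    (¬ Commute t x ∧ ∃ y : ↥(Cfsg.SU 3 F q), y ≠ 1 ∧ y * y = 1 ∧ Commute t y ∧ Commute y x) ↔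
      (Cfsg.hermForm 3 F q w v ≠ 0 ∧ Cfsg.hermForm 3 F q w v ^ (q + 1) ≠ 1) := by
  have hq2 := uq_ge_two hF
  constructor
  · rintro ⟨hnc, y, hy1, hy2, hty, hyx⟩
    have hc0 : Cfsg.hermForm 3 F q w v ≠ 0 := fun h =>
      hnc (comm_of_orth hF hv hw (herm_zero_of_symm hF h))
    refine ⟨hc0, fun hN => ?_⟩
    have hyt : t ≠ y := by
      rintro rfl
      exact hnc hyx
    have hyx' : y ≠ x := by
      rintro rfl
      exact hnc hty
    obtain ⟨u, hu⟩ := exists_isR hF h2 y hy1 hy2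
    have hvu := orth_of_commute hF h2 hv hu hyt hty
    have huw := orth_of_commute hF h2 hu hw hyx' hyx
    obtain ⟨hm1, hm2⟩ := invol_mul ht2 hy2 hyt hty
    obtain ⟨r', hr'⟩ := exists_isR hF h2 (t * y) hm1 hm2
    have e := res_id hF h2 hv hu hr' hvu w
    rw [herm_zero_of_symm hF huw, zero_smul, add_zero] at e
    obtain ⟨c, hc⟩ : ∃ c, c = Cfsg.hermForm 3 F q w v := ⟨_, rfl⟩
    obtain ⟨b, hb⟩ : ∃ b, b = Cfsg.hermForm 3 F q w r' := ⟨_, rfl⟩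
    rw [← hc] at e hN
    rw [← hb] at e
    have e2 := hw.1
    have hvw : Cfsg.hermForm 3 F q v w = c ^ q := by rw [hc, herm_symm hF]
    have hrw : Cfsg.hermForm 3 F q r' w = b ^ q := by rw [hb, herm_symm hF]
    have e3 : Cfsg.hermForm 3 F q (c • v + b • r') w = c * c ^ q + b * b ^ q := by
      rw [herm_add_left, herm_smul_left, herm_smul_left, hvw, hrw]
    rw [← e] at e3
    rw [e2] at e3
    have hb0 : b = 0 := by
      apply norm_eq_zero hF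
      have : c * c ^ q = 1 := by rw [← pow_succ']; exact hN
      linear_combination e3.symm - this
    rw [hb0, zero_smul, add_zero] at e
    have h5 := isR_smul hv hN
    rw [← e] at h5
    apply hnc
    have : t = x := mt_inj (isR_unique_mat h5 hw)
    rw [this]
  · rintro ⟨hc0, hN⟩
    have hnc : ¬ Commute t x := by
      intro hc
      by_cases hxt : t = x
      · rw [← hxt] at hw
        exact hN (isR_same h2 hv hw).2
      · exact hc0 (herm_zero_of_symm hF (orth_of_commute hF h2 hv hw hxt hc))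
    refine ⟨hnc, ?_⟩
    obtain ⟨c, hc⟩ : ∃ c, c = Cfsg.hermForm 3 F q w v := ⟨_, rfl⟩
    rw [← hc] at hc0 hN
    have hvw : Cfsg.hermForm 3 F q v w = c ^ q := by rw [hc, herm_symm hF]
    obtain ⟨s, hs⟩ : ∃ s, s = 1 - c ^ (q + 1) := ⟨_, rfl⟩
    have hs0 : s ≠ 0 := by
      rw [hs]
      intro h
      exact hN (sub_eq_zero.1 h).symm
    have hsq : s⁻¹ ^ q = s⁻¹ := by
      rw [inv_pow, hs, frob_sub hF, one_pow, unorm_fixed hF]
    obtain ⟨l, hl⟩ := unorm_surj hF _ hsq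
    have hl' : l * l ^ q = s⁻¹ := by rw [← pow_succ', hl]
    -- the vector `w' = w - c v`
    have e1 : Cfsg.hermForm 3 F q (w - c • v) v = 0 := by
      rw [herm_sub_left, herm_smul_left, hv.1, ← hc]
      ring
    have e2 : Cfsg.hermForm 3 F q (w - c • v) (w - c • v) = s := by
      rw [herm_sub_right hF, herm_smul_right, e1, mul_zero, sub_zero, herm_sub_left,
        herm_smul_left, hw.1, hvw, hs, pow_succ']
    have hr1 : Cfsg.hermForm 3 F q (l • (w - c • v)) (l • (w - c • v)) = 1 := by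
      rw [herm_smul_left, herm_smul_right, e2, ← mul_assoc, hl']
      exact inv_mul_cancel₀ hs0
    have hr2 : Cfsg.hermForm 3 F q (l • (w - c • v)) v = 0 := by
      rw [herm_smul_left, e1, mul_zero]
    obtain ⟨y1, hy1, hy12, hy1R⟩ := exists_invol_of_unit hF h2 t ht ht2 hr1
    have hcomm1 : Commute t y1 := comm_of_orth hF hv hy1R (herm_zero_of_symm hF hr2)
    have hty1 : t ≠ y1 := (ne_of_orth h2 hv hy1R hr2).symm
    obtain ⟨hm1, hm2⟩ := invol_mul ht2 hy12 hty1 hcomm1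
    obtain ⟨r', hr'⟩ := exists_isR hF h2 (t * y1) hm1 hm2
    refine ⟨t * y1, hm1, hm2, ?_, ?_⟩
    · show t * (t * y1) = t * y1 * t
      rw [mul_assoc t y1 t, hcomm1.eq]
    · -- `r' ⟂ v` and `r' ⟂ r`
      have hne1 : t ≠ t * y1 := by
        intro h
        apply hy1
        exact mul_left_cancel (a := t) (by rw [← h, mul_one])
      have hne2 : y1 ≠ t * y1 := by
        intro h
        apply ht
        exact mul_right_cancel (b := y1) (by rw [← h, one_mul])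
      have hc1 : Commute t (t * y1) := by
        show t * (t * y1) = t * y1 * t
        rw [mul_assoc t y1 t, hcomm1.eq]
      have hc2 : Commute y1 (t * y1) := by
        show y1 * (t * y1) = t * y1 * y1
        rw [← mul_assoc, hcomm1.eq]
      have o1 := herm_zero_of_symm hF (orth_of_commute hF h2 hv hr' hne1 hc1)
      have o2 := herm_zero_of_symm hF (orth_of_commute hF h2 hy1R hr' hne2 hc2)
      -- o1 : h r' v = 0, o2 : h r' (l • (w - c • v)) = 0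
      rw [herm_smul_right] at o2
      have hl0 : l ^ q ≠ 0 := by
        intro h
        rw [h, mul_zero] at hl'
        exact hs0 (inv_eq_zero.1 hl'.symm)
      have o3 : Cfsg.hermForm 3 F q r' (w - c • v) = 0 := by
        rcases mul_eq_zero.1 o2 with h | h
        · exact absurd h hl0
        · exact h
      rw [herm_sub_right hF, herm_smul_right, o1, mul_zero, sub_zero] at o3
      exact comm_of_orth hF hr' hw o3

theorem card_unit_pred (hF : Fintype.card F = q ^ 2) (h2 : (2 : F) ≠ 0)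
    (t : ↥(Cfsg.SU 3 F q)) (ht : t ≠ 1) (ht2 : t * t = 1)
    (Px : ↥(Cfsg.SU 3 F q) → Prop) (Pv : (Fin 3 → F) → Prop)
    (hP : ∀ (x : ↥(Cfsg.SU 3 F q)) (w : Fin 3 → F), x ≠ 1 → x * x = 1 → IsR q (mt x) w →
      (Px x ↔ Pv w)) :
    Nat.card {w : Fin 3 → F // Cfsg.hermForm 3 F q w w = 1 ∧ Pv w} =
      Nat.card {x : ↥(Cfsg.SU 3 F q) // x ≠ 1 ∧ x * x = 1 ∧ Px x} *
        Nat.card {c : F // c ^ (q + 1) = 1} := by
  classical
  have hW : ∀ x : {x : ↥(Cfsg.SU 3 F q) // x ≠ 1 ∧ x * x = 1 ∧ Px x}, ∃ v, IsR q (mt x.1) v :=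
    fun x => exists_isR hF h2 x.1 x.2.1 x.2.2.1
  choose W hWs using hW
  have hX : ∀ v : {w : Fin 3 → F // Cfsg.hermForm 3 F q w w = 1 ∧ Pv w},
      ∃ x : {x : ↥(Cfsg.SU 3 F q) // x ≠ 1 ∧ x * x = 1 ∧ Px x}, IsR q (mt x.1) v.1 := by
    intro v
    obtain ⟨x, hx1, hx2, hx3⟩ := exists_invol_of_unit hF h2 t ht ht2 v.2.1
    exact ⟨⟨x, hx1, hx2, (hP x v.1 hx1 hx2 hx3).2 v.2.2⟩, hx3⟩
  choose X hXs using hX
  have hmem : ∀ (x : {x : ↥(Cfsg.SU 3 F q) // x ≠ 1 ∧ x * x = 1 ∧ Px x}) (c : F),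
      c ^ (q + 1) = 1 →
      Cfsg.hermForm 3 F q (c • W x) (c • W x) = 1 ∧ Pv (c • W x) := by
    intro x c hc
    have h1 := isR_smul (hWs x) hc
    exact ⟨h1.1, (hP x.1 _ x.2.1 x.2.2.1 h1).1 x.2.2.2⟩
  rw [← Nat.card_prod]
  apply Nat.card_congr
  refine ⟨fun v => (X v, ⟨Cfsg.hermForm 3 F q v.1 (W (X v)), (isR_same h2 (hWs (X v)) (hXs v)).2⟩),
    fun p => ⟨p.2.1 • W p.1, hmem p.1 p.2.1 p.2.2⟩, ?_, ?_⟩
  · intro v
    apply Subtype.ext
    exact (isR_same h2 (hWs (X v)) (hXs v)).1.symm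
  · rintro ⟨x, c, hc⟩
    have hx : X ⟨c • W x, hmem x c hc⟩ = x := by
      apply Subtype.ext
      apply mt_inj
      exact isR_unique_mat (hXs ⟨c • W x, hmem x c hc⟩) (isR_smul (hWs x) hc)
    refine Prod.ext hx (Subtype.ext ?_)
    show Cfsg.hermForm 3 F q (c • W x) (W (X ⟨c • W x, hmem x c hc⟩)) = c
    rw [hx, herm_smul_left, (hWs x).1, mul_one]

theorem card_unit2 (hF : Fintype.card F = q ^ 2) :
    Nat.card {u : Fin 2 → F // Cfsg.hermForm 2 F q u u = 1} = q * (q ^ 2 - 1) := by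
  have hq2 := uq_ge_two hF
  have hC : Nat.card ↥(Cfsg.GU 2 F q) =
      Nat.card {u : Fin 2 → F // Cfsg.hermForm 2 F q u u = 1} * Nat.card ↥(Cfsg.GU 1 F q) :=
    card_gu_succ hF 1
  have hG2 := card_gu hF 2
  have hG1 := card_gu hF 1
  norm_num [Finset.prod_range_succ] at hG2 hG1
  rw [hG2, hG1] at hC
  apply Nat.eq_of_mul_eq_mul_right (show 0 < q + 1 by omega)
  rw [← hC]
  ring

theorem card_perp_e0 (hF : Fintype.card F = q ^ 2) :
    Nat.card {r : Fin 3 → F // Cfsg.hermForm 3 F q r r = 1 ∧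
      Cfsg.hermForm 3 F q r (Pi.single 0 1) = 0} = q * (q ^ 2 - 1) := by
  rw [← card_unit2 hF]
  apply Nat.card_congr
  have hcons : ∀ u : Fin 2 → F, Cfsg.hermForm 3 F q (Fin.cons 0 u) (Fin.cons 0 u) =
      Cfsg.hermForm 2 F q u u := by
    intro u
    have := herm_cons (n := 2) (q := q) (0 : F) 0 u u
    rw [zero_mul, zero_add] at this
    exact this
  have hr0 : ∀ r : Fin 3 → F, Cfsg.hermForm 3 F q r (Pi.single 0 1) = 0 →
      (Fin.cons 0 (Fin.tail r) : Fin 3 → F) = r := by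
    intro r hr
    rw [herm_single_right hF] at hr
    rw [← hr]
    exact Fin.cons_self_tail r
  refine ⟨fun r => ⟨Fin.tail r.1, ?_⟩, fun u => ⟨Fin.cons 0 u.1, ?_, ?_⟩, ?_, ?_⟩
  · rw [← hcons, hr0 r.1 r.2.2]
    exact r.2.1
  · rw [hcons]
    exact u.2
  · rw [herm_single_right hF]
    rfl
  · intro r
    apply Subtype.ext
    exact hr0 r.1 r.2.2
  · intro u
    apply Subtype.ext
    rfl

theorem card_perp (hF : Fintype.card F = q ^ 2) {v : Fin 3 → F}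
    (hv : Cfsg.hermForm 3 F q v v = 1) :
    Nat.card {r : Fin 3 → F // Cfsg.hermForm 3 F q r r = 1 ∧ Cfsg.hermForm 3 F q r v = 0} =
      q * (q ^ 2 - 1) := by
  have he0 : Cfsg.hermForm 3 F q (Pi.single 0 1) (Pi.single 0 1) = 1 := by
    rw [herm_single_right hF]
    simp
  obtain ⟨g, hg⟩ := su_trans hF hv he0
  rw [← card_perp_e0 hF]
  apply Nat.card_congr
  refine ⟨fun r => ⟨mt g *ᵥ r.1, ?_, ?_⟩, fun r => ⟨mt g⁻¹ *ᵥ r.1, ?_, ?_⟩, ?_, ?_⟩
  · rw [mt_pres]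
    exact r.2.1
  · rw [← hg, mt_pres]
    exact r.2.2
  · rw [mt_pres]
    exact r.2.1
  · rw [← mt_pres g, Matrix.mulVec_mulVec, mt_mul_inv, Matrix.one_mulVec, hg]
    exact r.2.2
  · intro r
    apply Subtype.ext
    show mt g⁻¹ *ᵥ (mt g *ᵥ r.1) = r.1
    rw [Matrix.mulVec_mulVec, mt_inv_mul, Matrix.one_mulVec]
  · intro r
    apply Subtype.ext
    show mt g *ᵥ (mt g⁻¹ *ᵥ r.1) = r.1
    rw [Matrix.mulVec_mulVec, mt_mul_inv, Matrix.one_mulVec]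

theorem card_S2 (hF : Fintype.card F = q ^ 2) :
    Nat.card {c : F // c ≠ 0 ∧ c ^ (q + 1) ≠ 1} + (q + 2) = q ^ 2 := by
  classical
  have hq2 := uq_ge_two hF
  have hE := card_norm_fiber hF 1 (one_pow q) one_ne_zero
  rw [Nat.card_eq_fintype_card, Fintype.card_subtype] at hE ⊢
  have hsum : ∀ c : F, (if (c ≠ 0 ∧ c ^ (q + 1) ≠ 1) then 1 else 0) +
      (if c ^ (q + 1) = 1 then 1 else 0) + (if c = 0 then 1 else 0) = (1 : ℕ) := by
    intro c
    by_cases h0 : c = 0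
    · subst h0
      have : (0 : F) ^ (q + 1) ≠ 1 := by
        rw [zero_pow (by omega)]
        exact zero_ne_one
      simp [this]
    · by_cases h1 : c ^ (q + 1) = 1 <;> simp [h0, h1]
  have h3 := Finset.sum_congr rfl (fun c (_ : c ∈ (Finset.univ : Finset F)) => hsum c)
  rw [Finset.sum_add_distrib, Finset.sum_add_distrib, ← Finset.card_filter, ← Finset.card_filter,
    ← Finset.card_filter, hE] at h3
  have h4 : (Finset.univ.filter (fun c : F => c = 0)).card = 1 := by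
    rw [Finset.card_eq_one]
    exact ⟨0, by ext c; simp⟩
  rw [h4] at h3
  simp only [Finset.sum_const, Finset.card_univ, smul_eq_mul, mul_one] at h3
  rw [hF] at h3
  omega

theorem card_V2 (hF : Fintype.card F = q ^ 2) {v : Fin 3 → F}
    (hv : Cfsg.hermForm 3 F q v v = 1) :
    Nat.card {w : Fin 3 → F // Cfsg.hermForm 3 F q w w = 1 ∧
      (Cfsg.hermForm 3 F q w v ≠ 0 ∧ Cfsg.hermForm 3 F q w v ^ (q + 1) ≠ 1)} =
    Nat.card {c : F // c ≠ 0 ∧ c ^ (q + 1) ≠ 1} *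
      Nat.card {r : Fin 3 → F // Cfsg.hermForm 3 F q r r = 1 ∧ Cfsg.hermForm 3 F q r v = 0} := by
  classical
  have hq2 := uq_ge_two hF
  have hΛ : ∀ c : {c : F // c ≠ 0 ∧ c ^ (q + 1) ≠ 1}, ∃ l : F, l ^ (q + 1) = 1 - c.1 ^ (q + 1) := by
    intro c
    apply unorm_surj hF
    rw [frob_sub hF, one_pow, unorm_fixed hF]
  choose Λ hΛs using hΛ
  have hΛ0 : ∀ c, Λ c ≠ 0 := by
    intro c h
    have h1 := hΛs c
    rw [h, zero_pow (by omega)] at h1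
    exact c.2.2 (sub_eq_zero.1 h1.symm).symm
  have hΛ' : ∀ c, Λ c * Λ c ^ q = 1 - c.1 ^ (q + 1) := fun c => by rw [← pow_succ', hΛs]
  have hfw1 : ∀ (c : {c : F // c ≠ 0 ∧ c ^ (q + 1) ≠ 1})
      (r : {r : Fin 3 → F // Cfsg.hermForm 3 F q r r = 1 ∧ Cfsg.hermForm 3 F q r v = 0}),
      Cfsg.hermForm 3 F q (c.1 • v + Λ c • r.1) v = c.1 := by
    intro c r
    rw [herm_add_left, herm_smul_left, herm_smul_left, hv, r.2.2]
    ring
  have hfw2 : ∀ (c : {c : F // c ≠ 0 ∧ c ^ (q + 1) ≠ 1})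
      (r : {r : Fin 3 → F // Cfsg.hermForm 3 F q r r = 1 ∧ Cfsg.hermForm 3 F q r v = 0}),
      Cfsg.hermForm 3 F q (c.1 • v + Λ c • r.1) (c.1 • v + Λ c • r.1) = 1 := by
    intro c r
    have hvr : Cfsg.hermForm 3 F q v r.1 = 0 := herm_zero_of_symm hF r.2.2
    rw [herm_add_right hF, herm_smul_right, herm_smul_right, hfw1, herm_add_left,
      herm_smul_left, herm_smul_left, hvr, r.2.1]
    have h1 := hΛ' c
    have h2 : c.1 ^ (q + 1) = c.1 * c.1 ^ q := pow_succ' _ _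
    linear_combination h1 + h2
  have hbw1 : ∀ w : {w : Fin 3 → F // Cfsg.hermForm 3 F q w w = 1 ∧
      (Cfsg.hermForm 3 F q w v ≠ 0 ∧ Cfsg.hermForm 3 F q w v ^ (q + 1) ≠ 1)},
      Cfsg.hermForm 3 F q (w.1 - Cfsg.hermForm 3 F q w.1 v • v) v = 0 := by
    intro w
    rw [herm_sub_left, herm_smul_left, hv]
    ring
  have hbw2 : ∀ w : {w : Fin 3 → F // Cfsg.hermForm 3 F q w w = 1 ∧
      (Cfsg.hermForm 3 F q w v ≠ 0 ∧ Cfsg.hermForm 3 F q w v ^ (q + 1) ≠ 1)},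
      Cfsg.hermForm 3 F q (w.1 - Cfsg.hermForm 3 F q w.1 v • v)
        (w.1 - Cfsg.hermForm 3 F q w.1 v • v) = 1 - Cfsg.hermForm 3 F q w.1 v ^ (q + 1) := by
    intro w
    have hvw : Cfsg.hermForm 3 F q v w.1 = Cfsg.hermForm 3 F q w.1 v ^ q := by
      rw [herm_symm hF]
    rw [herm_sub_right hF, herm_smul_right, hbw1, mul_zero, sub_zero, herm_sub_left,
      herm_smul_left, w.2.1, hvw, pow_succ']
  rw [← Nat.card_prod]
  apply Nat.card_congr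
  symm
  refine ⟨fun p => ⟨p.1.1 • v + Λ p.1 • p.2.1, hfw2 p.1 p.2, by rw [hfw1]; exact p.1.2⟩,
    fun w => (⟨Cfsg.hermForm 3 F q w.1 v, w.2.2⟩,
      ⟨(Λ ⟨Cfsg.hermForm 3 F q w.1 v, w.2.2⟩)⁻¹ • (w.1 - Cfsg.hermForm 3 F q w.1 v • v), ?_, ?_⟩),
    ?_, ?_⟩
  · rw [herm_smul_left, herm_smul_right, hbw2, ← hΛ' ⟨Cfsg.hermForm 3 F q w.1 v, w.2.2⟩, inv_pow]
    have h0 := hΛ0 ⟨Cfsg.hermForm 3 F q w.1 v, w.2.2⟩
    field_simp
  · rw [herm_smul_left, hbw1, mul_zero]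
  · rintro ⟨c, r⟩
    have hc : (⟨Cfsg.hermForm 3 F q (c.1 • v + Λ c • r.1) v, by rw [hfw1]; exact c.2⟩ :
        {c : F // c ≠ 0 ∧ c ^ (q + 1) ≠ 1}) = c := Subtype.ext (hfw1 c r)
    refine Prod.ext hc (Subtype.ext ?_)
    show (Λ ⟨Cfsg.hermForm 3 F q (c.1 • v + Λ c • r.1) v, _⟩)⁻¹ •
      (c.1 • v + Λ c • r.1 - Cfsg.hermForm 3 F q (c.1 • v + Λ c • r.1) v • v) = r.1
    rw [hc, hfw1, add_sub_cancel_left, smul_smul, inv_mul_cancel₀ (hΛ0 c), one_smul]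
  · intro w
    apply Subtype.ext
    show Cfsg.hermForm 3 F q w.1 v • v + Λ ⟨Cfsg.hermForm 3 F q w.1 v, w.2.2⟩ •
      ((Λ ⟨Cfsg.hermForm 3 F q w.1 v, w.2.2⟩)⁻¹ • (w.1 - Cfsg.hermForm 3 F q w.1 v • v)) = w.1
    rw [smul_smul, mul_inv_cancel₀ (hΛ0 _), one_smul]
    abel

theorem exists_unit_perp (hF : Fintype.card F = q ^ 2) (v : Fin 3 → F) :
    ∃ r : Fin 3 → F, Cfsg.hermForm 3 F q r r = 1 ∧ Cfsg.hermForm 3 F q r v = 0 := by
  obtain ⟨u, -, hu1, hu2⟩ := exists_aniso_in hF (⊤ : Submodule F (Fin 3 → F)) (fun y _ hy => by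
    by_contra hcon
    push_neg at hcon
    exact hy (herm_nondeg hF y (fun x => hcon x trivial))) (by simp) v trivial
  have hN0q : (Cfsg.hermForm 3 F q u u)⁻¹ ^ q = (Cfsg.hermForm 3 F q u u)⁻¹ := by
    rw [inv_pow, herm_self_fixed hF]
  obtain ⟨l, hl⟩ := unorm_surj hF _ hN0q
  have hl' : l * l ^ q = (Cfsg.hermForm 3 F q u u)⁻¹ := by rw [← pow_succ', hl]
  refine ⟨l • u, ?_, ?_⟩
  · rw [herm_smul_left, herm_smul_right, ← mul_assoc, hl']
    exact inv_mul_cancel₀ hu2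
  · rw [herm_smul_left, hu1, mul_zero]

theorem diam3 (hF : Fintype.card F = q ^ 2) (h2 : (2 : F) ≠ 0) (t x : ↥(Cfsg.SU 3 F q))
    (ht : t ≠ 1) (ht2 : t * t = 1) (hx : x ≠ 1) (hx2 : x * x = 1) :
    ∃ y z : ↥(Cfsg.SU 3 F q), y ≠ 1 ∧ y * y = 1 ∧ z ≠ 1 ∧ z * z = 1 ∧
      Commute t y ∧ Commute y z ∧ Commute z x := by
  obtain ⟨v, hv⟩ := exists_isR hF h2 t ht ht2
  obtain ⟨w, hw⟩ := exists_isR hF h2 x hx hx2
  by_cases hc : Commute t x
  · exact ⟨t, t, ht, ht2, ht, ht2, Commute.refl t, Commute.refl t, hc⟩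
  by_cases h2' : ∃ y : ↥(Cfsg.SU 3 F q), y ≠ 1 ∧ y * y = 1 ∧ Commute t y ∧ Commute y x
  · obtain ⟨y, hy1, hy2, hty, hyx⟩ := h2'
    exact ⟨y, x, hy1, hy2, hx, hx2, hty, hyx, Commute.refl x⟩
  have hcN : ¬ (Cfsg.hermForm 3 F q w v ≠ 0 ∧ Cfsg.hermForm 3 F q w v ^ (q + 1) ≠ 1) :=
    fun hh => h2' ((p2_iff hF h2 ht ht2 hx hx2 hv hw).2 hh).2
  have hc0 : Cfsg.hermForm 3 F q w v ≠ 0 := fun h0 =>
    hc (comm_of_orth hF hv hw (herm_zero_of_symm hF h0))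
  have hN : Cfsg.hermForm 3 F q w v ^ (q + 1) = 1 := by
    by_contra hne
    exact hcN ⟨hc0, hne⟩
  obtain ⟨r, hr1, hr2⟩ := exists_unit_perp hF v
  obtain ⟨y1, hy1, hy12, hy1R⟩ := exists_invol_of_unit hF h2 t ht ht2 hr1
  have hcomm1 : Commute t y1 := comm_of_orth hF hv hy1R (herm_zero_of_symm hF hr2)
  have hty1 : t ≠ y1 := (ne_of_orth h2 hv hy1R hr2).symm
  have hkey : ∀ (y : ↥(Cfsg.SU 3 F q)) (u : Fin 3 → F), y ≠ 1 → y * y = 1 → IsR q (mt y) u →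
      Commute t y → Cfsg.hermForm 3 F q w u ^ (q + 1) ≠ 1 →
      ∃ y z : ↥(Cfsg.SU 3 F q), y ≠ 1 ∧ y * y = 1 ∧ z ≠ 1 ∧ z * z = 1 ∧
        Commute t y ∧ Commute y z ∧ Commute z x := by
    intro y u hy hy2 hu hty hNu
    by_cases h0 : Cfsg.hermForm 3 F q w u = 0
    · exact ⟨y, y, hy, hy2, hy, hy2, hty, Commute.refl y,
        comm_of_orth hF hu hw (herm_zero_of_symm hF h0)⟩
    · obtain ⟨-, z, hz1, hz2, hyz, hzx⟩ := (p2_iff hF h2 hy hy2 hx hx2 hu hw).2 ⟨h0, hNu⟩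
      exact ⟨y, z, hy, hy2, hz1, hz2, hty, hyz, hzx⟩
  by_cases hNa : Cfsg.hermForm 3 F q w r ^ (q + 1) = 1
  · obtain ⟨hm1, hm2⟩ := invol_mul ht2 hy12 hty1 hcomm1
    obtain ⟨r', hr'⟩ := exists_isR hF h2 (t * y1) hm1 hm2
    have hc1 : Commute t (t * y1) := by
      show t * (t * y1) = t * y1 * t
      rw [mul_assoc t y1 t, hcomm1.eq]
    apply hkey (t * y1) r' hm1 hm2 hr' hc1
    have e := res_id hF h2 hv hy1R hr' (herm_zero_of_symm hF hr2) w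
    obtain ⟨c, hcd⟩ : ∃ c, c = Cfsg.hermForm 3 F q w v := ⟨_, rfl⟩
    obtain ⟨a, had⟩ : ∃ a, a = Cfsg.hermForm 3 F q w r := ⟨_, rfl⟩
    obtain ⟨b, hbd⟩ : ∃ b, b = Cfsg.hermForm 3 F q w r' := ⟨_, rfl⟩
    rw [← hcd, ← had, ← hbd] at e
    rw [← hcd] at hN
    rw [← had] at hNa
    rw [← hbd]
    have hvw : Cfsg.hermForm 3 F q v w = c ^ q := by rw [hcd, herm_symm hF]
    have hrw : Cfsg.hermForm 3 F q r w = a ^ q := by rw [had, herm_symm hF]
    have hr'w : Cfsg.hermForm 3 F q r' w = b ^ q := by rw [hbd, herm_symm hF]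
    have e3 : Cfsg.hermForm 3 F q (c • v + a • r + b • r') w =
        c * c ^ q + a * a ^ q + b * b ^ q := by
      rw [herm_add_left, herm_add_left, herm_smul_left, herm_smul_left, herm_smul_left, hvw,
        hrw, hr'w]
    rw [← e, hw.1] at e3
    intro hb1
    apply h2
    have h1 : c * c ^ q = 1 := by rw [← pow_succ']; exact hN
    have h2'' : a * a ^ q = 1 := by rw [← pow_succ']; exact hNa
    have h3 : b * b ^ q = 1 := by rw [← pow_succ']; exact hb1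
    linear_combination -e3 - h1 - h2'' - h3
  · exact hkey y1 r hy1 hy12 hy1R hcomm1 hNa

theorem partition_count (t : ↥(Cfsg.SU 3 F q)) (ht : t ≠ 1) (ht2 : t * t = 1) :
    Nat.card {x : ↥(Cfsg.SU 3 F q) // x ≠ 1 ∧ x * x = 1} =
      1 + Nat.card {x : ↥(Cfsg.SU 3 F q) // x ≠ 1 ∧ x * x = 1 ∧ x ≠ t ∧ Commute t x} +
      Nat.card {x : ↥(Cfsg.SU 3 F q) // x ≠ 1 ∧ x * x = 1 ∧ ¬ Commute t x ∧
        ∃ y : ↥(Cfsg.SU 3 F q), y ≠ 1 ∧ y * y = 1 ∧ Commute t y ∧ Commute y x} +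
      Nat.card {x : ↥(Cfsg.SU 3 F q) // x ≠ 1 ∧ x * x = 1 ∧ ¬ Commute t x ∧
        ∀ y : ↥(Cfsg.SU 3 F q), y ≠ 1 → y * y = 1 → ¬ (Commute t y ∧ Commute y x)} := by
  classical
  haveI : Fintype ↥(Cfsg.SU 3 F q) := Fintype.ofFinite _
  simp only [Nat.card_eq_fintype_card, Fintype.card_subtype]
  have hsum' : ∀ x : ↥(Cfsg.SU 3 F q), (if (x ≠ 1 ∧ x * x = 1) then 1 else 0) =
      (if x = t then 1 else 0) +
      (if (x ≠ 1 ∧ x * x = 1 ∧ x ≠ t ∧ Commute t x) then 1 else 0) +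
      (if (x ≠ 1 ∧ x * x = 1 ∧ ¬ Commute t x ∧
        ∃ y : ↥(Cfsg.SU 3 F q), y ≠ 1 ∧ y * y = 1 ∧ Commute t y ∧ Commute y x) then 1 else 0) +
      (if (x ≠ 1 ∧ x * x = 1 ∧ ¬ Commute t x ∧
        ∀ y : ↥(Cfsg.SU 3 F q), y ≠ 1 → y * y = 1 → ¬ (Commute t y ∧ Commute y x)) then (1 : ℕ)
        else 0) := by
    intro x
    have hiff : (∀ y : ↥(Cfsg.SU 3 F q), y ≠ 1 → y * y = 1 → ¬ (Commute t y ∧ Commute y x)) ↔
        ¬ ∃ y : ↥(Cfsg.SU 3 F q), y ≠ 1 ∧ y * y = 1 ∧ Commute t y ∧ Commute y x := by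
      constructor
      · rintro h ⟨y, hy1, hy2, h1, h2⟩
        exact h y hy1 hy2 ⟨h1, h2⟩
      · intro h y hy1 hy2 hh
        exact h ⟨y, hy1, hy2, hh.1, hh.2⟩
    simp only [hiff]
    by_cases hxt : x = t
    · subst hxt
      have hcr : Commute x x := Commute.refl x
      simp [ht, ht2, hcr]
    · by_cases hinv : x ≠ 1 ∧ x * x = 1
      · obtain ⟨h1, h2⟩ := hinv
        by_cases hc : Commute t x
        · simp [hxt, h1, h2, hc]
        · by_cases hex : ∃ y : ↥(Cfsg.SU 3 F q), y ≠ 1 ∧ y * y = 1 ∧ Commute t y ∧ Commute y x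
          · simp only [hxt, h1, h2, hc, hex]
            simp
          · simp only [hxt, h1, h2, hc, hex]
            simp
      · have h3 : ¬ (x ≠ 1 ∧ x * x = 1 ∧ x ≠ t ∧ Commute t x) := fun h => hinv ⟨h.1, h.2.1⟩
        have h4 : ¬ (x ≠ 1 ∧ x * x = 1 ∧ ¬ Commute t x ∧
            ∃ y : ↥(Cfsg.SU 3 F q), y ≠ 1 ∧ y * y = 1 ∧ Commute t y ∧ Commute y x) :=
          fun h => hinv ⟨h.1, h.2.1⟩
        have h5 : ¬ (x ≠ 1 ∧ x * x = 1 ∧ ¬ Commute t x ∧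
            ¬ ∃ y : ↥(Cfsg.SU 3 F q), y ≠ 1 ∧ y * y = 1 ∧ Commute t y ∧ Commute y x) :=
          fun h => hinv ⟨h.1, h.2.1⟩
        rw [if_neg hinv, if_neg hxt, if_neg h3, if_neg h4, if_neg h5]
  have h3 := Finset.sum_congr rfl (fun x (_ : x ∈ (Finset.univ : Finset ↥(Cfsg.SU 3 F q))) => hsum' x)
  rw [Finset.sum_add_distrib, Finset.sum_add_distrib, Finset.sum_add_distrib,
    ← Finset.card_filter, ← Finset.card_filter, ← Finset.card_filter, ← Finset.card_filter,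
    ← Finset.card_filter] at h3
  have h4 : (Finset.univ.filter (fun x : ↥(Cfsg.SU 3 F q) => x = t)).card = 1 := by
    rw [Finset.card_eq_one]
    exact ⟨t, by ext c; simp⟩
  rw [h4] at h3
  exact h3

/-- The commuting involution graph of `SU_3(q)`, `q` odd. -/
theorem su3_graph (hF : Fintype.card F = q ^ 2) (hq : Odd q) (t : ↥(Cfsg.SU 3 F q))
    (ht : t ≠ 1) (ht2 : t * t = 1) :
    Nat.card {x : ↥(Cfsg.SU 3 F q) // x ≠ 1 ∧ x * x = 1 ∧ x ≠ t ∧ Commute t x} = q * (q - 1) ∧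
    Nat.card {x : ↥(Cfsg.SU 3 F q) // x ≠ 1 ∧ x * x = 1 ∧ ¬ Commute t x ∧
        ∃ y : ↥(Cfsg.SU 3 F q), y ≠ 1 ∧ y * y = 1 ∧ Commute t y ∧ Commute y x} =
      q * (q - 2) * (q ^ 2 - 1) ∧
    Nat.card {x : ↥(Cfsg.SU 3 F q) // x ≠ 1 ∧ x * x = 1 ∧ ¬ Commute t x ∧
        ∀ y : ↥(Cfsg.SU 3 F q), y ≠ 1 → y * y = 1 → ¬ (Commute t y ∧ Commute y x)} =
      (q + 1) * (q ^ 2 - 1) ∧
    ∀ x : ↥(Cfsg.SU 3 F q), x ≠ 1 → x * x = 1 →
      ∃ y z : ↥(Cfsg.SU 3 F q), y ≠ 1 ∧ y * y = 1 ∧ z ≠ 1 ∧ z * z = 1 ∧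
        Commute t y ∧ Commute y z ∧ Commute z x := by
  classical
  have h2 := two_ne_zero_of_odd hF hq
  have hq2 := uq_ge_two hF
  obtain ⟨v, hv⟩ := exists_isR hF h2 t ht ht2
  have hE := card_norm_fiber hF 1 (one_pow q) one_ne_zero
  have hA1 := card_unit_pred hF h2 t ht ht2 (fun x => x ≠ t ∧ Commute t x)
    (fun w => Cfsg.hermForm 3 F q w v = 0) (fun x w hx hx2 hw => p1_iff hF h2 hv hw)
  rw [hE, card_perp hF hv.1] at hA1
  have hA2 := card_unit_pred hF h2 t ht ht2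
    (fun x => ¬ Commute t x ∧ ∃ y : ↥(Cfsg.SU 3 F q), y ≠ 1 ∧ y * y = 1 ∧ Commute t y ∧
      Commute y x)
    (fun w => Cfsg.hermForm 3 F q w v ≠ 0 ∧ Cfsg.hermForm 3 F q w v ^ (q + 1) ≠ 1)
    (fun x w hx hx2 hw => p2_iff hF h2 ht ht2 hx hx2 hv hw)
  rw [hE, card_V2 hF hv.1, card_perp hF hv.1] at hA2
  have hS2 := card_S2 hF
  obtain ⟨hc1, -⟩ := counts hF hq t ht ht2
  have hpart := partition_count t ht ht2
  rw [hc1] at hpart
  have hdiam := fun x hx hx2 => diam3 hF h2 t x ht ht2 hx hx2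
  obtain ⟨N1, hN1⟩ : ∃ N, N = Nat.card {x : ↥(Cfsg.SU 3 F q) // x ≠ 1 ∧ x * x = 1 ∧ x ≠ t ∧
      Commute t x} := ⟨_, rfl⟩
  obtain ⟨N2, hN2⟩ : ∃ N, N = Nat.card {x : ↥(Cfsg.SU 3 F q) // x ≠ 1 ∧ x * x = 1 ∧
      ¬ Commute t x ∧ ∃ y : ↥(Cfsg.SU 3 F q), y ≠ 1 ∧ y * y = 1 ∧ Commute t y ∧ Commute y x} :=
    ⟨_, rfl⟩
  obtain ⟨N3, hN3⟩ : ∃ N, N = Nat.card {x : ↥(Cfsg.SU 3 F q) // x ≠ 1 ∧ x * x = 1 ∧
      ¬ Commute t x ∧ ∀ y : ↥(Cfsg.SU 3 F q), y ≠ 1 → y * y = 1 →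
        ¬ (Commute t y ∧ Commute y x)} := ⟨_, rfl⟩
  obtain ⟨S2, hS2d⟩ : ∃ N, N = Nat.card {c : F // c ≠ 0 ∧ c ^ (q + 1) ≠ 1} := ⟨_, rfl⟩
  rw [← hN1] at hA1 hpart
  rw [← hN2] at hA2 hpart
  rw [← hN3] at hpart
  rw [← hS2d] at hA2 hS2
  rw [← hN1, ← hN2, ← hN3]
  refine ⟨?_, ?_, ?_, hdiam⟩
  all_goals clear hdiam hN1 hN2 hN3 hS2d hc1 hE hv
  all_goals obtain ⟨k, rfl⟩ : ∃ k, q = k + 2 := ⟨q - 2, by omega⟩
  all_goals
    have e1 : (k + 2) ^ 2 - 1 = (k + 1) * (k + 3) := by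
      have : (k + 2) ^ 2 = (k + 1) * (k + 3) + 1 := by ring
      omega
    have e2 : (k + 2) ^ 2 - (k + 2) + 1 = k ^ 2 + 3 * k + 3 := by
      have : (k + 2) ^ 2 = k ^ 2 + 3 * k + 2 + (k + 2) := by ring
      omega
    have e3 : k + 2 - 1 = k + 1 := by omega
    have e4 : k + 2 - 2 = k := by omega
    rw [e1] at hA1 hA2
    rw [e2] at hpart
    have hS : S2 = k * (k + 3) := by
      have : (k + 2) ^ 2 = k * (k + 3) + (k + 2 + 2) := by ring
      omega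
    have h1 : N1 = (k + 2) * (k + 1) := by
      apply Nat.eq_of_mul_eq_mul_right (show 0 < k + 2 + 1 by omega)
      rw [← hA1]
      ring
    have h2' : N2 = (k + 2) * k * ((k + 1) * (k + 3)) := by
      apply Nat.eq_of_mul_eq_mul_right (show 0 < k + 2 + 1 by omega)
      rw [← hA2, hS]
      ring
    have h3 : N3 = (k + 2 + 1) * ((k + 1) * (k + 3)) := by
      rw [h1, h2'] at hpart
      have hpoly : (k + 2) ^ 2 * (k ^ 2 + 3 * k + 3) = 1 + (k + 2) * (k + 1) +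
          (k + 2) * k * ((k + 1) * (k + 3)) + (k + 2 + 1) * ((k + 1) * (k + 3)) := by ring
      exact (Nat.add_left_cancel (hpart.symm.trans hpoly))
    first
      | (rw [e3]; exact h1)
      | (rw [e4, e1]; exact h2')
      | (rw [e1]; exact h3)

end Cfsg.Agent.Lib.helper25.SU3Inv
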