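import Mathlib
import Cfsg.Prelude.Def_Classical
import Cfsg.Agent.Lib.helper25.SL3Odd5
import Cfsg.Agent.Lib.helper6.SU2
import Cfsg.Agent.Lib.helper4.UCenter

set_option autoImplicit false
set_option linter.unusedSectionVars false
set_option linter.unusedSimpArgs false

/-!
# Unitary block matrices in `SU_3(q)`, `q` odd
-/

namespace Cfsg.Agent.Lib.helper25.SU3Odd

open Matrix
open Cfsg.Agent.Lib.helper25.SL3Odd
open Cfsg.Agent.Lib.helper4 (frob_frob frob_add frob_neg frob_sub unorm_surj)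

variable {F : Type*} [Field F] [Fintype F] {q : ℕ}

/-- Unitary `2 × 2` matrices. -/
def Un2 (q : ℕ) (M : Matrix (Fin 2) (Fin 2) F) : Prop := Mᵀ * M.map (· ^ q) = 1

/-- Unitary `3 × 3` matrices. -/
def Un3 (q : ℕ) (M : Matrix (Fin 3) (Fin 3) F) : Prop := Mᵀ * M.map (· ^ q) = 1

theorem mem_SU_iff (hF : Fintype.card F = q ^ 2) (g : SpecialLinearGroup (Fin 3) F) :
    g ∈ Cfsg.SU 3 F q ↔ Un3 q g.1 := by
  constructor
  · intro h
    exact Cfsg.Agent.Lib.helper6.herm_pres_iff hF g.1 h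
  · intro h u v
    exact Cfsg.Agent.Lib.helper6.herm_pres_of hF g.1 h u v

theorem emb_unit (hq0 : q ≠ 0) (M : Matrix (Fin 2) (Fin 2) F) (c : F) :
    (emb M c)ᵀ * (emb M c).map (· ^ q) = emb (Mᵀ * M.map (· ^ q)) (c * c ^ q) := by
  ext i j
  fin_cases i <;> fin_cases j <;>
    simp [emb, Matrix.mul_apply, Fin.sum_univ_three, Fin.sum_univ_two, hq0]

theorem un3_emb (hq0 : q ≠ 0) (M : Matrix (Fin 2) (Fin 2) F) (c : F) :
    Un3 q (emb M c) ↔ Un2 q M ∧ c * c ^ q = 1 := by
  unfold Un3 Un2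
  rw [emb_unit hq0]
  constructor
  · intro h
    exact emb_inj (h.trans emb_one.symm)
  · rintro ⟨h1, h2⟩
    rw [h1, h2, emb_one]

/-- The unitarity condition for `x + y J`. -/
def UA (q : ℕ) (ε x y : F) : Prop :=
  x * x ^ q + y * y ^ q = 1 ∧ ε * x * y ^ q + y * x ^ q = 0

theorem un2_am {ε : F} (hε : ε * ε = 1) (hεq : ε ^ q = ε) (x y : F) :
    Un2 q (am ε x y) ↔ UA q ε x y := by
  unfold Un2 UA
  constructor
  · intro h
    have h00 := congrFun (congrFun h 0) 0
    have h01 := congrFun (congrFun h 0) 1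
    simp only [am, Matrix.mul_apply, Fin.sum_univ_two, Matrix.of_apply, Matrix.cons_val',
      Matrix.cons_val_zero, Matrix.cons_val_one, Matrix.empty_val', Matrix.cons_val_fin_one,
      Matrix.head_cons, Matrix.tail_cons, Matrix.head_fin_const, Matrix.transpose_apply,
      Matrix.map_apply, Matrix.one_apply_eq, mul_pow, hεq] at h00 h01
    simp at h01
    exact ⟨h00, by linear_combination h01⟩
  · rintro ⟨h1, h2⟩
    ext i j
    fin_cases i <;> fin_cases j <;>
      simp [am, Matrix.mul_apply, Fin.sum_univ_two, mul_pow, hεq]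
    · exact h1
    · linear_combination h2
    · linear_combination ε * h2 - (x * y ^ q) * hε
    · linear_combination h1 + (y * y ^ q) * hε

theorem ua_nm {ε : F} (hε : ε * ε = 1) (hεq : ε ^ q = ε) (hF : Fintype.card F = q ^ 2)
    {x y : F} (h : UA q ε x y) : nm ε x y * nm ε x y ^ q = 1 := by
  obtain ⟨h1, h2⟩ := h
  have e : nm ε x y ^ q = x ^ q * x ^ q - ε * y ^ q * y ^ q := by
    unfold nm
    rw [frob_sub hF, mul_pow, mul_pow, mul_pow, hεq]
  rw [e]
  unfold nm
  linear_combination (x * x ^ q + y * y ^ q + 1) * h1 - ε * (ε * x * y ^ q + y * x ^ q) * h2 +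
    (ε * x * x * y ^ q * y ^ q + y * y * y ^ q * y ^ q + 2 * x * y * x ^ q * y ^ q) * hε

theorem un2_sg (hq0 : q ≠ 0) (hodd : q % 2 = 1) :
    Un2 q (sg : Matrix (Fin 2) (Fin 2) F) := by
  unfold Un2
  have h1 : (-1 : F) ^ q = -1 := Odd.neg_one_pow (Nat.odd_iff.2 hodd)
  ext i j
  fin_cases i <;> fin_cases j <;>
    simp [sg, Matrix.mul_apply, Fin.sum_univ_two, hq0, h1]

end Cfsg.Agent.Lib.helper25.SU3Odd
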