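import Mathlib
import Cfsg.Agent.Lib.helper25.SU3Odd1

set_option autoImplicit false
set_option linter.unusedSectionVars false
set_option linter.unusedSimpArgs false

namespace Cfsg.Agent.Lib.helper25.SU3Odd

open Matrix
open Cfsg.Agent.Lib.helper25.SL3Odd
open Cfsg.Agent.Lib.helper4 (frob_frob frob_add frob_neg frob_sub unorm_surj)

variable {F : Type*} [Field F] [Fintype F] {q : ℕ}

/-- The standing hypotheses. -/
structure Hyp (F : Type*) [Field F] [Fintype F] (q : ℕ) (ε : F) : Prop where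
  hF : Fintype.card F = q ^ 2
  hodd : q % 2 = 1
  hε : ε * ε = 1
  hεq : ε ^ q = ε
  h2 : (2 : F) ≠ 0

theorem Hyp.q0 {ε : F} (hh : Hyp F q ε) : q ≠ 0 := by
  have := hh.hodd
  omega

theorem Hyp.neg_one_pow {ε : F} (hh : Hyp F q ε) : (-1 : F) ^ q = -1 :=
  Odd.neg_one_pow (Nat.odd_iff.2 hh.hodd)

theorem mem_SU_emb {ε : F} (hh : Hyp F q ε) (g : SpecialLinearGroup (Fin 3) F)
    (M : Matrix (Fin 2) (Fin 2) F) (c : F) (hg : g.1 = emb M c) :
    g ∈ Cfsg.SU 3 F q ↔ Un2 q M ∧ c * c ^ q = 1 := by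
  rw [mem_SU_iff hh.hF, hg, un3_emb hh.q0]

theorem EAt_mem_SU {ε : F} (hh : Hyp F q ε) (x y : F) (ht : Two (am ε x y))
    (hU : UA q ε x y) : EAt ε x y ht ∈ Cfsg.SU 3 F q := by
  rw [mem_SU_emb hh _ _ _ rfl, un2_am hh.hε hh.hεq]
  refine ⟨hU, ?_⟩
  rw [inv_pow, ← mul_inv, ua_nm hh.hε hh.hεq hh.hF hU, inv_one]

theorem ES_mem_SU {ε : F} (hh : Hyp F q ε) : ES F ∈ Cfsg.SU 3 F q := by
  rw [mem_SU_emb hh _ _ _ rfl]
  refine ⟨un2_sg hh.q0 hh.hodd, ?_⟩
  rw [hh.neg_one_pow]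
  ring

theorem un2_sc (hq0 : q ≠ 0) (c : F) (hc : c * c ^ q = 1) : Un2 q (sc c) := by
  unfold Un2
  ext i j
  fin_cases i <;> fin_cases j <;>
    simp [sc, Matrix.mul_apply, Fin.sum_univ_two, hq0, hc]

theorem zz_mem_SU {ε : F} (hh : Hyp F q ε) : zz F ∈ Cfsg.SU 3 F q := by
  rw [mem_SU_emb hh _ _ _ rfl]
  refine ⟨un2_sc hh.q0 _ ?_, by rw [one_pow, one_mul]⟩
  rw [hh.neg_one_pow]
  ring

theorem ua_J {ε : F} (hh : Hyp F q ε) : UA q ε 0 1 := by
  unfold UA
  rw [zero_pow hh.q0, one_pow]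
  constructor <;> ring

theorem ESt_mem_SU {ε : F} (hh : Hyp F q ε) (x y : F) (ht : Two (am ε x y))
    (hU : UA q ε x y) : ESt ε x y ht ∈ Cfsg.SU 3 F q := by
  rw [ESt_eq]
  exact Subgroup.mul_mem _ (EAt_mem_SU hh x y ht hU) (ES_mem_SU hh)

theorem ua_of_mem_a {ε : F} (hh : Hyp F q ε) (g : SpecialLinearGroup (Fin 3) F)
    (hg : g ∈ Cfsg.SU 3 F q) (x y c : F) (hgf : g.1 = emb (am ε x y) c) : UA q ε x y := by
  rw [mem_SU_emb hh g _ _ hgf, un2_am hh.hε hh.hεq] at hg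
  exact hg.1

theorem ua_of_mem_s {ε : F} (hh : Hyp F q ε) (g : SpecialLinearGroup (Fin 3) F)
    (hg : g ∈ Cfsg.SU 3 F q) (x y c : F) (hgf : g.1 = emb (am ε x y * sg) c) :
    UA q ε x y := by
  have h' : (g * ES F).1 = emb (am ε x y) (c * -1) := by
    show g.1 * emb sg (-1) = _
    rw [hgf, emb_mul, Matrix.mul_assoc, sg_mul_sg, Matrix.mul_one]
  exact ua_of_mem_a hh (g * ES F) (Subgroup.mul_mem _ hg (ES_mem_SU hh)) x y _ h'

theorem ua_scale {ε : F} {f x y : F} (hf : f * f ^ q = 1) (h : UA q ε x y) :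
    UA q ε (f * x) (f * y) := by
  obtain ⟨h1, h2⟩ := h
  unfold UA
  rw [mul_pow, mul_pow]
  constructor
  · linear_combination (f * f ^ q) * h1 + hf
  · linear_combination (f * f ^ q) * h2

/-- The Sylow `2`-subgroup of `SU_3(q)`. -/
noncomputable def UH (F : Type*) [Field F] [Fintype F] (q : ℕ) (ε : F) :
    Subgroup (SpecialLinearGroup (Fin 3) F) :=
  UU3 F ε ⊓ Cfsg.SU 3 F q

theorem zz_memH {ε : F} (hh : Hyp F q ε) : zz F ∈ UH F q ε := ⟨zz_mem ε, zz_mem_SU hh⟩

theorem ES_memH {ε : F} (hh : Hyp F q ε) : ES F ∈ UH F q ε := ⟨ES_mem ε, ES_mem_SU hh⟩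

theorem EAt_memH {ε : F} (hh : Hyp F q ε) (x y : F) (ht : Two (am ε x y))
    (hU : UA q ε x y) : EAt ε x y ht ∈ UH F q ε := ⟨EAt_mem ε x y ht, EAt_mem_SU hh x y ht hU⟩

theorem ESt_memH {ε : F} (hh : Hyp F q ε) (x y : F) (ht : Two (am ε x y))
    (hU : UA q ε x y) : ESt ε x y ht ∈ UH F q ε := ⟨ESt_mem ε x y ht, ESt_mem_SU hh x y ht hU⟩

theorem isPGroup_UH (ε : F) : IsPGroup 2 (UH F q ε) :=
  (isPGroup_UU3 ε).to_le inf_le_left

theorem norm_backH {ε : F} (g : SpecialLinearGroup (Fin 3) F)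
    (hg : ∀ u ∈ UH F q ε, g * u * g⁻¹ ∈ UH F q ε) (v : SpecialLinearGroup (Fin 3) F)
    (hv : v ∈ UH F q ε) : g⁻¹ * v * g ∈ UH F q ε := by
  have h1 := Cfsg.Agent.Lib.helper25.conj_mem_iff_of_forall_conj_mem (UH F q ε) g hg
    (g⁻¹ * v * g)
  have h3 : g * (g⁻¹ * v * g) * g⁻¹ = v := by group
  rw [h3] at h1
  exact h1.2 hv

theorem norm_comm_zzH {ε : F} (hh : Hyp F q ε)
    (g : SpecialLinearGroup (Fin 3) F) (hg : ∀ u ∈ UH F q ε, g * u * g⁻¹ ∈ UH F q ε) :
    g * zz F = zz F * g := by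
  have hε := hh.hε
  have h2 := hh.h2
  have hcomm : ∀ v ∈ UH F q ε, v * (g * zz F * g⁻¹) = (g * zz F * g⁻¹) * v := by
    intro v hv
    have h1 := zz_central _ (norm_backH g hg v hv).1
    calc v * (g * zz F * g⁻¹) = g * ((g⁻¹ * v * g) * zz F) * g⁻¹ := by group
      _ = g * (zz F * (g⁻¹ * v * g)) * g⁻¹ := by rw [h1]
      _ = (g * zz F * g⁻¹) * v := by group
  have h3 := central_invol hε h2 (g * zz F * g⁻¹) (hg _ (zz_memH hh)).1
    (by
      calc g * zz F * g⁻¹ * (g * zz F * g⁻¹) = g * (zz F * zz F) * g⁻¹ := by group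
        _ = 1 := by rw [zz_mul_zz]; group)
    (by
      intro h
      apply zz_ne_one h2
      calc zz F = g⁻¹ * (g * zz F * g⁻¹) * g := by group
        _ = 1 := by rw [h]; group)
    (hcomm _ (EAt_memH hh 0 1 (two_J hε) (ua_J hh))) (hcomm _ (ES_memH hh))
  calc g * zz F = (g * zz F * g⁻¹) * g := by group
    _ = zz F * g := by rw [h3]

theorem norm_form1H {ε : F} (hh : Hyp F q ε)
    (hb0 : ∃ x0 y0 : F, (am ε x0 y0 * am ε x0 y0 = am ε 0 1 ∨
      am ε x0 y0 * am ε x0 y0 = am ε 0 (-1)) ∧ UA q ε x0 y0)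
    (g : SpecialLinearGroup (Fin 3) F) (hg : ∀ u ∈ UH F q ε, g * u * g⁻¹ ∈ UH F q ε) :
    ∃ x y c, g.1 = emb (am ε x y) c ∨ g.1 = emb (am ε x y * sg) c := by
  have hε := hh.hε
  have h2 := hh.h2
  have hε0 : ε ≠ 0 := by
    rintro rfl
    simp at hε
  have hform := comm_zz_form h2 g (norm_comm_zzH hh g hg)
  obtain ⟨M, hM⟩ : ∃ M : Matrix (Fin 2) (Fin 2) F,
      M = !![g.1 0 0, g.1 0 1; g.1 1 0, g.1 1 1] := ⟨_, rfl⟩
  obtain ⟨c, hc⟩ : ∃ c : F, c = g.1 2 2 := ⟨_, rfl⟩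
  rw [← hM, ← hc] at hform
  have hdet : M.det ≠ 0 := by
    have hd : g.1.det = 1 := g.2
    rw [hform, det_emb] at hd
    intro h0
    rw [h0, zero_mul] at hd
    exact zero_ne_one hd
  obtain ⟨x0, y0, hb, hU0⟩ := hb0
  have ht0 : Two (am ε x0 y0) := by
    apply two_of_sq
    rcases hb with hb | hb
    · rw [hb]
      exact two_J hε
    · rw [hb]
      exact two_bar (two_J hε)
  have hy0 : y0 ≠ 0 := by
    rintro rfl
    rw [am_mul] at hb
    rcases hb with hb | hb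
    · have := (am_inj hb).2
      simp at this
    · have := (am_inj hb).2
      simp at this
  have hu' := (hg _ (EAt_memH hh x0 y0 ht0 hU0)).1
  have key : g.1 * (EAt ε x0 y0 ht0).1 = (g * EAt ε x0 y0 ht0 * g⁻¹).1 * g.1 := by
    show _ = ((g * EAt ε x0 y0 ht0 * g⁻¹) * g).1
    rw [inv_mul_cancel_right]
    rfl
  obtain ⟨x', y', c', ht', h' | h'⟩ := form_of_mem hu'
  · rw [hform, h', show (EAt ε x0 y0 ht0).1 = emb (am ε x0 y0) (nm ε x0 y0)⁻¹ from rfl, emb_mul,
      emb_mul] at key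
    have hM1 := (emb_inj key).1
    have hdec : am ε x0 y0 = sc x0 + y0 • am ε 0 1 := by
      ext i j
      fin_cases i <;> fin_cases j <;> simp [am, sc] <;> ring
    have hK : M * am ε 0 1 = am ε ((x' - x0) / y0) (y' / y0) * M := by
      have e1 : y0 • (M * am ε 0 1) = (am ε x' y' - sc x0) * M := by
        rw [Matrix.sub_mul, ← hM1, hdec, Matrix.mul_add, Matrix.mul_smul, sc_comm]
        abel
      have e2 : am ε ((x' - x0) / y0) (y' / y0) = y0⁻¹ • (am ε x' y' - sc x0) := by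
        ext i j
        fin_cases i <;> fin_cases j <;> simp [am, sc] <;> field_simp
      rw [e2, Matrix.smul_mul, ← e1, smul_smul, inv_mul_cancel₀ hy0, one_smul]
    obtain ⟨p, hp⟩ : ∃ p, p = (x' - x0) / y0 := ⟨_, rfl⟩
    obtain ⟨r, hr⟩ : ∃ r, r = y' / y0 := ⟨_, rfl⟩
    rw [← hp, ← hr] at hK
    have hsq : am ε p r * am ε p r = sc ε := by
      apply cancel_right hdet
      calc am ε p r * am ε p r * M = am ε p r * (M * am ε 0 1) := by rw [Matrix.mul_assoc, hK]
        _ = M * am ε 0 1 * am ε 0 1 := by rw [← Matrix.mul_assoc, ← hK]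
        _ = M * sc ε := by rw [Matrix.mul_assoc, J_sq]
        _ = sc ε * M := (sc_comm ε M).symm
    rw [am_mul, ← am_sc ε] at hsq
    obtain ⟨h3, h4⟩ := am_inj hsq
    have hr0 : r ≠ 0 := by
      intro hr0
      rw [hr0, am_sc] at hK
      have h5 : am ε 0 1 = sc p := cancel_left hdet (by rw [hK, sc_comm])
      have h6 := congrFun (congrFun h5 1) 0
      simp [am, sc] at h6
    have hp0 : p = 0 := by
      have h5 : 2 * (p * r) = 0 := by linear_combination h4
      rcases mul_eq_zero.1 h5 with h | h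
      · exact absurd h h2
      · exact (mul_eq_zero.1 h).resolve_right hr0
    have hrr : r * r = 1 := by
      have h5 : ε * (r * r - 1) = 0 := by
        rw [hp0] at h3
        linear_combination h3
      have h6 := (mul_eq_zero.1 h5).resolve_left hε0
      linear_combination h6
    rw [hp0] at hK
    have e00 := congrFun (congrFun hK 0) 0
    have e10 := congrFun (congrFun hK 1) 0
    simp only [am, Matrix.mul_apply, Fin.sum_univ_two, Matrix.of_apply, Matrix.cons_val',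
      Matrix.cons_val_zero, Matrix.cons_val_one, Matrix.empty_val', Matrix.cons_val_fin_one,
      Matrix.head_cons, Matrix.tail_cons, Matrix.head_fin_const] at e00 e10
    rcases mul_self_eq_one_iff.1 hrr with h | h
    · refine ⟨M 0 0, M 1 0, c, Or.inl ?_⟩
      rw [hform]
      congr 1
      rw [h] at e00 e10
      ext i j
      fin_cases i <;> fin_cases j <;> simp [am]
      · linear_combination e00
      · linear_combination e10
    · refine ⟨M 0 0, M 1 0, c, Or.inr ?_⟩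
      rw [hform]
      congr 1
      rw [h] at e00 e10
      ext i j
      fin_cases i <;> fin_cases j <;>
        simp [am, sg, Matrix.mul_apply, Fin.sum_univ_two]
      · linear_combination e00
      · linear_combination e10
  · exfalso
    rw [hform, h', show (EAt ε x0 y0 ht0).1 = emb (am ε x0 y0) (nm ε x0 y0)⁻¹ from rfl, emb_mul,
      emb_mul] at key
    have hM2 := (emb_inj key).1
    have hsq : am ε x' y' * sg * (am ε x' y' * sg) = sc (nm ε x' y') := by
      rw [Matrix.mul_assoc, ← Matrix.mul_assoc sg, sg_mul_am, Matrix.mul_assoc, sg_mul_sg,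
        Matrix.mul_one, am_mul_bar]
    have h5 : am ε x0 y0 * am ε x0 y0 = sc (nm ε x' y') := by
      apply cancel_left hdet
      calc M * (am ε x0 y0 * am ε x0 y0) = (M * am ε x0 y0) * am ε x0 y0 := by
            rw [Matrix.mul_assoc]
        _ = (am ε x' y' * sg * M) * am ε x0 y0 := by rw [hM2]
        _ = am ε x' y' * sg * (M * am ε x0 y0) := by rw [Matrix.mul_assoc]
        _ = am ε x' y' * sg * (am ε x' y' * sg * M) := by rw [hM2]
        _ = am ε x' y' * sg * (am ε x' y' * sg) * M := by simp only [Matrix.mul_assoc]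
        _ = sc (nm ε x' y') * M := by rw [hsq]
        _ = M * sc (nm ε x' y') := sc_comm _ _
    rcases hb with hb | hb
    · rw [hb] at h5
      have h6 := congrFun (congrFun h5 1) 0
      simp [am, sc] at h6
    · rw [hb] at h5
      have h6 := congrFun (congrFun h5 1) 0
      simp [am, sc] at h6

end Cfsg.Agent.Lib.helper25.SU3Odd
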