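import Mathlib
import Cfsg.Agent.Lib.helper25.SU3Odd2

set_option autoImplicit false
set_option linter.unusedSectionVars false
set_option linter.unusedSimpArgs false

namespace Cfsg.Agent.Lib.helper25.SU3Odd

open Matrix
open Cfsg.Agent.Lib.helper25.SL3Odd
open Cfsg.Agent.Lib.helper4 (frob_frob frob_add frob_neg frob_sub unorm_surj)

variable {F : Type*} [Field F] [Fintype F] {q : ℕ}

theorem norm_form2H {ε : F} (hh : Hyp F q ε)
    (g : SpecialLinearGroup (Fin 3) F) (hgH : g ∈ Cfsg.SU 3 F q)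
    (hg : ∀ u ∈ UH F q ε, g * u * g⁻¹ ∈ UH F q ε)
    (x y c : F) (hgf : g.1 = emb (am ε x y) c) :
    ∃ f : F, f ≠ 0 ∧ f * f ^ q = 1 ∧ Two (am ε (f * x) (f * y)) := by
  have hε := hh.hε
  have h2 := hh.h2
  have hε0 : ε ≠ 0 := by
    rintro rfl
    simp at hε
  have key0 : ∀ a : F, a = -a → a = 0 := by
    intro a ha
    have : (2 : F) * a = 0 := by linear_combination ha
    exact (mul_eq_zero.1 this).resolve_left h2
  have hUxy := ua_of_mem_a hh g hgH x y c hgf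
  have hnq := ua_nm hh.hε hh.hεq hh.hF hUxy
  have hd : g.1.det = 1 := g.2
  rw [hgf, det_emb, det_am] at hd
  have hn : nm ε x y ≠ 0 := by
    intro h0
    rw [h0, zero_mul] at hd
    exact zero_ne_one hd
  have hu' := (hg _ (ES_memH hh)).1
  have key : g.1 * (ES F).1 = (g * ES F * g⁻¹).1 * g.1 := by
    show _ = ((g * ES F * g⁻¹) * g).1
    rw [inv_mul_cancel_right]
    rfl
  obtain ⟨x', y', c', ht', h' | h'⟩ := form_of_mem hu'
  · exfalso
    rw [hgf, h', show (ES F).1 = emb sg (-1) from rfl, emb_mul, emb_mul, am_mul] at key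
    have h1 := (emb_inj key).1
    have e00 := congrFun (congrFun h1 0) 0
    have e11 := congrFun (congrFun h1 1) 1
    have e10 := congrFun (congrFun h1 1) 0
    have e01 := congrFun (congrFun h1 0) 1
    simp only [sg, am, Matrix.mul_apply, Fin.sum_univ_two, Matrix.of_apply, Matrix.cons_val',
      Matrix.cons_val_zero, Matrix.cons_val_one, Matrix.empty_val', Matrix.cons_val_fin_one,
      Matrix.head_cons, Matrix.tail_cons, Matrix.head_fin_const] at e00 e11 e10 e01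
    have hx : x = 0 := key0 x (by linear_combination e00 - e11)
    have hy' : ε * y = 0 := key0 _ (by linear_combination ε * e10 - e01)
    have hy : y = 0 := (mul_eq_zero.1 hy').resolve_left hε0
    apply hn
    rw [hx, hy]
    unfold nm
    ring
  · rw [hgf, h', show (ES F).1 = emb sg (-1) from rfl, emb_mul, emb_mul] at key
    have h1 := (emb_inj key).1
    have h3 : am ε x y = am ε x' y' * am ε x (-y) := by
      have h4 : am ε x y * sg = am ε x' y' * am ε x (-y) * sg := by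
        rw [h1, Matrix.mul_assoc, sg_mul_am, ← Matrix.mul_assoc]
      have h5 := congrArg (fun X => X * sg) h4
      simp only [Matrix.mul_assoc, sg_mul_sg, Matrix.mul_one] at h5
      exact h5
    have haa : am ε x y * am ε x y = sc (nm ε x y) * am ε x' y' := by
      calc am ε x y * am ε x y = am ε x' y' * am ε x (-y) * am ε x y := by rw [← h3]
        _ = am ε x' y' * sc (nm ε x y) := by rw [Matrix.mul_assoc, am_bar_mul]
        _ = sc (nm ε x y) * am ε x' y' := (sc_comm _ _).symm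
    have hNpos : 0 < orderOf g := orderOf_pos g
    obtain ⟨k, r, hr, hN⟩ := Nat.exists_eq_two_pow_mul_odd hNpos.ne'
    obtain ⟨s, hs⟩ := hr
    have hpow : nm ε x y ^ (2 ^ k * r) = 1 := by
      have h6 : g ^ orderOf g = 1 := pow_orderOf_eq_one g
      have h7 := congrArg Subtype.val h6
      rw [sl_pow_val, hgf, emb_pow] at h7
      have h8 : am ε x y ^ orderOf g = 1 := (emb_inj (h7.trans emb_one.symm)).1
      have h9 := congrArg Matrix.det h8
      rw [Matrix.det_pow, det_am, Matrix.det_one, hN] at h9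
      exact h9
    refine ⟨nm ε x y ^ s, pow_ne_zero _ hn, ?_, ?_⟩
    · rw [← pow_mul, mul_comm s q, pow_mul, ← mul_pow, hnq, one_pow]
    apply two_of_sq
    obtain ⟨f, hf⟩ : ∃ f, f = nm ε x y ^ s := ⟨_, rfl⟩
    rw [← hf]
    have e : am ε (f * x) (f * y) * am ε (f * x) (f * y) =
        sc (nm ε x y ^ r) * am ε x' y' := by
      rw [← sc_mul_am]
      calc sc f * am ε x y * (sc f * am ε x y) = sc f * (am ε x y * sc f) * am ε x y := by
            simp only [Matrix.mul_assoc]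
        _ = sc f * (sc f * am ε x y) * am ε x y := by rw [sc_comm f (am ε x y)]
        _ = sc (f * f) * (am ε x y * am ε x y) := by
            rw [← sc_mul]
            simp only [Matrix.mul_assoc]
        _ = sc (f * f) * (sc (nm ε x y) * am ε x' y') := by rw [haa]
        _ = sc (nm ε x y ^ r) * am ε x' y' := by
            rw [← Matrix.mul_assoc, sc_mul]
            congr 2
            rw [hs, hf]
            ring
    rw [e]
    apply two_mul (sc_comm _ _) (two_sc (m := k) ?_) ht'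
    rw [← pow_mul, mul_comm]
    exact hpow

theorem norm_structH {ε : F} (hh : Hyp F q ε)
    (hb0 : ∃ x0 y0 : F, (am ε x0 y0 * am ε x0 y0 = am ε 0 1 ∨
      am ε x0 y0 * am ε x0 y0 = am ε 0 (-1)) ∧ UA q ε x0 y0)
    (g : SpecialLinearGroup (Fin 3) F) (hgH : g ∈ Cfsg.SU 3 F q)
    (hg : ∀ u ∈ UH F q ε, g * u * g⁻¹ ∈ UH F q ε) :
    ∃ f x y c : F, f ≠ 0 ∧ f * f ^ q = 1 ∧ Two (am ε (f * x) (f * y)) ∧ UA q ε x y ∧
      (g.1 = emb (am ε x y) c ∨ g.1 = emb (am ε x y * sg) c) := by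
  obtain ⟨x, y, c, h | h⟩ := norm_form1H hh hb0 g hg
  · obtain ⟨f, hf, hfq, ht⟩ := norm_form2H hh g hgH hg x y c h
    exact ⟨f, x, y, c, hf, hfq, ht, ua_of_mem_a hh g hgH x y c h, Or.inl h⟩
  · have hg' : ∀ u ∈ UH F q ε, (g * ES F) * u * (g * ES F)⁻¹ ∈ UH F q ε := by
      intro u hu
      have : (g * ES F) * u * (g * ES F)⁻¹ = g * (ES F * u * (ES F)⁻¹) * g⁻¹ := by group
      rw [this]
      exact hg _ (Subgroup.mul_mem _ (Subgroup.mul_mem _ (ES_memH hh) hu)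
        (Subgroup.inv_mem _ (ES_memH hh)))
    have h' : (g * ES F).1 = emb (am ε x y) (c * -1) := by
      show g.1 * emb sg (-1) = _
      rw [h, emb_mul, Matrix.mul_assoc, sg_mul_sg, Matrix.mul_one]
    obtain ⟨f, hf, hfq, ht⟩ := norm_form2H hh (g * ES F)
      (Subgroup.mul_mem _ hgH (ES_mem_SU hh)) hg' x y _ h'
    exact ⟨f, x, y, c, hf, hfq, ht, ua_of_mem_s hh g hgH x y c h, Or.inr h⟩

theorem norm_splitH {ε : F} (hh : Hyp F q ε)
    (hb0 : ∃ x0 y0 : F, (am ε x0 y0 * am ε x0 y0 = am ε 0 1 ∨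
      am ε x0 y0 * am ε x0 y0 = am ε 0 (-1)) ∧ UA q ε x0 y0)
    (g : SpecialLinearGroup (Fin 3) F) (hgH : g ∈ Cfsg.SU 3 F q)
    (hg : ∀ u ∈ UH F q ε, g * u * g⁻¹ ∈ UH F q ε) :
    ∃ s ∈ UH F q ε, ∃ t d : F, (g * s⁻¹).1 = emb (sc t) d := by
  obtain ⟨f, x, y, c, hf, hfq, ht, hUxy, h | h⟩ := norm_structH hh hb0 g hgH hg
  · refine ⟨EAt ε (f * x) (f * y) ht, EAt_memH hh _ _ ht (ua_scale hfq hUxy), f⁻¹,
      c * nm ε (f * x) (f * y), ?_⟩
    have hs : (EAt ε (f * x) (f * y) ht).1 =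
        emb (am ε (f * x) (f * y)) (nm ε (f * x) (f * y))⁻¹ := rfl
    have hdet : (EAt ε (f * x) (f * y) ht).1.det ≠ 0 := by
      rw [(EAt ε (f * x) (f * y) ht).2]
      exact one_ne_zero
    apply cancel_right hdet
    have e1 : (g * (EAt ε (f * x) (f * y) ht)⁻¹).1 * (EAt ε (f * x) (f * y) ht).1 = g.1 := by
      show ((g * (EAt ε (f * x) (f * y) ht)⁻¹) * EAt ε (f * x) (f * y) ht).1 = g.1
      rw [inv_mul_cancel_right]
    rw [e1, hs, emb_mul, sc_mul_am, h, inv_mul_cancel_left₀ hf, inv_mul_cancel_left₀ hf,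
      mul_assoc, mul_inv_cancel₀ (two_nm_ne ht), mul_one]
  · refine ⟨ESt ε (f * x) (f * y) ht, ESt_memH hh _ _ ht (ua_scale hfq hUxy), f⁻¹,
      c * -nm ε (f * x) (f * y), ?_⟩
    have hs : (ESt ε (f * x) (f * y) ht).1 =
        emb (am ε (f * x) (f * y) * sg) (-(nm ε (f * x) (f * y))⁻¹) := rfl
    have hdet : (ESt ε (f * x) (f * y) ht).1.det ≠ 0 := by
      rw [(ESt ε (f * x) (f * y) ht).2]
      exact one_ne_zero
    apply cancel_right hdet
    have e1 : (g * (ESt ε (f * x) (f * y) ht)⁻¹).1 * (ESt ε (f * x) (f * y) ht).1 = g.1 := by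
      show ((g * (ESt ε (f * x) (f * y) ht)⁻¹) * ESt ε (f * x) (f * y) ht).1 = g.1
      rw [inv_mul_cancel_right]
    rw [e1, hs, emb_mul, ← Matrix.mul_assoc, sc_mul_am, h, inv_mul_cancel_left₀ hf,
      inv_mul_cancel_left₀ hf, mul_assoc, neg_mul_neg, mul_inv_cancel₀ (two_nm_ne ht), mul_one]

/-- All automorphisms of `U` induced by `SU_3(q)` are inner. -/
theorem hnorm_UH {ε : F} (hh : Hyp F q ε)
    (hb0 : ∃ x0 y0 : F, (am ε x0 y0 * am ε x0 y0 = am ε 0 1 ∨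
      am ε x0 y0 * am ε x0 y0 = am ε 0 (-1)) ∧ UA q ε x0 y0)
    (g : SpecialLinearGroup (Fin 3) F) (hgH : g ∈ Cfsg.SU 3 F q)
    (hg : ∀ u ∈ UH F q ε, g * u * g⁻¹ ∈ UH F q ε) :
    ∃ s ∈ UH F q ε, ∀ x ∈ UH F q ε, g * x * g⁻¹ = s * x * s⁻¹ := by
  obtain ⟨s, hs, t, d, hζ⟩ := norm_splitH hh hb0 g hgH hg
  refine ⟨s, hs, fun x hx => ?_⟩
  have hcomm := comm_U_of_sc (g * s⁻¹) t d hζ (s * x * s⁻¹)
    (Subgroup.mul_mem _ (Subgroup.mul_mem _ hs.1 hx.1) (Subgroup.inv_mem _ hs.1))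
  calc g * x * g⁻¹ = (g * s⁻¹) * (s * x * s⁻¹) * (g * s⁻¹)⁻¹ := by group
    _ = (s * x * s⁻¹) * (g * s⁻¹) * (g * s⁻¹)⁻¹ := by rw [hcomm]
    _ = s * x * s⁻¹ := by group

theorem pelts_UH {ε : F} (hh : Hyp F q ε)
    (hb0 : ∃ x0 y0 : F, (am ε x0 y0 * am ε x0 y0 = am ε 0 1 ∨
      am ε x0 y0 * am ε x0 y0 = am ε 0 (-1)) ∧ UA q ε x0 y0)
    (g : SpecialLinearGroup (Fin 3) F) (hgH : g ∈ Cfsg.SU 3 F q)
    (hg : ∀ u ∈ UH F q ε, g * u * g⁻¹ ∈ UH F q ε)
    (k : ℕ) (hk : g ^ (2 ^ k) = 1) : g ∈ UH F q ε := by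
  refine ⟨?_, hgH⟩
  obtain ⟨s, hsH, t, d, hζ⟩ := norm_splitH hh hb0 g hgH hg
  have hs := hsH.1
  have hcomm := comm_U_of_sc (g * s⁻¹) t d hζ s hs
  have hgs : g * s = s * g := by
    have h1 : g * s⁻¹ * s = g := inv_mul_cancel_right g s
    calc g * s = (g * s⁻¹ * s) * s := by rw [h1]
      _ = s * (g * s⁻¹) * s := by rw [hcomm]
      _ = s * g := by group
  obtain ⟨k', hk'⟩ := (isPGroup_UU3 ε) ⟨s, hs⟩
  have hk'' : s ^ (2 ^ k') = 1 := congrArg Subtype.val hk'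
  have hc : Commute g s⁻¹ := Commute.inv_right (show Commute g s from hgs)
  have hζpow : (g * s⁻¹) ^ (2 ^ (k + k')) = 1 := by
    rw [hc.mul_pow, pow_add, pow_mul, hk, one_pow, inv_pow, mul_comm (2 ^ k) (2 ^ k'), pow_mul,
      hk'', one_pow, inv_one, one_mul]
  have h7 := congrArg Subtype.val hζpow
  rw [sl_pow_val, hζ, emb_pow] at h7
  have h8 : sc t ^ (2 ^ (k + k')) = 1 := (emb_inj (h7.trans emb_one.symm)).1
  have htt : Two (sc t) := ⟨_, h8⟩
  have hg1 : g.1 = emb (sc t) d * s.1 := by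
    rw [← hζ]
    show g.1 = ((g * s⁻¹) * s).1
    rw [inv_mul_cancel_right]
  obtain ⟨x, y, c, ht, h | h⟩ := form_of_mem hs
  · rw [h, emb_mul, sc_mul_am] at hg1
    apply mem_of_form_a g (t * x) (t * y) _ _ hg1
    rw [← sc_mul_am]
    exact two_mul (sc_comm _ _) htt ht
  · rw [h, emb_mul, ← Matrix.mul_assoc, sc_mul_am] at hg1
    apply mem_of_form_s g (t * x) (t * y) _ _ hg1
    rw [← sc_mul_am]
    exact two_mul (sc_comm _ _) htt ht

theorem exists_sylow_UH {ε : F} (hh : Hyp F q ε)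
    (hb0 : ∃ x0 y0 : F, (am ε x0 y0 * am ε x0 y0 = am ε 0 1 ∨
      am ε x0 y0 * am ε x0 y0 = am ε 0 (-1)) ∧ UA q ε x0 y0) :
    ∃ S : Sylow 2 (Cfsg.SU 3 F q),
      (S : Subgroup (Cfsg.SU 3 F q)) = (UH F q ε).subgroupOf (Cfsg.SU 3 F q) := by
  haveI : Fact (Nat.Prime 2) := ⟨Nat.prime_two⟩
  apply Cfsg.Agent.Lib.helper25.SUni.sylow_of_pelts 2 ((UH F q ε).subgroupOf (Cfsg.SU 3 F q))
  · rintro ⟨x, hx⟩
    have hx' : x.1 ∈ UU3 F ε := (Subgroup.mem_subgroupOf.1 hx).1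
    obtain ⟨k, hk⟩ := (isPGroup_UU3 ε) ⟨x.1, hx'⟩
    have hk2 : x.1 ^ (2 ^ k) = 1 := congrArg Subtype.val hk
    refine ⟨k, Subtype.ext (Subtype.ext ?_)⟩
    exact hk2
  · rintro x hx ⟨k, hk⟩
    rw [Subgroup.mem_subgroupOf]
    apply pelts_UH hh hb0 x.1 x.2 _ k
    · have hk2 : (x ^ (2 ^ k)).1 = 1 := congrArg Subtype.val hk
      exact hk2
    · intro u hu
      have h1 := (Subgroup.mem_normalizer_iff.1 hx ⟨u, hu.2⟩).1 (Subgroup.mem_subgroupOf.2 hu)
      exact Subgroup.mem_subgroupOf.1 h1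

theorem UH_ne_bot {ε : F} (hh : Hyp F q ε) : UH F q ε ≠ ⊥ := by
  intro h
  have h1 := zz_memH hh
  rw [h, Subgroup.mem_bot] at h1
  exact zz_ne_one hh.h2 h1

end Cfsg.Agent.Lib.helper25.SU3Odd
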