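import Mathlib
import Cfsg.Agent.Lib.helper25.SU3Odd3

set_option autoImplicit false
set_option linter.unusedSectionVars false
set_option linter.unusedSimpArgs false

namespace Cfsg.Agent.Lib.helper25.SU3Odd

open Matrix
open Cfsg.Agent.Lib.helper25.SL3Odd
open Cfsg.Agent.Lib.helper4 (frob_frob frob_add frob_neg frob_sub unorm_surj)

variable {F : Type*} [Field F] [Fintype F] {q : ℕ}

theorem central_formH {ε : F} (hh : Hyp F q ε)
    (u : SpecialLinearGroup (Fin 3) F) (hu : u ∈ UU3 F ε)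
    (hJ : EAt ε 0 1 (two_J hh.hε) * u = u * EAt ε 0 1 (two_J hh.hε))
    (hS : ES F * u = u * ES F) : ∃ x c : F, Two (sc x) ∧ u.1 = emb (sc x) c := by
  have hε := hh.hε
  have h2 := hh.h2
  have hε0 : ε ≠ 0 := by
    rintro rfl
    simp at hε
  have key : ∀ a : F, a = -a → a = 0 := by
    intro a ha
    have : (2 : F) * a = 0 := by linear_combination ha
    exact (mul_eq_zero.1 this).resolve_left h2
  obtain ⟨x, y, c, ht, h | h⟩ := form_of_mem hu
  · have hS' : emb sg (-1) * u.1 = u.1 * emb sg (-1) := congrArg Subtype.val hS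
    rw [h, emb_mul, emb_mul] at hS'
    have hS2 := (emb_inj hS').1
    have e := congrFun (congrFun hS2 1) 0
    simp only [sg, am, Matrix.mul_apply, Fin.sum_univ_two, Matrix.of_apply, Matrix.cons_val',
      Matrix.cons_val_zero, Matrix.cons_val_one, Matrix.empty_val', Matrix.cons_val_fin_one,
      Matrix.head_cons, Matrix.tail_cons, Matrix.head_fin_const] at e
    have hy : y = 0 := key y (by linear_combination -e)
    subst hy
    rw [am_sc] at h ht
    exact ⟨x, c, ht, h⟩
  · exfalso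
    have hJ' : emb (am ε 0 1) (nm ε 0 1)⁻¹ * u.1 = u.1 * emb (am ε 0 1) (nm ε 0 1)⁻¹ :=
      congrArg Subtype.val hJ
    rw [h, emb_mul, emb_mul] at hJ'
    have hJ2 := (emb_inj hJ').1
    have e10 := congrFun (congrFun hJ2 1) 0
    have e00 := congrFun (congrFun hJ2 0) 0
    simp only [sg, am, Matrix.mul_apply, Fin.sum_univ_two, Matrix.of_apply, Matrix.cons_val',
      Matrix.cons_val_zero, Matrix.cons_val_one, Matrix.empty_val', Matrix.cons_val_fin_one,
      Matrix.head_cons, Matrix.tail_cons, Matrix.head_fin_const] at e10 e00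
    have hx : x = 0 := key x (by linear_combination e10)
    have hy' : ε * y = 0 := key _ (by linear_combination e00)
    have hy : y = 0 := (mul_eq_zero.1 hy').resolve_left hε0
    apply two_nm_ne ht
    rw [hx, hy]
    unfold nm
    ring

theorem central_pow_zzH {ε : F} (hh : Hyp F q ε)
    (t : SpecialLinearGroup (Fin 3) F) (ht : t ∈ UU3 F ε) (ht1 : t ≠ 1)
    (hJ : EAt ε 0 1 (two_J hh.hε) * t = t * EAt ε 0 1 (two_J hh.hε))
    (hS : ES F * t = t * ES F) : ∃ j : ℕ, t ^ (2 ^ j) = zz F := by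
  obtain ⟨x, c, ⟨m, hm⟩, hform⟩ := central_formH hh t ht hJ hS
  have hxm : x ^ (2 ^ m) = 1 := by
    rw [sc_pow, ← sc_one] at hm
    exact sc_inj hm
  have hd : t.1.det = 1 := t.2
  rw [hform, det_emb, det_sc] at hd
  have hx1 : x ≠ 1 := by
    rintro rfl
    apply ht1
    apply Subtype.ext
    have hc : c = 1 := by linear_combination hd
    rw [hform, hc, sc_one, emb_one]
    rfl
  obtain ⟨j, hj⟩ := exists_pow_neg_one x m hxm hx1
  refine ⟨j, Subtype.ext ?_⟩
  rw [sl_pow_val, hform, emb_pow, sc_pow, hj]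
  show emb (sc (-1)) (c ^ 2 ^ j) = emb (sc (-1)) 1
  congr 1
  have h5 := congrArg (fun w => w ^ (2 ^ j)) hd
  simp only [mul_pow, hj, one_pow] at h5
  linear_combination h5

theorem ww_mem_SU {ε : F} (hh : Hyp F q ε) : ww F ∈ Cfsg.SU 3 F q := by
  rw [mem_SU_iff hh.hF]
  unfold Un3
  show (!![0, 0, 1; 1, 0, 0; 0, 1, 0] : Matrix (Fin 3) (Fin 3) F)ᵀ *
    (!![0, 0, 1; 1, 0, 0; 0, 1, 0] : Matrix (Fin 3) (Fin 3) F).map (· ^ q) = 1
  have hq0 := hh.q0
  ext i j
  fin_cases i <;> fin_cases j <;> simp [Matrix.mul_apply, Fin.sum_univ_three, hq0]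

theorem Hyp.two_pow {ε : F} (hh : Hyp F q ε) : (2 : F) ^ q = 2 := by
  have : (2 : F) = 1 + 1 := by norm_num
  rw [this, frob_add hh.hF, one_pow]

theorem Hyp.half_pow {ε : F} (hh : Hyp F q ε) (a : F) : (a / 2) ^ q = a ^ q / 2 := by
  rw [div_pow, hh.two_pow]

theorem frob_of_nm_one {ε : F} (hh : Hyp F q ε) {x y : F} (hU : UA q ε x y)
    (hn : nm ε x y = 1) : x ^ q = x ∧ y ^ q = -(ε * y) := by
  obtain ⟨h1, h2⟩ := hU
  have hn' : x * x - ε * y * y = 1 := hn
  have hε := hh.hε
  constructor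
  · linear_combination x * h1 - ε * y * h2 - x ^ q * hn' + (x * y * y ^ q) * hε
  · linear_combination -ε * y * h1 + ε * x * h2 - y ^ q * hn' -
      (y ^ q * (x * x - ε * y * y) + ε * y * y * y ^ q) * hε

theorem mkE_am_mem_SU {ε : F} (hh : Hyp F q ε) (x y : F) (hU : UA q ε x y)
    (g : SpecialLinearGroup (Fin 3) F) (hg : g.1 = emb (am ε x y) (nm ε x y)⁻¹) :
    g ∈ Cfsg.SU 3 F q := by
  rw [mem_SU_emb hh _ _ _ hg, un2_am hh.hε hh.hεq]
  refine ⟨hU, ?_⟩
  rw [inv_pow, ← mul_inv, ua_nm hh.hε hh.hεq hh.hF hU, inv_one]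

theorem norm_one_memH {ε : F} (hh : Hyp F q ε)
    (T : Subgroup (SpecialLinearGroup (Fin 3) F)) (hES : ES F ∈ T) (hzz : zz F ∈ T)
    (hTc : ∀ t ∈ T, ∀ g ∈ Cfsg.SU 3 F q, g * t * g⁻¹ ∈ UH F q ε → g * t * g⁻¹ ∈ T)
    (x y : F) (ht : Two (am ε x y)) (hn : nm ε x y = 1) (hU : UA q ε x y) :
    ESt ε x y ht ∈ T ∧ EAt ε x y ht ∈ T := by
  have hε := hh.hε
  have h2 := hh.h2
  have hε0 : ε ≠ 0 := by
    rintro rfl
    simp at hε
  have hn' : x * x - ε * y * y = 1 := hn
  obtain ⟨hxq, hyq⟩ := frob_of_nm_one hh hU hn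
  have h1 : ESt ε x y ht ∈ T := by
    by_cases hx : x = -1
    · have hy : y = 0 := by
        have h3 : ε * (y * y) = 0 := by
          rw [hx] at hn'
          linear_combination -hn'
        have h4 := (mul_eq_zero.1 h3).resolve_left hε0
        exact mul_self_eq_zero.1 h4
      have e : ESt ε x y ht = zz F * ES F := by
        apply Subtype.ext
        show emb (am ε x y * sg) (-(nm ε x y)⁻¹) = emb (sc (-1)) 1 * emb sg (-1)
        rw [emb_mul, hn, hx, hy, am_sc, inv_one, one_mul]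
      rw [e]
      exact Subgroup.mul_mem _ hzz hES
    · have hx1 : 1 + x ≠ 0 := by
        intro h
        apply hx
        linear_combination h
      have h21 : (2 : F) * (1 + x) ≠ 0 := mul_ne_zero h2 hx1
      obtain ⟨τ, hτ⟩ := unorm_surj hh.hF ((2 * (1 + x))⁻¹) (by
        rw [inv_pow, mul_pow, hh.two_pow, frob_add hh.hF, one_pow, hxq])
      have hτ' : τ * τ ^ q * (2 * (1 + x)) = 1 := by
        rw [← pow_succ', hτ]
        exact inv_mul_cancel₀ h21
      have huq : (τ * (1 + x)) ^ q = τ ^ q * (1 + x) := by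
        rw [mul_pow, frob_add hh.hF, one_pow, hxq]
      have hvq : (τ * y) ^ q = τ ^ q * -(ε * y) := by
        rw [mul_pow, hyq]
      have hUc : UA q ε (τ * (1 + x)) (τ * y) := by
        unfold UA
        rw [huq, hvq]
        constructor
        · linear_combination hτ' + τ * τ ^ q * hn'
        · linear_combination -(τ * τ ^ q * (1 + x) * y) * hε
      have hnc0 : nm ε (τ * (1 + x)) (τ * y) ≠ 0 := by
        intro h0
        have := ua_nm hh.hε hh.hεq hh.hF hUc
        rw [h0, zero_mul] at this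
        exact zero_ne_one this
      obtain ⟨gc, hgc⟩ : ∃ gc : SpecialLinearGroup (Fin 3) F,
          gc.1 = emb (am ε (τ * (1 + x)) (τ * y)) (nm ε (τ * (1 + x)) (τ * y))⁻¹ :=
        ⟨mkE _ _ (by rw [det_am]; exact mul_inv_cancel₀ hnc0), rfl⟩
      have hgcH : gc ∈ Cfsg.SU 3 F q := mkE_am_mem_SU hh _ _ hUc gc hgc
      have hconj : gc * ES F * gc⁻¹ = ESt ε x y ht := by
        have h : gc * ES F = ESt ε x y ht * gc := by
          apply Subtype.ext
          show gc.1 * emb sg (-1) = emb (am ε x y * sg) (-(nm ε x y)⁻¹) * gc.1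
          rw [hgc, emb_mul, emb_mul, hn]
          have e : am ε x y * sg * am ε (τ * (1 + x)) (τ * y) =
              am ε (τ * (1 + x)) (τ * y) * sg := by
            rw [Matrix.mul_assoc, sg_mul_am, ← Matrix.mul_assoc, am_mul]
            congr 2
            · linear_combination τ * hn'
            · ring
          rw [e]
          congr 1
          rw [inv_one]
          ring
        rw [h, mul_inv_cancel_right]
      rw [← hconj]
      apply hTc _ hES gc hgcH
      rw [hconj]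
      exact ESt_memH hh _ _ ht hU
  refine ⟨h1, ?_⟩
  rw [EAt_eq]
  exact Subgroup.mul_mem _ h1 hES

theorem map_frob_mul (hF : Fintype.card F = q ^ 2) (A B : Matrix (Fin 2) (Fin 2) F) :
    (A * B).map (· ^ q) = A.map (· ^ q) * B.map (· ^ q) := by
  ext i j
  simp [Matrix.mul_apply, Fin.sum_univ_two, frob_add hF, mul_pow]

theorem un2_mul (hF : Fintype.card F = q ^ 2) {A B : Matrix (Fin 2) (Fin 2) F}
    (hA : Un2 q A) (hB : Un2 q B) : Un2 q (A * B) := by
  unfold Un2 at *
  rw [map_frob_mul hF, Matrix.transpose_mul]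
  calc Bᵀ * Aᵀ * (A.map (· ^ q) * B.map (· ^ q)) =
        Bᵀ * (Aᵀ * A.map (· ^ q)) * B.map (· ^ q) := by
        simp only [Matrix.mul_assoc]
    _ = 1 := by rw [hA, Matrix.mul_one, hB]

theorem ua_mul {ε : F} (hh : Hyp F q ε) {x y x' y' : F} (h : UA q ε x y)
    (h' : UA q ε x' y') : UA q ε (x * x' + ε * y * y') (x * y' + y * x') := by
  rw [← un2_am hh.hε hh.hεq] at h h' ⊢
  rw [← am_mul]
  exact un2_mul hh.hF h h'

end Cfsg.Agent.Lib.helper25.SU3Odd
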