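import Mathlib
import Cfsg.Agent.Lib.helper25.SU3Odd4

set_option autoImplicit false
set_option linter.unusedSectionVars false
set_option linter.unusedSimpArgs false

namespace Cfsg.Agent.Lib.helper25.SU3Odd

open Matrix
open Cfsg.Agent.Lib.helper25.SL3Odd
open Cfsg.Agent.Lib.helper4 (frob_frob frob_add frob_neg frob_sub unorm_surj)

variable {F : Type*} [Field F] [Fintype F] {q : ℕ}

/-! ### The split case -/

theorem ua_bnu (hh : Hyp F q 1) (ν : F) (hν : ν * ν ^ q = 1) :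
    UA q 1 ((ν + 1) / 2) ((ν - 1) / 2) := by
  have h2 := hh.h2
  unfold UA
  rw [hh.half_pow, hh.half_pow, frob_add hh.hF, frob_sub hh.hF, one_pow]
  constructor
  · field_simp
    linear_combination 2 * hν
  · field_simp
    linear_combination 2 * hν

theorem ua_cnu (hh : Hyp F q 1) (ν : F) (hν0 : ν ≠ 0) (hν : ν * ν ^ q = 1) :
    UA q 1 ((ν + ν⁻¹) / 2) ((ν - ν⁻¹) / 2) := by
  have h2 := hh.h2
  have hνq : ν ^ q = ν⁻¹ := eq_inv_of_mul_eq_one_right hν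
  have hνq' : ν⁻¹ ^ q = ν := by rw [inv_pow, hνq, inv_inv]
  unfold UA
  rw [hh.half_pow, hh.half_pow, frob_add hh.hF, frob_sub hh.hF, hνq, hνq']
  constructor
  · field_simp
    ring
  · field_simp
    ring

/-- The conjugating matrix of the split case. -/
noncomputable def PPu (F : Type*) [Field F] [Fintype F] (h2 : (2 : F) ≠ 0) (τ : F)
    (hτ0 : τ ≠ 0) : SpecialLinearGroup (Fin 3) F :=
  ⟨!![1 / 2, 1 / 2, -1 / τ; 1 / 2, 1 / 2, 1 / τ; τ / 2, -τ / 2, 0], by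
    rw [Matrix.det_fin_three]
    simp
    field_simp
    ring⟩

theorem PPu_mem_SU (hh : Hyp F q 1) (τ : F) (hτ0 : τ ≠ 0) (hτ : τ * τ ^ q = 2) :
    PPu F hh.h2 τ hτ0 ∈ Cfsg.SU 3 F q := by
  have h2 := hh.h2
  have hT0 : τ ^ q ≠ 0 := pow_ne_zero _ hτ0
  have hodd : Odd q := Nat.odd_iff.2 hh.hodd
  rw [mem_SU_iff hh.hF]
  unfold Un3
  have hmap : (PPu F hh.h2 τ hτ0).1.map (· ^ q) =
      !![1 / 2, 1 / 2, -1 / τ ^ q; 1 / 2, 1 / 2, 1 / τ ^ q; τ ^ q / 2, -τ ^ q / 2, 0] := by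
    show (!![1 / 2, 1 / 2, -1 / τ; 1 / 2, 1 / 2, 1 / τ; τ / 2, -τ / 2, 0] :
      Matrix (Fin 3) (Fin 3) F).map (· ^ q) = _
    ext i j
    fin_cases i <;> fin_cases j <;>
      simp [div_pow, hh.two_pow, hh.neg_one_pow, hh.q0, hodd.neg_pow]
  rw [hmap]
  show (!![1 / 2, 1 / 2, -1 / τ; 1 / 2, 1 / 2, 1 / τ; τ / 2, -τ / 2, 0] :
      Matrix (Fin 3) (Fin 3) F)ᵀ *
    !![1 / 2, 1 / 2, -1 / τ ^ q; 1 / 2, 1 / 2, 1 / τ ^ q; τ ^ q / 2, -τ ^ q / 2, 0] = 1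
  ext i j
  fin_cases i <;> fin_cases j <;>
    simp [Matrix.mul_apply, Fin.sum_univ_three] <;> field_simp <;>
    first
      | ring1
      | linear_combination hτ
      | linear_combination -hτ
      | linear_combination 2 * hτ
      | linear_combination -2 * hτ

theorem PPu_conj (h2 : (2 : F) ≠ 0) (τ : F) (hτ0 : τ ≠ 0) (ν : F) (hν0 : ν ≠ 0)
    (hc : Two (am 1 ((ν + ν⁻¹) / 2) ((ν - ν⁻¹) / 2)))
    (hb : Two (am 1 ((ν + 1) / 2) ((ν - 1) / 2))) :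
    PPu F h2 τ hτ0 * EAt 1 ((ν + ν⁻¹) / 2) ((ν - ν⁻¹) / 2) hc * (PPu F h2 τ hτ0)⁻¹ =
      EAt 1 ((ν + 1) / 2) ((ν - 1) / 2) hb := by
  have h : PPu F h2 τ hτ0 * EAt 1 ((ν + ν⁻¹) / 2) ((ν - ν⁻¹) / 2) hc =
      EAt 1 ((ν + 1) / 2) ((ν - 1) / 2) hb * PPu F h2 τ hτ0 := by
    apply Subtype.ext
    show !![1 / 2, 1 / 2, -1 / τ; 1 / 2, 1 / 2, 1 / τ; τ / 2, -τ / 2, 0] *
        emb (am 1 ((ν + ν⁻¹) / 2) ((ν - ν⁻¹) / 2)) (nm 1 ((ν + ν⁻¹) / 2) ((ν - ν⁻¹) / 2))⁻¹ =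
      emb (am 1 ((ν + 1) / 2) ((ν - 1) / 2)) (nm 1 ((ν + 1) / 2) ((ν - 1) / 2))⁻¹ *
        !![1 / 2, 1 / 2, -1 / τ; 1 / 2, 1 / 2, 1 / τ; τ / 2, -τ / 2, 0]
    rw [nm_cnu h2 ν hν0, nm_bnu h2, inv_one]
    ext i j
    fin_cases i <;> fin_cases j <;>
      simp [emb, am, Matrix.mul_apply, Fin.sum_univ_three] <;> field_simp <;> ring
  rw [h, mul_inv_cancel_right]

theorem split_memH (hh : Hyp F q 1)
    (T : Subgroup (SpecialLinearGroup (Fin 3) F)) (hES : ES F ∈ T) (hzz : zz F ∈ T)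
    (hTc : ∀ t ∈ T, ∀ g ∈ Cfsg.SU 3 F q, g * t * g⁻¹ ∈ UH F q 1 → g * t * g⁻¹ ∈ T)
    (x y : F) (ht : Two (am 1 x y)) (hU : UA q 1 x y) : EAt 1 x y ht ∈ T := by
  have h2 := hh.h2
  obtain ⟨m, hm⟩ := id ht
  obtain ⟨ν, hνdef⟩ : ∃ ν, ν = nm 1 x y := ⟨_, rfl⟩
  have hν : ν ^ (2 ^ m) = 1 := by
    rw [hνdef]
    exact two_nm hm
  have hν0 : ν ≠ 0 := by
    rw [hνdef]
    exact two_nm_ne ht
  have hνq : ν * ν ^ q = 1 := by
    rw [hνdef]
    exact ua_nm hh.hε hh.hεq hh.hF hU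
  have hνq' : ν⁻¹ * ν⁻¹ ^ q = 1 := by
    rw [inv_pow, ← mul_inv, hνq, inv_one]
  obtain ⟨τ, hτ⟩ := unorm_surj hh.hF 2 hh.two_pow
  have hτ' : τ * τ ^ q = 2 := by
    rw [← pow_succ']
    exact hτ
  have hτ0 : τ ≠ 0 := by
    rintro rfl
    rw [zero_mul] at hτ'
    exact h2 hτ'.symm
  have hc := two_cnu h2 ν hν0 m hν
  have hb := two_bnu h2 ν m hν
  have hcT := (norm_one_memH hh T hES hzz hTc _ _ hc (nm_cnu h2 ν hν0)
    (ua_cnu hh ν hν0 hνq)).2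
  have hbT : EAt 1 ((ν + 1) / 2) ((ν - 1) / 2) hb ∈ T := by
    rw [← PPu_conj h2 τ hτ0 ν hν0 hc hb]
    apply hTc _ hcT _ (PPu_mem_SU hh τ hτ0 hτ')
    rw [PPu_conj h2 τ hτ0 ν hν0 hc hb]
    exact EAt_memH hh _ _ hb (ua_bnu hh ν hνq)
  have hb' := two_bnu h2 ν⁻¹ m (by rw [inv_pow, hν, inv_one])
  have ha' : Two (am 1 (x * ((ν⁻¹ + 1) / 2) + 1 * y * ((ν⁻¹ - 1) / 2))
      (x * ((ν⁻¹ - 1) / 2) + y * ((ν⁻¹ + 1) / 2))) := by
    rw [← am_mul]
    exact two_mul (am_comm _ _ _ _ _) ht hb'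
  have hn' : nm 1 (x * ((ν⁻¹ + 1) / 2) + 1 * y * ((ν⁻¹ - 1) / 2))
      (x * ((ν⁻¹ - 1) / 2) + y * ((ν⁻¹ + 1) / 2)) = 1 := by
    rw [nm_mul, nm_bnu h2, ← hνdef, mul_inv_cancel₀ hν0]
  have ha'T := (norm_one_memH hh T hES hzz hTc _ _ ha' hn'
    (ua_mul hh hU (ua_bnu hh ν⁻¹ hνq'))).2
  have e : EAt 1 x y ht = EAt 1 _ _ ha' * EAt 1 ((ν + 1) / 2) ((ν - 1) / 2) hb := by
    apply Subtype.ext
    show emb (am 1 x y) (nm 1 x y)⁻¹ =
      emb (am 1 (x * ((ν⁻¹ + 1) / 2) + 1 * y * ((ν⁻¹ - 1) / 2))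
        (x * ((ν⁻¹ - 1) / 2) + y * ((ν⁻¹ + 1) / 2)))
        (nm 1 (x * ((ν⁻¹ + 1) / 2) + 1 * y * ((ν⁻¹ - 1) / 2))
          (x * ((ν⁻¹ - 1) / 2) + y * ((ν⁻¹ + 1) / 2)))⁻¹ *
      emb (am 1 ((ν + 1) / 2) ((ν - 1) / 2)) (nm 1 ((ν + 1) / 2) ((ν - 1) / 2))⁻¹
    rw [emb_mul, hn', nm_bnu h2, inv_one, ← am_mul, Matrix.mul_assoc, bnu_inv h2 ν hν0,
      Matrix.mul_one, one_mul, hνdef]
  rw [e]
  exact Subgroup.mul_mem _ ha'T hbT

/-! ### The non-split case -/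

theorem pm_one_of (hq4 : q % 4 = 1) (m : ℕ) (ν : F) (h1 : ν ^ (2 ^ m) = 1)
    (h2 : ν ^ (q + 1) = 1) : ν = 1 ∨ ν = -1 := by
  have h3 : ν ^ Nat.gcd (2 ^ m) (q + 1) = 1 := pow_gcd_eq_one.2 ⟨h1, h2⟩
  have hd : Nat.gcd (2 ^ m) (q + 1) ∣ 2 := by
    obtain ⟨j, hj, hj'⟩ := (Nat.dvd_prime_pow Nat.prime_two).1
      (Nat.gcd_dvd_left (2 ^ m) (q + 1))
    have h4 : 2 ^ j ∣ q + 1 := hj' ▸ Nat.gcd_dvd_right (2 ^ m) (q + 1)
    rw [hj']
    by_contra hcon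
    have hj2 : 2 ≤ j := by
      by_contra hlt
      push_neg at hlt
      interval_cases j
      · exact hcon (by norm_num)
      · exact hcon (by norm_num)
    have h5 : 2 ^ 2 ∣ q + 1 := (pow_dvd_pow 2 hj2).trans h4
    omega
  obtain ⟨k, hk⟩ := hd
  have h6 : ν ^ 2 = 1 := by rw [hk, pow_mul, h3, one_pow]
  rw [pow_two] at h6
  exact mul_self_eq_one_iff.1 h6

theorem nonsplit_memH (hh : Hyp F q (-1)) (hq4 : q % 4 = 1)
    (T : Subgroup (SpecialLinearGroup (Fin 3) F)) (hES : ES F ∈ T) (hzz : zz F ∈ T)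
    (hTc : ∀ t ∈ T, ∀ g ∈ Cfsg.SU 3 F q, g * t * g⁻¹ ∈ UH F q (-1) → g * t * g⁻¹ ∈ T)
    (x y : F) (ht : Two (am (-1) x y)) (hU : UA q (-1) x y) : EAt (-1) x y ht ∈ T := by
  have hε : (-1 : F) * (-1) = 1 := by ring
  have h2 := hh.h2
  have hodd : Odd q := Nat.odd_iff.2 hh.hodd
  obtain ⟨m, hm⟩ := id ht
  have hνq := ua_nm hh.hε hh.hεq hh.hF hU
  rcases pm_one_of hq4 m _ (two_nm hm) (by rw [pow_succ']; exact hνq) with hn | hn
  · exact (norm_one_memH hh T hES hzz hTc x y ht hn hU).2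
  · have hn' : x * x + y * y = -1 := by
      unfold nm at hn
      linear_combination hn
    have hU' := hU
    obtain ⟨h1, h3⟩ := hU'
    have hxq : x ^ q = -x := by linear_combination x ^ q * hn' - x * h1 - y * h3
    have hyq : y ^ q = -y := by linear_combination y ^ q * hn' - y * h1 + x * h3
    obtain ⟨τ, hτ⟩ := unorm_surj hh.hF 2 hh.two_pow
    have hτ' : τ * τ ^ q = 2 := by
      rw [← pow_succ']
      exact hτ
    have hτ0 : τ ≠ 0 := by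
      rintro rfl
      rw [zero_mul] at hτ'
      exact h2 hτ'.symm
    have hT0 : τ ^ q ≠ 0 := pow_ne_zero _ hτ0
    have hJ := two_J hε
    have n1 : nm (-1 : F) 0 1 = 1 := by
      unfold nm
      ring
    have hJT : EAt (-1) 0 1 hJ ∈ T :=
      (norm_one_memH hh T hES hzz hTc 0 1 hJ n1 (ua_J hh)).2
    obtain ⟨gP, hgP⟩ : ∃ gP : SpecialLinearGroup (Fin 3) F,
        gP.1 = emb !![x / τ, (y - 1) / τ; (y + 1) / τ, -x / τ] (τ * τ / 2) :=
      ⟨mkE _ _ (by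
        rw [Matrix.det_fin_two]
        simp
        field_simp
        linear_combination -hn'), rfl⟩
    have hgPH : gP ∈ Cfsg.SU 3 F q := by
      rw [mem_SU_emb hh gP _ _ hgP]
      constructor
      · unfold Un2
        have hmap : (!![x / τ, (y - 1) / τ; (y + 1) / τ, -x / τ] :
            Matrix (Fin 2) (Fin 2) F).map (· ^ q) =
            !![-x / τ ^ q, (-y - 1) / τ ^ q; (-y + 1) / τ ^ q, x / τ ^ q] := by
          ext i j
          fin_cases i <;> fin_cases j <;>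
            simp [div_pow, frob_sub hh.hF, frob_add hh.hF, hxq, hyq, hodd.neg_pow]
        rw [hmap]
        ext i j
        fin_cases i <;> fin_cases j <;>
          simp [Matrix.mul_apply, Fin.sum_univ_two] <;> field_simp <;>
          first
            | ring1
            | linear_combination -hn' - hτ'
            | linear_combination hn' + hτ'
            | linear_combination -hn' + hτ'
            | linear_combination hn' - hτ'
      · rw [div_pow, mul_pow, hh.two_pow]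
        field_simp
        linear_combination (τ * τ ^ q + 2) * hτ'
    have hconj : gP * EAt (-1) 0 1 hJ * gP⁻¹ = ESt (-1) x y ht := by
      have h : gP * EAt (-1) 0 1 hJ = ESt (-1) x y ht * gP := by
        apply Subtype.ext
        show gP.1 * emb (am (-1) 0 1) (nm (-1) 0 1)⁻¹ =
          emb (am (-1) x y * sg) (-(nm (-1) x y)⁻¹) * gP.1
        rw [hgP, emb_mul, emb_mul, hn, n1]
        have e : !![x / τ, (y - 1) / τ; (y + 1) / τ, -x / τ] * am (-1) 0 1 =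
            am (-1) x y * sg * !![x / τ, (y - 1) / τ; (y + 1) / τ, -x / τ] := by
          ext i j
          fin_cases i <;> fin_cases j <;>
            simp [am, sg, Matrix.mul_apply, Fin.sum_univ_two] <;> field_simp <;>
            first | ring1 | linear_combination hn' | linear_combination -hn'
        rw [e]
        congr 1
        simp
      rw [h, mul_inv_cancel_right]
    have hST : ESt (-1) x y ht ∈ T := by
      rw [← hconj]
      apply hTc _ hJT gP hgPH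
      rw [hconj]
      exact ESt_memH hh _ _ ht hU
    rw [EAt_eq]
    exact Subgroup.mul_mem _ hST hES

/-- No proper nontrivial subgroup of `U` is closed under fusion of elements. -/
theorem hsc_UH {ε : F} (hh : Hyp F q ε)
    (hcase : ε = 1 ∨ (ε = -1 ∧ q % 4 = 1))
    (T : Subgroup (SpecialLinearGroup (Fin 3) F)) (hTU : T ≤ UH F q ε) (hT0 : T ≠ ⊥)
    (hTc : ∀ t ∈ T, ∀ g ∈ Cfsg.SU 3 F q, g * t * g⁻¹ ∈ UH F q ε → g * t * g⁻¹ ∈ T) :
    UH F q ε ≤ T := by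
  haveI : Fact (Nat.Prime 2) := ⟨Nat.prime_two⟩
  obtain ⟨t, htT, ht1, htc⟩ := Cfsg.Agent.Lib.helper25.exists_central_of_normal
    (isPGroup_UH ε) hTU hT0 (fun s hs t ht => hTc t ht s hs.2
      (Subgroup.mul_mem _ (Subgroup.mul_mem _ hs (hTU ht)) (Subgroup.inv_mem _ hs)))
  have hzz : zz F ∈ T := by
    obtain ⟨j, hj⟩ := central_pow_zzH hh t (hTU htT).1 ht1
      (htc _ (EAt_memH hh 0 1 (two_J hh.hε) (ua_J hh))) (htc _ (ES_memH hh))
    rw [← hj]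
    exact Subgroup.pow_mem _ htT _
  have hES : ES F ∈ T := by
    rw [← ww_conj]
    apply hTc _ hzz _ (ww_mem_SU hh)
    rw [ww_conj]
    exact ES_memH hh
  have hall : ∀ (x y : F) (ht : Two (am ε x y)), UA q ε x y → EAt ε x y ht ∈ T := by
    rcases hcase with rfl | ⟨rfl, hq4⟩
    · intro x y ht hU
      exact split_memH hh T hES hzz hTc x y ht hU
    · intro x y ht hU
      exact nonsplit_memH hh hq4 T hES hzz hTc x y ht hU
  intro u hu
  obtain ⟨x, y, ht, h | h⟩ := hu.1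
  · have e : u = EAt ε x y ht := Subtype.ext h
    rw [e]
    exact hall x y ht (ua_of_mem_a hh u hu.2 x y _ h)
  · have e : u = ESt ε x y ht := Subtype.ext h
    rw [e, ESt_eq]
    exact Subgroup.mul_mem _ (hall x y ht (ua_of_mem_s hh u hu.2 x y _ h)) hES

end Cfsg.Agent.Lib.helper25.SU3Odd
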