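import Mathlib
import Cfsg.Prelude.Def_FusionSystem
import Cfsg.Agent.Lib.helper25.SU3Odd5
import Cfsg.Agent.Lib.helper25.FusionSimple5

set_option autoImplicit false
set_option linter.unusedSectionVars false
set_option linter.unusedSimpArgs false

namespace Cfsg.Agent.Lib.helper25.SU3Odd

open Matrix
open Cfsg.Agent.Lib.helper25.SL3Odd
open Cfsg.Agent.Lib.helper4 (frob_frob frob_add frob_neg frob_sub unorm_surj)

variable {F : Type*} [Field F] [Fintype F] {q : ℕ}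

theorem exists_sqrt (hF : Fintype.card F = q ^ 2) (hodd : q % 2 = 1) (a : F)
    (ha : a ^ q = a) : ∃ r : F, r * r = a := by
  obtain ⟨c, hc⟩ := unorm_surj hF a ha
  refine ⟨c ^ ((q + 1) / 2), ?_⟩
  rw [← pow_add]
  have : (q + 1) / 2 + (q + 1) / 2 = q + 1 := by omega
  rw [this, hc]

theorem exists_b0_A (hh : Hyp F q 1) (hq4 : q % 4 = 3) :
    ∃ x0 y0 : F, (am 1 x0 y0 * am 1 x0 y0 = am 1 0 1 ∨
      am 1 x0 y0 * am 1 x0 y0 = am 1 0 (-1)) ∧ UA q 1 x0 y0 := by
  have h2 := hh.h2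
  obtain ⟨i, hi⟩ := exists_sqrt hh.hF hh.hodd (-1) hh.neg_one_pow
  have hi4 : i ^ 4 = 1 := by linear_combination (i * i - 1) * hi
  have hiq : i ^ q = -i := by
    obtain ⟨j, hj⟩ : ∃ j, q = 4 * j + 3 := ⟨q / 4, by omega⟩
    rw [hj, pow_add, pow_mul, hi4, one_pow, one_mul]
    linear_combination i * hi
  obtain ⟨h, hh2⟩ : ∃ h : F, 2 * h = 1 := ⟨2⁻¹, mul_inv_cancel₀ h2⟩
  have hhq : h ^ q = h := by
    have e : (2 * h) ^ q = 1 := by rw [hh2, one_pow]
    rw [mul_pow, hh.two_pow] at e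
    have : (2 : F) * (h ^ q - h) = 0 := by linear_combination e - hh2
    rcases mul_eq_zero.1 this with h' | h'
    · exact absurd h' h2
    · linear_combination h'
  refine ⟨h * (1 + i), h * (i - 1), Or.inr ?_, ?_⟩
  · rw [am_mul]
    congr 1
    · linear_combination (2 * h * h) * hi
    · linear_combination (2 * h * h) * hi - (1 + 2 * h) * hh2
  · unfold UA
    rw [mul_pow, mul_pow, frob_add hh.hF, frob_sub hh.hF, one_pow, hiq, hhq]
    constructor
    · linear_combination (2 * h + 1) * hh2 - 2 * h * h * hi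
    · linear_combination -2 * h * h * hi

theorem exists_b0_B (hh : Hyp F q (-1)) (hq4 : q % 4 = 1) :
    ∃ x0 y0 : F, (am (-1) x0 y0 * am (-1) x0 y0 = am (-1) 0 1 ∨
      am (-1) x0 y0 * am (-1) x0 y0 = am (-1) 0 (-1)) ∧ UA q (-1) x0 y0 := by
  have h2 := hh.h2
  obtain ⟨i, hi⟩ := exists_sqrt hh.hF hh.hodd (-1) hh.neg_one_pow
  have hi4 : i ^ 4 = 1 := by linear_combination (i * i - 1) * hi
  have hiq : i ^ q = i := by
    obtain ⟨j, hj⟩ : ∃ j, q = 4 * j + 1 := ⟨q / 4, by omega⟩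
    rw [hj, pow_add, pow_mul, hi4, one_pow, one_mul, pow_one]
  obtain ⟨r, hr⟩ := exists_sqrt hh.hF hh.hodd 2 hh.two_pow
  have hrq : r ^ q = r ∨ r ^ q = -r := by
    have e : r ^ q * r ^ q = r * r := by rw [← mul_pow, hr, hh.two_pow]
    have : (r ^ q - r) * (r ^ q + r) = 0 := by linear_combination e
    rcases mul_eq_zero.1 this with h' | h'
    · left
      linear_combination h'
    · right
      linear_combination h'
  obtain ⟨s, hs, hss⟩ : ∃ s : F, (s * s = 2 ∨ s * s = -2) ∧ s * s ^ q = 2 := by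
    rcases hrq with h' | h'
    · exact ⟨r, Or.inl hr, by rw [h', hr]⟩
    · refine ⟨i * r, Or.inr ?_, ?_⟩
      · linear_combination r * r * hi - hr
      · rw [mul_pow, hiq, h']
        linear_combination -(r * r) * hi + hr
  have hs0 : s ≠ 0 := by
    rintro rfl
    rw [zero_mul] at hss
    exact h2 hss.symm
  obtain ⟨t, ht⟩ : ∃ t : F, s * t = 1 := ⟨s⁻¹, mul_inv_cancel₀ hs0⟩
  have hST : s ^ q * t ^ q = 1 := by rw [← mul_pow, ht, one_pow]
  have hUA : UA q (-1) t t := by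
    unfold UA
    constructor
    · linear_combination -(t * t ^ q) * hss + (s ^ q * t ^ q) * ht + hST
    · ring
  rcases hs with hs | hs
  · refine ⟨t, t, Or.inl ?_, hUA⟩
    rw [am_mul]
    congr 1
    · ring
    · linear_combination (-t * t) * hs + (s * t + 1) * ht
  · refine ⟨t, t, Or.inr ?_, hUA⟩
    rw [am_mul]
    congr 1
    · ring
    · linear_combination (t * t) * hs - (s * t + 1) * ht

end Cfsg.Agent.Lib.helper25.SU3Odd

namespace Cfsg.Agent.Lib.helper25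

open Cfsg.Agent.Lib.helper25.SL3Odd Cfsg.Agent.Lib.helper25.SU3Odd

/-- The `2`-fusion system of `PSU_3(q)`, `q` odd, is simple. -/
theorem psu3_odd_fusion_simple {F : Type*} [Field F] [Fintype F] (q : ℕ)
    (hq : Fintype.card F = q ^ 2) (hodd : q % 2 = 1) (S : Sylow 2 (Cfsg.PSU 3 F q)) :
    (Cfsg.groupFusionSystem (S : Subgroup (Cfsg.PSU 3 F q))).IsSimple 2 := by
  haveI : Fact (Nat.Prime 2) := ⟨Nat.prime_two⟩
  have h2 : (2 : F) ≠ 0 := by
    apply Ring.two_ne_zero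
    intro h
    have h3 := FiniteField.even_card_iff_char_two.1 h
    rw [hq] at h3
    have h4 : q ^ 2 % 2 = 1 := by
      rw [Nat.pow_mod, hodd]
    omega
  obtain ⟨ε, hh, hcase, hb0⟩ : ∃ ε : F, Hyp F q ε ∧ (ε = 1 ∨ (ε = -1 ∧ q % 4 = 1)) ∧
      ∃ x0 y0 : F, (am ε x0 y0 * am ε x0 y0 = am ε 0 1 ∨
        am ε x0 y0 * am ε x0 y0 = am ε 0 (-1)) ∧ UA q ε x0 y0 := by
    by_cases hq4 : q % 4 = 1
    · have hh : Hyp F q (-1) :=
        ⟨hq, hodd, by ring, Odd.neg_one_pow (Nat.odd_iff.2 hodd), h2⟩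
      exact ⟨-1, hh, Or.inr ⟨rfl, hq4⟩, exists_b0_B hh hq4⟩
    · have hh : Hyp F q 1 := ⟨hq, hodd, one_mul 1, one_pow q, h2⟩
      exact ⟨1, hh, Or.inl rfl, exists_b0_A hh (by omega)⟩
  set φ : Cfsg.SU 3 F q →* Cfsg.PSU 3 F q :=
    QuotientGroup.mk' (Subgroup.center (Cfsg.SU 3 F q)) with hφ
  have hφker : φ.ker = Subgroup.center (Cfsg.SU 3 F q) := QuotientGroup.ker_mk' _
  have hφsurj : Function.Surjective φ := QuotientGroup.mk'_surjective _
  have hcop : (Nat.card φ.ker).Coprime 2 := by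
    rw [hφker, Cfsg.Agent.Lib.helper4.card_center_su hq (by norm_num)]
    exact Nat.Coprime.coprime_dvd_left (Nat.gcd_dvd_left 3 _) (by norm_num)
  exact isSimple_groupFusion_of_closed_cover_sub (Cfsg.SU 3 F q) 2 φ hφsurj hφker.le hcop
    (UH F q ε) inf_le_right (exists_sylow_UH hh hb0) (UH_ne_bot hh) (hsc_UH hh hcase)
    (hnorm_UH hh hb0) S

end Cfsg.Agent.Lib.helper25
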