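import Mathlib
import Cfsg.Agent.Lib.helper4.UBasic

set_option autoImplicit false
set_option linter.unusedSectionVars false
set_option linter.unusedSimpArgs false
set_option linter.unusedVariables false

/-!
Congruence orbits of hermitian matrices over a field with `q ^ 2` elements under products of
elementary matrices: every nonzero hermitian `m × m` matrix (`m ≥ 2`) has at least
`(q ^ (2 m) - 1) / (q + 1)` congruent matrices.
-/

namespace Cfsg.Agent.Lib.helper25.SUDeg

open Matrix
open Cfsg.Agent.Lib.helper4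

variable {K : Type*} [Field K] [Fintype K] [DecidableEq K] {q : ℕ} {m : ℕ}

/-- conjugate transpose -/
def cj (q : ℕ) {a b : ℕ} (A : Matrix (Fin a) (Fin b) K) : Matrix (Fin b) (Fin a) K :=
  Matrix.of fun i j => (A j i) ^ q

theorem cj_apply {a b : ℕ} (A : Matrix (Fin a) (Fin b) K) (i : Fin b) (j : Fin a) :
    cj q A i j = (A j i) ^ q := rfl

theorem cj_add (hK : Fintype.card K = q ^ 2) {a b : ℕ} (A B : Matrix (Fin a) (Fin b) K) :
    cj q (A + B) = cj q A + cj q B := by
  ext i j
  rw [Matrix.add_apply, cj_apply, cj_apply, cj_apply, Matrix.add_apply, frob_add hK]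

theorem cj_sub (hK : Fintype.card K = q ^ 2) {a b : ℕ} (A B : Matrix (Fin a) (Fin b) K) :
    cj q (A - B) = cj q A - cj q B := by
  ext i j
  rw [Matrix.sub_apply, cj_apply, cj_apply, cj_apply, Matrix.sub_apply, frob_sub hK]

theorem cj_neg (hK : Fintype.card K = q ^ 2) {a b : ℕ} (A : Matrix (Fin a) (Fin b) K) :
    cj q (-A) = -cj q A := by
  ext i j
  rw [Matrix.neg_apply, cj_apply, cj_apply, Matrix.neg_apply, frob_neg hK]

theorem cj_mul (hK : Fintype.card K = q ^ 2) {a b c : ℕ} (A : Matrix (Fin a) (Fin b) K)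
    (B : Matrix (Fin b) (Fin c) K) : cj q (A * B) = cj q B * cj q A := by
  ext i j
  rw [cj_apply, Matrix.mul_apply, Matrix.mul_apply, frob_sum hK]
  refine Finset.sum_congr rfl (fun x _ => ?_)
  rw [cj_apply, cj_apply, mul_pow, mul_comm]

theorem cj_cj (hK : Fintype.card K = q ^ 2) {a b : ℕ} (A : Matrix (Fin a) (Fin b) K) :
    cj q (cj q A) = A := by
  ext i j
  rw [cj_apply, cj_apply, frob_frob hK]

theorem cj_one (hK : Fintype.card K = q ^ 2) {a : ℕ} :
    cj q (1 : Matrix (Fin a) (Fin a) K) = 1 := by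
  have hq := uq_ge_two hK
  ext i j
  rw [cj_apply, Matrix.one_apply, Matrix.one_apply]
  by_cases h : i = j
  · rw [if_pos h, if_pos h.symm, one_pow]
  · rw [if_neg h, if_neg (fun h' => h h'.symm), zero_pow (by omega)]

theorem cj_zero (hK : Fintype.card K = q ^ 2) {a b : ℕ} :
    cj q (0 : Matrix (Fin a) (Fin b) K) = 0 := by
  have hq := uq_ge_two hK
  ext i j
  rw [cj_apply, Matrix.zero_apply, Matrix.zero_apply, zero_pow (by omega)]

theorem cj_single (hK : Fintype.card K = q ^ 2) {a b : ℕ} (i : Fin a) (j : Fin b) (t : K) :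
    cj q (Matrix.single i j t) = Matrix.single j i (t ^ q) := by
  have hq := uq_ge_two hK
  ext x y
  rw [cj_apply, Matrix.single_apply, Matrix.single_apply]
  by_cases h : i = y ∧ j = x
  · rw [if_pos h, if_pos ⟨h.2, h.1⟩]
  · rw [if_neg h, if_neg (fun h' => h ⟨h'.2, h'.1⟩), zero_pow (by omega)]

theorem cj_smul (hK : Fintype.card K = q ^ 2) {a b : ℕ} (c : K) (A : Matrix (Fin a) (Fin b) K) :
    cj q (c • A) = c ^ q • cj q A := by
  ext i j
  rw [cj_apply, Matrix.smul_apply, Matrix.smul_apply, cj_apply, smul_eq_mul, smul_eq_mul, mul_pow]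

/-- products of elementary matrices -/
inductive Mv (m : ℕ) (K : Type*) [Field K] : Matrix (Fin m) (Fin m) K → Prop
  | one : Mv m K 1
  | step (A : Matrix (Fin m) (Fin m) K) (i j : Fin m) (hij : i ≠ j) (t : K) :
      Mv m K A → Mv m K (A * (1 + Matrix.single i j t))

theorem Mv.el (i j : Fin m) (hij : i ≠ j) (t : K) : Mv m K (1 + Matrix.single i j t) := by
  have := Mv.step (1 : Matrix (Fin m) (Fin m) K) i j hij t Mv.one
  rwa [Matrix.one_mul] at this

theorem Mv.mul {A B : Matrix (Fin m) (Fin m) K} (hA : Mv m K A) (hB : Mv m K B) :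
    Mv m K (A * B) := by
  induction hB with
  | one => rwa [Matrix.mul_one]
  | step B i j hij t _ ih =>
    rw [← Matrix.mul_assoc]
    exact Mv.step _ i j hij t ih

theorem Mv.cj (hK : Fintype.card K = q ^ 2) {A : Matrix (Fin m) (Fin m) K} (hA : Mv m K A) :
    Mv m K (cj q A) := by
  induction hA with
  | one => rw [cj_one hK]; exact Mv.one
  | step B i j hij t _ ih =>
    rw [cj_mul hK, cj_add hK, cj_one hK, cj_single hK]
    exact Mv.mul (Mv.el j i (fun h => hij h.symm) _) ih

/-- a relation closed under elementary congruences is closed under all congruences -/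
theorem rel_of_Mv (hK : Fintype.card K = q ^ 2)
    (R : Matrix (Fin m) (Fin m) K → Matrix (Fin m) (Fin m) K → Prop)
    (hrefl : ∀ B, R B B) (htrans : ∀ B B' B'', R B B' → R B' B'' → R B B'')
    (hel : ∀ (B : Matrix (Fin m) (Fin m) K) (i j : Fin m), i ≠ j → ∀ t : K,
      R B (cj q (1 + Matrix.single i j t) * B * (1 + Matrix.single i j t)))
    {A : Matrix (Fin m) (Fin m) K} (hA : Mv m K A) (B : Matrix (Fin m) (Fin m) K) :
    R B (cj q A * B * A) := by
  induction hA with
  | one => rw [cj_one hK, Matrix.one_mul, Matrix.mul_one]; exact hrefl B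
  | step A i j hij t _ ih =>
    have e : cj q (A * (1 + Matrix.single i j t)) * B * (A * (1 + Matrix.single i j t))
        = cj q (1 + Matrix.single i j t) * (cj q A * B * A) * (1 + Matrix.single i j t) := by
      rw [cj_mul hK]
      simp only [Matrix.mul_assoc]
    rw [e]
    exact htrans _ _ _ ih (hel _ i j hij t)

theorem herm_cong (hK : Fintype.card K = q ^ 2) (A B : Matrix (Fin m) (Fin m) K)
    (hB : cj q B = B) : cj q (cj q A * B * A) = cj q A * B * A := by
  rw [cj_mul hK, cj_mul hK, cj_cj hK, hB, Matrix.mul_assoc]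

/-- entries of a congruence -/
theorem cong_apply (A B : Matrix (Fin m) (Fin m) K) (x y : Fin m) :
    (cj q A * B * A) x y = ∑ a, ∑ b, (A a x) ^ q * B a b * A b y := by
  rw [Matrix.mul_apply]
  simp only [Matrix.mul_apply, cj_apply, Finset.sum_mul]
  exact Finset.sum_comm

/-- entries of an elementary congruence -/
theorem el_cong_apply (hK : Fintype.card K = q ^ 2) (B : Matrix (Fin m) (Fin m) K)
    (r c : Fin m) (hrc : r ≠ c) (t : K) (x y : Fin m) :
    (cj q (1 + Matrix.single r c t : Matrix (Fin m) (Fin m) K) * B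
        * (1 + Matrix.single r c t) : Matrix (Fin m) (Fin m) K) x y
      = B x y + (if y = c then B x r * t else 0) + (if x = c then t ^ q * B r y else 0)
        + (if x = c ∧ y = c then t ^ q * B r r * t else 0) := by
  rw [cj_add hK, cj_one hK, cj_single hK]
  have e : (1 + Matrix.single c r (t ^ q)) * B * (1 + Matrix.single r c t)
      = B + B * Matrix.single r c t + Matrix.single c r (t ^ q) * B
        + Matrix.single c r (t ^ q) * B * Matrix.single r c t := by
    simp only [Matrix.add_mul, Matrix.mul_add, Matrix.one_mul, Matrix.mul_one]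
    abel
  rw [e, Matrix.single_mul_mul_single, Matrix.add_apply, Matrix.add_apply, Matrix.add_apply]
  congr 1
  · congr 1
    · congr 1
      by_cases hy : y = c
      · rw [if_pos hy, hy, Matrix.mul_single_apply_same]
      · rw [if_neg hy, Matrix.mul_single_apply_of_ne (hbj := hy)]
    · by_cases hx : x = c
      · rw [if_pos hx, hx, Matrix.single_mul_apply_same]
      · rw [if_neg hx, Matrix.single_mul_apply_of_ne (h := hx)]
  · rw [Matrix.single_apply]
    by_cases h : x = c ∧ y = c
    · rw [if_pos h, if_pos ⟨h.1.symm, h.2.symm⟩]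
    · rw [if_neg h, if_neg (fun h' => h ⟨h'.1.symm, h'.2.symm⟩)]

theorem ite_pow0 (hK : Fintype.card K = q ^ 2) (c : Prop) [Decidable c] (x : K) :
    (if c then x else 0) ^ q = if c then x ^ q else 0 := by
  have hq := uq_ge_two hK
  split_ifs
  · rfl
  · exact zero_pow (by omega)

theorem exists_tr_ne (hK : Fintype.card K = q ^ 2) : ∃ y : K, y + y ^ q ≠ 0 := by
  by_contra h
  push Not at h
  have h1 : (1 : K) + 1 = 0 := by
    have := h 1
    rwa [one_pow] at this
  obtain ⟨x, hx⟩ := exists_frob_ne hK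
  apply hx
  have h2 := h x
  have h3 : x + x = 0 := by linear_combination x * h1
  linear_combination h2 - h3

/-- row update matrices are products of elementary matrices -/
theorem Mv_row (r : Fin m) (s : Fin m → K) (hr : s r = 0) (S : Finset (Fin m)) :
    Mv m K (1 + ∑ a ∈ S, Matrix.single r a (s a)) := by
  classical
  induction S using Finset.induction_on with
  | empty => rw [Finset.sum_empty, add_zero]; exact Mv.one
  | insert a S ha ih =>
    rw [Finset.sum_insert ha]
    by_cases har : a = r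
    · rw [har, hr, Matrix.single_zero, zero_add]
      exact ih
    · have e : (1 + (Matrix.single r a (s a) + ∑ a ∈ S, Matrix.single r a (s a)))
          = (1 + ∑ a ∈ S, Matrix.single r a (s a)) * (1 + Matrix.single r a (s a)) := by
        have hz : ∑ b ∈ S, Matrix.single r b (s b) * Matrix.single r a (s a) = 0 := by
          apply Finset.sum_eq_zero
          intro b _
          by_cases hbr : b = r
          · rw [hbr, hr, Matrix.single_zero, Matrix.zero_mul]
          · exact Matrix.single_mul_single_of_ne (h := hbr) ..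
        rw [Matrix.mul_add, Matrix.mul_one, Matrix.add_mul, Matrix.one_mul, Finset.sum_mul, hz]
        abel
      rw [e]
      exact Mv.step _ r a (fun h => har h.symm) _ ih

theorem rowM_apply (r : Fin m) (s : Fin m → K) (b y : Fin m) :
    (∑ a, Matrix.single r a (s a) : Matrix (Fin m) (Fin m) K) b y = if r = b then s y else 0 := by
  rw [Matrix.sum_apply]
  by_cases h : r = b
  · simp [Matrix.single_apply, h]
  · simp [Matrix.single_apply, h]

/-- column update matrices are products of elementary matrices -/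
theorem Mv_col (c : Fin m) (v : Fin m → K) (hc : v c = 0) (S : Finset (Fin m)) :
    Mv m K (1 + ∑ a ∈ S, Matrix.single a c (v a)) := by
  classical
  induction S using Finset.induction_on with
  | empty => rw [Finset.sum_empty, add_zero]; exact Mv.one
  | insert a S ha ih =>
    rw [Finset.sum_insert ha]
    by_cases hac : a = c
    · rw [hac, hc, Matrix.single_zero, zero_add]
      exact ih
    · have e : (1 + (Matrix.single a c (v a) + ∑ a ∈ S, Matrix.single a c (v a)))
          = (1 + ∑ a ∈ S, Matrix.single a c (v a)) * (1 + Matrix.single a c (v a)) := by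
        have hz : ∑ b ∈ S, Matrix.single b c (v b) * Matrix.single a c (v a) = 0 := by
          apply Finset.sum_eq_zero
          intro b _
          exact Matrix.single_mul_single_of_ne (h := fun h => hac h.symm) ..
        rw [Matrix.mul_add, Matrix.mul_one, Matrix.add_mul, Matrix.one_mul, Finset.sum_mul, hz]
        abel
      rw [e]
      exact Mv.step _ a c hac _ ih

theorem colM_apply (c : Fin m) (v : Fin m → K) (b y : Fin m) :
    (∑ a, Matrix.single a c (v a) : Matrix (Fin m) (Fin m) K) b y = if c = y then v b else 0 := by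
  rw [Matrix.sum_apply]
  by_cases h : c = y
  · simp [Matrix.single_apply, h]
  · simp [Matrix.single_apply, h]

theorem el_mulVec (i j : Fin m) (c : K) (w : Fin m → K) (b : Fin m) :
    ((1 + Matrix.single i j c : Matrix (Fin m) (Fin m) K) *ᵥ w) b
      = w b + if b = i then c * w j else 0 := by
  rw [Matrix.add_mulVec, Matrix.one_mulVec, Matrix.single_mulVec, Pi.add_apply,
    Function.update_apply, Pi.zero_apply]

/-- the shifting lemma -/
theorem shift (hK : Fintype.card K = q ^ 2) (X : Matrix (Fin m) (Fin m) K) (r z : Fin m)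
    (s : Fin m → K) (hr : s r = 0) (hz : s z = 0) :
    ∃ A, Mv m K A ∧ ∀ a, (cj q A * X * A) a z = X a z + (s a) ^ q * X r z := by
  refine ⟨1 + ∑ a, Matrix.single r a (s a), Mv_row r s hr Finset.univ, ?_⟩
  intro a
  rw [cong_apply]
  have hA : ∀ b y, (1 + ∑ a, Matrix.single r a (s a) : Matrix (Fin m) (Fin m) K) b y
      = (if b = y then 1 else 0) + if r = b then s y else 0 := by
    intro b y
    rw [Matrix.add_apply, rowM_apply, Matrix.one_apply]
  simp only [hA]
  have h1 : ∀ c, ((if c = z then (1 : K) else 0) + if r = c then s z else 0)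
      = if c = z then 1 else 0 := by
    intro c
    rw [hz]
    simp
  have h2 : ∀ b, ((if b = a then (1 : K) else 0) + if r = b then s a else 0) ^ q
      = (if b = a then 1 else 0) + if r = b then (s a) ^ q else 0 := by
    intro b
    rw [frob_add hK, ite_pow0 hK, ite_pow0 hK, one_pow]
  simp only [h1, h2, mul_ite, mul_one, mul_zero, Finset.sum_ite_eq', Finset.mem_univ, if_true,
    add_mul, ite_mul, one_mul, zero_mul, Finset.sum_add_distrib, Finset.sum_ite_eq]

/-- transitivity on nonzero vectors -/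
theorem lemV (z z' : Fin m) (hzz' : z' ≠ z) (v : Fin m → K) (hv : v ≠ 0) :
    ∃ A, Mv m K A ∧ A *ᵥ Pi.single z 1 = v := by
  -- the case `v z = 1`
  have hA : ∀ w : Fin m → K, w z = 1 → ∃ A, Mv m K A ∧ A *ᵥ Pi.single z 1 = w := by
    intro w hw
    refine ⟨1 + ∑ a, Matrix.single a z ((w - Pi.single z 1 : Fin m → K) a),
      Mv_col z _ (by rw [Pi.sub_apply, Pi.single_eq_same, hw, sub_self]) Finset.univ, ?_⟩
    rw [Matrix.mulVec_single_one]
    funext b
    rw [Matrix.col_apply, Matrix.add_apply, colM_apply, if_pos rfl, Matrix.one_apply,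
      Pi.sub_apply, Pi.single_apply]
    ring
  -- the case of a nonzero coordinate off `z`
  have hB : ∀ w : Fin m → K, (∃ j, j ≠ z ∧ w j ≠ 0) → ∃ A, Mv m K A ∧ A *ᵥ Pi.single z 1 = w := by
    intro w ⟨j, hjz, hwj⟩
    obtain ⟨A, hA1, hA2⟩ := hA (fun b => w b + if b = z then ((1 - w z) / w j) * w j else 0) (by
      simp only [if_true]
      field_simp
      ring)
    refine ⟨(1 + Matrix.single z j (-((1 - w z) / w j))) * A,
      Mv.mul (Mv.el z j (fun h => hjz h.symm) _) hA1, ?_⟩
    rw [← Matrix.mulVec_mulVec, hA2]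
    funext b
    rw [el_mulVec]
    simp only [if_neg hjz, add_zero]
    by_cases hb : b = z
    · simp only [if_pos hb]
      ring
    · simp only [if_neg hb, add_zero]
  by_cases h : ∃ j, j ≠ z ∧ v j ≠ 0
  · exact hB v h
  · push Not at h
    have hvz : v z ≠ 0 := by
      intro h0
      apply hv
      funext b
      by_cases hb : b = z
      · rw [hb, h0]; rfl
      · exact h b hb
    obtain ⟨A, hA1, hA2⟩ := hB (fun b => v b + if b = z' then (1 / v z) * v z else 0)
      ⟨z', hzz', by
        simp only [if_true]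
        rw [h z' hzz', zero_add]
        field_simp
        exact one_ne_zero⟩
    refine ⟨(1 + Matrix.single z' z (-(1 / v z))) * A,
      Mv.mul (Mv.el z' z hzz' _) hA1, ?_⟩
    rw [← Matrix.mulVec_mulVec, hA2]
    funext b
    rw [el_mulVec]
    simp only [if_neg (fun h : z = z' => hzz' h.symm), add_zero]
    by_cases hb : b = z'
    · simp only [if_pos hb]
      ring
    · simp only [if_neg hb, add_zero]

/-- a nonzero hermitian matrix is congruent to one with a nonzero `(z, z)` entry -/
theorem normD1 (hK : Fintype.card K = q ^ 2) (z z' : Fin m) (hzz' : z' ≠ z)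
    (B : Matrix (Fin m) (Fin m) K) (hB : cj q B = B) (hB0 : B ≠ 0) :
    ∃ A, Mv m K A ∧ (cj q A * B * A) z z ≠ 0 := by
  have hq := uq_ge_two hK
  have hsym : ∀ i j, B j i = (B i j) ^ q := by
    intro i j
    have := congrFun (congrFun hB j) i
    rw [cj_apply] at this
    exact this.symm
  have h1 : ∃ A₁, Mv m K A₁ ∧ ∃ i, (cj q A₁ * B * A₁) i i ≠ 0 := by
    by_cases hd : ∃ i, B i i ≠ 0
    · obtain ⟨i, hi⟩ := hd
      exact ⟨1, Mv.one, i, by rwa [cj_one hK, Matrix.one_mul, Matrix.mul_one]⟩
    · push Not at hd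
      have : ∃ i j, B i j ≠ 0 := by
        by_contra h
        push Not at h
        exact hB0 (Matrix.ext h)
      obtain ⟨i, j, hij⟩ := this
      have hne : i ≠ j := by
        rintro rfl
        exact hij (hd i)
      obtain ⟨y₀, hy₀⟩ := exists_tr_ne hK
      refine ⟨1 + Matrix.single j i (y₀ / B i j), Mv.el j i (fun h => hne h.symm) _, i, ?_⟩
      rw [el_cong_apply hK B j i (fun h => hne h.symm), if_pos rfl, if_pos rfl, if_pos ⟨rfl, rfl⟩,
        hd i, hd j, hsym i j, ← mul_pow]
      have e : B i j * (y₀ / B i j) = y₀ := by field_simp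
      have e' : y₀ / B i j * B i j = y₀ := by field_simp
      rw [e, e']
      intro h0
      apply hy₀
      linear_combination h0
  obtain ⟨A₁, hA₁, i, hi⟩ := h1
  obtain ⟨A₂, hA₂, hA₂v⟩ := lemV z z' hzz' (Pi.single i (1 : K)) (by
    intro h
    have := congrFun h i
    rw [Pi.single_eq_same, Pi.zero_apply] at this
    exact one_ne_zero this)
  refine ⟨A₁ * A₂, Mv.mul hA₁ hA₂, ?_⟩
  have e : cj q (A₁ * A₂) * B * (A₁ * A₂) = cj q A₂ * (cj q A₁ * B * A₁) * A₂ := by
    rw [cj_mul hK]
    simp only [Matrix.mul_assoc]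
  rw [e, cong_apply]
  have hcol : ∀ a, A₂ a z = (Pi.single i (1 : K) : Fin m → K) a := by
    intro a
    rw [← hA₂v, Matrix.mulVec_single_one]
    rfl
  simp only [hcol, Pi.single_apply, ite_pow0 hK, one_pow, ite_mul, one_mul, zero_mul, mul_ite,
    mul_one, mul_zero, Finset.sum_ite_eq', Finset.mem_univ, if_true]
  exact hi

/-- clearing the `z`-th column -/
theorem normD2 (hK : Fintype.card K = q ^ 2) (z : Fin m)
    (B : Matrix (Fin m) (Fin m) K) (hβ : B z z ≠ 0) :
    ∃ A, Mv m K A ∧ (cj q A * B * A) z z = B z z ∧ ∀ a, a ≠ z → (cj q A * B * A) a z = 0 := by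
  obtain ⟨A, hA, hA2⟩ := shift hK B z z (fun a => if a = z then 0 else (-(B a z) / B z z) ^ q)
    (by rw [if_pos rfl]) (by rw [if_pos rfl])
  refine ⟨A, hA, ?_, ?_⟩
  · rw [hA2, if_pos rfl, zero_pow (by have := uq_ge_two hK; omega), zero_mul, add_zero]
  · intro a ha
    rw [hA2, if_neg ha, frob_frob hK]
    field_simp
    ring

/-- the congruence orbit relation -/
def Orb (q : ℕ) (B B' : Matrix (Fin m) (Fin m) K) : Prop :=
  ∃ A, Mv m K A ∧ B' = cj q A * B * A

theorem Orb.trans (hK : Fintype.card K = q ^ 2) {B B' B'' : Matrix (Fin m) (Fin m) K}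
    (h1 : Orb q B B') (h2 : Orb q B' B'') : Orb q B B'' := by
  obtain ⟨A, hA, rfl⟩ := h1
  obtain ⟨A', hA', rfl⟩ := h2
  refine ⟨A * A', Mv.mul hA hA', ?_⟩
  rw [cj_mul hK]
  simp only [Matrix.mul_assoc]

theorem Orb.herm (hK : Fintype.card K = q ^ 2) {B B' : Matrix (Fin m) (Fin m) K}
    (hB : cj q B = B) (h1 : Orb q B B') : cj q B' = B' := by
  obtain ⟨A, hA, rfl⟩ := h1
  exact herm_cong hK A B hB

theorem Orb.el (B : Matrix (Fin m) (Fin m) K) (i j : Fin m) (hij : i ≠ j) (t : K) :
    Orb q B (cj q (1 + Matrix.single i j t) * B * (1 + Matrix.single i j t)) :=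
  ⟨_, Mv.el i j hij t, rfl⟩

/-- the number of nonzero fixed elements -/
theorem card_fix (hK : Fintype.card K = q ^ 2) :
    (Finset.univ.filter (fun b : K => b ^ q = b ∧ b ≠ 0)).card * (q + 1) + 1 = q ^ 2 := by
  classical
  have hq := uq_ge_two hK
  have h1 : (Finset.univ.filter (fun x : K => x ≠ 0)).card
      = ∑ b ∈ Finset.univ.filter (fun b : K => b ^ q = b ∧ b ≠ 0),
        ((Finset.univ.filter (fun x : K => x ≠ 0)).filter (fun a => a ^ (q + 1) = b)).card := by
    apply Finset.card_eq_sum_card_fiberwise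
    intro x hx
    rw [Finset.mem_coe, Finset.mem_filter] at hx
    rw [Finset.mem_coe, Finset.mem_filter]
    exact ⟨Finset.mem_univ _, unorm_fixed hK x, pow_ne_zero _ hx.2⟩
  have h2 : ∀ b ∈ Finset.univ.filter (fun b : K => b ^ q = b ∧ b ≠ 0),
      ((Finset.univ.filter (fun x : K => x ≠ 0)).filter (fun a => a ^ (q + 1) = b)).card
        = q + 1 := by
    intro b hb
    rw [Finset.mem_filter] at hb
    have h3 := card_norm_fiber hK b hb.2.1 hb.2.2
    rw [Nat.card_eq_fintype_card, Fintype.card_subtype] at h3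
    refine Eq.trans ?_ h3
    congr 1
    ext a
    simp only [Finset.mem_filter, Finset.mem_univ, true_and, and_iff_right_iff_imp]
    intro ha h0
    rw [h0, zero_pow (by omega)] at ha
    exact hb.2.2 ha.symm
  rw [Finset.sum_congr rfl h2, Finset.sum_const, smul_eq_mul] at h1
  have h4 : (Finset.univ.filter (fun x : K => x ≠ 0)).card = q ^ 2 - 1 := by
    rw [Finset.filter_ne', Finset.card_erase_of_mem (Finset.mem_univ _), Finset.card_univ, hK]
  rw [h4] at h1
  have h5 : 1 ≤ q ^ 2 := Nat.one_le_pow _ _ (by omega)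
  omega

/-- the rank one case -/
theorem orbit_case1 (hK : Fintype.card K = q ^ 2) (z z' : Fin m) (hzz' : z' ≠ z) (β : K)
    (hβ : β ≠ 0) :
    ∃ T : Finset (Matrix (Fin m) (Fin m) K), (∀ B ∈ T, Orb q (Matrix.single z z β) B) ∧
      q ^ (2 * m) ≤ (q + 1) * T.card + 1 := by
  classical
  have hq := uq_ge_two hK
  let φ : (Fin m → K) → Matrix (Fin m) (Fin m) K :=
    fun v => Matrix.of fun x y => v x * β * (v y) ^ q
  let s : Finset (Fin m → K) := Finset.univ.filter (fun v => v ≠ 0)
  refine ⟨s.image φ, ?_, ?_⟩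
  · intro B hB
    obtain ⟨v, hv, rfl⟩ := Finset.mem_image.1 hB
    have hv0 : v ≠ 0 := (Finset.mem_filter.1 hv).2
    obtain ⟨A, hA, hAv⟩ := lemV z z' hzz' v hv0
    refine ⟨cj q A, Mv.cj hK hA, ?_⟩
    rw [cj_cj hK]
    have hcol : ∀ a, A a z = v a := by
      intro a
      rw [← hAv, Matrix.mulVec_single_one]
      rfl
    ext x y
    rw [Matrix.mul_apply, Finset.sum_eq_single z]
    · rw [Matrix.mul_single_apply_same, cj_apply, hcol, hcol]
      rfl
    · intro k _ hk
      rw [Matrix.mul_single_apply_of_ne (hbj := hk), zero_mul]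
    · intro h
      exact absurd (Finset.mem_univ z) h
  · have hcard : s.card = (q ^ 2) ^ m - 1 := by
      show (Finset.univ.filter (fun v : Fin m → K => v ≠ 0)).card = _
      rw [Finset.filter_ne', Finset.card_erase_of_mem (Finset.mem_univ _), Finset.card_univ,
        Fintype.card_fun, hK, Fintype.card_fin]
    have hle : s.card ≤ (q + 1) * (s.image φ).card := by
      apply Finset.card_le_mul_card_image
      intro b hb
      obtain ⟨v₀, hv₀, rfl⟩ := Finset.mem_image.1 hb
      have hv₀0 : v₀ ≠ 0 := (Finset.mem_filter.1 hv₀).2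
      have : ∃ i, v₀ i ≠ 0 := by
        by_contra h
        push Not at h
        exact hv₀0 (funext h)
      obtain ⟨i, hi⟩ := this
      have hfib := card_norm_fiber hK ((v₀ i) ^ (q + 1)) (unorm_fixed hK _) (pow_ne_zero _ hi)
      rw [Nat.card_eq_fintype_card, Fintype.card_subtype] at hfib
      rw [← hfib]
      have hval : ∀ w ∈ s.filter (fun w => φ w = φ v₀), (w i) ^ (q + 1) = (v₀ i) ^ (q + 1) := by
        intro w hw
        have h1 := congrFun (congrFun (Finset.mem_filter.1 hw).2 i) i
        have h2 : w i * β * (w i) ^ q = v₀ i * β * (v₀ i) ^ q := h1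
        have h3 : β * (w i) ^ (q + 1) = β * (v₀ i) ^ (q + 1) := by
          rw [pow_succ', pow_succ']
          linear_combination h2
        exact mul_left_cancel₀ hβ h3
      apply Finset.card_le_card_of_injOn (fun w => w i)
      · intro w hw
        rw [Finset.mem_coe, Finset.mem_filter]
        exact ⟨Finset.mem_univ _, hval w (Finset.mem_coe.1 hw)⟩
      · intro w hw w' hw' hww
        rw [Finset.mem_coe] at hw hw'
        have hwi : w i ≠ 0 := by
          intro h0
          have := hval w hw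
          rw [h0, zero_pow (by omega)] at this
          exact pow_ne_zero _ hi this.symm
        funext x
        have h1 := congrFun (congrFun (Finset.mem_filter.1 hw).2 x) i
        have h1' := congrFun (congrFun (Finset.mem_filter.1 hw').2 x) i
        have h2 : w x * β * (w i) ^ q = w' x * β * (w' i) ^ q := h1.trans h1'.symm
        have hww' : w' i = w i := hww.symm
        rw [hww'] at h2
        have h3 : β * (w i) ^ q ≠ 0 := mul_ne_zero hβ (pow_ne_zero _ hwi)
        apply mul_right_cancel₀ h3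
        linear_combination h2
    have h1 : 1 ≤ (q ^ 2) ^ m := Nat.one_le_pow _ _ (by positivity)
    rw [pow_mul]
    omega

/-- the rank at least two case -/
theorem orbit_case2 (hK : Fintype.card K = q ^ 2) (hm : 2 ≤ m) (z i : Fin m) (hiz : i ≠ z)
    (B : Matrix (Fin m) (Fin m) K) (hB : cj q B = B) (hβ : B z z ≠ 0) (hγ : B i i ≠ 0)
    (hcol : ∀ a, a ≠ z → B a z = 0) :
    ∃ T : Finset (Matrix (Fin m) (Fin m) K), (∀ B' ∈ T, Orb q B B') ∧
      q ^ (2 * m) ≤ (q + 1) * T.card + 1 := by
  classical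
  have hq := uq_ge_two hK
  have hsym : ∀ a b, B b a = (B a b) ^ q := by
    intro a b
    have := congrFun (congrFun hB b) a
    rw [cj_apply] at this
    exact this.symm
  have hrow : ∀ a, a ≠ z → B z a = 0 := fun a ha => by
    rw [hsym a z, hcol a ha, zero_pow (by omega)]
  have hβq : (B z z) ^ q = B z z := (hsym z z).symm
  have hγq : (B i i) ^ q = B i i := (hsym i i).symm
  have hX : ∀ t : K,
      (cj q (1 + Matrix.single i z t : Matrix (Fin m) (Fin m) K) * B
        * (1 + Matrix.single i z t) : Matrix (Fin m) (Fin m) K) z z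
          = B z z + B i i * t ^ (q + 1) ∧
      (cj q (1 + Matrix.single i z t : Matrix (Fin m) (Fin m) K) * B
        * (1 + Matrix.single i z t) : Matrix (Fin m) (Fin m) K) i z = B i i * t := by
    intro t
    constructor
    · rw [el_cong_apply hK B i z hiz, if_pos rfl, if_pos rfl, if_pos ⟨rfl, rfl⟩, hrow i hiz,
        hcol i hiz]
      ring
    · rw [el_cong_apply hK B i z hiz, if_pos rfl, if_neg hiz,
        if_neg (fun h : i = z ∧ z = z => hiz h.1), hcol i hiz]
      ring
  have hF1 : ∀ (b : K) (hb : b ^ q = b ∧ b ≠ 0) (x : {a : Fin m // a ≠ z} → K),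
      ∃ Y, Orb q B Y ∧ Y z z = b ∧ ∀ a (ha : a ≠ z), Y a z = x ⟨a, ha⟩ := by
    intro b hb x
    obtain ⟨t, ht⟩ := unorm_surj hK ((b - B z z) / B i i)
      (by rw [div_pow, frob_sub hK, hb.1, hβq, hγq])
    obtain ⟨hzz, -⟩ := hX t
    have hO := Orb.el (q := q) B i z hiz t
    have hXzz : (cj q (1 + Matrix.single i z t : Matrix (Fin m) (Fin m) K) * B
        * (1 + Matrix.single i z t) : Matrix (Fin m) (Fin m) K) z z = b := by
      rw [hzz, ht]
      field_simp
      ring
    obtain ⟨A, hA, hA2⟩ := shift hK (cj q (1 + Matrix.single i z t : Matrix (Fin m) (Fin m) K) * B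
        * (1 + Matrix.single i z t)) z z
      (fun a => if h : a ≠ z then ((x ⟨a, h⟩ - (cj q (1 + Matrix.single i z t :
        Matrix (Fin m) (Fin m) K) * B * (1 + Matrix.single i z t) :
          Matrix (Fin m) (Fin m) K) a z) / b) ^ q else 0) (by simp) (by simp)
    refine ⟨_, Orb.trans hK hO ⟨A, hA, rfl⟩, ?_, ?_⟩
    · rw [hA2, dif_neg (by simp), zero_pow (by omega), zero_mul, add_zero, hXzz]
    · intro a ha
      rw [hA2, dif_pos ha, frob_frob hK, hXzz]
      field_simp [hb.2]
      ring
  have hν : ((-(B z z)) / B i i) ^ q = (-(B z z)) / B i i := by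
    rw [div_pow, frob_neg hK, hβq, hγq]
  have hν0 : (-(B z z)) / B i i ≠ 0 := div_ne_zero (neg_ne_zero.2 hβ) hγ
  have hF2 : ∀ (t : K) (ht : t ^ (q + 1) = (-(B z z)) / B i i)
      (w : {a : Fin m // a ≠ z ∧ a ≠ i} → K),
      ∃ Y, Orb q B Y ∧ Y z z = 0 ∧ Y i z = B i i * t ∧
        ∀ a (ha : a ≠ z ∧ a ≠ i), Y a z = w ⟨a, ha⟩ := by
    intro t ht w
    have ht0 : t ≠ 0 := by
      rintro rfl
      rw [zero_pow (by omega)] at ht
      exact hν0 ht.symm
    obtain ⟨hzz, hiz'⟩ := hX t
    have hO := Orb.el (q := q) B i z hiz t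
    have hXzz : (cj q (1 + Matrix.single i z t : Matrix (Fin m) (Fin m) K) * B
        * (1 + Matrix.single i z t) : Matrix (Fin m) (Fin m) K) z z = 0 := by
      rw [hzz, ht]
      field_simp
      ring
    obtain ⟨A, hA, hA2⟩ := shift hK (cj q (1 + Matrix.single i z t : Matrix (Fin m) (Fin m) K) * B
        * (1 + Matrix.single i z t)) i z
      (fun a => if h : a ≠ z ∧ a ≠ i then ((w ⟨a, h⟩ - (cj q (1 + Matrix.single i z t :
        Matrix (Fin m) (Fin m) K) * B * (1 + Matrix.single i z t) :
          Matrix (Fin m) (Fin m) K) a z) / (B i i * t)) ^ q else 0) (by simp) (by simp)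
    refine ⟨_, Orb.trans hK hO ⟨A, hA, rfl⟩, ?_, ?_, ?_⟩
    · rw [hA2, dif_neg (by simp), zero_pow (by omega), zero_mul, add_zero, hXzz]
    · rw [hA2, dif_neg (by simp), zero_pow (by omega), zero_mul, add_zero, hiz']
    · intro a ha
      rw [hA2, dif_pos ha, frob_frob hK, hiz']
      field_simp
      ring
  choose F1 hF1a hF1b hF1c using hF1
  choose F2 hF2a hF2b hF2c hF2d using hF2
  let Φ : ({b : K // b ^ q = b ∧ b ≠ 0} × ({a : Fin m // a ≠ z} → K)) ⊕
      ({t : K // t ^ (q + 1) = (-(B z z)) / B i i} × ({a : Fin m // a ≠ z ∧ a ≠ i} → K))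
        → Matrix (Fin m) (Fin m) K :=
    Sum.elim (fun p => F1 p.1.1 p.1.2 p.2) (fun p => F2 p.1.1 p.1.2 p.2)
  have hΦinj : Function.Injective Φ := by
    rintro (⟨⟨b, hb⟩, x⟩ | ⟨⟨t, ht⟩, w⟩) (⟨⟨b', hb'⟩, x'⟩ | ⟨⟨t', ht'⟩, w'⟩) h
    · have h' : F1 b hb x = F1 b' hb' x' := h
      have e1 : b = b' := by rw [← hF1b b hb x, h', hF1b]
      subst e1
      have e2 : x = x' := by
        funext ⟨a, ha⟩
        rw [← hF1c b hb x a ha, h', hF1c]
      rw [e2]
    · exfalso
      have h' : F1 b hb x = F2 t' ht' w' := h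
      have : b = 0 := by rw [← hF1b b hb x, h', hF2b]
      exact hb.2 this
    · exfalso
      have h' : F2 t ht w = F1 b' hb' x' := h
      have : b' = 0 := by rw [← hF1b b' hb' x', ← h', hF2b]
      exact hb'.2 this
    · have h' : F2 t ht w = F2 t' ht' w' := h
      have e1 : t = t' := by
        have : B i i * t = B i i * t' := by rw [← hF2c t ht w, h', hF2c]
        exact mul_left_cancel₀ hγ this
      subst e1
      have e2 : w = w' := by
        funext ⟨a, ha⟩
        rw [← hF2d t ht w a ha, h', hF2d]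
      rw [e2]
  refine ⟨Finset.univ.image Φ, ?_, ?_⟩
  · intro B' hB'
    obtain ⟨p, -, rfl⟩ := Finset.mem_image.1 hB'
    rcases p with p | p
    · exact hF1a _ _ _
    · exact hF2a _ _ _
  · have c1 : Fintype.card {b : K // b ^ q = b ∧ b ≠ 0} * (q + 1) + 1 = q ^ 2 := by
      rw [Fintype.card_subtype]
      exact card_fix hK
    have c2 : Fintype.card {t : K // t ^ (q + 1) = (-(B z z)) / B i i} = q + 1 := by
      have := card_norm_fiber hK _ hν hν0
      rwa [Nat.card_eq_fintype_card] at this
    have c3 : Fintype.card {a : Fin m // a ≠ z} = m - 1 := by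
      rw [Fintype.card_subtype, Finset.filter_ne', Finset.card_erase_of_mem (Finset.mem_univ _),
        Finset.card_univ, Fintype.card_fin]
    have c4 : Fintype.card {a : Fin m // a ≠ z ∧ a ≠ i} = m - 2 := by
      rw [Fintype.card_subtype]
      have : (Finset.univ.filter (fun a : Fin m => a ≠ z ∧ a ≠ i))
          = (Finset.univ.erase z).erase i := by
        ext a
        simp [and_comm]
      rw [this, Finset.card_erase_of_mem (by simp [hiz]),
        Finset.card_erase_of_mem (Finset.mem_univ _), Finset.card_univ, Fintype.card_fin]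
      omega
    rw [Finset.card_image_of_injective _ hΦinj, Finset.card_univ, Fintype.card_sum,
      Fintype.card_prod, Fintype.card_prod, Fintype.card_fun, Fintype.card_fun, hK, c2, c3, c4]
    have hm1 : m - 1 = (m - 2) + 1 := by omega
    have hm2 : 2 * m = 2 * (m - 2) + 4 := by omega
    have e1 : (q ^ 2) ^ (m - 1) = (q ^ 2) ^ (m - 2) * q ^ 2 := by rw [hm1, pow_succ]
    have e2 : q ^ (2 * m) = (q ^ 2) ^ (m - 2) * q ^ 4 := by rw [hm2, pow_add, pow_mul]
    rw [e1, e2]
    generalize (q ^ 2) ^ (m - 2) = Q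
    generalize Fintype.card {b : K // b ^ q = b ∧ b ≠ 0} = c₀ at c1
    have E : (q + 1) * (c₀ * (Q * q ^ 2)) + Q * q ^ 2 = Q * q ^ 4 := by
      calc (q + 1) * (c₀ * (Q * q ^ 2)) + Q * q ^ 2 = (c₀ * (q + 1) + 1) * (Q * q ^ 2) := by ring
        _ = q ^ 2 * (Q * q ^ 2) := by rw [c1]
        _ = Q * q ^ 4 := by ring
    nlinarith [E, Nat.zero_le (q * Q), Nat.zero_le Q]

/-- every nonzero hermitian matrix has many congruent matrices -/
theorem orbit_bound (hK : Fintype.card K = q ^ 2) (hm : 2 ≤ m)
    (B₀ : Matrix (Fin m) (Fin m) K) (hB₀ : cj q B₀ = B₀) (hne : B₀ ≠ 0) :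
    ∃ T : Finset (Matrix (Fin m) (Fin m) K), (∀ B ∈ T, Orb q B₀ B) ∧
      q ^ (2 * m) ≤ (q + 1) * T.card + 1 := by
  classical
  have hq := uq_ge_two hK
  let z : Fin m := ⟨0, by omega⟩
  let z' : Fin m := ⟨1, by omega⟩
  have hzz' : z' ≠ z := by
    intro h
    have := congrArg Fin.val h
    simp [z, z'] at this
  obtain ⟨A₁, hA₁, h1⟩ := normD1 hK z z' hzz' B₀ hB₀ hne
  have hO1 : Orb q B₀ (cj q A₁ * B₀ * A₁) := ⟨A₁, hA₁, rfl⟩
  obtain ⟨A₂, hA₂, h2, h3⟩ := normD2 hK z (cj q A₁ * B₀ * A₁) h1
  obtain ⟨B₂, hB₂⟩ : ∃ B₂, B₂ = cj q A₂ * (cj q A₁ * B₀ * A₁) * A₂ := ⟨_, rfl⟩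
  rw [← hB₂] at h2 h3
  have hO2 : Orb q B₀ B₂ := Orb.trans hK hO1 ⟨A₂, hA₂, hB₂⟩
  have hH2 : cj q B₂ = B₂ := Orb.herm hK hB₀ hO2
  have hβ : B₂ z z ≠ 0 := by rw [h2]; exact h1
  have hsym : ∀ a b, B₂ b a = (B₂ a b) ^ q := by
    intro a b
    have := congrFun (congrFun hH2 b) a
    rw [cj_apply] at this
    exact this.symm
  by_cases hc : ∀ a b, ¬ (a = z ∧ b = z) → B₂ a b = 0
  · have e : B₂ = Matrix.single z z (B₂ z z) := by
      ext a b
      rw [Matrix.single_apply]
      by_cases h : z = a ∧ z = b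
      · rw [if_pos h, ← h.1, ← h.2]
      · rw [if_neg h]
        exact hc a b (fun h' => h ⟨h'.1.symm, h'.2.symm⟩)
    obtain ⟨T, hT1, hT2⟩ := orbit_case1 (q := q) hK z z' hzz' (B₂ z z) hβ
    refine ⟨T, fun B hB => Orb.trans hK hO2 ?_, hT2⟩
    have := hT1 B hB
    rwa [← e] at this
  · push Not at hc
    obtain ⟨a, b, hab, hne'⟩ := hc
    have haz : a ≠ z := by
      intro h
      have hbz : b ≠ z := hab h
      apply hne'
      rw [h, hsym b z, h3 b hbz, zero_pow (by omega)]
    have hbz : b ≠ z := by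
      intro h
      apply hne'
      rw [h]
      exact h3 a haz
    have hN : ∃ B₃, Orb q B₂ B₃ ∧ B₃ z z ≠ 0 ∧ (∀ c, c ≠ z → B₃ c z = 0) ∧
        ∃ i, i ≠ z ∧ B₃ i i ≠ 0 := by
      by_cases ha : B₂ a a ≠ 0
      · exact ⟨B₂, ⟨1, Mv.one, by rw [cj_one hK, Matrix.one_mul, Matrix.mul_one]⟩, hβ, h3,
          a, haz, ha⟩
      by_cases hb : B₂ b b ≠ 0
      · exact ⟨B₂, ⟨1, Mv.one, by rw [cj_one hK, Matrix.one_mul, Matrix.mul_one]⟩, hβ, h3,
          b, hbz, hb⟩
      push Not at ha hb
      have hab' : a ≠ b := by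
        rintro rfl
        exact hne' ha
      have hba : b ≠ a := fun h => hab' h.symm
      obtain ⟨y₀, hy₀⟩ := exists_tr_ne hK
      refine ⟨_, Orb.el B₂ b a hba (y₀ / B₂ a b), ?_, ?_, a, haz, ?_⟩
      · rw [el_cong_apply hK B₂ b a hba]
        simp only [if_neg (fun h : z = a => haz h.symm),
          if_neg (fun h : z = a ∧ z = a => haz h.1.symm), add_zero]
        exact hβ
      · intro c hc
        rw [el_cong_apply hK B₂ b a hba]
        simp only [if_neg (fun h : z = a => haz h.symm),
          if_neg (fun h : c = a ∧ z = a => haz h.2.symm), add_zero, h3 c hc, zero_add]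
        by_cases hca : c = a
        · rw [if_pos hca, h3 b hbz, mul_zero]
        · rw [if_neg hca]
      · rw [el_cong_apply hK B₂ b a hba, if_pos rfl, if_pos rfl, if_pos ⟨rfl, rfl⟩, ha, hb,
          hsym a b, ← mul_pow]
        have e : B₂ a b * (y₀ / B₂ a b) = y₀ := by field_simp
        have e' : y₀ / B₂ a b * B₂ a b = y₀ := by field_simp
        rw [e, e']
        intro h0
        apply hy₀
        linear_combination h0
    obtain ⟨B₃, hO3, hβ3, hcol3, i, hiz, hγ3⟩ := hN
    have hH3 := Orb.herm hK hH2 hO3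
    obtain ⟨T, hT1, hT2⟩ := orbit_case2 hK hm z i hiz B₃ hH3 hβ3 hγ3 hcol3
    exact ⟨T, fun B hB => Orb.trans hK hO2 (Orb.trans hK hO3 (hT1 B hB)), hT2⟩

end Cfsg.Agent.Lib.helper25.SUDeg
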