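import Mathlib
import Cfsg.Agent.Lib.helper25.SUDeg1
import Cfsg.Agent.Lib.helper25.SUni10

set_option autoImplicit false
set_option linter.unusedSectionVars false
set_option linter.unusedSimpArgs false
set_option linter.unusedVariables false

/-!
The centre of the unipotent radical of the stabilizer of a maximal isotropic subspace in the
special unitary group of dimension `m + m`, and its Levi conjugations.
-/

namespace Cfsg.Agent.Lib.helper25.SUDeg

open Matrix
open Cfsg.Agent.Lib.helper4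
open Cfsg.Agent.Lib.helper25.SUni

variable {K : Type*} [Field K] [Fintype K] [DecidableEq K] {q : ℕ} {m : ℕ}

/-- the first half of the coordinates -/
def io (m : ℕ) : Fin m → Fin (m + m) := Fin.castAdd m

/-- the second half of the coordinates, reversed -/
def io' (m : ℕ) : Fin m → Fin (m + m) := fun j => Fin.rev (Fin.castAdd m j)

theorem io_inj : Function.Injective (io m) := Fin.castAdd_injective m m

theorem io'_inj : Function.Injective (io' m) :=
  fun a b h => Fin.castAdd_injective m m (Fin.rev_injective h)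

theorem io_ne_io' (a b : Fin m) : io m a ≠ io' m b := by
  intro h
  have := congrArg Fin.val h
  simp only [io, io', Fin.val_castAdd, Fin.val_rev] at this
  omega

theorem Pf_tmul_disj {k k' n : ℕ} (f : Fin k → Fin n) (g : Fin k' → Fin n)
    (h : ∀ a b, f a ≠ g b) : (Pf K f)ᵀ * Pf K g = 0 := by
  ext a b
  rw [Matrix.mul_apply, Matrix.zero_apply]
  apply Finset.sum_eq_zero
  intro r _
  rw [Matrix.transpose_apply, Pf_apply, Pf_apply]
  by_cases h1 : r = f a
  · rw [if_pos h1, if_neg (fun h2 => h a b (h1.symm.trans h2)), mul_zero]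
  · rw [if_neg h1, zero_mul]

theorem hf_Pf_left {k n : ℕ} (f : Fin k → Fin n) (w : Fin k → K) (y : Fin n → K) :
    hf n K q (Pf K f *ᵥ w) y = ∑ i, w i * (y (Fin.rev (f i))) ^ q := by
  unfold hf
  simp only [Matrix.mulVec, dotProduct, Pf_apply, Finset.sum_mul, ite_mul, one_mul, zero_mul]
  rw [Finset.sum_comm]
  refine Finset.sum_congr rfl (fun i _ => ?_)
  rw [Finset.sum_ite_eq']
  simp

theorem hf_Pf_right (hK : Fintype.card K = q ^ 2) {k n : ℕ} (f : Fin k → Fin n)
    (w : Fin k → K) (x : Fin n → K) :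
    hf n K q x (Pf K f *ᵥ w) = ∑ i, x (Fin.rev (f i)) * (w i) ^ q := by
  rw [← hf_symm hK, hf_Pf_left, frob_sum hK]
  refine Finset.sum_congr rfl (fun i _ => ?_)
  rw [mul_pow, frob_frob hK, mul_comm]

/-- the matrix of a central element of the radical -/
def zM (m : ℕ) (S : Matrix (Fin m) (Fin m) K) : Matrix (Fin (m + m)) (Fin (m + m)) K :=
  1 + Pf K (io m) * S * (Pf K (io' m))ᵀ

theorem Pft_mulVec {k n : ℕ} (f : Fin k → Fin n) (u : Fin n → K) :
    (Pf K f)ᵀ *ᵥ u = fun j => u (f j) := by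
  funext j
  simp [Matrix.mulVec, dotProduct, Pf_apply]

theorem zM_mulVec (S : Matrix (Fin m) (Fin m) K) (u : Fin (m + m) → K) :
    zM m S *ᵥ u = u + Pf K (io m) *ᵥ (S *ᵥ (fun j => u (io' m j))) := by
  unfold zM
  rw [Matrix.add_mulVec, Matrix.one_mulVec, ← Matrix.mulVec_mulVec, ← Matrix.mulVec_mulVec,
    Pft_mulVec]

theorem zM_pres (hK : Fintype.card K = q ^ 2) (S : Matrix (Fin m) (Fin m) K)
    (hS : cj q S = -S) (u v : Fin (m + m) → K) :
    hf (m + m) K q (zM m S *ᵥ u) (zM m S *ᵥ v) = hf (m + m) K q u v := by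
  have hq := uq_ge_two hK
  have hS' : ∀ i j, (S j i) ^ q = -S i j := fun i j => by
    have := congrFun (congrFun hS i) j
    rwa [cj_apply, Matrix.neg_apply] at this
  have h3 : ∀ (b : Fin m → K) (i : Fin m), (Pf K (io m) *ᵥ b) (io' m i) = 0 := by
    intro b i
    simp [Matrix.mulVec, dotProduct, Pf_apply, (io_ne_io' _ _).symm]
  rw [zM_mulVec, zM_mulVec, hf_add_left, hf_add_right hK, hf_add_right hK, hf_Pf_left,
    hf_Pf_left, hf_Pf_right hK]
  have e3 : ∑ i, (S *ᵥ fun j => u (io' m j)) i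
      * ((Pf K (io m) *ᵥ (S *ᵥ fun j => v (io' m j))) (Fin.rev (io m i))) ^ q = 0 := by
    apply Finset.sum_eq_zero
    intro i _
    have : (Pf K (io m) *ᵥ (S *ᵥ fun j => v (io' m j))) (Fin.rev (io m i)) = 0 := h3 _ i
    rw [this, zero_pow (by omega), mul_zero]
  have e1 : ∀ i, u (Fin.rev (io m i)) * ((S *ᵥ fun j => v (io' m j)) i) ^ q
      = ∑ j, u (io' m i) * (S i j) ^ q * (v (io' m j)) ^ q := by
    intro i
    simp only [Matrix.mulVec, dotProduct]
    rw [frob_sum hK, Finset.mul_sum]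
    refine Finset.sum_congr rfl (fun j _ => ?_)
    rw [mul_pow]
    show u (io' m i) * ((S i j) ^ q * (v (io' m j)) ^ q) = _
    ring
  have e2 : ∀ i, (S *ᵥ fun j => u (io' m j)) i * (v (Fin.rev (io m i))) ^ q
      = ∑ j, S i j * u (io' m j) * (v (io' m i)) ^ q := by
    intro i
    simp only [Matrix.mulVec, dotProduct]
    rw [Finset.sum_mul]
    rfl
  have hT : (∑ i, u (Fin.rev (io m i)) * ((S *ᵥ fun j => v (io' m j)) i) ^ q)
      + (∑ i, (S *ᵥ fun j => u (io' m j)) i * (v (Fin.rev (io m i))) ^ q) = 0 := by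
    rw [Finset.sum_congr rfl (fun i _ => e1 i), Finset.sum_congr rfl (fun i _ => e2 i),
      Finset.sum_comm, ← Finset.sum_add_distrib]
    apply Finset.sum_eq_zero
    intro i _
    rw [← Finset.sum_add_distrib]
    apply Finset.sum_eq_zero
    intro j _
    rw [hS' i j]
    ring
  rw [e3, add_zero]
  linear_combination hT

theorem zM_det (S : Matrix (Fin m) (Fin m) K) : (zM m S).det = 1 := by
  unfold zM
  rw [Matrix.mul_assoc, Matrix.det_one_add_mul_comm, Matrix.mul_assoc,
    Pf_tmul_disj (io' m) (io m) (fun a b => (io_ne_io' b a).symm), Matrix.mul_zero, add_zero,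
    Matrix.det_one]

/-- the central element of the radical with parameter `S` -/
def zG (hK : Fintype.card K = q ^ 2) (S : Matrix (Fin m) (Fin m) K) (hS : cj q S = -S) :
    GamU (m + m) K q := mkG (zM m S) (zM_det S) (zM_pres hK S hS)

theorem gm_zG (hK : Fintype.card K = q ^ 2) (S : Matrix (Fin m) (Fin m) K) (hS : cj q S = -S) :
    gm (zG hK S hS) = zM m S := rfl

theorem zM_add (S S' : Matrix (Fin m) (Fin m) K) : zM m (S + S') = zM m S * zM m S' := by
  have h0 : (Pf K (io' m))ᵀ * Pf K (io m) = (0 : Matrix (Fin m) (Fin m) K) :=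
    Pf_tmul_disj (io' m) (io m) (fun a b => (io_ne_io' b a).symm)
  have hz : Pf K (io m) * S * (Pf K (io' m))ᵀ * (Pf K (io m) * S' * (Pf K (io' m))ᵀ) = 0 := by
    calc Pf K (io m) * S * (Pf K (io' m))ᵀ * (Pf K (io m) * S' * (Pf K (io' m))ᵀ)
        = Pf K (io m) * S * ((Pf K (io' m))ᵀ * Pf K (io m)) * S' * (Pf K (io' m))ᵀ := by
          simp only [Matrix.mul_assoc]
      _ = 0 := by rw [h0]; simp
  unfold zM
  simp only [Matrix.add_mul, Matrix.mul_add, Matrix.one_mul, Matrix.mul_one]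
  rw [hz]
  abel

theorem zM_zero : zM m (0 : Matrix (Fin m) (Fin m) K) = 1 := by
  unfold zM
  simp

theorem zM_inj {S S' : Matrix (Fin m) (Fin m) K} (h : zM m S = zM m S') : S = S' := by
  have key : ∀ S : Matrix (Fin m) (Fin m) K,
      (Pf K (io m))ᵀ * (Pf K (io m) * S * (Pf K (io' m))ᵀ) * Pf K (io' m) = S := by
    intro S
    calc (Pf K (io m))ᵀ * (Pf K (io m) * S * (Pf K (io' m))ᵀ) * Pf K (io' m)
        = ((Pf K (io m))ᵀ * Pf K (io m)) * S * ((Pf K (io' m))ᵀ * Pf K (io' m)) := by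
          simp only [Matrix.mul_assoc]
      _ = S := by rw [Pf_tmul _ io_inj, Pf_tmul _ io'_inj, Matrix.one_mul, Matrix.mul_one]
  unfold zM at h
  have h' := add_left_cancel h
  rw [← key S, h', key S']

/-- admissible Levi pairs -/
def Ok (q : ℕ) (A A' : Matrix (Fin m) (Fin m) K) : Prop :=
  A * A' = 1 ∧ A' * A = 1 ∧ ∃ g : GamU (m + m) K q,
    gm g * Pf K (io m) = Pf K (io m) * A ∧
      (Pf K (io' m))ᵀ * gm g = cj q A' * (Pf K (io' m))ᵀ

theorem ok_el (hK : Fintype.card K = q ^ 2) (i j : Fin m) (hij : i ≠ j) (t : K) :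
    Ok q (1 + Matrix.single i j (-t)) (1 + Matrix.single i j t) := by
  have h0 : (Pf K (io' m))ᵀ * Pf K (io m) = (0 : Matrix (Fin m) (Fin m) K) :=
    Pf_tmul_disj (io' m) (io m) (fun a b => (io_ne_io' b a).symm)
  have hss : ∀ a b : K, Matrix.single i j a * Matrix.single i j b
      = (0 : Matrix (Fin m) (Fin m) K) :=
    fun a b => Matrix.single_mul_single_of_ne (h := fun h => hij h.symm) ..
  have hr1 : io m i ≠ Fin.rev (io m i) := io_ne_io' i i
  have hr3 : io m j ≠ Fin.rev (io m j) := io_ne_io' j j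
  refine ⟨?_, ?_, xr hK (io m i) (io m j) hr1 (fun h => hij (io_inj h)) hr3 (-t), ?_, ?_⟩
  · simp only [Matrix.add_mul, Matrix.mul_add, Matrix.one_mul, Matrix.mul_one, hss]
    rw [add_zero, add_assoc, ← Matrix.single_add, neg_add_cancel, Matrix.single_zero, add_zero]
  · simp only [Matrix.add_mul, Matrix.mul_add, Matrix.one_mul, Matrix.mul_one, hss]
    rw [add_zero, add_assoc, ← Matrix.single_add, add_neg_cancel, Matrix.single_zero, add_zero]
  · rw [gm_xr]
    have e1 : Matrix.single (io m i) (io m j) (-t)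
        = Pf K (io m) * Matrix.single i j (-t) * (Pf K (io m))ᵀ := (Pf_single _ _ _ _).symm
    have e2 : Matrix.single (Fin.rev (io m j)) (Fin.rev (io m i)) ((-t) ^ q)
        = Pf K (io' m) * Matrix.single j i ((-t) ^ q) * (Pf K (io' m))ᵀ :=
      (Pf_single (io' m) j i _).symm
    rw [e1, e2, Matrix.sub_mul, Matrix.add_mul, Matrix.one_mul, Matrix.mul_assoc,
      Pf_tmul _ io_inj, Matrix.mul_one, Matrix.mul_assoc _ _ (Pf K (io m)), h0, Matrix.mul_zero,
      sub_zero, Matrix.mul_add, Matrix.mul_one]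
  · rw [gm_xr]
    have e1 : Matrix.single (io m i) (io m j) (-t)
        = Pf K (io m) * Matrix.single i j (-t) * (Pf K (io m))ᵀ := (Pf_single _ _ _ _).symm
    have e2 : Matrix.single (Fin.rev (io m j)) (Fin.rev (io m i)) ((-t) ^ q)
        = Pf K (io' m) * Matrix.single j i ((-t) ^ q) * (Pf K (io' m))ᵀ :=
      (Pf_single (io' m) j i _).symm
    have h0' : (Pf K (io' m))ᵀ * Pf K (io m) * Matrix.single i j (-t) * (Pf K (io m))ᵀ = 0 := by
      rw [h0]; simp
    rw [e1, e2, Matrix.mul_sub, Matrix.mul_add, Matrix.mul_one, ← Matrix.mul_assoc,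
      ← Matrix.mul_assoc, h0', add_zero, ← Matrix.mul_assoc, ← Matrix.mul_assoc,
      Pf_tmul _ io'_inj, Matrix.one_mul, cj_add hK, cj_one hK, cj_single hK, frob_neg hK,
      ← Matrix.single_neg, Matrix.add_mul, Matrix.one_mul, Matrix.neg_mul, sub_eq_add_neg, neg_neg]

theorem ok_conj (hK : Fintype.card K = q ^ 2) {A A' : Matrix (Fin m) (Fin m) K}
    (g : GamU (m + m) K q) (h2 : A' * A = 1)
    (hg1 : gm g * Pf K (io m) = Pf K (io m) * A)
    (hg2 : (Pf K (io' m))ᵀ * gm g = cj q A' * (Pf K (io' m))ᵀ)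
    (S : Matrix (Fin m) (Fin m) K) :
    gm g * zM m S = zM m (A * S * cj q A) * gm g := by
  unfold zM
  rw [Matrix.mul_add, Matrix.mul_one, Matrix.add_mul, Matrix.one_mul]
  congr 1
  calc gm g * (Pf K (io m) * S * (Pf K (io' m))ᵀ)
      = (gm g * Pf K (io m)) * S * (Pf K (io' m))ᵀ := by simp only [Matrix.mul_assoc]
    _ = Pf K (io m) * A * S * (Pf K (io' m))ᵀ := by rw [hg1]
    _ = Pf K (io m) * (A * S * (cj q A * cj q A')) * (Pf K (io' m))ᵀ := by
        rw [← cj_mul hK, h2, cj_one hK, Matrix.mul_one]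
        simp only [Matrix.mul_assoc]
    _ = Pf K (io m) * (A * S * cj q A) * (cj q A' * (Pf K (io' m))ᵀ) := by
        simp only [Matrix.mul_assoc]
    _ = Pf K (io m) * (A * S * cj q A) * (Pf K (io' m))ᵀ * gm g := by
        rw [← hg2]
        simp only [Matrix.mul_assoc]

end Cfsg.Agent.Lib.helper25.SUDeg
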