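import Mathlib
import Cfsg.Agent.Lib.helper25.SzSub2

/-!
# Suzuki groups: minimal degree, preliminaries (library, seat helper25)
-/

set_option autoImplicit false
set_option linter.unusedSectionVars false
set_option linter.unusedSimpArgs false
set_option linter.unusedVariables false
set_option linter.style.haveILetI false

namespace Cfsg.Agent.Lib.helper25.SzDeg

open Cfsg.Agent.Lib.helper2.Suzuki
open Cfsg.Agent.Lib.helper2
open Cfsg.Agent.Lib.helper25.SzOut

/-- the image of `x ↦ x^s + x` -/
def AS (F : Type*) [Field F] (s : ℕ) : Set F := Set.range (fun x : F => x ^ s + x)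

open Classical in
/-- the quadratic character attached to `AS` -/
noncomputable def lam (F : Type*) [Field F] (s : ℕ) (b : F) : ℂ :=
  if b ∈ AS F s then 1 else -1

section fld

variable {F : Type*} [Field F] [Fintype F] {s : ℕ} (H : Hyp F s)
include H

theorem add_self_zero (y : F) : y + y = 0 := by linear_combination y * H.h2

theorem as_add {y z : F} (hy : y ∈ AS F s) (hz : z ∈ AS F s) : y + z ∈ AS F s := by
  obtain ⟨x, rfl⟩ := hy
  obtain ⟨x', rfl⟩ := hz
  refine ⟨x + x', ?_⟩
  show (x + x') ^ s + (x + x') = x ^ s + x + (x' ^ s + x')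
  rw [H.hadd]
  ring

theorem as_zero : (0 : F) ∈ AS F s :=
  ⟨0, by show (0 : F) ^ s + 0 = 0; rw [zero_pow (s_ne_zero H), add_zero]⟩

theorem as_fiber {x x' : F} (h : x ^ s + x = x' ^ s + x') : x' = x ∨ x' = x + 1 := by
  have h1 : (x + x') ^ s = x + x' := by
    rw [H.hadd]
    linear_combination h + (x' ^ s - x) * H.h2
  rcases pow_s_fix H h1 with h0 | h0
  · left
    linear_combination (-1 : F) * h0 + x' * H.h2
  · right
    linear_combination h0 - x * H.h2

theorem as_card [DecidableEq F] :
    (Finset.univ.image (fun x : F => x ^ s + x)).card * 2 = Fintype.card F := by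
  rw [← Finset.card_univ, Finset.card_eq_sum_card_image (fun x : F => x ^ s + x) Finset.univ]
  symm
  apply Finset.sum_const_nat
  intro b hb
  obtain ⟨x₀, -, rfl⟩ := Finset.mem_image.1 hb
  have hne : x₀ ≠ x₀ + 1 := by
    intro h
    have : (1 : F) = 0 := by linear_combination -h
    exact one_ne_zero this
  rw [← Finset.card_pair hne]
  congr 1
  ext x
  simp only [Finset.mem_filter, Finset.mem_univ, true_and, Finset.mem_insert,
    Finset.mem_singleton]
  constructor
  · intro h
    exact as_fiber H h.symm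
  · rintro (rfl | rfl)
    · rfl
    · rw [H.hadd, one_pow]
      linear_combination H.h2

theorem as_exists_not : ∃ y₀ : F, y₀ ∉ AS F s := by
  classical
  by_contra hcon
  push Not at hcon
  have h1 : Finset.univ.image (fun x : F => x ^ s + x) = Finset.univ := by
    apply Finset.eq_univ_of_forall
    intro y
    obtain ⟨x, hx⟩ := hcon y
    exact Finset.mem_image.2 ⟨x, Finset.mem_univ _, hx⟩
  have h2 := as_card H
  rw [h1, Finset.card_univ] at h2
  have : 0 < Fintype.card F := Fintype.card_pos
  omega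

theorem as_index {y z : F} (hy : y ∉ AS F s) (hz : z ∉ AS F s) : y + z ∈ AS F s := by
  classical
  set S := Finset.univ.image (fun x : F => x ^ s + x) with hS
  have hmemS : ∀ w : F, w ∈ S ↔ w ∈ AS F s := by
    intro w
    rw [hS, Finset.mem_image]
    constructor
    · rintro ⟨x, -, hx⟩
      exact ⟨x, hx⟩
    · rintro ⟨x, hx⟩
      exact ⟨x, Finset.mem_univ _, hx⟩
  have hdisj : Disjoint S (S.image (fun w => y + w)) := by
    rw [Finset.disjoint_left]
    intro w hw hw'
    obtain ⟨v, hv, rfl⟩ := Finset.mem_image.1 hw'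
    apply hy
    have h1 := as_add H ((hmemS _).1 hw) ((hmemS _).1 hv)
    have e : y + v + v = y := by rw [add_assoc, add_self_zero H, add_zero]
    rw [e] at h1
    exact h1
  have hcard : (S ∪ S.image (fun w => y + w)).card = Fintype.card F := by
    rw [Finset.card_union_of_disjoint hdisj,
      Finset.card_image_of_injective _ (add_right_injective y), ← as_card H]
    ring
  have huniv : S ∪ S.image (fun w => y + w) = Finset.univ :=
    Finset.eq_univ_of_card _ hcard
  have hz' : z ∈ S ∪ S.image (fun w => y + w) := by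
    rw [huniv]
    exact Finset.mem_univ _
  rcases Finset.mem_union.1 hz' with h | h
  · exact absurd ((hmemS _).1 h) hz
  · obtain ⟨v, hv, rfl⟩ := Finset.mem_image.1 h
    have e : y + (y + v) = v := by rw [← add_assoc, add_self_zero H, zero_add]
    rw [e]
    exact (hmemS _).1 hv

theorem as_mul_not {d : F} (hd : d ≠ 0) (hI : ∀ y ∈ AS F s, d * y ∈ AS F s) {y₀ : F}
    (hy₀ : y₀ ∉ AS F s) : d * y₀ ∉ AS F s := by
  classical
  intro hmem
  set S := Finset.univ.filter (fun y : F => y ∈ AS F s) with hS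
  have himg : S.image (fun y => d * y) = S := by
    apply Finset.eq_of_subset_of_card_le
    · intro z hz
      obtain ⟨y, hy, rfl⟩ := Finset.mem_image.1 hz
      exact Finset.mem_filter.2 ⟨Finset.mem_univ _, hI y (Finset.mem_filter.1 hy).2⟩
    · rw [Finset.card_image_of_injective _ (mul_right_injective₀ hd)]
  have h1 : d * y₀ ∈ S.image (fun y => d * y) := by
    rw [himg]
    exact Finset.mem_filter.2 ⟨Finset.mem_univ _, hmem⟩
  obtain ⟨y, hy, hyeq⟩ := Finset.mem_image.1 h1
  have h2 : y = y₀ := mul_left_cancel₀ hd hyeq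
  rw [← h2] at hy₀
  exact hy₀ (Finset.mem_filter.1 hy).2

/-- every element outside `{0,1}` fails to be in the radical -/
theorem exists_anti {a : F} (ha0 : a ≠ 0) (ha1 : a ≠ 1) :
    ∃ a' : F, a' ^ s * a + a ^ s * a' ∉ AS F s := by
  by_contra hcon
  push Not at hcon
  have hc : ∀ y ∈ AS F s, a ^ (s + 1) * y ∈ AS F s := by
    rintro y ⟨x, rfl⟩
    have h1 := hcon (a * x)
    have e : (a * x) ^ s * a + a ^ s * (a * x) = a ^ (s + 1) * (x ^ s + x) := by ring
    rw [e] at h1
    exact h1
  obtain ⟨y₀, hy₀⟩ := as_exists_not H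
  have hc0 : a ^ (s + 1) ≠ 0 := pow_ne_zero _ ha0
  have hc1 : a ^ (s + 1) + 1 ≠ 0 := by
    intro h
    apply ha1
    apply pow_s1_eq_one H
    linear_combination h - H.h2
  have hc' : ∀ y ∈ AS F s, (a ^ (s + 1) + 1) * y ∈ AS F s := by
    intro y hy
    have h1 := as_add H (hc y hy) hy
    have e : (a ^ (s + 1) + 1) * y = a ^ (s + 1) * y + y := by ring
    rw [e]
    exact h1
  have h1 := as_mul_not H hc0 hc hy₀
  have h2 := as_mul_not H hc1 hc' hy₀
  apply h2
  have h3 := as_index H h1 hy₀
  have e : (a ^ (s + 1) + 1) * y₀ = a ^ (s + 1) * y₀ + y₀ := by ring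
  rw [e]
  exact h3

theorem lam_add (b b' : F) : lam F s (b + b') = lam F s b * lam F s b' := by
  unfold lam
  by_cases h : b ∈ AS F s <;> by_cases h' : b' ∈ AS F s
  · rw [if_pos h, if_pos h', if_pos (as_add H h h')]
    norm_num
  · have h3 : b + b' ∉ AS F s := by
      intro hc
      apply h'
      have h4 := as_add H h hc
      have e : b + (b + b') = b' := by rw [← add_assoc, add_self_zero H, zero_add]
      rw [e] at h4
      exact h4
    rw [if_pos h, if_neg h', if_neg h3]
    norm_num
  · have h3 : b + b' ∉ AS F s := by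
      intro hc
      apply h
      have h4 := as_add H hc h'
      have e : b + b' + b' = b := by rw [add_assoc, add_self_zero H, add_zero]
      rw [e] at h4
      exact h4
    rw [if_neg h, if_pos h', if_neg h3]
    norm_num
  · rw [if_neg h, if_neg h', if_pos (as_index H h h')]
    norm_num

theorem lam_zero : lam F s 0 = 1 := by
  unfold lam
  rw [if_pos (as_zero H)]

theorem lam_sq (b : F) : lam F s b * lam F s b = 1 := by
  unfold lam
  by_cases h : b ∈ AS F s
  · rw [if_pos h]; norm_num
  · rw [if_neg h]; norm_num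

theorem lam_cases (b : F) : lam F s b = 1 ∨ lam F s b = -1 := by
  unfold lam
  by_cases h : b ∈ AS F s
  · left; rw [if_pos h]
  · right; rw [if_neg h]

theorem lam_not {b : F} (h : b ∉ AS F s) : lam F s b = -1 := by
  unfold lam
  rw [if_neg h]

theorem lam_sum : ∑ b : F, lam F s b = 0 := by
  obtain ⟨b₁, hb₁'⟩ := as_exists_not H
  have hb₁ := lam_not H hb₁'
  have h1 : ∑ b : F, lam F s (b₁ + b) = ∑ b : F, lam F s b :=
    Equiv.sum_comp (Equiv.addLeft b₁) (fun b => lam F s b)
  have h2 : ∑ b : F, lam F s (b₁ + b) = - ∑ b : F, lam F s b := by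
    rw [← Finset.sum_neg_distrib]
    apply Finset.sum_congr rfl
    intro b _
    rw [lam_add H, hb₁]
    ring
  linear_combination (-1 / 2 : ℂ) * h1 + (1 / 2 : ℂ) * h2

end fld

section mat

variable {n : Type*} [Fintype n] [DecidableEq n]

/-- the trace of an idempotent complex matrix is a natural number, zero only for `0` -/
theorem idem_trace (P : Matrix n n ℂ) (h : P * P = P) :
    ∃ d : ℕ, P.trace = (d : ℂ) ∧ (d = 0 → P = 0) := by
  have he : IsIdempotentElem (Matrix.toLin' P) := by
    show (Matrix.toLin' P).comp (Matrix.toLin' P) = Matrix.toLin' P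
    rw [← Matrix.toLin'_mul, h]
  have htr : LinearMap.trace ℂ (n → ℂ) (Matrix.toLin' P)
      = (Module.finrank ℂ (LinearMap.range (Matrix.toLin' P)) : ℂ) :=
    (LinearMap.IsIdempotentElem.isProj_range _ he).trace
  refine ⟨Module.finrank ℂ (LinearMap.range (Matrix.toLin' P)), ?_, ?_⟩
  · rw [← Matrix.trace_toLin'_eq, htr]
  · intro hd
    have h0 : LinearMap.trace ℂ (n → ℂ) (Matrix.toLin' P) = 0 := by
      rw [htr, hd]
      simp
    have h1 : Matrix.toLin' P = 0 := (LinearMap.IsIdempotentElem.trace_eq_zero_iff he).1 h0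
    apply Matrix.toLin'.injective
    rw [h1, map_zero]

theorem invol_trace (P A : Matrix n n ℂ) (hP : P * P = P) (hPA : P * A = A) (hAP : A * P = A)
    (hA : A * A = P) (d : ℕ) (hd : P.trace = d) :
    ∃ j₁ j₂ : ℕ, j₁ + j₂ = d ∧ A.trace = (j₁ : ℂ) - j₂ := by
  have hQ1 : ((1 / 2 : ℂ) • (P + A)) * ((1 / 2 : ℂ) • (P + A)) = (1 / 2 : ℂ) • (P + A) := by
    rw [Matrix.smul_mul, Matrix.mul_smul, smul_smul]
    have e : (P + A) * (P + A) = (2 : ℂ) • (P + A) := by
      rw [add_mul, mul_add, mul_add, hP, hPA, hAP, hA, two_smul]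
      abel
    rw [e, smul_smul]
    norm_num
  have hQ2 : ((1 / 2 : ℂ) • (P - A)) * ((1 / 2 : ℂ) • (P - A)) = (1 / 2 : ℂ) • (P - A) := by
    rw [Matrix.smul_mul, Matrix.mul_smul, smul_smul]
    have e : (P - A) * (P - A) = (2 : ℂ) • (P - A) := by
      rw [sub_mul, mul_sub, mul_sub, hP, hPA, hAP, hA, two_smul]
      abel
    rw [e, smul_smul]
    norm_num
  obtain ⟨j₁, h1, -⟩ := idem_trace _ hQ1
  obtain ⟨j₂, h2, -⟩ := idem_trace _ hQ2
  rw [Matrix.trace_smul, Matrix.trace_add, hd, smul_eq_mul] at h1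
  rw [Matrix.trace_smul, Matrix.trace_sub, hd, smul_eq_mul] at h2
  refine ⟨j₁, j₂, ?_, ?_⟩
  · have h3 : ((j₁ + j₂ : ℕ) : ℂ) = (d : ℂ) := by
      push_cast
      linear_combination (-1 : ℂ) * h1 - h2
    exact_mod_cast h3
  · linear_combination (1 : ℂ) * h1 - h2

end mat

section rep

/-- the matrix form of a representation on `Fin k → ℂ` -/
noncomputable def matHom {G : Type*} [Monoid G] {k : ℕ} (ρ : Representation ℂ G (Fin k → ℂ)) :
    G →* Matrix (Fin k) (Fin k) ℂ where
  toFun g := LinearMap.toMatrix' (ρ g)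
  map_one' := by
    rw [map_one]
    exact LinearMap.toMatrix'_one
  map_mul' g h := by
    rw [map_mul]
    exact LinearMap.toMatrix'_mul _ _

theorem matHom_trace {G : Type*} [Monoid G] {k : ℕ} (ρ : Representation ℂ G (Fin k → ℂ))
    (g : G) : (matHom ρ g).trace = ρ.character g := by
  show (LinearMap.toMatrix' (ρ g)).trace = LinearMap.trace ℂ (Fin k → ℂ) (ρ g)
  rw [← Matrix.trace_toLin'_eq, Matrix.toLin'_toMatrix']

/-- a nontrivial irreducible representation of a simple group is faithful -/
theorem irr_faithful {G : Type*} [Group G] [IsSimpleGroup G] {k : ℕ}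
    (ρ : Representation ℂ G (Fin k → ℂ)) (hirr : ρ.IsIrreducible) (hk : 2 ≤ k) {g : G}
    (hg : g ≠ 1) : ρ g ≠ 1 := by
  intro h
  have hker : (ρ : G →* ((Fin k → ℂ) →ₗ[ℂ] (Fin k → ℂ))).ker = ⊤ := by
    rcases (MonoidHom.normal_ker (ρ : G →* ((Fin k → ℂ) →ₗ[ℂ] (Fin k → ℂ)))).eq_bot_or_eq_top
      with h0 | h0
    · exfalso
      apply hg
      have : g ∈ (ρ : G →* ((Fin k → ℂ) →ₗ[ℂ] (Fin k → ℂ))).ker := MonoidHom.mem_ker.2 h
      rw [h0] at this
      exact Subgroup.mem_bot.1 this
    · exact h0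
  have hall : ∀ x : G, ρ x = 1 := by
    intro x
    have : x ∈ (ρ : G →* ((Fin k → ℂ) →ₗ[ℂ] (Fin k → ℂ))).ker := by
      rw [hker]
      trivial
    exact MonoidHom.mem_ker.1 this
  let i0 : Fin k := ⟨0, by omega⟩
  let v : Fin k → ℂ := Pi.single i0 1
  have hv : v ≠ 0 := by
    intro h0
    have := congrFun h0 i0
    simp [v] at this
  let W : Subrepresentation ρ :=
    ⟨Submodule.span ℂ {v}, fun x w hw => by rw [hall x]; exact hw⟩
  haveI := hirr
  rcases eq_bot_or_eq_top W with h0 | h0
  · have h1 : W.toSubmodule = ⊥ := congrArg Subrepresentation.toSubmodule h0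
    have h2 : v ∈ W.toSubmodule := Submodule.mem_span_singleton_self v
    rw [h1] at h2
    exact hv ((Submodule.mem_bot ℂ).1 h2)
  · have h1 : W.toSubmodule = ⊤ := congrArg Subrepresentation.toSubmodule h0
    have h2 : Module.finrank ℂ (Submodule.span ℂ {v}) = 1 := finrank_span_singleton hv
    have h3 : Module.finrank ℂ (Submodule.span ℂ {v}) = k := by
      have h4 : Submodule.span ℂ {v} = ⊤ := h1
      rw [h4, finrank_top]
      simp
    omega

end rep

end Cfsg.Agent.Lib.helper25.SzDeg
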