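import Mathlib
import Cfsg.Agent.Lib.helper25.SUDeg2
import Cfsg.Agent.Lib.helper25.SzDeg1
import Cfsg.Agent.Lib.helper4.USimple

set_option autoImplicit false
set_option linter.unusedSectionVars false
set_option linter.unusedSimpArgs false
set_option linter.unusedVariables false

/-!
Lower bound for the degree of a complex representation of `SU_{2m}(q)` which is nontrivial on the
centre of the unipotent radical of the stabilizer of a maximal isotropic subspace.
-/

namespace Cfsg.Agent.Lib.helper25.SUDeg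

open Matrix
open Cfsg.Agent.Lib.helper4
open Cfsg.Agent.Lib.helper25.SUni
open Cfsg.Agent.Lib.helper25.SzDeg (idem_trace matHom)

/-- the set of hermitian matrices -/
def HS (q m : ℕ) (K : Type*) [Field K] [Fintype K] [DecidableEq K] :
    Finset (Matrix (Fin m) (Fin m) K) :=
  Finset.univ.filter (fun H => cj q H = H)

section rep

variable {K : Type*} [Field K] [Fintype K] [DecidableEq K] {q : ℕ} {m : ℕ} {k : ℕ}

theorem mem_HS {H : Matrix (Fin m) (Fin m) K} : H ∈ HS q m K ↔ cj q H = H := by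
  simp [HS]

theorem trace_single_mul (i j : Fin m) (c : K) (H : Matrix (Fin m) (Fin m) K) :
    (Matrix.single i j c * H).trace = c * H j i := by
  rw [Matrix.trace, Finset.sum_eq_single i]
  · rw [Matrix.diag_apply, Matrix.single_mul_apply_same]
  · intro b _ hb
    rw [Matrix.diag_apply, Matrix.single_mul_apply_of_ne (h := hb)]
  · intro h
    exact absurd (Finset.mem_univ i) h

variable (hK : Fintype.card K = q ^ 2)

include hK in
theorem sum_shift {α : Type*} [AddCommMonoid α] (H₀ : Matrix (Fin m) (Fin m) K)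
    (hH₀ : H₀ ∈ HS q m K) (f : Matrix (Fin m) (Fin m) K → α) :
    ∑ X ∈ HS q m K, f (X + H₀) = ∑ X ∈ HS q m K, f X := by
  rw [mem_HS] at hH₀
  apply Finset.sum_nbij' (fun X => X + H₀) (fun X => X - H₀)
  · intro X hX
    rw [mem_HS] at hX ⊢
    rw [cj_add hK, hX, hH₀]
  · intro X hX
    rw [mem_HS] at hX ⊢
    rw [cj_sub hK, hX, hH₀]
  · intro X _
    simp
  · intro X _
    simp
  · intro X _
    rfl

include hK in
/-- the character sum -/
theorem char_sum (ψ : AddChar K ℂ) (y₀ : K) (hψ : ψ (y₀ + y₀ ^ q) ≠ 1)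
    (H : Matrix (Fin m) (Fin m) K) (hH : H ∈ HS q m K) (h0 : H ≠ 0) :
    ∑ B ∈ HS q m K, ψ (-(B * H).trace) = 0 := by
  have hH' := mem_HS.1 hH
  have hsym : ∀ i j, H j i = (H i j) ^ q := by
    intro i j
    have := congrFun (congrFun hH' j) i
    rw [cj_apply] at this
    exact this.symm
  have hB₁ : ∃ B₁ ∈ HS q m K, (B₁ * H).trace = y₀ + y₀ ^ q := by
    have : ∃ i j, H i j ≠ 0 := by
      by_contra h
      push Not at h
      exact h0 (Matrix.ext h)
    obtain ⟨i, j, hij⟩ := this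
    by_cases hd : H i i ≠ 0
    · refine ⟨Matrix.single i i ((y₀ + y₀ ^ q) / H i i), ?_, ?_⟩
      · rw [mem_HS, cj_single hK, div_pow, frob_add hK, frob_frob hK, ← hsym i i, add_comm]
      · rw [trace_single_mul]
        field_simp
    · push Not at hd
      have hne : i ≠ j := by
        rintro rfl
        exact hij hd
      have hji : H j i ≠ 0 := by
        intro h
        apply hij
        rw [hsym j i, h, zero_pow (by have := uq_ge_two hK; omega)]
      refine ⟨Matrix.single i j (y₀ / H j i) + Matrix.single j i ((y₀ / H j i) ^ q), ?_, ?_⟩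
      · rw [mem_HS, cj_add hK, cj_single hK, cj_single hK, frob_frob hK, add_comm]
      · rw [Matrix.add_mul, Matrix.trace_add, trace_single_mul, trace_single_mul, hsym j i,
          ← mul_pow]
        have e : y₀ / H j i * H j i = y₀ := by field_simp
        rw [e]
  obtain ⟨B₁, hB₁, htr⟩ := hB₁
  have h1 : ∑ B ∈ HS q m K, ψ (-(B * H).trace)
      = ψ (-(y₀ + y₀ ^ q)) * ∑ B ∈ HS q m K, ψ (-(B * H).trace) := by
    conv_lhs => rw [← sum_shift hK B₁ hB₁ (fun B => ψ (-(B * H).trace))]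
    rw [Finset.mul_sum]
    refine Finset.sum_congr rfl (fun B _ => ?_)
    rw [Matrix.add_mul, Matrix.trace_add, htr, neg_add, AddChar.map_add_eq_mul, mul_comm]
  have h2 : ψ (-(y₀ + y₀ ^ q)) ≠ 1 := by
    intro h
    apply hψ
    have h3 : ψ (-(y₀ + y₀ ^ q)) * ψ (y₀ + y₀ ^ q) = 1 := by
      rw [← AddChar.map_add_eq_mul, neg_add_cancel, AddChar.map_zero_eq_one]
    rw [h, one_mul] at h3
    exact h3
  have h3 : (1 - ψ (-(y₀ + y₀ ^ q))) * ∑ B ∈ HS q m K, ψ (-(B * H).trace) = 0 := by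
    linear_combination h1
  rcases mul_eq_zero.1 h3 with h4 | h4
  · exact absurd (sub_eq_zero.1 h4).symm h2
  · exact h4

variable (κ : K) (hκ : κ + κ ^ q = 0)
  (M : GamU (m + m) K q →* Matrix (Fin k) (Fin k) ℂ) (ψ : AddChar K ℂ)

include hK hκ in
theorem skew_of_herm (H : Matrix (Fin m) (Fin m) K) (hH : cj q H = H) :
    cj q (κ • H) = -(κ • H) := by
  rw [cj_smul hK, hH]
  have : κ ^ q = -κ := by linear_combination hκ
  rw [this, neg_smul]

/-- the operator of a hermitian matrix -/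
noncomputable def Zf (H : Matrix (Fin m) (Fin m) K) : Matrix (Fin k) (Fin k) ℂ :=
  if h : cj q H = H then M (zG hK (κ • H) (skew_of_herm hK κ hκ H h)) else 0

theorem Zf_of (H : Matrix (Fin m) (Fin m) K) (h : cj q H = H) :
    Zf hK κ hκ M H = M (zG hK (κ • H) (skew_of_herm hK κ hκ H h)) := dif_pos h

theorem Zf_add (H H' : Matrix (Fin m) (Fin m) K) (h : H ∈ HS q m K) (h' : H' ∈ HS q m K) :
    Zf hK κ hκ M (H + H') = Zf hK κ hκ M H * Zf hK κ hκ M H' := by
  rw [mem_HS] at h h'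
  have h'' : cj q (H + H') = H + H' := by rw [cj_add hK, h, h']
  rw [Zf_of hK κ hκ M H h, Zf_of hK κ hκ M H' h', Zf_of hK κ hκ M _ h'', ← map_mul]
  congr 1
  apply gm_injective
  rw [gm_mul, gm_zG, gm_zG, gm_zG, smul_add, zM_add]

theorem Zf_zero : Zf hK κ hκ M (0 : Matrix (Fin m) (Fin m) K) = 1 := by
  have h0 : cj q (0 : Matrix (Fin m) (Fin m) K) = 0 := cj_zero hK
  rw [Zf_of hK κ hκ M 0 h0, ← map_one M]
  congr 1
  apply gm_injective
  rw [gm_zG, smul_zero, zM_zero]
  rfl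

/-- the eigenprojection of a character -/
noncomputable def Pp (B : Matrix (Fin m) (Fin m) K) : Matrix (Fin k) (Fin k) ℂ :=
  ((HS q m K).card : ℂ)⁻¹ • ∑ H ∈ HS q m K, ψ (-(B * H).trace) • Zf hK κ hκ M H

include hK in
theorem card_HS_ne : ((HS q m K).card : ℂ) ≠ 0 := by
  have : 0 < (HS q m K).card := Finset.card_pos.2 ⟨0, mem_HS.2 (cj_zero hK)⟩
  exact_mod_cast this.ne'

theorem Pp_idem (B : Matrix (Fin m) (Fin m) K) :
    Pp hK κ hκ M ψ B * Pp hK κ hκ M ψ B = Pp hK κ hκ M ψ B := by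
  have hc := card_HS_ne (m := m) hK
  unfold Pp
  rw [Matrix.smul_mul, Matrix.mul_smul, smul_smul, Finset.sum_mul]
  have key : ∀ H ∈ HS q m K, (ψ (-(B * H).trace) • Zf hK κ hκ M H)
      * ∑ H' ∈ HS q m K, ψ (-(B * H').trace) • Zf hK κ hκ M H'
        = ∑ X ∈ HS q m K, ψ (-(B * X).trace) • Zf hK κ hκ M X := by
    intro H hH
    rw [Finset.mul_sum,
      ← sum_shift hK H hH (fun X => ψ (-(B * X).trace) • Zf hK κ hκ M X)]
    refine Finset.sum_congr rfl (fun H' hH' => ?_)
    have e : ψ (-(B * (H' + H)).trace) • Zf hK κ hκ M (H' + H)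
        = (ψ (-(B * H).trace) * ψ (-(B * H').trace))
          • (Zf hK κ hκ M H * Zf hK κ hκ M H') := by
      rw [add_comm H' H, Zf_add hK κ hκ M H H' hH hH', Matrix.mul_add, Matrix.trace_add, neg_add,
        AddChar.map_add_eq_mul]
    rw [Matrix.smul_mul, Matrix.mul_smul, smul_smul]
    exact e.symm
  rw [Finset.sum_congr rfl key, Finset.sum_const, ← Nat.cast_smul_eq_nsmul ℂ, smul_smul]
  congr 1
  field_simp

theorem Pp_sum (hψ : ∀ H ∈ HS q m K, H ≠ 0 → ∑ B ∈ HS q m K, ψ (-(B * H).trace) = 0) :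
    ∑ B ∈ HS q m K, Pp hK κ hκ M ψ B = 1 := by
  have hc := card_HS_ne (m := m) hK
  unfold Pp
  rw [← Finset.smul_sum, Finset.sum_comm]
  have key : ∀ H ∈ HS q m K, ∑ B ∈ HS q m K, ψ (-(B * H).trace) • Zf hK κ hκ M H
      = if H = 0 then ((HS q m K).card : ℂ) • Zf hK κ hκ M H else 0 := by
    intro H hH
    rw [← Finset.sum_smul]
    by_cases h0 : H = 0
    · rw [if_pos h0, h0]
      congr 1
      simp
    · rw [if_neg h0, hψ H hH h0, zero_smul]
  rw [Finset.sum_congr rfl key, Finset.sum_ite_eq', if_pos (mem_HS.2 (cj_zero hK)), Zf_zero,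
    smul_smul, inv_mul_cancel₀ hc, one_smul]

theorem Pp_conj {A A' : Matrix (Fin m) (Fin m) K} (hOk : Ok q A A')
    (B : Matrix (Fin m) (Fin m) K) :
    (Pp hK κ hκ M ψ (cj q A' * B * A')).trace = (Pp hK κ hκ M ψ B).trace := by
  obtain ⟨h1, h2, g, hg1, hg2⟩ := hOk
  have hcc : cj q A * cj q A' = 1 := by rw [← cj_mul hK, h2, cj_one hK]
  have hcc' : cj q A' * cj q A = 1 := by rw [← cj_mul hK, h1, cj_one hK]
  have hher : ∀ H : Matrix (Fin m) (Fin m) K, cj q H = H → cj q (A * H * cj q A) = A * H * cj q A := by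
    intro H hH
    rw [cj_mul hK, cj_mul hK, cj_cj hK, hH, Matrix.mul_assoc]
  have hher' : ∀ H : Matrix (Fin m) (Fin m) K, cj q H = H →
      cj q (A' * H * cj q A') = A' * H * cj q A' := by
    intro H hH
    rw [cj_mul hK, cj_mul hK, cj_cj hK, hH, Matrix.mul_assoc]
  have hZ : ∀ H ∈ HS q m K, M g * Zf hK κ hκ M H = Zf hK κ hκ M (A * H * cj q A) * M g := by
    intro H hH
    rw [mem_HS] at hH
    rw [Zf_of hK κ hκ M H hH, Zf_of hK κ hκ M _ (hher H hH), ← map_mul, ← map_mul]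
    congr 1
    apply gm_injective
    rw [gm_mul, gm_mul, gm_zG, gm_zG, ok_conj hK g h2 hg1 hg2, Matrix.mul_smul, Matrix.smul_mul]
  have hcomm : M g * Pp hK κ hκ M ψ B = Pp hK κ hκ M ψ (cj q A' * B * A') * M g := by
    unfold Pp
    rw [Matrix.mul_smul, Matrix.smul_mul, Finset.mul_sum, Finset.sum_mul]
    congr 1
    apply Finset.sum_nbij' (fun H => A * H * cj q A) (fun X => A' * X * cj q A')
    · intro H hH
      exact mem_HS.2 (hher H (mem_HS.1 hH))
    · intro X hX
      exact mem_HS.2 (hher' X (mem_HS.1 hX))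
    · intro H _
      show A' * (A * H * cj q A) * cj q A' = H
      calc A' * (A * H * cj q A) * cj q A' = (A' * A) * H * (cj q A * cj q A') := by
            simp only [Matrix.mul_assoc]
        _ = H := by rw [h2, hcc, Matrix.one_mul, Matrix.mul_one]
    · intro X _
      show A * (A' * X * cj q A') * cj q A = X
      calc A * (A' * X * cj q A') * cj q A = (A * A') * X * (cj q A' * cj q A) := by
            simp only [Matrix.mul_assoc]
        _ = X := by rw [h1, hcc', Matrix.one_mul, Matrix.mul_one]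
    · intro H hH
      have e : cj q A' * B * A' * (A * H * cj q A) = cj q A' * (B * H * cj q A) := by
        calc cj q A' * B * A' * (A * H * cj q A) = cj q A' * B * (A' * A) * H * cj q A := by
              simp only [Matrix.mul_assoc]
          _ = cj q A' * (B * H * cj q A) := by
              rw [h2, Matrix.mul_one]
              simp only [Matrix.mul_assoc]
      have e' : (cj q A' * B * A' * (A * H * cj q A)).trace = (B * H).trace := by
        rw [e, Matrix.trace_mul_comm, Matrix.mul_assoc (B * H) (cj q A) (cj q A'), hcc,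
          Matrix.mul_one]
      rw [Matrix.mul_smul, Matrix.smul_mul, hZ H hH, e']
  have hinv : M g * M g⁻¹ = 1 := by rw [← map_mul, mul_inv_cancel, map_one]
  have hinv' : M g⁻¹ * M g = 1 := by rw [← map_mul, inv_mul_cancel, map_one]
  have e : Pp hK κ hκ M ψ (cj q A' * B * A') = M g * Pp hK κ hκ M ψ B * M g⁻¹ := by
    rw [hcomm, Matrix.mul_assoc _ (M g) (M g⁻¹), hinv, Matrix.mul_one]
  rw [e, Matrix.trace_mul_comm, ← Matrix.mul_assoc, hinv', Matrix.one_mul]

/-- the degree bound -/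
theorem deg_bound_gam (hm : 2 ≤ m)
    (hψ : ∀ H ∈ HS q m K, H ≠ 0 → ∑ B ∈ HS q m K, ψ (-(B * H).trace) = 0)
    (hne : ∃ H ∈ HS q m K, Zf hK κ hκ M H ≠ 1) : q ^ (m + m) ≤ (q + 1) * k + 1 := by
  classical
  have hd : ∀ B : Matrix (Fin m) (Fin m) K, ∃ d : ℕ, (Pp hK κ hκ M ψ B).trace = d ∧
      (d = 0 → Pp hK κ hκ M ψ B = 0) := fun B => idem_trace _ (Pp_idem hK κ hκ M ψ B)
  choose d hd1 hd2 using hd
  have hsum : (k : ℂ) = ∑ B ∈ HS q m K, (d B : ℂ) := by
    have := congrArg Matrix.trace (Pp_sum hK κ hκ M ψ hψ)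
    rw [Matrix.trace_sum, Matrix.trace_one, Fintype.card_fin] at this
    rw [← this]
    exact Finset.sum_congr rfl (fun B _ => hd1 B)
  have hsumN : k = ∑ B ∈ HS q m K, d B := by exact_mod_cast hsum
  have hex : ∃ B₀ ∈ HS q m K, B₀ ≠ 0 ∧ d B₀ ≠ 0 := by
    by_contra hcon
    push Not at hcon
    have hP0 : ∀ B ∈ HS q m K, B ≠ 0 → Pp hK κ hκ M ψ B = 0 :=
      fun B hB hB0 => hd2 B (hcon B hB hB0)
    have h1 : Pp hK κ hκ M ψ 0 = 1 := by
      have := Pp_sum hK κ hκ M ψ hψ
      rw [Finset.sum_eq_single_of_mem 0 (mem_HS.2 (cj_zero hK))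
        (fun B hB hB0 => hP0 B hB hB0)] at this
      exact this
    obtain ⟨H₁, hH₁, hZ⟩ := hne
    apply hZ
    have h2 : Zf hK κ hκ M H₁ * Pp hK κ hκ M ψ 0 = Pp hK κ hκ M ψ 0 := by
      unfold Pp
      rw [Matrix.mul_smul, Finset.mul_sum]
      congr 1
      rw [← sum_shift hK H₁ hH₁
        (fun X => ψ (-((0 : Matrix (Fin m) (Fin m) K) * X).trace) • Zf hK κ hκ M X)]
      refine Finset.sum_congr rfl (fun H hH => ?_)
      rw [Matrix.mul_smul, ← Zf_add hK κ hκ M H₁ H hH₁ hH, add_comm H₁ H]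
      simp only [Matrix.zero_mul]
    rw [h1, Matrix.mul_one] at h2
    exact h2
  obtain ⟨B₀, hB₀, hB₀0, hdB₀⟩ := hex
  obtain ⟨T, hT1, hT2⟩ := orbit_bound hK hm B₀ (mem_HS.1 hB₀) hB₀0
  have hR : ∀ B ∈ T, B ∈ HS q m K ∧ d B = d B₀ := by
    intro B hB
    obtain ⟨A, hA, rfl⟩ := hT1 B hB
    refine ⟨mem_HS.2 (herm_cong hK A B₀ (mem_HS.1 hB₀)), ?_⟩
    have hrel := rel_of_Mv hK (fun X Y => d X = d Y) (fun _ => rfl)
      (fun _ _ _ h1 h2 => h1.trans h2)
      (fun X i j hij t => by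
        have := Pp_conj hK κ hκ M ψ (ok_el hK i j hij t) X
        rw [hd1, hd1] at this
        exact_mod_cast this.symm) hA B₀
    exact hrel.symm
  have hle : T.card ≤ k := by
    rw [hsumN]
    calc T.card = ∑ B ∈ T, 1 := by simp
      _ ≤ ∑ B ∈ T, d B := Finset.sum_le_sum (fun B hB => by rw [(hR B hB).2]; omega)
      _ ≤ ∑ B ∈ HS q m K, d B :=
          Finset.sum_le_sum_of_subset (fun B hB => (hR B hB).1)
  calc q ^ (m + m) = q ^ (2 * m) := by rw [two_mul]
    _ ≤ (q + 1) * T.card + 1 := hT2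
    _ ≤ (q + 1) * k + 1 := Nat.add_le_add_right (Nat.mul_le_mul_left _ hle) 1

end rep

end Cfsg.Agent.Lib.helper25.SUDeg
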