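import Mathlib
import Cfsg.Agent.Lib.helper25.SUDeg3

set_option autoImplicit false
set_option linter.unusedSectionVars false
set_option linter.unusedSimpArgs false
set_option linter.unusedVariables false

/-!
The minimal degree of a complex irreducible representation of dimension at least two of the
special unitary group `SU_{2m}(q)`, `m ≥ 2`, is at least `(q ^ (2 m) - 1) / (q + 1)`.
-/

namespace Cfsg.Agent.Lib.helper25.SUDeg

open Matrix
open Cfsg.Agent.Lib.helper4
open Cfsg.Agent.Lib.helper25.SUni
open Cfsg.Agent.Lib.helper25.SzDeg (idem_trace matHom)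

/-- an irreducible representation of dimension at least two is not trivial -/
theorem irr_not_trivial {G : Type*} [Group G] {k : ℕ}
    (ρ : Representation ℂ G (Fin k → ℂ)) (hirr : ρ.IsIrreducible) (hk : 2 ≤ k)
    (hall : ∀ x : G, ρ x = 1) : False := by
  let i0 : Fin k := ⟨0, by omega⟩
  let v : Fin k → ℂ := Pi.single i0 1
  have hv : v ≠ 0 := by
    intro h0
    have := congrFun h0 i0
    simp [v] at this
  let W : Subrepresentation ρ :=
    ⟨Submodule.span ℂ {v}, fun x w hw => by rw [hall x]; exact hw⟩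
  haveI := hirr
  rcases eq_bot_or_eq_top W with h0 | h0
  · have h1 : W.toSubmodule = ⊥ := congrArg Subrepresentation.toSubmodule h0
    have h2 : v ∈ W.toSubmodule := Submodule.mem_span_singleton_self v
    rw [h1] at h2
    exact hv ((Submodule.mem_bot ℂ).1 h2)
  · have h1 : W.toSubmodule = ⊤ := congrArg Subrepresentation.toSubmodule h0
    have h2 : Module.finrank ℂ (Submodule.span ℂ {v}) = 1 := finrank_span_singleton hv
    have h3 : Module.finrank ℂ (Submodule.span ℂ {v}) = k := by
      have h4 : Submodule.span ℂ {v} = ⊤ := h1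
      rw [h4, finrank_top]
      simp
    omega

theorem su_even_deg {F : Type*} [Field F] [Fintype F] [DecidableEq F] (m q : ℕ) (hm : 2 ≤ m)
    (hF : Fintype.card F = q ^ 2) (k : ℕ)
    (ρ : Representation ℂ (Cfsg.SU (m + m) F q) (Fin k → ℂ))
    (hirr : ρ.IsIrreducible) (hk : 2 ≤ k) : (q ^ (m + m) - 1) / (q + 1) ≤ k := by
  classical
  have hq := uq_ge_two hF
  obtain ⟨e, he⟩ := exists_toSU (q := q) (K := F) hF (m + m)
  obtain ⟨κ, hκ0, hκ⟩ := exists_trace_zero hF
  obtain ⟨y₀, hy₀⟩ := exists_tr_ne hF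
  obtain ⟨ψ, hψ⟩ := (AddChar.exists_apply_ne_zero (a := y₀ + y₀ ^ q)).2 hy₀
  let M : GamU (m + m) F q →* Matrix (Fin k) (Fin k) ℂ := (matHom ρ).comp e
  have hne : ∃ H ∈ HS q m F, Zf hF κ hκ M H ≠ 1 := by
    by_contra hcon
    push Not at hcon
    let z : Fin m := ⟨0, by omega⟩
    let z' : Fin m := ⟨1, by omega⟩
    have hzz' : z' ≠ z := by
      intro h
      have := congrArg Fin.val h
      simp [z, z'] at this
    have hH₀ : cj q (Matrix.single z z (1 : F)) = Matrix.single z z 1 := by
      rw [cj_single hF, one_pow]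
    have h1 := hcon _ (mem_HS.2 hH₀)
    rw [Zf_of hF κ hκ M _ hH₀] at h1
    obtain ⟨g₀, hg₀⟩ : ∃ g₀ : GamU (m + m) F q,
        g₀ = zG hF (κ • Matrix.single z z (1 : F)) (skew_of_herm hF κ hκ _ hH₀) := ⟨_, rfl⟩
    rw [← hg₀] at h1
    have hρ : ρ (e g₀) = 1 := by
      have h2 : LinearMap.toMatrix' (ρ (e g₀)) = 1 := h1
      have h3 : LinearMap.toMatrix' (1 : (Fin k → ℂ) →ₗ[ℂ] (Fin k → ℂ)) = 1 :=
        LinearMap.toMatrix'_one
      apply LinearMap.toMatrix'.injective
      rw [h2, h3]
    let N : Subgroup (Cfsg.SU (m + m) F q) :=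
      (ρ : Cfsg.SU (m + m) F q →* ((Fin k → ℂ) →ₗ[ℂ] (Fin k → ℂ))).ker
    haveI : N.Normal := MonoidHom.normal_ker _
    have hmem : e g₀ ∈ N := MonoidHom.mem_ker.2 hρ
    by_cases hNZ : N ≤ Subgroup.center (Cfsg.SU (m + m) F q)
    · have hcen := hNZ hmem
      have hcomm : ∀ g : GamU (m + m) F q, g * g₀ = g₀ * g := by
        intro g
        apply he.1
        rw [map_mul, map_mul]
        exact (Subgroup.mem_center_iff.1 hcen (e g))
      obtain ⟨h1', h2', g, hg1, hg2⟩ := ok_el (q := q) hF z' z hzz' (-1 : F)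
      rw [neg_neg] at h1' h2' hg1
      have hc := congrArg gm (hcomm g)
      rw [gm_mul, gm_mul, hg₀, gm_zG, ok_conj hF g h2' hg1 hg2] at hc
      have hc2 : zM m ((1 + Matrix.single z' z (1 : F)) * (κ • Matrix.single z z (1 : F))
          * cj q (1 + Matrix.single z' z (1 : F))) = zM m (κ • Matrix.single z z (1 : F)) := by
        have := congrArg (· * gm g⁻¹) hc
        simp only [Matrix.mul_assoc, gm_mul_inv, Matrix.mul_one] at this
        simpa only [Matrix.mul_assoc] using this
      have hc3 := zM_inj hc2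
      have hL : (1 + Matrix.single z' z (1 : F)) * (κ • Matrix.single z z (1 : F))
          * cj q (1 + Matrix.single z' z (1 : F))
            = Matrix.single z z κ + Matrix.single z' z κ + Matrix.single z z' κ
              + Matrix.single z' z' κ := by
        rw [cj_add hF, cj_one hF, cj_single hF, one_pow, Matrix.smul_single, smul_eq_mul, mul_one]
        simp only [Matrix.add_mul, Matrix.mul_add, Matrix.one_mul, Matrix.mul_one,
          Matrix.single_mul_single_same, one_mul, mul_one]
        abel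
      rw [hL, Matrix.smul_single, smul_eq_mul, mul_one] at hc3
      have hc4 := congrFun (congrFun hc3 z') z'
      simp [Matrix.single_apply, hzz', hzz'.symm] at hc4
      exact hκ0 hc4
    · have hN : N = ⊤ := su_normal_eq_top hF (Or.inl (by omega)) N hNZ
      exact irr_not_trivial ρ hirr hk (fun x => MonoidHom.mem_ker.1 (by rw [hN]; trivial : x ∈ N))
  have hb := deg_bound_gam hF κ hκ M ψ hm (fun H hH h0 => char_sum hF ψ y₀ hψ H hH h0) hne
  apply Nat.div_le_of_le_mul
  omega

end Cfsg.Agent.Lib.helper25.SUDeg
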