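import Mathlib
import Cfsg.Agent.Lib.helper25.SUDeg2

set_option autoImplicit false
set_option linter.unusedSectionVars false
set_option linter.unusedSimpArgs false
set_option linter.unusedVariables false

/-!
The centre of the unipotent radical of the stabilizer of a maximal isotropic subspace in the
special unitary group of dimension `m + m + 1`, and its Levi conjugations.
-/

namespace Cfsg.Agent.Lib.helper25.SUDeg

open Matrix
open Cfsg.Agent.Lib.helper4
open Cfsg.Agent.Lib.helper25.SUni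

variable {K : Type*} [Field K] [Fintype K] [DecidableEq K] {q : ℕ} {m : ℕ}

/-- the first coordinates -/
def jo (m : ℕ) : Fin m → Fin (m + m + 1) := fun i => ⟨i.1, by have := i.2; omega⟩

/-- the last coordinates, reversed -/
def jo' (m : ℕ) : Fin m → Fin (m + m + 1) := fun j => Fin.rev (jo m j)

/-- the middle coordinate -/
def mid (m : ℕ) : Fin (m + m + 1) := ⟨m, by omega⟩

theorem jo_inj : Function.Injective (jo m) := by
  intro a b h
  have := congrArg Fin.val h
  exact Fin.ext this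

theorem jo'_inj : Function.Injective (jo' m) :=
  fun a b h => jo_inj (Fin.rev_injective h)

theorem jo_ne_jo' (a b : Fin m) : jo m a ≠ jo' m b := by
  intro h
  have := congrArg Fin.val h
  simp only [jo, jo', Fin.val_rev] at this
  have := a.2
  have := b.2
  omega

theorem rev_mid : Fin.rev (mid m) = mid m := by
  apply Fin.ext
  simp only [mid, Fin.val_rev]
  omega

theorem jo_ne_mid (a : Fin m) : jo m a ≠ mid m := by
  intro h
  have := congrArg Fin.val h
  simp only [jo, mid] at this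
  have := a.2
  omega

theorem jo'_ne_mid (a : Fin m) : jo' m a ≠ mid m := by
  intro h
  have := congrArg Fin.val h
  simp only [jo, jo', mid, Fin.val_rev] at this
  have := a.2
  omega

/-- the matrix of a central element of the radical -/
def yM (m : ℕ) (S : Matrix (Fin m) (Fin m) K) : Matrix (Fin (m + m + 1)) (Fin (m + m + 1)) K :=
  1 + Pf K (jo m) * S * (Pf K (jo' m))ᵀ

theorem yM_mulVec (S : Matrix (Fin m) (Fin m) K) (u : Fin (m + m + 1) → K) :
    yM m S *ᵥ u = u + Pf K (jo m) *ᵥ (S *ᵥ (fun j => u (jo' m j))) := by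
  unfold yM
  rw [Matrix.add_mulVec, Matrix.one_mulVec, ← Matrix.mulVec_mulVec, ← Matrix.mulVec_mulVec,
    Pft_mulVec]

theorem yM_pres (hK : Fintype.card K = q ^ 2) (S : Matrix (Fin m) (Fin m) K)
    (hS : cj q S = -S) (u v : Fin (m + m + 1) → K) :
    hf (m + m + 1) K q (yM m S *ᵥ u) (yM m S *ᵥ v) = hf (m + m + 1) K q u v := by
  have hq := uq_ge_two hK
  have hS' : ∀ i j, (S j i) ^ q = -S i j := fun i j => by
    have := congrFun (congrFun hS i) j
    rwa [cj_apply, Matrix.neg_apply] at this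
  have h3 : ∀ (b : Fin m → K) (i : Fin m), (Pf K (jo m) *ᵥ b) (jo' m i) = 0 := by
    intro b i
    simp [Matrix.mulVec, dotProduct, Pf_apply, (jo_ne_jo' _ _).symm]
  rw [yM_mulVec, yM_mulVec, hf_add_left, hf_add_right hK, hf_add_right hK, hf_Pf_left,
    hf_Pf_left, hf_Pf_right hK]
  have e3 : ∑ i, (S *ᵥ fun j => u (jo' m j)) i
      * ((Pf K (jo m) *ᵥ (S *ᵥ fun j => v (jo' m j))) (Fin.rev (jo m i))) ^ q = 0 := by
    apply Finset.sum_eq_zero
    intro i _
    have : (Pf K (jo m) *ᵥ (S *ᵥ fun j => v (jo' m j))) (Fin.rev (jo m i)) = 0 := h3 _ i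
    rw [this, zero_pow (by omega), mul_zero]
  have e1 : ∀ i, u (Fin.rev (jo m i)) * ((S *ᵥ fun j => v (jo' m j)) i) ^ q
      = ∑ j, u (jo' m i) * (S i j) ^ q * (v (jo' m j)) ^ q := by
    intro i
    simp only [Matrix.mulVec, dotProduct]
    rw [frob_sum hK, Finset.mul_sum]
    refine Finset.sum_congr rfl (fun j _ => ?_)
    rw [mul_pow]
    show u (jo' m i) * ((S i j) ^ q * (v (jo' m j)) ^ q) = _
    ring
  have e2 : ∀ i, (S *ᵥ fun j => u (jo' m j)) i * (v (Fin.rev (jo m i))) ^ q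
      = ∑ j, S i j * u (jo' m j) * (v (jo' m i)) ^ q := by
    intro i
    simp only [Matrix.mulVec, dotProduct]
    rw [Finset.sum_mul]
    rfl
  have hT : (∑ i, u (Fin.rev (jo m i)) * ((S *ᵥ fun j => v (jo' m j)) i) ^ q)
      + (∑ i, (S *ᵥ fun j => u (jo' m j)) i * (v (Fin.rev (jo m i))) ^ q) = 0 := by
    rw [Finset.sum_congr rfl (fun i _ => e1 i), Finset.sum_congr rfl (fun i _ => e2 i),
      Finset.sum_comm, ← Finset.sum_add_distrib]
    apply Finset.sum_eq_zero
    intro i _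
    rw [← Finset.sum_add_distrib]
    apply Finset.sum_eq_zero
    intro j _
    rw [hS' i j]
    ring
  rw [e3, add_zero]
  linear_combination hT

theorem yM_det (S : Matrix (Fin m) (Fin m) K) : (yM m S).det = 1 := by
  unfold yM
  rw [Matrix.mul_assoc, Matrix.det_one_add_mul_comm, Matrix.mul_assoc,
    Pf_tmul_disj (jo' m) (jo m) (fun a b => (jo_ne_jo' b a).symm), Matrix.mul_zero, add_zero,
    Matrix.det_one]

/-- the central element of the radical with parameter `S` -/
def yG (hK : Fintype.card K = q ^ 2) (S : Matrix (Fin m) (Fin m) K) (hS : cj q S = -S) :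
    GamU (m + m + 1) K q := mkG (yM m S) (yM_det S) (yM_pres hK S hS)

theorem gm_yG (hK : Fintype.card K = q ^ 2) (S : Matrix (Fin m) (Fin m) K) (hS : cj q S = -S) :
    gm (yG hK S hS) = yM m S := rfl

theorem yM_add (S S' : Matrix (Fin m) (Fin m) K) : yM m (S + S') = yM m S * yM m S' := by
  have h0 : (Pf K (jo' m))ᵀ * Pf K (jo m) = (0 : Matrix (Fin m) (Fin m) K) :=
    Pf_tmul_disj (jo' m) (jo m) (fun a b => (jo_ne_jo' b a).symm)
  have hz : Pf K (jo m) * S * (Pf K (jo' m))ᵀ * (Pf K (jo m) * S' * (Pf K (jo' m))ᵀ) = 0 := by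
    calc Pf K (jo m) * S * (Pf K (jo' m))ᵀ * (Pf K (jo m) * S' * (Pf K (jo' m))ᵀ)
        = Pf K (jo m) * S * ((Pf K (jo' m))ᵀ * Pf K (jo m)) * S' * (Pf K (jo' m))ᵀ := by
          simp only [Matrix.mul_assoc]
      _ = 0 := by rw [h0]; simp
  unfold yM
  simp only [Matrix.add_mul, Matrix.mul_add, Matrix.one_mul, Matrix.mul_one]
  rw [hz]
  abel

theorem yM_zero : yM m (0 : Matrix (Fin m) (Fin m) K) = 1 := by
  unfold yM
  simp

theorem yM_inj {S S' : Matrix (Fin m) (Fin m) K} (h : yM m S = yM m S') : S = S' := by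
  have key : ∀ S : Matrix (Fin m) (Fin m) K,
      (Pf K (jo m))ᵀ * (Pf K (jo m) * S * (Pf K (jo' m))ᵀ) * Pf K (jo' m) = S := by
    intro S
    calc (Pf K (jo m))ᵀ * (Pf K (jo m) * S * (Pf K (jo' m))ᵀ) * Pf K (jo' m)
        = ((Pf K (jo m))ᵀ * Pf K (jo m)) * S * ((Pf K (jo' m))ᵀ * Pf K (jo' m)) := by
          simp only [Matrix.mul_assoc]
      _ = S := by rw [Pf_tmul _ jo_inj, Pf_tmul _ jo'_inj, Matrix.one_mul, Matrix.mul_one]
  unfold yM at h
  have h' := add_left_cancel h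
  rw [← key S, h', key S']

/-- admissible Levi pairs -/
def Oj (q : ℕ) (A A' : Matrix (Fin m) (Fin m) K) : Prop :=
  A * A' = 1 ∧ A' * A = 1 ∧ ∃ g : GamU (m + m + 1) K q,
    gm g * Pf K (jo m) = Pf K (jo m) * A ∧
      (Pf K (jo' m))ᵀ * gm g = cj q A' * (Pf K (jo' m))ᵀ

theorem oj_el (hK : Fintype.card K = q ^ 2) (i j : Fin m) (hij : i ≠ j) (t : K) :
    Oj q (1 + Matrix.single i j (-t)) (1 + Matrix.single i j t) := by
  have h0 : (Pf K (jo' m))ᵀ * Pf K (jo m) = (0 : Matrix (Fin m) (Fin m) K) :=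
    Pf_tmul_disj (jo' m) (jo m) (fun a b => (jo_ne_jo' b a).symm)
  have hss : ∀ a b : K, Matrix.single i j a * Matrix.single i j b
      = (0 : Matrix (Fin m) (Fin m) K) :=
    fun a b => Matrix.single_mul_single_of_ne (h := fun h => hij h.symm) ..
  have hr1 : jo m i ≠ Fin.rev (jo m i) := jo_ne_jo' i i
  have hr3 : jo m j ≠ Fin.rev (jo m j) := jo_ne_jo' j j
  refine ⟨?_, ?_, xr hK (jo m i) (jo m j) hr1 (fun h => hij (jo_inj h)) hr3 (-t), ?_, ?_⟩
  · simp only [Matrix.add_mul, Matrix.mul_add, Matrix.one_mul, Matrix.mul_one, hss]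
    rw [add_zero, add_assoc, ← Matrix.single_add, neg_add_cancel, Matrix.single_zero, add_zero]
  · simp only [Matrix.add_mul, Matrix.mul_add, Matrix.one_mul, Matrix.mul_one, hss]
    rw [add_zero, add_assoc, ← Matrix.single_add, add_neg_cancel, Matrix.single_zero, add_zero]
  · rw [gm_xr]
    have e1 : Matrix.single (jo m i) (jo m j) (-t)
        = Pf K (jo m) * Matrix.single i j (-t) * (Pf K (jo m))ᵀ := (Pf_single _ _ _ _).symm
    have e2 : Matrix.single (Fin.rev (jo m j)) (Fin.rev (jo m i)) ((-t) ^ q)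
        = Pf K (jo' m) * Matrix.single j i ((-t) ^ q) * (Pf K (jo' m))ᵀ :=
      (Pf_single (jo' m) j i _).symm
    rw [e1, e2, Matrix.sub_mul, Matrix.add_mul, Matrix.one_mul, Matrix.mul_assoc,
      Pf_tmul _ jo_inj, Matrix.mul_one, Matrix.mul_assoc _ _ (Pf K (jo m)), h0, Matrix.mul_zero,
      sub_zero, Matrix.mul_add, Matrix.mul_one]
  · rw [gm_xr]
    have e1 : Matrix.single (jo m i) (jo m j) (-t)
        = Pf K (jo m) * Matrix.single i j (-t) * (Pf K (jo m))ᵀ := (Pf_single _ _ _ _).symm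
    have e2 : Matrix.single (Fin.rev (jo m j)) (Fin.rev (jo m i)) ((-t) ^ q)
        = Pf K (jo' m) * Matrix.single j i ((-t) ^ q) * (Pf K (jo' m))ᵀ :=
      (Pf_single (jo' m) j i _).symm
    have h0' : (Pf K (jo' m))ᵀ * Pf K (jo m) * Matrix.single i j (-t) * (Pf K (jo m))ᵀ = 0 := by
      rw [h0]; simp
    rw [e1, e2, Matrix.mul_sub, Matrix.mul_add, Matrix.mul_one, ← Matrix.mul_assoc,
      ← Matrix.mul_assoc, h0', add_zero, ← Matrix.mul_assoc, ← Matrix.mul_assoc,
      Pf_tmul _ jo'_inj, Matrix.one_mul, cj_add hK, cj_one hK, cj_single hK, frob_neg hK,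
      ← Matrix.single_neg, Matrix.add_mul, Matrix.one_mul, Matrix.neg_mul, sub_eq_add_neg, neg_neg]

theorem oj_conj (hK : Fintype.card K = q ^ 2) {A A' : Matrix (Fin m) (Fin m) K}
    (g : GamU (m + m + 1) K q) (h2 : A' * A = 1)
    (hg1 : gm g * Pf K (jo m) = Pf K (jo m) * A)
    (hg2 : (Pf K (jo' m))ᵀ * gm g = cj q A' * (Pf K (jo' m))ᵀ)
    (S : Matrix (Fin m) (Fin m) K) :
    gm g * yM m S = yM m (A * S * cj q A) * gm g := by
  unfold yM
  rw [Matrix.mul_add, Matrix.mul_one, Matrix.add_mul, Matrix.one_mul]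
  congr 1
  calc gm g * (Pf K (jo m) * S * (Pf K (jo' m))ᵀ)
      = (gm g * Pf K (jo m)) * S * (Pf K (jo' m))ᵀ := by simp only [Matrix.mul_assoc]
    _ = Pf K (jo m) * A * S * (Pf K (jo' m))ᵀ := by rw [hg1]
    _ = Pf K (jo m) * (A * S * (cj q A * cj q A')) * (Pf K (jo' m))ᵀ := by
        rw [← cj_mul hK, h2, cj_one hK, Matrix.mul_one]
        simp only [Matrix.mul_assoc]
    _ = Pf K (jo m) * (A * S * cj q A) * (cj q A' * (Pf K (jo' m))ᵀ) := by
        simp only [Matrix.mul_assoc]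
    _ = Pf K (jo m) * (A * S * cj q A) * (Pf K (jo' m))ᵀ * gm g := by
        rw [← hg2]
        simp only [Matrix.mul_assoc]

end Cfsg.Agent.Lib.helper25.SUDeg
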