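import Mathlib
import Cfsg.Agent.Lib.helper25.SUOdd1
import Cfsg.Agent.Lib.helper25.SUDeg3

set_option autoImplicit false
set_option linter.unusedSectionVars false
set_option linter.unusedSimpArgs false
set_option linter.unusedVariables false

/-!
Eigenprojections of the centre of the unipotent radical for a complex representation of the
special unitary group of dimension `m + m + 1`, and two abstract trace lemmas.
-/

namespace Cfsg.Agent.Lib.helper25.SUDeg

open Matrix
open Cfsg.Agent.Lib.helper4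
open Cfsg.Agent.Lib.helper25.SUni
open Cfsg.Agent.Lib.helper25.SzDeg (idem_trace matHom)

/-- a twisted conjugation forces the trace to vanish -/
theorem tr_zero_of_twist {k : ℕ} (A W W' ζ P : Matrix (Fin k) (Fin k) ℂ) (ω : ℂ) (hω : ω ≠ 1)
    (h1 : W * A = A * ζ * W) (hWP : W * P = P * W) (hζ : ζ * P = ω • P)
    (hW : W * W' = 1) (hW' : W' * W = 1) : (A * P).trace = 0 := by
  have e1 : (W * (A * P) * W').trace = (A * P).trace := by
    rw [Matrix.trace_mul_comm (W * (A * P)) W', ← Matrix.mul_assoc, hW', Matrix.one_mul]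
  have e2 : W * (A * P) * W' = ω • (A * P) := by
    calc W * (A * P) * W' = (W * A) * P * W' := by simp only [Matrix.mul_assoc]
      _ = A * ζ * (W * P) * W' := by rw [h1]; simp only [Matrix.mul_assoc]
      _ = A * (ζ * P) * (W * W') := by rw [hWP]; simp only [Matrix.mul_assoc]
      _ = ω • (A * P) := by rw [hζ, hW, Matrix.mul_one, Matrix.mul_smul]
  rw [e2, Matrix.trace_smul, smul_eq_mul] at e1
  have h3 : (1 - ω) * (A * P).trace = 0 := by linear_combination -e1
  rcases mul_eq_zero.1 h3 with h | h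
  · exact absurd (sub_eq_zero.1 h).symm hω
  · exact h

/-- a family of operators on the range of an idempotent of trace `d` which is orthogonal for the
trace pairing has at most `d ^ 2` members -/
theorem heis_bound {k : ℕ} {L : Type*} [Fintype L] [DecidableEq L]
    (P : Matrix (Fin k) (Fin k) ℂ) (hP : P * P = P) (d : ℕ) (hd : P.trace = d) (hd0 : d ≠ 0)
    (U V : L → Matrix (Fin k) (Fin k) ℂ)
    (hUP : ∀ c, U c * P = P * U c)
    (hVU : ∀ c, (V c * U c * P).trace = d)
    (h0 : ∀ c c', c ≠ c' → (V c' * U c * P).trace = 0) :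
    Fintype.card L ≤ d ^ 2 := by
  classical
  have he : IsIdempotentElem (Matrix.toLin' P) := by
    show (Matrix.toLin' P).comp (Matrix.toLin' P) = Matrix.toLin' P
    rw [← Matrix.toLin'_mul, hP]
  have hfr : Module.finrank ℂ (LinearMap.range (Matrix.toLin' P)) = d := by
    have htr : LinearMap.trace ℂ (Fin k → ℂ) (Matrix.toLin' P)
        = (Module.finrank ℂ (LinearMap.range (Matrix.toLin' P)) : ℂ) :=
      (LinearMap.IsIdempotentElem.isProj_range _ he).trace
    rw [Matrix.trace_toLin'_eq, hd] at htr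
    exact_mod_cast htr.symm
  have hmap : ∀ c, ∀ x ∈ LinearMap.range (Matrix.toLin' P),
      Matrix.toLin' (U c) x ∈ LinearMap.range (Matrix.toLin' P) := by
    intro c x hx
    obtain ⟨y, rfl⟩ := hx
    refine ⟨Matrix.toLin' (U c) y, ?_⟩
    rw [← LinearMap.comp_apply, ← LinearMap.comp_apply, ← Matrix.toLin'_mul, ← Matrix.toLin'_mul,
      hUP]
  let T : L → (LinearMap.range (Matrix.toLin' P) →ₗ[ℂ] LinearMap.range (Matrix.toLin' P)) :=
    fun c => (Matrix.toLin' (U c)).restrict (hmap c)
  have hli : LinearIndependent ℂ T := by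
    refine (Fintype.linearIndependent_iff (ι := L) (R := ℂ) (v := T)).2 ?_
    intro g hg c'
    have hmat : ∑ c, g c • (U c * P) = 0 := by
      apply Matrix.toLin'.injective
      apply LinearMap.ext
      intro y
      have h1 := congrArg (fun f : LinearMap.range (Matrix.toLin' P) →ₗ[ℂ]
          LinearMap.range (Matrix.toLin' P) =>
        ((f ⟨Matrix.toLin' P y, LinearMap.mem_range_self _ y⟩ :
          LinearMap.range (Matrix.toLin' P)) : Fin k → ℂ)) hg
      simp only [LinearMap.sum_apply, LinearMap.smul_apply, LinearMap.zero_apply,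
        Submodule.coe_sum, Submodule.coe_smul, Submodule.coe_zero, T,
        LinearMap.restrict_coe_apply] at h1
      simp only [map_sum, map_smul, Matrix.toLin'_mul, LinearMap.sum_apply,
        LinearMap.smul_apply, LinearMap.comp_apply, map_zero, LinearMap.zero_apply]
      exact h1
    have h2 : ∑ c, g c * (V c' * U c * P).trace = 0 := by
      have h3 := congrArg (fun X => (V c' * X).trace) hmat
      simp only [Finset.mul_sum, Matrix.mul_smul, Matrix.trace_sum, Matrix.trace_smul,
        smul_eq_mul, Matrix.mul_zero, Matrix.trace_zero, ← Matrix.mul_assoc] at h3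
      exact h3
    rw [Finset.sum_eq_single c' (fun c _ hc => by rw [h0 c c' hc, mul_zero])
      (fun h => absurd (Finset.mem_univ _) h), hVU] at h2
    have hdne : (d : ℂ) ≠ 0 := by exact_mod_cast hd0
    exact (mul_eq_zero.1 h2).resolve_right hdne
  have h4 := hli.fintype_card_le_finrank
  rw [Module.finrank_linearMap, hfr] at h4
  rw [sq]
  exact h4

section rep

variable {K : Type*} [Field K] [Fintype K] [DecidableEq K] {q : ℕ} {m : ℕ} {k : ℕ}

variable (hK : Fintype.card K = q ^ 2)

variable (κ : K) (hκ : κ + κ ^ q = 0)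
  (M : GamU (m + m + 1) K q →* Matrix (Fin k) (Fin k) ℂ) (ψ : AddChar K ℂ)

/-- the operator of a hermitian matrix -/
noncomputable def Yf (H : Matrix (Fin m) (Fin m) K) : Matrix (Fin k) (Fin k) ℂ :=
  if h : cj q H = H then M (yG hK (κ • H) (skew_of_herm hK κ hκ H h)) else 0

theorem Yf_of (H : Matrix (Fin m) (Fin m) K) (h : cj q H = H) :
    Yf hK κ hκ M H = M (yG hK (κ • H) (skew_of_herm hK κ hκ H h)) := dif_pos h

theorem Yf_add (H H' : Matrix (Fin m) (Fin m) K) (h : H ∈ HS q m K) (h' : H' ∈ HS q m K) :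
    Yf hK κ hκ M (H + H') = Yf hK κ hκ M H * Yf hK κ hκ M H' := by
  rw [mem_HS] at h h'
  have h'' : cj q (H + H') = H + H' := by rw [cj_add hK, h, h']
  rw [Yf_of hK κ hκ M H h, Yf_of hK κ hκ M H' h', Yf_of hK κ hκ M _ h'', ← map_mul]
  congr 1
  apply gm_injective
  rw [gm_mul, gm_yG, gm_yG, gm_yG, smul_add, yM_add]

theorem Yf_zero : Yf hK κ hκ M (0 : Matrix (Fin m) (Fin m) K) = 1 := by
  have h0 : cj q (0 : Matrix (Fin m) (Fin m) K) = 0 := cj_zero hK
  rw [Yf_of hK κ hκ M 0 h0, ← map_one M]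
  congr 1
  apply gm_injective
  rw [gm_yG, smul_zero, yM_zero]
  rfl

/-- the eigenprojection of a character -/
noncomputable def Qp (B : Matrix (Fin m) (Fin m) K) : Matrix (Fin k) (Fin k) ℂ :=
  ((HS q m K).card : ℂ)⁻¹ • ∑ H ∈ HS q m K, ψ (-(B * H).trace) • Yf hK κ hκ M H

theorem Qp_idem (B : Matrix (Fin m) (Fin m) K) :
    Qp hK κ hκ M ψ B * Qp hK κ hκ M ψ B = Qp hK κ hκ M ψ B := by
  have hc := card_HS_ne (m := m) hK
  unfold Qp
  rw [Matrix.smul_mul, Matrix.mul_smul, smul_smul, Finset.sum_mul]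
  have key : ∀ H ∈ HS q m K, (ψ (-(B * H).trace) • Yf hK κ hκ M H)
      * ∑ H' ∈ HS q m K, ψ (-(B * H').trace) • Yf hK κ hκ M H'
        = ∑ X ∈ HS q m K, ψ (-(B * X).trace) • Yf hK κ hκ M X := by
    intro H hH
    rw [Finset.mul_sum,
      ← sum_shift hK H hH (fun X => ψ (-(B * X).trace) • Yf hK κ hκ M X)]
    refine Finset.sum_congr rfl (fun H' hH' => ?_)
    have e : ψ (-(B * (H' + H)).trace) • Yf hK κ hκ M (H' + H)
        = (ψ (-(B * H).trace) * ψ (-(B * H').trace))
          • (Yf hK κ hκ M H * Yf hK κ hκ M H') := by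
      rw [add_comm H' H, Yf_add hK κ hκ M H H' hH hH', Matrix.mul_add, Matrix.trace_add, neg_add,
        AddChar.map_add_eq_mul]
    rw [Matrix.smul_mul, Matrix.mul_smul, smul_smul]
    exact e.symm
  rw [Finset.sum_congr rfl key, Finset.sum_const, ← Nat.cast_smul_eq_nsmul ℂ, smul_smul]
  congr 1
  field_simp

theorem Qp_sum (hψ : ∀ H ∈ HS q m K, H ≠ 0 → ∑ B ∈ HS q m K, ψ (-(B * H).trace) = 0) :
    ∑ B ∈ HS q m K, Qp hK κ hκ M ψ B = 1 := by
  have hc := card_HS_ne (m := m) hK
  unfold Qp
  rw [← Finset.smul_sum, Finset.sum_comm]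
  have key : ∀ H ∈ HS q m K, ∑ B ∈ HS q m K, ψ (-(B * H).trace) • Yf hK κ hκ M H
      = if H = 0 then ((HS q m K).card : ℂ) • Yf hK κ hκ M H else 0 := by
    intro H hH
    rw [← Finset.sum_smul]
    by_cases h0 : H = 0
    · rw [if_pos h0, h0]
      congr 1
      simp
    · rw [if_neg h0, hψ H hH h0, zero_smul]
  rw [Finset.sum_congr rfl key, Finset.sum_ite_eq', if_pos (mem_HS.2 (cj_zero hK)), Yf_zero,
    smul_smul, inv_mul_cancel₀ hc, one_smul]

theorem Qp_conj {A A' : Matrix (Fin m) (Fin m) K} (hOk : Oj q A A')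
    (B : Matrix (Fin m) (Fin m) K) :
    (Qp hK κ hκ M ψ (cj q A' * B * A')).trace = (Qp hK κ hκ M ψ B).trace := by
  obtain ⟨h1, h2, g, hg1, hg2⟩ := hOk
  have hcc : cj q A * cj q A' = 1 := by rw [← cj_mul hK, h2, cj_one hK]
  have hcc' : cj q A' * cj q A = 1 := by rw [← cj_mul hK, h1, cj_one hK]
  have hher : ∀ H : Matrix (Fin m) (Fin m) K, cj q H = H → cj q (A * H * cj q A) = A * H * cj q A := by
    intro H hH
    rw [cj_mul hK, cj_mul hK, cj_cj hK, hH, Matrix.mul_assoc]
  have hher' : ∀ H : Matrix (Fin m) (Fin m) K, cj q H = H →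
      cj q (A' * H * cj q A') = A' * H * cj q A' := by
    intro H hH
    rw [cj_mul hK, cj_mul hK, cj_cj hK, hH, Matrix.mul_assoc]
  have hZ : ∀ H ∈ HS q m K, M g * Yf hK κ hκ M H = Yf hK κ hκ M (A * H * cj q A) * M g := by
    intro H hH
    rw [mem_HS] at hH
    rw [Yf_of hK κ hκ M H hH, Yf_of hK κ hκ M _ (hher H hH), ← map_mul, ← map_mul]
    congr 1
    apply gm_injective
    rw [gm_mul, gm_mul, gm_yG, gm_yG, oj_conj hK g h2 hg1 hg2, Matrix.mul_smul, Matrix.smul_mul]
  have hcomm : M g * Qp hK κ hκ M ψ B = Qp hK κ hκ M ψ (cj q A' * B * A') * M g := by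
    unfold Qp
    rw [Matrix.mul_smul, Matrix.smul_mul, Finset.mul_sum, Finset.sum_mul]
    congr 1
    apply Finset.sum_nbij' (fun H => A * H * cj q A) (fun X => A' * X * cj q A')
    · intro H hH
      exact mem_HS.2 (hher H (mem_HS.1 hH))
    · intro X hX
      exact mem_HS.2 (hher' X (mem_HS.1 hX))
    · intro H _
      show A' * (A * H * cj q A) * cj q A' = H
      calc A' * (A * H * cj q A) * cj q A' = (A' * A) * H * (cj q A * cj q A') := by
            simp only [Matrix.mul_assoc]
        _ = H := by rw [h2, hcc, Matrix.one_mul, Matrix.mul_one]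
    · intro X _
      show A * (A' * X * cj q A') * cj q A = X
      calc A * (A' * X * cj q A') * cj q A = (A * A') * X * (cj q A' * cj q A) := by
            simp only [Matrix.mul_assoc]
        _ = X := by rw [h1, hcc', Matrix.one_mul, Matrix.mul_one]
    · intro H hH
      have e : cj q A' * B * A' * (A * H * cj q A) = cj q A' * (B * H * cj q A) := by
        calc cj q A' * B * A' * (A * H * cj q A) = cj q A' * B * (A' * A) * H * cj q A := by
              simp only [Matrix.mul_assoc]
          _ = cj q A' * (B * H * cj q A) := by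
              rw [h2, Matrix.mul_one]
              simp only [Matrix.mul_assoc]
      have e' : (cj q A' * B * A' * (A * H * cj q A)).trace = (B * H).trace := by
        rw [e, Matrix.trace_mul_comm, Matrix.mul_assoc (B * H) (cj q A) (cj q A'), hcc,
          Matrix.mul_one]
      rw [Matrix.mul_smul, Matrix.smul_mul, hZ H hH, e']
  have hinv : M g * M g⁻¹ = 1 := by rw [← map_mul, mul_inv_cancel, map_one]
  have hinv' : M g⁻¹ * M g = 1 := by rw [← map_mul, inv_mul_cancel, map_one]
  have e : Qp hK κ hκ M ψ (cj q A' * B * A') = M g * Qp hK κ hκ M ψ B * M g⁻¹ := by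
    rw [hcomm, Matrix.mul_assoc _ (M g) (M g⁻¹), hinv, Matrix.mul_one]
  rw [e, Matrix.trace_mul_comm, ← Matrix.mul_assoc, hinv', Matrix.one_mul]


theorem Yf_Qp (B H : Matrix (Fin m) (Fin m) K) (hH : H ∈ HS q m K) :
    Yf hK κ hκ M H * Qp hK κ hκ M ψ B = ψ ((B * H).trace) • Qp hK κ hκ M ψ B := by
  unfold Qp
  rw [Matrix.mul_smul, smul_comm (ψ ((B * H).trace))]
  congr 1
  rw [Finset.mul_sum, Finset.smul_sum]
  rw [← sum_shift hK H hH
    (fun X => ψ ((B * H).trace) • ψ (-(B * X).trace) • Yf hK κ hκ M X)]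
  refine Finset.sum_congr rfl (fun X hX => ?_)
  rw [Matrix.mul_smul, ← Yf_add hK κ hκ M H X hH hX, add_comm H X, smul_smul]
  congr 1
  have e : ψ ((B * H).trace) * ψ (-(B * H).trace) = 1 := by
    rw [← AddChar.map_add_eq_mul, add_neg_cancel, AddChar.map_zero_eq_one]
  rw [Matrix.mul_add, Matrix.trace_add, neg_add, AddChar.map_add_eq_mul]
  linear_combination (-(ψ (-(B * X).trace))) * e

theorem comm_Qp (g : GamU (m + m + 1) K q)
    (hg : ∀ S : Matrix (Fin m) (Fin m) K, gm g * yM m S = yM m S * gm g)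
    (B : Matrix (Fin m) (Fin m) K) :
    M g * Qp hK κ hκ M ψ B = Qp hK κ hκ M ψ B * M g := by
  have hZ : ∀ H : Matrix (Fin m) (Fin m) K,
      M g * Yf hK κ hκ M H = Yf hK κ hκ M H * M g := by
    intro H
    by_cases h : cj q H = H
    · rw [Yf_of hK κ hκ M H h, ← map_mul, ← map_mul]
      congr 1
      apply gm_injective
      rw [gm_mul, gm_mul, gm_yG, hg]
    · unfold Yf
      rw [dif_neg h, Matrix.mul_zero, Matrix.zero_mul]
  unfold Qp
  rw [Matrix.mul_smul, Matrix.smul_mul, Finset.mul_sum, Finset.sum_mul]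
  congr 1
  refine Finset.sum_congr rfl (fun H _ => ?_)
  rw [Matrix.mul_smul, Matrix.smul_mul, hZ]

end rep

end Cfsg.Agent.Lib.helper25.SUDeg
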