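import Mathlib
import Cfsg.Agent.Lib.helper25.SUOdd2

set_option autoImplicit false
set_option linter.unusedSectionVars false
set_option linter.unusedSimpArgs false
set_option linter.unusedVariables false

/-!
The non-central elements of the unipotent radical in dimension `m + m + 1`, the resulting
multiplicity bound, and the degree bound.
-/

namespace Cfsg.Agent.Lib.helper25.SUDeg

open Matrix
open Cfsg.Agent.Lib.helper4
open Cfsg.Agent.Lib.helper25.SUni
open Cfsg.Agent.Lib.helper25.SzDeg (idem_trace matHom)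

section geom

variable {K : Type*} [Field K] [Fintype K] [DecidableEq K] {q : ℕ} {m : ℕ}

/-- the isotropic basis vector -/
def av (K : Type*) [Field K] (m : ℕ) (z : Fin m) : Fin (m + m + 1) → K := Pi.single (jo m z) 1

/-- the middle basis vector -/
def ev (K : Type*) [Field K] (m : ℕ) : Fin (m + m + 1) → K := Pi.single (mid m) 1

theorem av_jo' (z j : Fin m) : av K m z (jo' m j) = 0 := by
  unfold av
  exact Pi.single_eq_of_ne (fun h => jo_ne_jo' z j h.symm) _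

theorem ev_jo' (j : Fin m) : ev K m (jo' m j) = 0 := by
  unfold ev
  exact Pi.single_eq_of_ne (jo'_ne_mid j) _

theorem hf_av (hK : Fintype.card K = q ^ 2) (z : Fin m) (v : Fin (m + m + 1) → K) :
    hf (m + m + 1) K q v (av K m z) = v (jo' m z) := by
  unfold av
  rw [hf_single_right hK, one_pow, mul_one]
  rfl

theorem hf_av_av (hK : Fintype.card K = q ^ 2) (z : Fin m) :
    hf (m + m + 1) K q (av K m z) (av K m z) = 0 := by
  rw [hf_av hK, av_jo']

theorem hf_ev_av (hK : Fintype.card K = q ^ 2) (z : Fin m) :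
    hf (m + m + 1) K q (ev K m) (av K m z) = 0 := by
  rw [hf_av hK, ev_jo']

theorem hf_ev_ev : hf (m + m + 1) K q (ev K m) (ev K m) = 1 := by
  unfold ev
  rw [hf_single_left, rev_mid, Pi.single_eq_same, one_pow, mul_one]

theorem hf_cev_av (hK : Fintype.card K = q ^ 2) (z : Fin m) (c : K) :
    hf (m + m + 1) K q (c • ev K m) (av K m z) = 0 := by
  rw [hf_smul_left, hf_ev_av hK, mul_zero]

theorem hf_cev_cev (c c' : K) :
    hf (m + m + 1) K q (c • ev K m) (c' • ev K m) = c * c' ^ q := by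
  rw [hf_smul_left, hf_smul_right, hf_ev_ev, mul_one]

theorem SgOK_rad (hK : Fintype.card K = q ^ 2) (z : Fin m) (c d : K)
    (h : d + d ^ q + c * c ^ q = 0) :
    SgOK (m + m + 1) K q (av K m z) (c • ev K m) d := by
  refine ⟨hf_av_av hK z, hf_cev_av hK z c, ?_⟩
  rw [hf_cev_cev]
  exact h

/-- the radical elements -/
def Xr (hK : Fintype.card K = q ^ 2) (z : Fin m) (c d : K) (h : d + d ^ q + c * c ^ q = 0) :
    GamU (m + m + 1) K q :=
  sgl hK (av K m z) (c • ev K m) d (SgOK_rad hK z c d h)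

theorem gm_Xr (hK : Fintype.card K = q ^ 2) (z : Fin m) (c d : K)
    (h : d + d ^ q + c * c ^ q = 0) :
    gm (Xr hK z c d h) = sgM q (av K m z) (c • ev K m) d := rfl

theorem sgM_yM_comm (hK : Fintype.card K = q ^ 2) (a b : Fin (m + m + 1) → K) (d : K)
    (ha : ∀ j, a (jo' m j) = 0) (hb : ∀ j, b (jo' m j) = 0) (S : Matrix (Fin m) (Fin m) K) :
    sgM q a b d * yM m S = yM m S * sgM q a b d := by
  have hq := uq_ge_two hK
  have h1 : ∀ (s : Fin m → K) (x : Fin (m + m + 1) → K), (∀ j, x (jo' m j) = 0) →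
      hf (m + m + 1) K q (Pf K (jo m) *ᵥ s) x = 0 := by
    intro s x hx
    rw [hf_Pf_left]
    apply Finset.sum_eq_zero
    intro i _
    have : x (Fin.rev (jo m i)) = 0 := hx i
    rw [this, zero_pow (by omega), mul_zero]
  apply Matrix.mulVec_injective
  funext v
  rw [← mulVec_mulVec, ← mulVec_mulVec, yM_mulVec, sgM_mulVec, sgM_mulVec, yM_mulVec]
  have e : (fun j => (v + hf (m + m + 1) K q v a • b - hf (m + m + 1) K q v b • a
      + (d * hf (m + m + 1) K q v a) • a) (jo' m j)) = fun j => v (jo' m j) := by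
    funext j
    simp [ha j, hb j]
  rw [e, hf_add_left, hf_add_left, h1 _ a ha, h1 _ b hb]
  simp only [add_zero]
  abel

theorem Xr_comm (hK : Fintype.card K = q ^ 2) (z : Fin m) (c d : K)
    (h : d + d ^ q + c * c ^ q = 0) (S : Matrix (Fin m) (Fin m) K) :
    gm (Xr hK z c d h) * yM m S = yM m S * gm (Xr hK z c d h) := by
  rw [gm_Xr]
  exact sgM_yM_comm hK _ _ _ (fun j => av_jo' z j)
    (fun j => by rw [Pi.smul_apply, ev_jo', smul_zero]) S

theorem yM_single (hK : Fintype.card K = q ^ 2) (z : Fin m) (t : K) :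
    yM m (Matrix.single z z t) = sgM q (av K m z) 0 t := by
  apply Matrix.mulVec_injective
  funext v
  rw [yM_mulVec, sgM_mulVec, hf_av hK, hf_zero_right hK, Matrix.single_mulVec]
  have e : Pf K (jo m) *ᵥ Function.update (0 : Fin m → K) z (t * v (jo' m z))
      = (t * v (jo' m z)) • av K m z := by
    funext r
    show (Pf K (jo m) *ᵥ Pi.single z (t * v (jo' m z))) r = _
    rw [Matrix.mulVec_single]
    simp only [Pi.smul_apply, Matrix.col_apply, Pf_apply, av, Pi.single_apply,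
      MulOpposite.smul_eq_mul_unop, MulOpposite.unop_op, smul_eq_mul]
    rw [mul_comm]
  rw [e]
  simp

end geom

section rep

variable {K : Type*} [Field K] [Fintype K] [DecidableEq K] {q : ℕ} {m : ℕ} {k : ℕ}

variable (hK : Fintype.card K = q ^ 2)

variable (κ : K) (hκ : κ + κ ^ q = 0)
  (M : GamU (m + m + 1) K q →* Matrix (Fin k) (Fin k) ℂ) (ψ : AddChar K ℂ)

/-- a non-central radical element has trace zero on an eigenspace of a character which is
nontrivial along its coordinate -/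
theorem tr_rad_zero (y₀ : K) (hy : ψ (y₀ + y₀ ^ q) ≠ 1)
    (B : Matrix (Fin m) (Fin m) K) (hB : cj q B = B) (z : Fin m) (hβ : B z z ≠ 0)
    (g₁ : GamU (m + m + 1) K q) (c₁ δ₁ : K) (hc₁ : c₁ ≠ 0)
    (hg₁ : gm g₁ = sgM q (av K m z) (c₁ • ev K m) δ₁) :
    (M g₁ * Qp hK κ hκ M ψ B).trace = 0 := by
  have hq := uq_ge_two hK
  have hβq : (B z z) ^ q = B z z := by
    have := congrFun (congrFun hB z) z
    rwa [cj_apply] at this
  have hτq : (y₀ + y₀ ^ q) ^ q = y₀ + y₀ ^ q := by rw [frob_add hK, frob_frob hK, add_comm]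
  have hhq : ((y₀ + y₀ ^ q) / B z z) ^ q = (y₀ + y₀ ^ q) / B z z := by rw [div_pow, hτq, hβq]
  obtain ⟨u, hu⟩ := utrace_surj hK ((y₀ + y₀ ^ q) / B z z) hhq
  have hc₁q : c₁ ^ q ≠ 0 := pow_ne_zero _ hc₁
  have hκq : κ ^ q = -κ := by linear_combination hκ
  obtain ⟨c₂, hc₂⟩ : ∃ c₂ : K, c₂ * c₁ ^ q - c₁ * c₂ ^ q = κ * ((y₀ + y₀ ^ q) / B z z) := by
    refine ⟨κ * u / c₁ ^ q, ?_⟩
    rw [div_pow, mul_pow, frob_frob hK, hκq, ← hu]
    field_simp
    ring
  obtain ⟨δ₂, hδ₂⟩ : ∃ δ₂ : K, δ₂ + δ₂ ^ q + c₂ * c₂ ^ q = 0 := by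
    obtain ⟨t, ht⟩ := utrace_surj hK (-(c₂ * c₂ ^ q))
      (by rw [frob_neg hK, mul_pow, frob_frob hK, mul_comm])
    exact ⟨t, by rw [ht]; ring⟩
  have hH : cj q (Matrix.single z z ((y₀ + y₀ ^ q) / B z z))
      = Matrix.single z z ((y₀ + y₀ ^ q) / B z z) := by
    rw [cj_single hK, hhq]
  have key : Xr hK z c₂ δ₂ hδ₂ * g₁
      = g₁ * yG hK (κ • Matrix.single z z ((y₀ + y₀ ^ q) / B z z)) (skew_of_herm hK κ hκ _ hH)
        * Xr hK z c₂ δ₂ hδ₂ := by
    apply gm_injective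
    rw [gm_mul, gm_mul, gm_mul, gm_yG, hg₁, gm_Xr, Matrix.smul_single, smul_eq_mul,
      yM_single hK]
    have e1 : sgM q (av K m z) (c₂ • ev K m) δ₂ * sgM q (av K m z) (c₁ • ev K m) δ₁
        = sgM q (av K m z) ((c₂ + c₁) • ev K m) (δ₂ + δ₁ - c₁ * c₂ ^ q) := by
      rw [sgM_mul hK _ _ _ _ _ (hf_av_av hK z) (hf_cev_av hK z c₂) (hf_cev_av hK z c₁),
        hf_cev_cev, add_smul]
    have e2 : sgM q (av K m z) (c₁ • ev K m) δ₁
          * sgM q (av K m z) 0 (κ * ((y₀ + y₀ ^ q) / B z z))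
        = sgM q (av K m z) (c₁ • ev K m) (δ₁ + κ * ((y₀ + y₀ ^ q) / B z z)) := by
      rw [sgM_mul hK _ _ _ _ _ (hf_av_av hK z) (hf_cev_av hK z c₁) (hf_zero_left _), add_zero,
        hf_zero_left, sub_zero]
    have e3 : sgM q (av K m z) (c₁ • ev K m) (δ₁ + κ * ((y₀ + y₀ ^ q) / B z z))
          * sgM q (av K m z) (c₂ • ev K m) δ₂
        = sgM q (av K m z) ((c₁ + c₂) • ev K m)
          (δ₁ + κ * ((y₀ + y₀ ^ q) / B z z) + δ₂ - c₂ * c₁ ^ q) := by
      rw [sgM_mul hK _ _ _ _ _ (hf_av_av hK z) (hf_cev_av hK z c₁) (hf_cev_av hK z c₂),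
        hf_cev_cev, add_smul]
    rw [e1, e2, e3, add_comm c₂ c₁]
    congr 1
    linear_combination hc₂
  have hζ : M (yG hK (κ • Matrix.single z z ((y₀ + y₀ ^ q) / B z z))
      (skew_of_herm hK κ hκ _ hH)) * Qp hK κ hκ M ψ B
      = ψ (y₀ + y₀ ^ q) • Qp hK κ hκ M ψ B := by
    rw [← Yf_of hK κ hκ M _ hH, Yf_Qp hK κ hκ M ψ B _ (mem_HS.2 hH), Matrix.trace_mul_comm,
      trace_single_mul]
    congr 2
    field_simp
  refine tr_zero_of_twist (M g₁) (M (Xr hK z c₂ δ₂ hδ₂)) (M (Xr hK z c₂ δ₂ hδ₂)⁻¹) _ _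
    (ψ (y₀ + y₀ ^ q)) hy ?_ ?_ hζ ?_ ?_
  · rw [← map_mul, key, map_mul, map_mul]
  · exact comm_Qp hK κ hκ M ψ _ (fun S => Xr_comm hK z c₂ δ₂ hδ₂ S) B
  · rw [← map_mul, mul_inv_cancel, map_one]
  · rw [← map_mul, inv_mul_cancel, map_one]

/-- the multiplicity bound -/
theorem mult_bound (y₀ : K) (hy : ψ (y₀ + y₀ ^ q) ≠ 1)
    (B : Matrix (Fin m) (Fin m) K) (hB : cj q B = B) (z : Fin m) (hβ : B z z ≠ 0) (d : ℕ)
    (hd : (Qp hK κ hκ M ψ B).trace = d) (hd0 : d ≠ 0) : q ≤ d := by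
  classical
  have hδ : ∀ c : K, ∃ δ : K, δ + δ ^ q + c * c ^ q = 0 := by
    intro c
    obtain ⟨t, ht⟩ := utrace_surj hK (-(c * c ^ q))
      (by rw [frob_neg hK, mul_pow, frob_frob hK, mul_comm])
    exact ⟨t, by rw [ht]; ring⟩
  choose δ hδ using hδ
  have hcard := heis_bound (Qp hK κ hκ M ψ B) (Qp_idem hK κ hκ M ψ B) d hd hd0
    (fun c : K => M (Xr hK z c (δ c) (hδ c))) (fun c : K => M (Xr hK z c (δ c) (hδ c))⁻¹)
    (fun c => comm_Qp hK κ hκ M ψ _ (fun S => Xr_comm hK z c (δ c) (hδ c) S) B)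
    (fun c => by rw [← map_mul, inv_mul_cancel, map_one, Matrix.one_mul]; exact hd)
    (fun c c' hcc' => by
      rw [← map_mul]
      refine tr_rad_zero hK κ hκ M ψ y₀ hy B hB z hβ _ (c - c')
        ((δ c') ^ q + δ c - hf (m + m + 1) K q (c • ev K m) (-(c' • ev K m)))
        (sub_ne_zero.2 hcc') ?_
      show gm ((sgl hK (av K m z) (c' • ev K m) (δ c') (SgOK_rad hK z c' (δ c') (hδ c')))⁻¹
        * sgl hK (av K m z) (c • ev K m) (δ c) (SgOK_rad hK z c (δ c) (hδ c))) = _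
      rw [sgl_inv, gm_mul, gm_sgl, gm_sgl,
        sgM_mul hK _ _ _ _ _ (hf_av_av hK z)
          (by rw [hf_neg_left, hf_cev_av hK, neg_zero]) (hf_cev_av hK z c)]
      congr 1
      rw [sub_smul]
      abel)
  rw [hK] at hcard
  exact (Nat.pow_le_pow_iff_left (by norm_num)).1 hcard

theorem deg_count (d : Matrix (Fin m) (Fin m) K → ℕ) (hsumN : k = ∑ B ∈ HS q m K, d B)
    (T : Finset (Matrix (Fin m) (Fin m) K)) (hT : ∀ B ∈ T, B ∈ HS q m K ∧ q ≤ d B)
    (hcard : q ^ (2 * m) ≤ (q + 1) * T.card + 1) : q ^ (m + m + 1) ≤ (q + 1) * k + q := by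
  have hle : q * T.card ≤ k := by
    rw [hsumN]
    calc q * T.card = ∑ B ∈ T, q := by simp [mul_comm]
      _ ≤ ∑ B ∈ T, d B := Finset.sum_le_sum (fun B hB => (hT B hB).2)
      _ ≤ ∑ B ∈ HS q m K, d B := Finset.sum_le_sum_of_subset (fun B hB => (hT B hB).1)
  calc q ^ (m + m + 1) = q ^ (2 * m) * q := by rw [two_mul, pow_succ]
    _ ≤ ((q + 1) * T.card + 1) * q := Nat.mul_le_mul_right _ hcard
    _ = (q + 1) * (q * T.card) + q := by ring
    _ ≤ (q + 1) * k + q := Nat.add_le_add_right (Nat.mul_le_mul_left _ hle) q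

end rep

end Cfsg.Agent.Lib.helper25.SUDeg
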