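import Mathlib
import Cfsg.Agent.Lib.helper25.SUOdd3
import Cfsg.Agent.Lib.helper25.SUDeg4

set_option autoImplicit false
set_option linter.unusedSectionVars false
set_option linter.unusedSimpArgs false
set_option linter.unusedVariables false

/-!
The minimal degree of a complex irreducible representation of dimension at least two of the
special unitary group `SU_{2m+1}(q)` is at least `(q ^ (2 m + 1) - q) / (q + 1)`.
-/

namespace Cfsg.Agent.Lib.helper25.SUDeg

open Matrix
open Cfsg.Agent.Lib.helper4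
open Cfsg.Agent.Lib.helper25.SUni
open Cfsg.Agent.Lib.helper25.SzDeg (idem_trace matHom)

section torus

variable {K : Type*} [Field K] [Fintype K] [DecidableEq K] {q : ℕ}

/-- the torus of the three-dimensional group -/
theorem oj_torus (hK : Fintype.card K = q ^ 2) (a : K) (ha : a ≠ 0) :
    Oj q (a⁻¹ • (1 : Matrix (Fin 1) (Fin 1) K)) (a • (1 : Matrix (Fin 1) (Fin 1) K)) := by
  have hq := uq_ge_two hK
  have haq : a ^ q ≠ 0 := pow_ne_zero _ ha
  let l : Fin (1 + 1 + 1) → K := ![a⁻¹, a / a ^ q, a ^ q]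
  have hl : ∀ i, l i * (l (Fin.rev i)) ^ q = 1 := by
    intro i
    fin_cases i
    · show a⁻¹ * (a ^ q) ^ q = 1
      rw [frob_frob hK, inv_mul_cancel₀ ha]
    · show a / a ^ q * (a / a ^ q) ^ q = 1
      rw [div_pow, frob_frob hK]
      field_simp
    · show a ^ q * (a⁻¹) ^ q = 1
      rw [← mul_pow, mul_inv_cancel₀ ha, one_pow]
  have hdet : (((Equiv.Perm.sign (1 : Equiv.Perm (Fin (1 + 1 + 1))) : ℤˣ) : ℤ) : K) * ∏ i, l i
      = 1 := by
    rw [Equiv.Perm.sign_one]
    simp only [Units.val_one, Int.cast_one, one_mul]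
    rw [Fin.prod_univ_three]
    show a⁻¹ * (a / a ^ q) * a ^ q = 1
    field_simp
  have hπ : ∀ i : Fin (1 + 1 + 1), (1 : Equiv.Perm (Fin (1 + 1 + 1))) (Fin.rev i)
      = Fin.rev ((1 : Equiv.Perm (Fin (1 + 1 + 1))) i) := by
    intro i
    rw [Equiv.Perm.one_apply, Equiv.Perm.one_apply]
  refine ⟨?_, ?_, mono 1 l hπ hl hdet, ?_, ?_⟩
  · rw [Matrix.smul_mul, Matrix.mul_smul, smul_smul, Matrix.one_mul, inv_mul_cancel₀ ha, one_smul]
  · rw [Matrix.smul_mul, Matrix.mul_smul, smul_smul, Matrix.one_mul, mul_inv_cancel₀ ha, one_smul]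
  · rw [gm_mono]
    ext r s
    have hs : s = 0 := Subsingleton.elim _ _
    subst hs
    rw [Matrix.mul_apply, Matrix.mul_apply, Fin.sum_univ_one, Finset.sum_eq_single r]
    · simp only [mnM, Matrix.of_apply, Equiv.Perm.coe_one, id_eq, if_true, Pf_apply,
        Matrix.smul_apply, Matrix.one_apply_eq, smul_eq_mul, mul_one]
      by_cases h : r = jo 1 0
      · rw [if_pos h, h]
        show a⁻¹ * 1 = 1 * a⁻¹
        ring
      · rw [if_neg h]
        ring
    · intro t _ ht
      simp only [mnM, Matrix.of_apply]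
      rw [if_neg (fun h : r = (1 : Equiv.Perm (Fin (1 + 1 + 1))) t => ht h.symm), zero_mul]
    · intro h
      exact absurd (Finset.mem_univ _) h
  · rw [gm_mono, cj_smul hK, cj_one hK]
    ext s r
    have hs : s = 0 := Subsingleton.elim _ _
    subst hs
    rw [Matrix.mul_apply, Matrix.mul_apply, Fin.sum_univ_one, Finset.sum_eq_single r]
    · simp only [mnM, Matrix.of_apply, Equiv.Perm.coe_one, id_eq, if_true, Matrix.transpose_apply,
        Pf_apply, Matrix.smul_apply, Matrix.one_apply_eq, smul_eq_mul, mul_one]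
      by_cases h : r = jo' 1 0
      · rw [if_pos h, h]
        show 1 * a ^ q = a ^ q * 1
        ring
      · rw [if_neg h]
        ring
    · intro t _ ht
      simp only [mnM, Matrix.of_apply]
      rw [if_neg (fun h : t = (1 : Equiv.Perm (Fin (1 + 1 + 1))) r => ht h), mul_zero]
    · intro h
      exact absurd (Finset.mem_univ _) h

theorem one_ne_zero' {B : Matrix (Fin 1) (Fin 1) K} (hB : B ≠ 0) : B 0 0 ≠ 0 := by
  intro h
  apply hB
  ext i j
  rw [Subsingleton.elim i 0, Subsingleton.elim j 0, h]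
  rfl

end torus

section rep

variable {K : Type*} [Field K] [Fintype K] [DecidableEq K] {q : ℕ} {m : ℕ} {k : ℕ}

variable (hK : Fintype.card K = q ^ 2)

variable (κ : K) (hκ : κ + κ ^ q = 0)
  (M : GamU (m + m + 1) K q →* Matrix (Fin k) (Fin k) ℂ) (ψ : AddChar K ℂ)

/-- the degree bound -/
theorem deg_bound_odd (y₀ : K) (hy : ψ (y₀ + y₀ ^ q) ≠ 1) (hm : 1 ≤ m)
    (hne : ∃ H ∈ HS q m K, Yf hK κ hκ M H ≠ 1) : q ^ (m + m + 1) ≤ (q + 1) * k + q := by
  classical
  have hq := uq_ge_two hK
  have hψ : ∀ H ∈ HS q m K, H ≠ 0 → ∑ B ∈ HS q m K, ψ (-(B * H).trace) = 0 :=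
    fun H hH h0 => char_sum hK ψ y₀ hy H hH h0
  have hd : ∀ B : Matrix (Fin m) (Fin m) K, ∃ d : ℕ, (Qp hK κ hκ M ψ B).trace = d ∧
      (d = 0 → Qp hK κ hκ M ψ B = 0) := fun B => idem_trace _ (Qp_idem hK κ hκ M ψ B)
  choose d hd1 hd2 using hd
  have hsum : (k : ℂ) = ∑ B ∈ HS q m K, (d B : ℂ) := by
    have := congrArg Matrix.trace (Qp_sum hK κ hκ M ψ hψ)
    rw [Matrix.trace_sum, Matrix.trace_one, Fintype.card_fin] at this
    rw [← this]
    exact Finset.sum_congr rfl (fun B _ => hd1 B)
  have hsumN : k = ∑ B ∈ HS q m K, d B := by exact_mod_cast hsum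
  have hex : ∃ B₀ ∈ HS q m K, B₀ ≠ 0 ∧ d B₀ ≠ 0 := by
    by_contra hcon
    push Not at hcon
    have hP0 : ∀ B ∈ HS q m K, B ≠ 0 → Qp hK κ hκ M ψ B = 0 :=
      fun B hB hB0 => hd2 B (hcon B hB hB0)
    have h1 : Qp hK κ hκ M ψ 0 = 1 := by
      have := Qp_sum hK κ hκ M ψ hψ
      rw [Finset.sum_eq_single_of_mem 0 (mem_HS.2 (cj_zero hK))
        (fun B hB hB0 => hP0 B hB hB0)] at this
      exact this
    obtain ⟨H₁, hH₁, hZ⟩ := hne
    apply hZ
    have h2 := Yf_Qp hK κ hκ M ψ 0 H₁ hH₁
    rw [h1, Matrix.mul_one, Matrix.zero_mul, Matrix.trace_zero, AddChar.map_zero_eq_one,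
      one_smul] at h2
    exact h2
  obtain ⟨B₀, hB₀, hB₀0, hdB₀⟩ := hex
  have hmult : ∀ B : Matrix (Fin m) (Fin m) K, cj q B = B → ∀ z, B z z ≠ 0 → d B ≠ 0 →
      q ≤ d B :=
    fun B hB z hβ h0 => mult_bound hK κ hκ M ψ y₀ hy B hB z hβ (d B) (hd1 B) h0
  have hinv : ∀ (A A' : Matrix (Fin m) (Fin m) K), Oj q A A' →
      ∀ X, d (cj q A' * X * A') = d X := by
    intro A A' hOj X
    have := Qp_conj hK κ hκ M ψ hOj X
    rw [hd1, hd1] at this
    exact_mod_cast this
  have hMv : ∀ A, Mv m K A → ∀ X, d (cj q A * X * A) = d X := by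
    intro A hA X
    have hrel := rel_of_Mv hK (fun X Y => d X = d Y) (fun _ => rfl)
      (fun _ _ _ h1 h2 => h1.trans h2)
      (fun X i j hij t => (hinv _ _ (oj_el hK i j hij t) X).symm) hA X
    exact hrel.symm
  by_cases hm2 : 2 ≤ m
  · obtain ⟨T, hT1, hT2⟩ := orbit_bound hK hm2 B₀ (mem_HS.1 hB₀) hB₀0
    let z : Fin m := ⟨0, by omega⟩
    let z' : Fin m := ⟨1, by omega⟩
    have hzz' : z' ≠ z := by
      intro h
      have := congrArg Fin.val h
      simp [z, z'] at this
    obtain ⟨A₁, hA₁, hA₁z⟩ := normD1 hK z z' hzz' B₀ (mem_HS.1 hB₀) hB₀0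
    have hq0 : q ≤ d B₀ := by
      have h1 := hmult (cj q A₁ * B₀ * A₁) (herm_cong hK A₁ B₀ (mem_HS.1 hB₀)) z hA₁z
        (by rw [hMv A₁ hA₁]; exact hdB₀)
      rwa [hMv A₁ hA₁] at h1
    refine deg_count d hsumN T (fun B hB => ?_) hT2
    obtain ⟨A, hA, rfl⟩ := hT1 B hB
    exact ⟨mem_HS.2 (herm_cong hK A B₀ (mem_HS.1 hB₀)), by rw [hMv A hA]; exact hq0⟩
  · obtain rfl : m = 1 := by omega
    have hB₀z : B₀ 0 0 ≠ 0 := one_ne_zero' hB₀0
    have hfix : ∀ B : Matrix (Fin 1) (Fin 1) K, cj q B = B → (B 0 0) ^ q = B 0 0 := by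
      intro B hB
      have := congrFun (congrFun hB 0) 0
      rwa [cj_apply] at this
    have hall : ∀ B ∈ HS q 1 K, B ≠ 0 → d B = d B₀ := by
      intro B hB hB0
      have hBz : B 0 0 ≠ 0 := one_ne_zero' hB0
      obtain ⟨a, ha⟩ := unorm_surj hK (B 0 0 / B₀ 0 0)
        (by rw [div_pow, hfix B (mem_HS.1 hB), hfix B₀ (mem_HS.1 hB₀)])
      have ha0 : a ≠ 0 := by
        rintro rfl
        rw [zero_pow (by omega)] at ha
        exact (div_ne_zero hBz hB₀z) ha.symm
      have e : cj q (a • (1 : Matrix (Fin 1) (Fin 1) K)) * B₀ * (a • 1) = B := by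
        rw [cj_smul hK, cj_one hK, Matrix.smul_mul, Matrix.one_mul, Matrix.mul_smul,
          Matrix.mul_one, smul_smul]
        ext i j
        rw [Subsingleton.elim i 0, Subsingleton.elim j 0, Matrix.smul_apply, smul_eq_mul,
          mul_comm a, ← pow_succ, ha]
        field_simp
      rw [← e]
      exact hinv _ _ (oj_torus hK a ha0) B₀
    refine deg_count d hsumN ((HS q 1 K).filter (fun B => B ≠ 0)) (fun B hB => ?_) ?_
    · rw [Finset.mem_filter] at hB
      refine ⟨hB.1, ?_⟩
      exact hmult B (mem_HS.1 hB.1) 0 (one_ne_zero' hB.2) (by rw [hall B hB.1 hB.2]; exact hdB₀)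
    · have hc := card_fix hK
      have hTc : (Finset.univ.filter (fun b : K => b ^ q = b ∧ b ≠ 0)).card
          ≤ ((HS q 1 K).filter (fun B => B ≠ 0)).card := by
        apply Finset.card_le_card_of_injOn (fun b => b • (1 : Matrix (Fin 1) (Fin 1) K))
        · intro b hb
          have hb' := (Finset.mem_filter.1 hb).2
          refine Finset.mem_filter.2 ⟨mem_HS.2 ?_, ?_⟩
          · rw [cj_smul hK, cj_one hK, hb'.1]
          · intro h0
            have := congrFun (congrFun h0 0) 0
            simp at this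
            exact hb'.2 this
        · intro b _ b' _ h
          have := congrFun (congrFun h 0) 0
          simpa using this
      calc q ^ (2 * 1) = (Finset.univ.filter (fun b : K => b ^ q = b ∧ b ≠ 0)).card * (q + 1) + 1 := by
            rw [mul_one]
            exact hc.symm
        _ ≤ (q + 1) * ((HS q 1 K).filter (fun B => B ≠ 0)).card + 1 := by
            rw [mul_comm]
            exact Nat.add_le_add_right (Nat.mul_le_mul_left _ hTc) 1

end rep

theorem su_odd_deg {F : Type*} [Field F] [Fintype F] [DecidableEq F] (m q : ℕ) (hm : 1 ≤ m)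
    (hF : Fintype.card F = q ^ 2) (hex : 2 ≤ m ∨ 3 ≤ q) (k : ℕ)
    (ρ : Representation ℂ (Cfsg.SU (m + m + 1) F q) (Fin k → ℂ))
    (hirr : ρ.IsIrreducible) (hk : 2 ≤ k) : (q ^ (m + m + 1) - q) / (q + 1) ≤ k := by
  classical
  have hq := uq_ge_two hF
  obtain ⟨e, he⟩ := exists_toSU (q := q) (K := F) hF (m + m + 1)
  obtain ⟨κ, hκ0, hκ⟩ := exists_trace_zero hF
  obtain ⟨y₀, hy₀⟩ := exists_tr_ne hF
  obtain ⟨ψ, hψ⟩ := (AddChar.exists_apply_ne_zero (a := y₀ + y₀ ^ q)).2 hy₀
  let M : GamU (m + m + 1) F q →* Matrix (Fin k) (Fin k) ℂ := (matHom ρ).comp e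
  have hne : ∃ H ∈ HS q m F, Yf hF κ hκ M H ≠ 1 := by
    by_contra hcon
    push Not at hcon
    let z : Fin m := ⟨0, by omega⟩
    have hH₀ : cj q (Matrix.single z z (1 : F)) = Matrix.single z z 1 := by
      rw [cj_single hF, one_pow]
    have h1 := hcon _ (mem_HS.2 hH₀)
    rw [Yf_of hF κ hκ M _ hH₀] at h1
    obtain ⟨g₀, hg₀⟩ : ∃ g₀ : GamU (m + m + 1) F q,
        g₀ = yG hF (κ • Matrix.single z z (1 : F)) (skew_of_herm hF κ hκ _ hH₀) := ⟨_, rfl⟩
    rw [← hg₀] at h1
    have hρ : ρ (e g₀) = 1 := by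
      have h2 : LinearMap.toMatrix' (ρ (e g₀)) = 1 := h1
      have h3 : LinearMap.toMatrix' (1 : (Fin k → ℂ) →ₗ[ℂ] (Fin k → ℂ)) = 1 :=
        LinearMap.toMatrix'_one
      apply LinearMap.toMatrix'.injective
      rw [h2, h3]
    let N : Subgroup (Cfsg.SU (m + m + 1) F q) :=
      (ρ : Cfsg.SU (m + m + 1) F q →* ((Fin k → ℂ) →ₗ[ℂ] (Fin k → ℂ))).ker
    haveI : N.Normal := MonoidHom.normal_ker _
    have hmem : e g₀ ∈ N := MonoidHom.mem_ker.2 hρ
    by_cases hNZ : N ≤ Subgroup.center (Cfsg.SU (m + m + 1) F q)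
    · have hcen := hNZ hmem
      have hcomm : ∀ g : GamU (m + m + 1) F q, g * g₀ = g₀ * g := by
        intro g
        apply he.1
        rw [map_mul, map_mul]
        exact (Subgroup.mem_center_iff.1 hcen (e g))
      have hfixS : ∀ A A' : Matrix (Fin m) (Fin m) F, Oj q A A' →
          A * (κ • Matrix.single z z (1 : F)) * cj q A = κ • Matrix.single z z (1 : F) := by
        intro A A' hOj
        obtain ⟨h1', h2', g, hg1, hg2⟩ := hOj
        have hc := congrArg gm (hcomm g)
        rw [gm_mul, gm_mul, hg₀, gm_yG, oj_conj hF g h2' hg1 hg2] at hc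
        have hc2 : yM m (A * (κ • Matrix.single z z (1 : F)) * cj q A)
            = yM m (κ • Matrix.single z z (1 : F)) := by
          have := congrArg (· * gm g⁻¹) hc
          simp only [Matrix.mul_assoc, gm_mul_inv, Matrix.mul_one] at this
          simpa only [Matrix.mul_assoc] using this
        exact yM_inj hc2
      by_cases hm2 : 2 ≤ m
      · let z' : Fin m := ⟨1, by omega⟩
        have hzz' : z' ≠ z := by
          intro h
          have := congrArg Fin.val h
          simp [z, z'] at this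
        have hOj := oj_el (q := q) hF z' z hzz' (-1 : F)
        rw [neg_neg] at hOj
        have hc3 := hfixS _ _ hOj
        have hL : (1 + Matrix.single z' z (1 : F)) * (κ • Matrix.single z z (1 : F))
            * cj q (1 + Matrix.single z' z (1 : F))
              = Matrix.single z z κ + Matrix.single z' z κ + Matrix.single z z' κ
                + Matrix.single z' z' κ := by
          rw [cj_add hF, cj_one hF, cj_single hF, one_pow, Matrix.smul_single, smul_eq_mul,
            mul_one]
          simp only [Matrix.add_mul, Matrix.mul_add, Matrix.one_mul, Matrix.mul_one,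
            Matrix.single_mul_single_same, one_mul, mul_one]
          abel
        rw [hL, Matrix.smul_single, smul_eq_mul, mul_one] at hc3
        have hc4 := congrFun (congrFun hc3 z') z'
        simp [Matrix.single_apply, hzz', hzz'.symm] at hc4
        exact hκ0 hc4
      · have hm1 : m = 1 := by omega
        subst hm1
        have hq3 : 3 ≤ q := by
          rcases hex with h | h
          · omega
          · exact h
        have hc := card_fix hF
        have h2c : 2 ≤ (Finset.univ.filter (fun b : F => b ^ q = b ∧ b ≠ 0)).card := by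
          by_contra hlt
          push Not at hlt
          have h5 : (Finset.univ.filter (fun b : F => b ^ q = b ∧ b ≠ 0)).card * (q + 1)
              ≤ 1 * (q + 1) := Nat.mul_le_mul_right _ (by omega)
          nlinarith
        obtain ⟨r, hr, hr1⟩ : ∃ r ∈ Finset.univ.filter (fun b : F => b ^ q = b ∧ b ≠ 0),
            r ≠ 1 := by
          by_contra hall
          push Not at hall
          have hsub : Finset.univ.filter (fun b : F => b ^ q = b ∧ b ≠ 0) ⊆ {1} :=
            fun x hx => Finset.mem_singleton.2 (hall x hx)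
          have := Finset.card_le_card hsub
          rw [Finset.card_singleton] at this
          omega
        rw [Finset.mem_filter] at hr
        obtain ⟨a, ha⟩ := unorm_surj hF r hr.2.1
        have ha0 : a ≠ 0 := by
          rintro rfl
          rw [zero_pow (by omega)] at ha
          exact hr.2.2 ha.symm
        have h5 := hfixS _ _ (oj_torus hF a ha0)
        rw [cj_smul hF, cj_one hF, Matrix.smul_mul, Matrix.one_mul, Matrix.mul_smul,
          Matrix.mul_one, smul_smul, smul_smul] at h5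
        have h6 := congrFun (congrFun h5 z) z
        simp only [Matrix.smul_apply, Matrix.single_apply_same, smul_eq_mul, mul_one] at h6
        have h7 : (a⁻¹) ^ q * a⁻¹ = 1 := by
          have h8 : ((a⁻¹) ^ q * a⁻¹ - 1) * κ = 0 := by linear_combination h6
          rcases mul_eq_zero.1 h8 with h9 | h9
          · linear_combination h9
          · exact absurd h9 hκ0
        apply hr1
        rw [← ha, pow_succ]
        have haq : a ^ q ≠ 0 := pow_ne_zero _ ha0
        rw [inv_pow] at h7
        field_simp at h7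
        linear_combination -h7
    · have hN : N = ⊤ := su_normal_eq_top hF (by
        by_cases h2 : 2 ≤ m
        · left
          omega
        · right
          rcases hex with h | h
          · omega
          · exact ⟨by omega, h⟩) N hNZ
      exact irr_not_trivial ρ hirr hk (fun x => MonoidHom.mem_ker.1 (by rw [hN]; trivial : x ∈ N))
  have hb := deg_bound_odd hF κ hκ M ψ y₀ hψ hm hne
  apply Nat.div_le_of_le_mul
  omega

end Cfsg.Agent.Lib.helper25.SUDeg
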