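import Mathlib
import Cfsg.Agent.Lib.helper25.SL3Odd2

set_option autoImplicit false
set_option linter.unusedSectionVars false
set_option linter.unusedSimpArgs false
set_option linter.unusedVariables false

/-!
# `2 × 2` matrix algebra for the Sylow `2`-subgroups of `SL_2(F)` and `Sp_4(F)`, `F` odd

`cm x y` is the matrix of `x + y i` with `i = [[0, -1], [1, 0]]`; `jm a b` are the matrices
anticommuting with `i`.
-/

namespace Cfsg.Agent.Lib.helper25.Sp4Odd

open Matrix
open Cfsg.Agent.Lib.helper25.SL3Odd (Two two_mul two_of_sq cancel_left cancel_right)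

variable {F : Type*} [Field F]

/-- The matrix of `x + y i`. -/
def cm (x y : F) : Matrix (Fin 2) (Fin 2) F := !![x, -y; y, x]

/-- The matrices anticommuting with `i`. -/
def jm (a b : F) : Matrix (Fin 2) (Fin 2) F := !![a, b; b, -a]

theorem cm_00 (x y : F) : cm x y 0 0 = x := rfl
theorem cm_01 (x y : F) : cm x y 0 1 = -y := rfl
theorem cm_10 (x y : F) : cm x y 1 0 = y := rfl
theorem cm_11 (x y : F) : cm x y 1 1 = x := rfl
theorem jm_00 (x y : F) : jm x y 0 0 = x := rfl
theorem jm_01 (x y : F) : jm x y 0 1 = y := rfl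
theorem jm_10 (x y : F) : jm x y 1 0 = y := rfl
theorem jm_11 (x y : F) : jm x y 1 1 = -x := rfl
theorem one_00 : (1 : Matrix (Fin 2) (Fin 2) F) 0 0 = 1 := by simp
theorem one_01 : (1 : Matrix (Fin 2) (Fin 2) F) 0 1 = 0 := by simp
theorem one_10 : (1 : Matrix (Fin 2) (Fin 2) F) 1 0 = 0 := by simp
theorem one_11 : (1 : Matrix (Fin 2) (Fin 2) F) 1 1 = 1 := by simp

theorem m2_ext {M N : Matrix (Fin 2) (Fin 2) F} (h00 : M 0 0 = N 0 0) (h01 : M 0 1 = N 0 1)
    (h10 : M 1 0 = N 1 0) (h11 : M 1 1 = N 1 1) : M = N := by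
  ext i j
  fin_cases i <;> fin_cases j <;> assumption

theorem m2_mul (M N : Matrix (Fin 2) (Fin 2) F) (i j : Fin 2) :
    (M * N) i j = M i 0 * N 0 j + M i 1 * N 1 j := by
  rw [Matrix.mul_apply, Fin.sum_univ_two]

theorem cm_mul (x y x' y' : F) :
    cm x y * cm x' y' = cm (x * x' - y * y') (x * y' + y * x') := by
  ext i j
  fin_cases i <;> fin_cases j <;> simp [cm, Matrix.mul_apply, Fin.sum_univ_two] <;> ring

theorem cm_one : cm (1 : F) 0 = 1 := by
  ext i j
  fin_cases i <;> fin_cases j <;> simp [cm]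

theorem cm_neg (x y : F) : -cm x y = cm (-x) (-y) := by
  ext i j
  fin_cases i <;> fin_cases j <;> simp [cm]

theorem cm_neg_one : cm (-1 : F) 0 = -1 := by
  rw [← cm_one, cm_neg, neg_zero]

theorem cm_comm (x y x' y' : F) : cm x y * cm x' y' = cm x' y' * cm x y := by
  rw [cm_mul, cm_mul]
  congr 1 <;> ring

theorem det_cm (x y : F) : (cm x y).det = x * x + y * y := by
  rw [Matrix.det_fin_two]
  simp [cm]

theorem cm_inj {x y x' y' : F} (h : cm x y = cm x' y') : x = x' ∧ y = y' :=
  ⟨congrFun (congrFun h 0) 0, congrFun (congrFun h 1) 0⟩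

theorem jm_mul_cm (a b x y : F) : jm a b * cm x y = cm x (-y) * jm a b := by
  ext i j
  fin_cases i <;> fin_cases j <;> simp [cm, jm, Matrix.mul_apply, Fin.sum_univ_two] <;> ring

theorem cm_mul_jm (x y a b : F) : cm x y * jm a b = jm (x * a - y * b) (x * b + y * a) := by
  ext i j
  fin_cases i <;> fin_cases j <;> simp [cm, jm, Matrix.mul_apply, Fin.sum_univ_two] <;> ring

theorem jm_mul_jm (a b a' b' : F) :
    jm a b * jm a' b' = cm (a * a' + b * b') (b * a' - a * b') := by
  ext i j
  fin_cases i <;> fin_cases j <;> simp [cm, jm, Matrix.mul_apply, Fin.sum_univ_two] <;> ring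

theorem det_jm (a b : F) : (jm a b).det = -(a * a + b * b) := by
  rw [Matrix.det_fin_two]
  simp [jm]
  ring

theorem jm_neg (a b : F) : -jm a b = jm (-a) (-b) := by
  ext i j
  fin_cases i <;> fin_cases j <;> simp [jm]

theorem jm_inj {x y x' y' : F} (h : jm x y = jm x' y') : x = x' ∧ y = y' :=
  ⟨congrFun (congrFun h 0) 0, congrFun (congrFun h 0) 1⟩

theorem cm_eq_jm (h2 : (2 : F) ≠ 0) {x y a b : F} (h : cm x y = jm a b) : x = 0 ∧ y = 0 := by
  have h00 : x = a := congrFun (congrFun h 0) 0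
  have h01 : -y = b := congrFun (congrFun h 0) 1
  have h10 : y = b := congrFun (congrFun h 1) 0
  have h11 : x = -a := congrFun (congrFun h 1) 1
  constructor
  · have : (2 : F) * x = 0 := by linear_combination h00 + h11
    exact (mul_eq_zero.1 this).resolve_left h2
  · have : (2 : F) * y = 0 := by linear_combination h10 - h01
    exact (mul_eq_zero.1 this).resolve_left h2

theorem comm_i_form (M : Matrix (Fin 2) (Fin 2) F) (h : M * cm 0 1 = cm 0 1 * M) :
    M = cm (M 0 0) (M 1 0) := by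
  have h00 := congrFun (congrFun h 0) 0
  have h01 := congrFun (congrFun h 0) 1
  simp only [m2_mul, cm_00, cm_01, cm_10, cm_11] at h00 h01
  apply m2_ext
  · rfl
  · rw [cm_01]
    linear_combination h00
  · rfl
  · rw [cm_11]
    linear_combination h01

theorem anti_i_form (M : Matrix (Fin 2) (Fin 2) F) (h : M * cm 0 1 = -(cm 0 1 * M)) :
    M = jm (M 0 0) (M 0 1) := by
  have h00 := congrFun (congrFun h 0) 0
  have h01 := congrFun (congrFun h 0) 1
  simp only [m2_mul, cm_00, cm_01, cm_10, cm_11, Matrix.neg_apply] at h00 h01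
  apply m2_ext
  · rfl
  · rfl
  · rw [jm_10]
    linear_combination -h00
  · rw [jm_11]
    linear_combination -h01

theorem sq_eq_one (h2 : (2 : F) ≠ 0) (M : Matrix (Fin 2) (Fin 2) F) (hd : M.det = 1)
    (h : M * M = 1) : M = 1 ∨ M = -1 := by
  have h00 := congrFun (congrFun h 0) 0
  have h01 := congrFun (congrFun h 0) 1
  have h10 := congrFun (congrFun h 1) 0
  have h11 := congrFun (congrFun h 1) 1
  simp only [m2_mul, one_00, one_01, one_10, one_11] at h00 h01 h10 h11
  rw [Matrix.det_fin_two] at hd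
  have hps : M 0 0 * (M 0 0 + M 1 1) = 2 := by linear_combination h00 + hd
  have hne : M 0 0 + M 1 1 ≠ 0 := by
    intro h0
    rw [h0, mul_zero] at hps
    exact h2 hps.symm
  have hq : M 0 1 = 0 := by
    have : M 0 1 * (M 0 0 + M 1 1) = 0 := by linear_combination h01
    exact (mul_eq_zero.1 this).resolve_right hne
  have hr : M 1 0 = 0 := by
    have : M 1 0 * (M 0 0 + M 1 1) = 0 := by linear_combination h10
    exact (mul_eq_zero.1 this).resolve_right hne
  rw [hq, hr] at h00 hd
  have hp0 : M 0 0 ≠ 0 := by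
    intro h0
    rw [h0] at h00
    simp at h00
  have hsp : M 1 1 = M 0 0 := by
    have : M 0 0 * (M 1 1 - M 0 0) = 0 := by linear_combination hd - h00
    have := (mul_eq_zero.1 this).resolve_left hp0
    linear_combination this
  have hpp : (M 0 0 - 1) * (M 0 0 + 1) = 0 := by linear_combination h00
  rcases mul_eq_zero.1 hpp with hp | hp
  · left
    apply m2_ext
    · rw [one_00]; linear_combination hp
    · rw [one_01, hq]
    · rw [one_10, hr]
    · rw [one_11, hsp]; linear_combination hp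
  · right
    apply m2_ext
    · rw [Matrix.neg_apply, one_00]; linear_combination hp
    · rw [Matrix.neg_apply, one_01, hq, neg_zero]
    · rw [Matrix.neg_apply, one_10, hr, neg_zero]
    · rw [Matrix.neg_apply, one_11, hsp]; linear_combination hp

theorem trace_zero_of_sq (M : Matrix (Fin 2) (Fin 2) F) (hd : M.det = 1) (h : M * M = -1) :
    M 0 0 + M 1 1 = 0 := by
  have h00 := congrFun (congrFun h 0) 0
  have h11 := congrFun (congrFun h 1) 1
  simp only [m2_mul, Matrix.neg_apply, one_00, one_11] at h00 h11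
  rw [Matrix.det_fin_two] at hd
  by_contra hne
  have hp : M 0 0 * (M 0 0 + M 1 1) = 0 := by linear_combination h00 + hd
  have hs : M 1 1 * (M 0 0 + M 1 1) = 0 := by linear_combination h11 + hd
  have hp0 := (mul_eq_zero.1 hp).resolve_right hne
  have hs0 := (mul_eq_zero.1 hs).resolve_right hne
  apply hne
  rw [hp0, hs0, add_zero]

theorem exists_sqrt_two (M : Matrix (Fin 2) (Fin 2) F) (hd : M.det = 1)
    (h : M * M * (M * M) = -1) : ∃ s : F, s * s = 2 := by
  have hd2 : (M * M).det = 1 := by rw [Matrix.det_mul, hd, mul_one]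
  have htr := trace_zero_of_sq (M * M) hd2 h
  simp only [m2_mul] at htr
  rw [Matrix.det_fin_two] at hd
  exact ⟨M 0 0 + M 1 1, by linear_combination htr + 2 * hd⟩

theorem pow_four_of_two (h2 : (2 : F) ≠ 0) (hns : ∀ s : F, s * s ≠ 2) :
    ∀ (m : ℕ) (M : Matrix (Fin 2) (Fin 2) F), M.det = 1 → M ^ (2 ^ m) = 1 →
      M * M * (M * M) = 1 := by
  intro m
  induction m with
  | zero =>
    intro M hd h
    rw [pow_zero, pow_one] at h
    rw [h]
    simp
  | succ m ih =>
    intro M hd h
    have hd2 : (M * M).det = 1 := by rw [Matrix.det_mul, hd, mul_one]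
    have h' : (M * M) ^ (2 ^ m) = 1 := by
      rw [← pow_two, ← pow_mul, ← pow_succ']
      exact h
    have h4 := ih (M * M) hd2 h'
    have hd4 : (M * M * (M * M)).det = 1 := by rw [Matrix.det_mul, hd2, mul_one]
    rcases sq_eq_one h2 _ hd4 h4 with h5 | h5
    · exact h5
    · obtain ⟨s, hs⟩ := exists_sqrt_two M hd h5
      exact absurd hs (hns s)

theorem exists_pow_neg_one (h2 : (2 : F) ≠ 0) :
    ∀ (m : ℕ) (M : Matrix (Fin 2) (Fin 2) F), M.det = 1 → M ^ (2 ^ m) = 1 → M ≠ 1 →
      ∃ n : ℕ, M ^ n = -1 := by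
  intro m
  induction m with
  | zero =>
    intro M hd h h1
    rw [pow_zero, pow_one] at h
    exact absurd h h1
  | succ m ih =>
    intro M hd h h1
    have hdN : (M ^ (2 ^ m)).det = 1 := by rw [Matrix.det_pow, hd, one_pow]
    have hN : M ^ (2 ^ m) * M ^ (2 ^ m) = 1 := by
      rw [← pow_add, ← _root_.two_mul, ← pow_succ']
      exact h
    rcases sq_eq_one h2 _ hdN hN with h5 | h5
    · exact ih M hd h5 h1
    · exact ⟨_, h5⟩

theorem sum_two_sq [Fintype F] (hodd : Fintype.card F % 2 = 1) (c : F) :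
    ∃ a b : F, a * a + b * b = c := by
  classical
  obtain ⟨a, b, hab⟩ := FiniteField.exists_root_sum_quadratic
    (f := (Polynomial.X ^ 2 : Polynomial F)) (g := Polynomial.X ^ 2 - Polynomial.C c)
    (Polynomial.degree_X_pow 2) (Polynomial.degree_X_pow_sub_C (by decide) _) hodd
  refine ⟨a, b, ?_⟩
  simp only [Polynomial.eval_C, Polynomial.eval_X, Polynomial.eval_pow, Polynomial.eval_sub] at hab
  linear_combination hab

theorem exists_conj_i [Fintype F] (hodd : Fintype.card F % 2 = 1) (h2 : (2 : F) ≠ 0)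
    (x : Matrix (Fin 2) (Fin 2) F) (hd : x.det = 1) (hx : x * x = -1) :
    ∃ h : Matrix (Fin 2) (Fin 2) F, h.det = 1 ∧ h * x = cm 0 1 * h := by
  have htr := trace_zero_of_sq x hd hx
  have h00 := congrFun (congrFun hx 0) 0
  have h11 := congrFun (congrFun hx 1) 1
  simp only [m2_mul, Matrix.neg_apply, one_00, one_11] at h00 h11
  have key : ∀ m1 m2 : F, -m1 * (m1 * x 0 1 + m2 * x 1 1) + m2 * (m1 * x 0 0 + m2 * x 1 0) = 1 →
      ∃ h : Matrix (Fin 2) (Fin 2) F, h.det = 1 ∧ h * x = cm 0 1 * h := by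
    intro m1 m2 hm
    refine ⟨!![m1, m2; -(m1 * x 0 0 + m2 * x 1 0), -(m1 * x 0 1 + m2 * x 1 1)], ?_, ?_⟩
    · rw [Matrix.det_fin_two]
      simp
      linear_combination hm
    · apply m2_ext
      · simp [m2_mul, cm]
      · simp [m2_mul, cm]
      · simp [m2_mul, cm]
        linear_combination (-m1) * h00 - m2 * x 1 0 * htr
      · simp [m2_mul, cm]
        linear_combination (-m2) * h11 - m1 * x 0 1 * htr
  by_cases hq : x 0 1 = 0
  · have hp : x 0 0 ≠ 0 := by
      intro h0
      rw [h0, hq] at h00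
      simp at h00
    have hm1 : 2 * x 0 0 * ((1 - x 1 0) / (2 * x 0 0)) = 1 - x 1 0 := by
      field_simp
    apply key ((1 - x 1 0) / (2 * x 0 0)) 1
    rw [hq]
    linear_combination hm1 - ((1 - x 1 0) / (2 * x 0 0)) * htr
  · obtain ⟨α, β, hαβ⟩ := sum_two_sq hodd (-(x 0 1))
    have hm1 : x 0 1 * ((α + x 0 0 * β) / x 0 1) = α + x 0 0 * β := by
      field_simp
    apply key ((α + x 0 0 * β) / x 0 1) β
    set m1 : F := (α + x 0 0 * β) / x 0 1 with hm1def
    have hq' : x 0 1 * (-m1 * (m1 * x 0 1 + β * x 1 1) + β * (m1 * x 0 0 + β * x 1 0) - 1) = 0 := by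
      linear_combination (-(x 0 1 * m1 + α + x 0 0 * β) + β * (x 0 0 - x 1 1)) * hm1 - hαβ +
        β ^ 2 * h00 - β * (α + x 0 0 * β) * htr
    have := (mul_eq_zero.1 hq').resolve_left hq
    linear_combination this

end Cfsg.Agent.Lib.helper25.Sp4Odd
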