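import Mathlib
import Cfsg.Agent.Lib.helper25.Sp4Odd1

set_option autoImplicit false
set_option linter.unusedSectionVars false
set_option linter.unusedSimpArgs false
set_option linter.unusedVariables false

/-!
# A Sylow `2`-subgroup `Q` of `SL_2(F)`, `F` finite of odd order, and its normalizer
-/

namespace Cfsg.Agent.Lib.helper25.Sp4Odd

open Matrix
open Cfsg.Agent.Lib.helper25.SL3Odd (Two two_mul two_of_sq cancel_left cancel_right)

variable {F : Type*} [Field F]

theorem exists_conj [Fintype F] (hodd : Fintype.card F % 2 = 1) (h2 : (2 : F) ≠ 0)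
    (x y : Matrix (Fin 2) (Fin 2) F) (hdx : x.det = 1) (hx : x * x = -1)
    (hdy : y.det = 1) (hy : y * y = -1) :
    ∃ h : Matrix (Fin 2) (Fin 2) F, h.det = 1 ∧ h * x = y * h := by
  obtain ⟨h1, hd1, hc1⟩ := exists_conj_i hodd h2 x hdx hx
  obtain ⟨h2', hd2, hc2⟩ := exists_conj_i hodd h2 y hdy hy
  have e1 : Matrix.adjugate h2' * h2' = 1 := by rw [Matrix.adjugate_mul, hd2, one_smul]
  have e2 : h2' * Matrix.adjugate h2' = 1 := by rw [Matrix.mul_adjugate, hd2, one_smul]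
  refine ⟨Matrix.adjugate h2' * h1, ?_, ?_⟩
  · rw [Matrix.det_mul, Matrix.det_adjugate, hd2, hd1]
    simp
  · have e3 : Matrix.adjugate h2' * cm 0 1 = y * Matrix.adjugate h2' := by
      calc Matrix.adjugate h2' * cm 0 1
          = Matrix.adjugate h2' * (cm 0 1 * h2') * Matrix.adjugate h2' := by
            rw [Matrix.mul_assoc, Matrix.mul_assoc, e2, Matrix.mul_one]
        _ = Matrix.adjugate h2' * (h2' * y) * Matrix.adjugate h2' := by rw [hc2]
        _ = y * Matrix.adjugate h2' := by rw [← Matrix.mul_assoc, e1, Matrix.one_mul]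
    rw [Matrix.mul_assoc, hc1, ← Matrix.mul_assoc, e3, Matrix.mul_assoc]

theorem cancelL {M X Y : Matrix (Fin 2) (Fin 2) F} (hM : M.det ≠ 0) (h : M * X = M * Y) :
    X = Y := by
  have h1 : M⁻¹ * M = 1 := Matrix.nonsing_inv_mul M (isUnit_iff_ne_zero.2 hM)
  calc X = M⁻¹ * M * X := by rw [h1, Matrix.one_mul]
    _ = M⁻¹ * (M * Y) := by rw [Matrix.mul_assoc, h]
    _ = Y := by rw [← Matrix.mul_assoc, h1, Matrix.one_mul]

theorem cancelR {M X Y : Matrix (Fin 2) (Fin 2) F} (hM : M.det ≠ 0) (h : X * M = Y * M) :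
    X = Y := by
  have h1 : M * M⁻¹ = 1 := Matrix.mul_nonsing_inv M (isUnit_iff_ne_zero.2 hM)
  calc X = X * (M * M⁻¹) := by rw [h1, Matrix.mul_one]
    _ = Y * M * M⁻¹ := by rw [← Matrix.mul_assoc, h]
    _ = Y := by rw [Matrix.mul_assoc, h1, Matrix.mul_one]

theorem eq_zero_of_eq_neg (h2 : (2 : F) ≠ 0) (A : Matrix (Fin 2) (Fin 2) F) (h : A = -A) :
    A = 0 := by
  ext i j
  have h1 := congrFun (congrFun h i) j
  rw [Matrix.neg_apply] at h1
  have : (2 : F) * A i j = 0 := by linear_combination h1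
  exact (mul_eq_zero.1 this).resolve_left h2

theorem one_ne_neg_one (h2 : (2 : F) ≠ 0) : (1 : Matrix (Fin 2) (Fin 2) F) ≠ -1 := by
  intro h
  have h1 := eq_zero_of_eq_neg h2 1 h
  have h3 := congrFun (congrFun h1 0) 0
  rw [one_00] at h3
  simp at h3

theorem two_cm_bar {x y : F} (h : Two (cm x y)) : Two (cm x (-y)) := by
  have e : cm x (-y) = (cm x y)ᵀ := by
    ext i j
    fin_cases i <;> fin_cases j <;> simp [cm]
  obtain ⟨m, hm⟩ := h
  exact ⟨m, by rw [e, ← Matrix.transpose_pow, hm, Matrix.transpose_one]⟩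

theorem cm_sq_neg_one : cm (-1 : F) 0 * cm (-1) 0 = 1 := by
  rw [cm_mul, ← cm_one]
  congr 1 <;> ring

theorem cm_i_sq : cm (0 : F) 1 * cm 0 1 = cm (-1) 0 := by
  rw [cm_mul]
  congr 1 <;> ring

theorem two_neg_one : Two (cm (-1 : F) 0) :=
  ⟨1, by rw [pow_one, pow_two, cm_sq_neg_one]⟩

theorem two_i : Two (cm (0 : F) 1) := by
  apply two_of_sq
  rw [cm_i_sq]
  exact two_neg_one

theorem two_one : Two (cm (1 : F) 0) := ⟨0, by rw [cm_one, one_pow]⟩

theorem nm_mul_eq {x y x' y' : F} (h : x * x + y * y = 1) (h' : x' * x' + y' * y' = 1) :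
    (x * x' - y * y') * (x * x' - y * y') + (x * y' + y * x') * (x * y' + y * x') = 1 := by
  have : (x * x' - y * y') * (x * x' - y * y') + (x * y' + y * x') * (x * y' + y * x') =
      (x * x + y * y) * (x' * x' + y' * y') := by ring
  rw [this, h, h', one_mul]

theorem two_cm_mul {x y x' y' : F} (h : Two (cm x y)) (h' : Two (cm x' y')) :
    Two (cm (x * x' - y * y') (x * y' + y * x')) := by
  rw [← cm_mul]
  exact two_mul (cm_comm _ _ _ _) h h'

theorem cm_bar_mul {x y : F} (h : x * x + y * y = 1) : cm x (-y) * cm x y = 1 := by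
  rw [cm_mul, ← cm_one]
  congr 1
  · linear_combination h
  · ring

theorem cm_mul_bar {x y : F} (h : x * x + y * y = 1) : cm x y * cm x (-y) = 1 := by
  rw [cm_comm, cm_bar_mul h]

theorem jm_sq {a b : F} (hab : a * a + b * b = -1) : jm a b * jm a b = -1 := by
  rw [jm_mul_jm, ← cm_neg_one]
  congr 1 <;> first | exact hab | ring

/-- Membership predicate of the Sylow `2`-subgroup of `SL_2(F)`. -/
def InQ (a b : F) (M : Matrix (Fin 2) (Fin 2) F) : Prop :=
  ∃ x y : F, x * x + y * y = 1 ∧ Two (cm x y) ∧ (M = cm x y ∨ M = cm x y * jm a b)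

theorem inQ_one (a b : F) : InQ a b 1 :=
  ⟨1, 0, by ring, two_one, Or.inl cm_one.symm⟩

theorem inQ_neg_one (a b : F) : InQ a b (-1) :=
  ⟨-1, 0, by ring, two_neg_one, Or.inl cm_neg_one.symm⟩

theorem inQ_i (a b : F) : InQ a b (cm 0 1) :=
  ⟨0, 1, by ring, two_i, Or.inl rfl⟩

theorem inQ_j (a b : F) : InQ a b (jm a b) :=
  ⟨1, 0, by ring, two_one, Or.inr (by rw [cm_one, Matrix.one_mul])⟩

theorem inQ_mul {a b : F} (hab : a * a + b * b = -1) {M M' : Matrix (Fin 2) (Fin 2) F}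
    (h : InQ a b M) (h' : InQ a b M') : InQ a b (M * M') := by
  obtain ⟨x, y, hn, ht, hM⟩ := h
  obtain ⟨x', y', hn', ht', hM'⟩ := h'
  have hnb : x' * x' + (-y') * (-y') = 1 := by linear_combination hn'
  rcases hM with rfl | rfl <;> rcases hM' with rfl | rfl
  · exact ⟨_, _, nm_mul_eq hn hn', two_cm_mul ht ht', Or.inl (cm_mul _ _ _ _)⟩
  · exact ⟨_, _, nm_mul_eq hn hn', two_cm_mul ht ht',
      Or.inr (by rw [← Matrix.mul_assoc, cm_mul])⟩
  · exact ⟨_, _, nm_mul_eq hn hnb, two_cm_mul ht (two_cm_bar ht'),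
      Or.inr (by rw [Matrix.mul_assoc, jm_mul_cm, ← Matrix.mul_assoc, cm_mul])⟩
  · have e : cm x y * jm a b * (cm x' y' * jm a b) =
        cm (x * x' - y * -y') (x * -y' + y * x') * cm (-1) 0 := by
      rw [← cm_mul, cm_neg_one, ← jm_sq hab]
      calc cm x y * jm a b * (cm x' y' * jm a b)
          = cm x y * (jm a b * cm x' y') * jm a b := by simp only [Matrix.mul_assoc]
        _ = cm x y * cm x' (-y') * (jm a b * jm a b) := by
            rw [jm_mul_cm]
            simp only [Matrix.mul_assoc]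
    refine ⟨_, _, nm_mul_eq (nm_mul_eq hn hnb) (show (-1 : F) * (-1) + 0 * 0 = 1 by ring),
      two_cm_mul (two_cm_mul ht (two_cm_bar ht')) two_neg_one, Or.inl ?_⟩
    rw [e, cm_mul]

theorem inQ_det {a b : F} (hab : a * a + b * b = -1) {M : Matrix (Fin 2) (Fin 2) F}
    (h : InQ a b M) : M.det = 1 := by
  obtain ⟨x, y, hn, ht, rfl | rfl⟩ := h
  · rw [det_cm, hn]
  · rw [Matrix.det_mul, det_cm, det_jm, hn, hab]
    ring

theorem inQ_sq_j {a b : F} (hab : a * a + b * b = -1) {x y : F} (hn : x * x + y * y = 1) :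
    (cm x y * jm a b) * (cm x y * jm a b) = -1 := by
  calc cm x y * jm a b * (cm x y * jm a b)
      = cm x y * (jm a b * cm x y) * jm a b := by simp only [Matrix.mul_assoc]
    _ = cm x y * cm x (-y) * (jm a b * jm a b) := by
        rw [jm_mul_cm]
        simp only [Matrix.mul_assoc]
    _ = -1 := by rw [cm_mul_bar hn, jm_sq hab, Matrix.one_mul]

theorem two_neg_one_mat : Two (-1 : Matrix (Fin 2) (Fin 2) F) := by
  rw [← cm_neg_one]
  exact two_neg_one

theorem inQ_two {a b : F} (hab : a * a + b * b = -1) {M : Matrix (Fin 2) (Fin 2) F}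
    (h : InQ a b M) : Two M := by
  obtain ⟨x, y, hn, ht, rfl | rfl⟩ := h
  · exact ht
  · apply two_of_sq
    rw [inQ_sq_j hab hn]
    exact two_neg_one_mat

theorem inQ_neg {a b : F} (hab : a * a + b * b = -1) {M : Matrix (Fin 2) (Fin 2) F}
    (h : InQ a b M) : InQ a b (-M) := by
  have := inQ_mul hab (inQ_neg_one a b) h
  rwa [neg_one_mul] at this

theorem inQ_inv {a b : F} (hab : a * a + b * b = -1) {q : Matrix (Fin 2) (Fin 2) F}
    (h : InQ a b q) : ∃ q', InQ a b q' ∧ q * q' = 1 ∧ q' * q = 1 := by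
  obtain ⟨x, y, hn, ht, rfl | rfl⟩ := h
  · have hnb : x * x + (-y) * (-y) = 1 := by linear_combination hn
    exact ⟨cm x (-y), ⟨x, -y, hnb, two_cm_bar ht, Or.inl rfl⟩, cm_mul_bar hn, cm_bar_mul hn⟩
  · have hq : InQ a b (cm x y * jm a b) := ⟨x, y, hn, ht, Or.inr rfl⟩
    refine ⟨-(cm x y * jm a b), inQ_neg hab hq, ?_, ?_⟩
    · rw [Matrix.mul_neg, inQ_sq_j hab hn, neg_neg]
    · rw [Matrix.neg_mul, inQ_sq_j hab hn, neg_neg]

theorem inQ_pow {a b : F} (hab : a * a + b * b = -1) {q : Matrix (Fin 2) (Fin 2) F}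
    (h : InQ a b q) (n : ℕ) : InQ a b (q ^ n) := by
  induction n with
  | zero =>
    rw [pow_zero]
    exact inQ_one a b
  | succ n ih =>
    rw [pow_succ]
    exact inQ_mul hab ih h

theorem inQ_cases {a b : F} (hab : a * a + b * b = -1) {M : Matrix (Fin 2) (Fin 2) F}
    (h : InQ a b M) :
    (∃ x y : F, x * x + y * y = 1 ∧ Two (cm x y) ∧ M = cm x y) ∨ M * M = -1 := by
  obtain ⟨x, y, hn, ht, rfl | rfl⟩ := h
  · exact Or.inl ⟨x, y, hn, ht, rfl⟩
  · exact Or.inr (inQ_sq_j hab hn)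

/-- The normalizer of `Q` in `SL_2(F)`. -/
def NQ (a b : F) (A : Matrix (Fin 2) (Fin 2) F) : Prop :=
  A.det = 1 ∧ ∀ x, InQ a b x → ∃ x', InQ a b x' ∧ A * x = x' * A

theorem nq_mul {a b : F} {A B : Matrix (Fin 2) (Fin 2) F} (hA : NQ a b A) (hB : NQ a b B) :
    NQ a b (A * B) := by
  refine ⟨by rw [Matrix.det_mul, hA.1, hB.1, one_mul], fun x hx => ?_⟩
  obtain ⟨x', hx', e'⟩ := hB.2 x hx
  obtain ⟨x'', hx'', e''⟩ := hA.2 x' hx'
  exact ⟨x'', hx'', by rw [Matrix.mul_assoc, e', ← Matrix.mul_assoc, e'', Matrix.mul_assoc]⟩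

theorem nq_of_inQ {a b : F} (hab : a * a + b * b = -1) {q : Matrix (Fin 2) (Fin 2) F}
    (hq : InQ a b q) : NQ a b q := by
  refine ⟨inQ_det hab hq, fun x hx => ?_⟩
  obtain ⟨q', hq', e1, e2⟩ := inQ_inv hab hq
  refine ⟨q * x * q', inQ_mul hab (inQ_mul hab hq hx) hq', ?_⟩
  rw [Matrix.mul_assoc (q * x), e2, Matrix.mul_one]

theorem inQ_of_nq_comm {a b : F} (hab : a * a + b * b = -1) (h2 : (2 : F) ≠ 0)
    {A : Matrix (Fin 2) (Fin 2) F} (hA : NQ a b A) (hc : A * cm 0 1 = cm 0 1 * A) :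
    InQ a b A := by
  have hform := comm_i_form A hc
  set p := A 0 0
  set r := A 1 0
  have hn : p * p + r * r = 1 := by
    have := hA.1
    rw [hform, det_cm] at this
    exact this
  obtain ⟨x', hx', e⟩ := hA.2 (jm a b) (inQ_j a b)
  have hdj : (jm a b).det ≠ 0 := by
    rw [det_jm, hab]
    simp
  obtain ⟨x, y, hn', ht', rfl | rfl⟩ := hx'
  · exfalso
    rw [hform, cm_mul_jm, cm_mul] at e
    obtain ⟨e1, e2⟩ := cm_eq_jm h2 e.symm
    have := nm_mul_eq hn' hn
    rw [e1, e2] at this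
    simp at this
  · rw [hform] at e
    have e3 : cm p r = cm x y * cm p (-r) := by
      apply cancelR hdj
      rw [e, Matrix.mul_assoc, jm_mul_cm, ← Matrix.mul_assoc]
    have e4 : cm p r * cm p r = cm x y := by
      calc cm p r * cm p r = cm x y * cm p (-r) * cm p r := by rw [← e3]
        _ = cm x y := by rw [Matrix.mul_assoc, cm_bar_mul hn, Matrix.mul_one]
    rw [hform]
    exact ⟨p, r, hn, two_of_sq (by rw [e4]; exact ht'), Or.inl rfl⟩

theorem inQ_of_nq_anti {a b : F} (hab : a * a + b * b = -1) (h2 : (2 : F) ≠ 0)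
    {A : Matrix (Fin 2) (Fin 2) F} (hA : NQ a b A) (hc : A * cm 0 1 = -(cm 0 1 * A)) :
    InQ a b A := by
  have hform := anti_i_form A hc
  have hA' : NQ a b (A * jm a b) := nq_mul hA (nq_of_inQ hab (inQ_j a b))
  have hc' : A * jm a b * cm 0 1 = cm 0 1 * (A * jm a b) := by
    rw [hform, jm_mul_jm, cm_comm]
  have h1 := inQ_of_nq_comm hab h2 hA' hc'
  have h3 : A = -(A * jm a b * jm a b) := by
    rw [Matrix.mul_assoc, jm_sq hab, Matrix.mul_neg, Matrix.mul_one, neg_neg]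
  rw [h3]
  exact inQ_neg hab (inQ_mul hab h1 (inQ_j a b))

theorem sq_neg_one_cm (h2 : (2 : F) ≠ 0) {x y : F} (hn : x * x + y * y = 1)
    (h : cm x y * cm x y = -1) : (x = 0 ∧ y = 1) ∨ (x = 0 ∧ y = -1) := by
  rw [cm_mul, ← cm_neg_one] at h
  obtain ⟨e1, e2⟩ := cm_inj h
  have hx : x = 0 := by
    have : (2 : F) * (x * x) = 0 := by linear_combination hn + e1
    have := (mul_eq_zero.1 this).resolve_left h2
    exact mul_self_eq_zero.1 this
  subst hx
  have hy : (y - 1) * (y + 1) = 0 := by linear_combination hn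
  rcases mul_eq_zero.1 hy with h | h
  · exact Or.inl ⟨rfl, by linear_combination h⟩
  · exact Or.inr ⟨rfl, by linear_combination h⟩

theorem inQ_of_nq_sq {a b : F} (hab : a * a + b * b = -1) (h2 : (2 : F) ≠ 0) {s : F}
    (hs : s * s = 2) {A : Matrix (Fin 2) (Fin 2) F} (hA : NQ a b A) : InQ a b A := by
  have hs0 : s ≠ 0 := by
    rintro rfl
    rw [mul_zero] at hs
    exact h2 hs.symm
  have ht : s⁻¹ * s⁻¹ * 2 = 1 := by
    rw [← hs]
    field_simp
  have hαα : cm s⁻¹ s⁻¹ * cm s⁻¹ s⁻¹ = cm 0 1 := by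
    rw [cm_mul]
    congr 1
    · ring
    · linear_combination ht
  have hα : InQ a b (cm s⁻¹ s⁻¹) :=
    ⟨s⁻¹, s⁻¹, by linear_combination ht, two_of_sq (by rw [hαα]; exact two_i), Or.inl rfl⟩
  obtain ⟨β, hβ, e⟩ := hA.2 _ hα
  have e2 : A * cm 0 1 = β * β * A := by
    rw [← hαα, ← Matrix.mul_assoc, e, Matrix.mul_assoc, e, Matrix.mul_assoc]
  have hdA : A.det ≠ 0 := by
    rw [hA.1]
    exact one_ne_zero
  have e3 : β * β * (β * β) = -1 := by
    apply cancelR hdA
    calc β * β * (β * β) * A = β * β * (β * β * A) := by rw [Matrix.mul_assoc]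
      _ = β * β * (A * cm 0 1) := by rw [e2]
      _ = β * β * A * cm 0 1 := by simp only [Matrix.mul_assoc]
      _ = A * (cm 0 1 * cm 0 1) := by rw [← e2, Matrix.mul_assoc]
      _ = -1 * A := by rw [cm_i_sq, cm_neg_one, Matrix.mul_neg, Matrix.mul_one, neg_one_mul]
  rcases inQ_cases hab hβ with ⟨x, y, hn, htwo, rfl⟩ | hsq
  · have hn2 := nm_mul_eq hn hn
    rw [cm_mul] at e3 e2
    rcases sq_neg_one_cm h2 hn2 e3 with ⟨e5, e6⟩ | ⟨e5, e6⟩
    · rw [e5, e6] at e2
      exact inQ_of_nq_comm hab h2 hA e2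
    · rw [e5, e6] at e2
      apply inQ_of_nq_anti hab h2 hA
      rw [e2, ← Matrix.neg_mul, cm_neg, neg_zero]
  · exfalso
    rw [hsq] at e3
    have : (1 : Matrix (Fin 2) (Fin 2) F) = -1 := by
      rw [← e3]
      simp
    exact one_ne_neg_one h2 this

end Cfsg.Agent.Lib.helper25.Sp4Odd
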