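import Mathlib
import Cfsg.Agent.Lib.helper25.Sp4Odd2

set_option autoImplicit false
set_option linter.unusedSectionVars false
set_option linter.unusedSimpArgs false
set_option linter.unusedVariables false
set_option linter.unreachableTactic false
set_option linter.unusedTactic false

/-!
# The normalizer of `Q` in `SL_2(F)` when `2` is not a square, and `2`-elements of it
-/

namespace Cfsg.Agent.Lib.helper25.Sp4Odd

open Matrix
open Cfsg.Agent.Lib.helper25.SL3Odd (Two two_mul two_of_sq)

variable {F : Type*} [Field F]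

theorem inQ_sq_cases {a b : F} (hab : a * a + b * b = -1) (h2 : (2 : F) ≠ 0)
    (hns : ∀ s : F, s * s ≠ 2) {q : Matrix (Fin 2) (Fin 2) F} (hq : InQ a b q) :
    q * q = 1 ∨ q * q = -1 := by
  obtain ⟨m, hm⟩ := inQ_two hab hq
  have hd := inQ_det hab hq
  have h4 := pow_four_of_two h2 hns m q hd hm
  exact sq_eq_one h2 (q * q) (by rw [Matrix.det_mul, hd, mul_one]) h4

theorem inQ_T_cases (h2 : (2 : F) ≠ 0) (hns : ∀ s : F, s * s ≠ 2) {x y : F}
    (hn : x * x + y * y = 1) (ht : Two (cm x y)) :
    (x = 1 ∧ y = 0) ∨ (x = -1 ∧ y = 0) ∨ (x = 0 ∧ y = 1) ∨ (x = 0 ∧ y = -1) := by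
  obtain ⟨m, hm⟩ := ht
  have hd : (cm x y).det = 1 := by rw [det_cm, hn]
  have h4 := pow_four_of_two h2 hns m _ hd hm
  rcases sq_eq_one h2 (cm x y * cm x y) (by rw [Matrix.det_mul, hd, mul_one]) h4 with h5 | h5
  · rcases sq_eq_one h2 _ hd h5 with h6 | h6
    · rw [← cm_one] at h6
      obtain ⟨e1, e2⟩ := cm_inj h6
      exact Or.inl ⟨e1, e2⟩
    · rw [← cm_neg_one] at h6
      obtain ⟨e1, e2⟩ := cm_inj h6
      exact Or.inr (Or.inl ⟨e1, e2⟩)
  · rcases sq_neg_one_cm h2 hn h5 with h6 | h6
    · exact Or.inr (Or.inr (Or.inl h6))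
    · exact Or.inr (Or.inr (Or.inr h6))

/-- The element `(1 + i + j + k) / 2` of order `6`. -/
def om (a b : F) : Matrix (Fin 2) (Fin 2) F :=
  !![(1 + a - b) / 2, (-1 + a + b) / 2; (1 + a + b) / 2, (1 - a + b) / 2]

theorem det_om {a b : F} (hab : a * a + b * b = -1) (h2 : (2 : F) ≠ 0) : (om a b).det = 1 := by
  rw [Matrix.det_fin_two]
  simp [om]
  field_simp
  linear_combination (-2 : F) * hab

theorem om_i {a b : F} (hab : a * a + b * b = -1) (h2 : (2 : F) ≠ 0) :
    om a b * cm 0 1 = jm a b * om a b := by
  ext i j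
  fin_cases i <;> fin_cases j <;> simp [om, cm, jm, Matrix.mul_apply, Fin.sum_univ_two] <;>
    field_simp <;>
  first | ring1 | linear_combination hab | linear_combination -hab |
    linear_combination (1/2 : F) * hab | linear_combination (-1/2 : F) * hab |
    linear_combination (1/4 : F) * hab | linear_combination (-1/4 : F) * hab |
    linear_combination 2 * hab | linear_combination -2 * hab | linear_combination 4 * hab |
    linear_combination -4 * hab

theorem om_j {a b : F} (hab : a * a + b * b = -1) (h2 : (2 : F) ≠ 0) :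
    om a b * jm a b = (cm 0 1 * jm a b) * om a b := by
  ext i j
  fin_cases i <;> fin_cases j <;> simp [om, cm, jm, Matrix.mul_apply, Fin.sum_univ_two] <;>
    field_simp <;>
  first | ring1 | linear_combination hab | linear_combination -hab |
    linear_combination (1/2 : F) * hab | linear_combination (-1/2 : F) * hab |
    linear_combination (1/4 : F) * hab | linear_combination (-1/4 : F) * hab |
    linear_combination 2 * hab | linear_combination -2 * hab | linear_combination 4 * hab |
    linear_combination -4 * hab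

theorem om_k {a b : F} (hab : a * a + b * b = -1) (h2 : (2 : F) ≠ 0) :
    om a b * (cm 0 1 * jm a b) = cm 0 1 * om a b := by
  ext i j
  fin_cases i <;> fin_cases j <;> simp [om, cm, jm, Matrix.mul_apply, Fin.sum_univ_two] <;>
    field_simp <;>
  first | ring1 | linear_combination hab | linear_combination -hab |
    linear_combination (1/2 : F) * hab | linear_combination (-1/2 : F) * hab |
    linear_combination (1/4 : F) * hab | linear_combination (-1/4 : F) * hab |
    linear_combination 2 * hab | linear_combination -2 * hab | linear_combination 4 * hab |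
    linear_combination -4 * hab

theorem om_sq {a b : F} (hab : a * a + b * b = -1) (h2 : (2 : F) ≠ 0) :
    om a b * om a b = om a b - 1 := by
  ext i j
  fin_cases i <;> fin_cases j <;> simp [om, cm, jm, Matrix.mul_apply, Fin.sum_univ_two] <;>
    field_simp <;>
  first | ring1 | linear_combination hab | linear_combination -hab |
    linear_combination (1/2 : F) * hab | linear_combination (-1/2 : F) * hab |
    linear_combination (1/4 : F) * hab | linear_combination (-1/4 : F) * hab |
    linear_combination 2 * hab | linear_combination -2 * hab | linear_combination 4 * hab |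
    linear_combination -4 * hab

theorem om_cube {a b : F} (hab : a * a + b * b = -1) (h2 : (2 : F) ≠ 0) :
    om a b * om a b * om a b = -1 := by
  rw [om_sq hab h2, Matrix.sub_mul, Matrix.one_mul, om_sq hab h2]
  abel

theorem nq_om {a b : F} (hab : a * a + b * b = -1) (h2 : (2 : F) ≠ 0)
    (hns : ∀ s : F, s * s ≠ 2) : NQ a b (om a b) := by
  refine ⟨det_om hab h2, fun x hx => ?_⟩
  have hP1 : ∀ x y : F, x * x + y * y = 1 → Two (cm x y) →
      ∃ x', InQ a b x' ∧ om a b * cm x y = x' * om a b := by
    intro x y hn ht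
    rcases inQ_T_cases h2 hns hn ht with ⟨rfl, rfl⟩ | ⟨rfl, rfl⟩ | ⟨rfl, rfl⟩ | ⟨rfl, rfl⟩
    · exact ⟨1, inQ_one a b, by rw [cm_one, Matrix.mul_one, Matrix.one_mul]⟩
    · exact ⟨-1, inQ_neg_one a b, by
        rw [cm_neg_one, Matrix.mul_neg, Matrix.mul_one, Matrix.neg_mul, Matrix.one_mul]⟩
    · exact ⟨jm a b, inQ_j a b, om_i hab h2⟩
    · refine ⟨-jm a b, inQ_neg hab (inQ_j a b), ?_⟩
      have : cm (0 : F) (-1) = -cm 0 1 := by rw [cm_neg, neg_zero]
      rw [this, Matrix.mul_neg, om_i hab h2, Matrix.neg_mul]
  obtain ⟨x0, y0, hn, ht, rfl | rfl⟩ := hx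
  · exact hP1 x0 y0 hn ht
  · obtain ⟨x', hx', e⟩ := hP1 x0 y0 hn ht
    refine ⟨x' * (cm 0 1 * jm a b), inQ_mul hab hx' (inQ_mul hab (inQ_i a b) (inQ_j a b)), ?_⟩
    rw [← Matrix.mul_assoc, e, Matrix.mul_assoc, om_j hab h2]
    simp only [Matrix.mul_assoc]

theorem nq_cases {a b : F} (hab : a * a + b * b = -1) (h2 : (2 : F) ≠ 0)
    (hns : ∀ s : F, s * s ≠ 2) {A : Matrix (Fin 2) (Fin 2) F} (hA : NQ a b A) :
    InQ a b A ∨ InQ a b (om a b * A) ∨ InQ a b (om a b * om a b * A) := by
  obtain ⟨x', hx', e⟩ := hA.2 (cm 0 1) (inQ_i a b)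
  have hdA : A.det ≠ 0 := by
    rw [hA.1]
    exact one_ne_zero
  have hom := nq_om hab h2 hns
  have hsq : x' * x' = -1 := by
    apply cancelR hdA
    calc x' * x' * A = x' * (x' * A) := by rw [Matrix.mul_assoc]
      _ = x' * (A * cm 0 1) := by rw [e]
      _ = x' * A * cm 0 1 := by rw [Matrix.mul_assoc]
      _ = A * (cm 0 1 * cm 0 1) := by rw [← e, Matrix.mul_assoc]
      _ = -1 * A := by rw [cm_i_sq, cm_neg_one, Matrix.mul_neg, Matrix.mul_one, neg_one_mul]
  obtain ⟨x, y, hn, ht, rfl | rfl⟩ := hx'
  · rcases sq_neg_one_cm h2 hn hsq with ⟨rfl, rfl⟩ | ⟨rfl, rfl⟩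
    · exact Or.inl (inQ_of_nq_comm hab h2 hA e)
    · refine Or.inl (inQ_of_nq_anti hab h2 hA ?_)
      rw [e, ← Matrix.neg_mul, cm_neg, neg_zero]
  · rcases inQ_T_cases h2 hns hn ht with ⟨rfl, rfl⟩ | ⟨rfl, rfl⟩ | ⟨rfl, rfl⟩ | ⟨rfl, rfl⟩
    · rw [cm_one, Matrix.one_mul] at e
      right; right
      apply inQ_of_nq_comm hab h2 (nq_mul (nq_mul hom hom) hA)
      calc om a b * om a b * A * cm 0 1 = om a b * om a b * (A * cm 0 1) := by
            rw [Matrix.mul_assoc]
        _ = om a b * (om a b * jm a b) * A := by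
            rw [e]
            simp only [Matrix.mul_assoc]
        _ = om a b * (cm 0 1 * jm a b) * om a b * A := by
            rw [om_j hab h2]
            simp only [Matrix.mul_assoc]
        _ = cm 0 1 * (om a b * om a b * A) := by
            rw [om_k hab h2]
            simp only [Matrix.mul_assoc]
    · have e' : A * cm 0 1 = -(jm a b * A) := by
        rw [e, cm_neg_one, neg_one_mul, Matrix.neg_mul]
      right; right
      apply inQ_of_nq_anti hab h2 (nq_mul (nq_mul hom hom) hA)
      calc om a b * om a b * A * cm 0 1 = om a b * om a b * (A * cm 0 1) := by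
            rw [Matrix.mul_assoc]
        _ = -(om a b * (om a b * jm a b) * A) := by
            rw [e']
            simp only [Matrix.mul_assoc, Matrix.mul_neg]
        _ = -(om a b * (cm 0 1 * jm a b) * om a b * A) := by
            rw [om_j hab h2]
            simp only [Matrix.mul_assoc]
        _ = -(cm 0 1 * (om a b * om a b * A)) := by
            rw [om_k hab h2]
            simp only [Matrix.mul_assoc]
    · right; left
      apply inQ_of_nq_comm hab h2 (nq_mul hom hA)
      calc om a b * A * cm 0 1 = om a b * (A * cm 0 1) := by rw [Matrix.mul_assoc]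
        _ = om a b * (cm 0 1 * jm a b) * A := by
            rw [e]
            simp only [Matrix.mul_assoc]
        _ = cm 0 1 * (om a b * A) := by
            rw [om_k hab h2]
            simp only [Matrix.mul_assoc]
    · have e' : A * cm 0 1 = -(cm 0 1 * jm a b * A) := by
        rw [e]
        have : cm (0 : F) (-1) = -cm 0 1 := by rw [cm_neg, neg_zero]
        rw [this, Matrix.neg_mul, Matrix.neg_mul]
      right; left
      apply inQ_of_nq_anti hab h2 (nq_mul hom hA)
      calc om a b * A * cm 0 1 = om a b * (A * cm 0 1) := by rw [Matrix.mul_assoc]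
        _ = -(om a b * (cm 0 1 * jm a b) * A) := by
            rw [e']
            simp only [Matrix.mul_assoc, Matrix.mul_neg]
        _ = -(cm 0 1 * (om a b * A)) := by
            rw [om_k hab h2]
            simp only [Matrix.mul_assoc]

theorem inQ_of_cube {a b : F} (hab : a * a + b * b = -1) {W A : Matrix (Fin 2) (Fin 2) F}
    (hW : NQ a b W) (hW3 : W * W * W = 1 ∨ W * W * W = -1) (hq : InQ a b (W * A)) :
    InQ a b (A * A * A) := by
  obtain ⟨q1, hq1, e1⟩ := hW.2 _ hq
  obtain ⟨q2, hq2, e2⟩ := hW.2 _ hq1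
  have key : W * W * W * (A * A * A) = q2 * q1 * (W * A) := by
    calc W * W * W * (A * A * A) = W * (W * (W * A)) * A * A := by simp only [Matrix.mul_assoc]
      _ = W * (q1 * W) * A * A := by rw [e1]
      _ = (W * q1) * (W * A) * A := by simp only [Matrix.mul_assoc]
      _ = q2 * W * (W * A) * A := by rw [e2]
      _ = q2 * (W * (W * A)) * A := by simp only [Matrix.mul_assoc]
      _ = q2 * (q1 * W) * A := by rw [e1]
      _ = q2 * q1 * (W * A) := by simp only [Matrix.mul_assoc]
  have hprod := inQ_mul hab (inQ_mul hab hq2 hq1) hq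
  rcases hW3 with h | h
  · rw [h, Matrix.one_mul] at key
    rw [key]
    exact hprod
  · rw [h, neg_one_mul] at key
    have : A * A * A = -(q2 * q1 * (W * A)) := by rw [← key, neg_neg]
    rw [this]
    exact inQ_neg hab hprod

theorem pow_two_mod_three (m : ℕ) : 2 ^ m % 3 = 1 ∨ 2 ^ m % 3 = 2 := by
  induction m with
  | zero => left; rfl
  | succ m ih =>
    rw [pow_succ]
    omega

theorem inQ_of_cube_two {a b : F} (hab : a * a + b * b = -1) {A : Matrix (Fin 2) (Fin 2) F}
    (h3 : InQ a b (A * A * A)) (ht : Two A) : InQ a b A := by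
  obtain ⟨m, hm⟩ := ht
  obtain ⟨n, k, hnk⟩ : ∃ n k : ℕ, 3 * n = 1 + 2 ^ m * k := by
    have h := pow_two_mod_three m
    generalize 2 ^ m = t at h ⊢
    rcases h with h | h
    · exact ⟨(1 + t * 2) / 3, 2, by omega⟩
    · exact ⟨(1 + t * 1) / 3, 1, by omega⟩
  have h1 : A ^ (3 * n) = A := by
    rw [hnk, pow_add, pow_one, pow_mul, hm, one_pow, mul_one]
  have h2 : A ^ (3 * n) = (A * A * A) ^ n := by
    rw [pow_mul]
    congr 1
    rw [pow_succ, pow_two]
  rw [← h1, h2]
  exact inQ_pow hab h3 n

/-- `2`-elements of the normalizer of `Q` lie in `Q`. -/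
theorem pelts_Q {a b : F} (hab : a * a + b * b = -1) (h2 : (2 : F) ≠ 0)
    {A : Matrix (Fin 2) (Fin 2) F} (hA : NQ a b A) (ht : Two A) : InQ a b A := by
  by_cases hsq : ∃ s : F, s * s = 2
  · obtain ⟨s, hs⟩ := hsq
    exact inQ_of_nq_sq hab h2 hs hA
  · have hns : ∀ s : F, s * s ≠ 2 := fun s hs => hsq ⟨s, hs⟩
    have hom := nq_om hab h2 hns
    rcases nq_cases hab h2 hns hA with h | h | h
    · exact h
    · exact inQ_of_cube_two hab (inQ_of_cube hab hom (Or.inr (om_cube hab h2)) h) ht
    · refine inQ_of_cube_two hab (inQ_of_cube hab (nq_mul hom hom) (Or.inl ?_) h) ht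
      calc om a b * om a b * (om a b * om a b) * (om a b * om a b)
          = (om a b * om a b * om a b) * (om a b * om a b * om a b) := by
            simp only [Matrix.mul_assoc]
        _ = 1 := by
            rw [om_cube hab h2]
            simp

theorem inQ_comm_sign {a b : F} (hab : a * a + b * b = -1) (h2 : (2 : F) ≠ 0)
    (hns : ∀ s : F, s * s ≠ 2) {x q : Matrix (Fin 2) (Fin 2) F} (hx : InQ a b x)
    (hq : InQ a b q) : x * q = q * x ∨ x * q = -(q * x) := by
  have key : x * (x * q * (x * q)) * q = (x * x) * (q * x) * (q * q) := by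
    simp only [Matrix.mul_assoc]
  rcases inQ_sq_cases hab h2 hns (inQ_mul hab hx hq) with h1 | h1 <;>
  rcases inQ_sq_cases hab h2 hns hx with h3 | h3 <;>
  rcases inQ_sq_cases hab h2 hns hq with h4 | h4 <;>
  rw [h1, h3, h4] at key <;> simp at key <;>
  first | exact Or.inl key | exact Or.inr key | exact Or.inr (neg_eq_iff_eq_neg.1 key) |
    exact Or.inl (neg_inj.1 key)

theorem inQ_prod_sq {a b : F} (hab : a * a + b * b = -1) {q : Matrix (Fin 2) (Fin 2) F}
    (hq : InQ a b q) :
    ∃ x y, InQ a b x ∧ InQ a b y ∧ x * x = -1 ∧ y * y = -1 ∧ q = x * y := by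
  obtain ⟨x0, y0, hn, ht, rfl | rfl⟩ := hq
  · refine ⟨cm x0 y0 * jm a b, -jm a b, ⟨x0, y0, hn, ht, Or.inr rfl⟩,
      inQ_neg hab (inQ_j a b), inQ_sq_j hab hn, ?_, ?_⟩
    · rw [neg_mul_neg, jm_sq hab]
    · rw [Matrix.mul_neg, Matrix.mul_assoc, jm_sq hab, Matrix.mul_neg, Matrix.mul_one, neg_neg]
  · have hq' : InQ a b (cm x0 y0 * jm a b) := ⟨x0, y0, hn, ht, Or.inr rfl⟩
    have hX : InQ a b (cm x0 y0 * jm a b * cm 0 1) := inQ_mul hab hq' (inQ_i a b)
    refine ⟨cm x0 y0 * jm a b * cm 0 1, -cm 0 1, hX, inQ_neg hab (inQ_i a b), ?_, ?_, ?_⟩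
    · have e : cm x0 y0 * jm a b * cm 0 1 =
          cm (x0 * 0 - y0 * -1) (x0 * -1 + y0 * 0) * jm a b := by
        rw [Matrix.mul_assoc, jm_mul_cm, ← Matrix.mul_assoc, cm_mul]
      rw [e]
      apply inQ_sq_j hab
      linear_combination hn
    · rw [neg_mul_neg, cm_i_sq, cm_neg_one]
    · rw [Matrix.mul_neg, Matrix.mul_assoc, cm_i_sq, cm_neg_one, Matrix.mul_neg, Matrix.mul_one,
        neg_neg]

theorem pm_one_of_comm_ij {a b : F} (hab : a * a + b * b = -1) (h2 : (2 : F) ≠ 0)
    (M : Matrix (Fin 2) (Fin 2) F) (hd : M.det = 1) (hi : M * cm 0 1 = cm 0 1 * M)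
    (hj : M * jm a b = jm a b * M) : M = 1 ∨ M = -1 := by
  have hform := comm_i_form M hi
  generalize M 0 0 = p at hform
  generalize M 1 0 = r at hform
  subst hform
  rw [cm_mul_jm, jm_mul_cm, cm_mul_jm] at hj
  obtain ⟨e1, e2⟩ := jm_inj hj
  have hr : r = 0 := by
    have h3 : (2 : F) * r * (a * a + b * b) = 0 := by linear_combination a * e2 - b * e1
    rw [hab] at h3
    have : (2 : F) * r = 0 := by linear_combination -h3
    exact (mul_eq_zero.1 this).resolve_left h2
  subst hr
  rw [det_cm] at hd
  have hpp : (p - 1) * (p + 1) = 0 := by linear_combination hd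
  rcases mul_eq_zero.1 hpp with hp | hp
  · left
    have : p = 1 := by linear_combination hp
    rw [this, cm_one]
  · right
    have : p = -1 := by linear_combination hp
    rw [this, cm_neg_one]

theorem k_eq (a b : F) : cm 0 1 * jm a b = jm (-b) a := by
  rw [cm_mul_jm]
  congr 1 <;> ring

theorem inQ_of_comm_signs {a b : F} (hab : a * a + b * b = -1) (h2 : (2 : F) ≠ 0)
    (A : Matrix (Fin 2) (Fin 2) F) (hd : A.det = 1)
    (hi : A * cm 0 1 = cm 0 1 * A ∨ A * cm 0 1 = -(cm 0 1 * A))
    (hj : A * jm a b = jm a b * A ∨ A * jm a b = -(jm a b * A)) : InQ a b A := by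
  rcases hi with hi | hi
  · rcases hj with hj | hj
    · rcases pm_one_of_comm_ij hab h2 A hd hi hj with h | h
      · rw [h]
        exact inQ_one a b
      · rw [h]
        exact inQ_neg_one a b
    · have hform := comm_i_form A hi
      generalize A 0 0 = p at hform
      generalize A 1 0 = r at hform
      subst hform
      rw [cm_mul_jm, jm_mul_cm, cm_mul_jm, jm_neg] at hj
      obtain ⟨e1, e2⟩ := jm_inj hj
      have hp : p = 0 := by
        have h3 : (2 : F) * p * (a * a + b * b) = 0 := by linear_combination a * e1 + b * e2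
        rw [hab] at h3
        have : (2 : F) * p = 0 := by linear_combination -h3
        exact (mul_eq_zero.1 this).resolve_left h2
      subst hp
      rw [det_cm] at hd
      have hrr : (r - 1) * (r + 1) = 0 := by linear_combination hd
      rcases mul_eq_zero.1 hrr with hr | hr
      · have : r = 1 := by linear_combination hr
        rw [this]
        exact inQ_i a b
      · have : r = -1 := by linear_combination hr
        rw [this]
        have e : cm (0 : F) (-1) = -cm 0 1 := by rw [cm_neg, neg_zero]
        rw [e]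
        exact inQ_neg hab (inQ_i a b)
  · have hform := anti_i_form A hi
    generalize A 0 0 = p at hform
    generalize A 0 1 = r at hform
    subst hform
    rw [det_jm] at hd
    have hpr : p * p + r * r = -1 := by linear_combination -hd
    rcases hj with hj | hj
    · rw [jm_mul_jm, jm_mul_jm] at hj
      obtain ⟨e1, e2⟩ := cm_inj hj
      have h4 : r * a - p * b = 0 := by
        have : (2 : F) * (r * a - p * b) = 0 := by linear_combination e2
        exact (mul_eq_zero.1 this).resolve_left h2
      have he : (p * a + r * b) * (p * a + r * b) = 1 := by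
        linear_combination (a * a + b * b) * hpr - hab - (r * a - p * b) * h4
      have hp : p = -a * (p * a + r * b) := by linear_combination p * hab + b * h4
      have hr : r = -b * (p * a + r * b) := by linear_combination r * hab - a * h4
      have hee : (p * a + r * b - 1) * (p * a + r * b + 1) = 0 := by linear_combination he
      rcases mul_eq_zero.1 hee with h | h
      · have h1 : p * a + r * b = 1 := by linear_combination h
        rw [h1] at hp hr
        have e : jm p r = -jm a b := by
          rw [jm_neg, hp, hr]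
          congr 1 <;> ring
        rw [e]
        exact inQ_neg hab (inQ_j a b)
      · have h1 : p * a + r * b = -1 := by linear_combination h
        rw [h1] at hp hr
        have e : jm p r = jm a b := by
          rw [hp, hr]
          congr 1 <;> ring
        rw [e]
        exact inQ_j a b
    · rw [jm_mul_jm, jm_mul_jm, cm_neg] at hj
      obtain ⟨e1, e2⟩ := cm_inj hj
      have h4 : p * a + r * b = 0 := by
        have : (2 : F) * (p * a + r * b) = 0 := by linear_combination e1
        exact (mul_eq_zero.1 this).resolve_left h2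
      have he : (r * a - p * b) * (r * a - p * b) = 1 := by
        linear_combination (a * a + b * b) * hpr - hab - (p * a + r * b) * h4
      have hp : p = b * (r * a - p * b) := by linear_combination p * hab - a * h4
      have hr : r = -a * (r * a - p * b) := by linear_combination r * hab - b * h4
      have hee : (r * a - p * b - 1) * (r * a - p * b + 1) = 0 := by linear_combination he
      have hk : InQ a b (cm 0 1 * jm a b) := inQ_mul hab (inQ_i a b) (inQ_j a b)
      rcases mul_eq_zero.1 hee with h | h
      · have h1 : r * a - p * b = 1 := by linear_combination h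
        rw [h1] at hp hr
        have e : jm p r = -(cm 0 1 * jm a b) := by
          rw [k_eq, jm_neg, hp, hr]
          congr 1 <;> ring
        rw [e]
        exact inQ_neg hab hk
      · have h1 : r * a - p * b = -1 := by linear_combination h
        rw [h1] at hp hr
        have e : jm p r = cm 0 1 * jm a b := by
          rw [k_eq, hp, hr]
          congr 1 <;> ring
        rw [e]
        exact hk

end Cfsg.Agent.Lib.helper25.Sp4Odd
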