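import Mathlib
import Cfsg.Agent.Lib.helper25.Sp4Odd3
import Cfsg.Agent.Lib.helper25.SUni3
import Cfsg.Agent.Lib.helper25.SLUni

set_option autoImplicit false
set_option linter.unusedSectionVars false
set_option linter.unusedSimpArgs false
set_option linter.unusedVariables false
set_option linter.unreachableTactic false
set_option linter.unusedTactic false

/-!
# A Sylow `2`-subgroup `Q ≀ 2` of `Sp_4(F)`, `F` finite of odd order

Block matrices `bl A B C D` are taken with respect to the decomposition of the symplectic space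
into two hyperbolic planes.
-/

namespace Cfsg.Agent.Lib.helper25.Sp4Odd

open Matrix
open Cfsg.Agent.Lib.helper25.SL3Odd (Two two_mul two_of_sq)
open Cfsg.Agent.Lib.helper25.SLUni (ofMulClosed mem_ofMulClosed)

variable {F : Type*} [Field F]

/-- Block matrices relative to the decomposition into two symplectic planes. -/
def bl (A B C D : Matrix (Fin 2) (Fin 2) F) : Matrix (Fin 2 ⊕ Fin 2) (Fin 2 ⊕ Fin 2) F :=
  Matrix.fromBlocks !![A 0 0, B 0 0; C 0 0, D 0 0] !![A 0 1, B 0 1; C 0 1, D 0 1]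
    !![A 1 0, B 1 0; C 1 0, D 1 0] !![A 1 1, B 1 1; C 1 1, D 1 1]

def b11 (M : Matrix (Fin 2 ⊕ Fin 2) (Fin 2 ⊕ Fin 2) F) : Matrix (Fin 2) (Fin 2) F :=
  !![M (Sum.inl 0) (Sum.inl 0), M (Sum.inl 0) (Sum.inr 0);
     M (Sum.inr 0) (Sum.inl 0), M (Sum.inr 0) (Sum.inr 0)]

def b12 (M : Matrix (Fin 2 ⊕ Fin 2) (Fin 2 ⊕ Fin 2) F) : Matrix (Fin 2) (Fin 2) F :=
  !![M (Sum.inl 0) (Sum.inl 1), M (Sum.inl 0) (Sum.inr 1);
     M (Sum.inr 0) (Sum.inl 1), M (Sum.inr 0) (Sum.inr 1)]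

def b21 (M : Matrix (Fin 2 ⊕ Fin 2) (Fin 2 ⊕ Fin 2) F) : Matrix (Fin 2) (Fin 2) F :=
  !![M (Sum.inl 1) (Sum.inl 0), M (Sum.inl 1) (Sum.inr 0);
     M (Sum.inr 1) (Sum.inl 0), M (Sum.inr 1) (Sum.inr 0)]

def b22 (M : Matrix (Fin 2 ⊕ Fin 2) (Fin 2 ⊕ Fin 2) F) : Matrix (Fin 2) (Fin 2) F :=
  !![M (Sum.inl 1) (Sum.inl 1), M (Sum.inl 1) (Sum.inr 1);
     M (Sum.inr 1) (Sum.inl 1), M (Sum.inr 1) (Sum.inr 1)]

theorem b11_bl (A B C D : Matrix (Fin 2) (Fin 2) F) : b11 (bl A B C D) = A := by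
  ext i j
  fin_cases i <;> fin_cases j <;> simp [b11, bl]

theorem b12_bl (A B C D : Matrix (Fin 2) (Fin 2) F) : b12 (bl A B C D) = B := by
  ext i j
  fin_cases i <;> fin_cases j <;> simp [b12, bl]

theorem b21_bl (A B C D : Matrix (Fin 2) (Fin 2) F) : b21 (bl A B C D) = C := by
  ext i j
  fin_cases i <;> fin_cases j <;> simp [b21, bl]

theorem b22_bl (A B C D : Matrix (Fin 2) (Fin 2) F) : b22 (bl A B C D) = D := by
  ext i j
  fin_cases i <;> fin_cases j <;> simp [b22, bl]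

theorem bl_eta (M : Matrix (Fin 2 ⊕ Fin 2) (Fin 2 ⊕ Fin 2) F) :
    bl (b11 M) (b12 M) (b21 M) (b22 M) = M := by
  ext (i | i) (j | j) <;> fin_cases i <;> fin_cases j <;> simp [bl, b11, b12, b21, b22]

theorem bl_inj {A B C D A' B' C' D' : Matrix (Fin 2) (Fin 2) F}
    (h : bl A B C D = bl A' B' C' D') : A = A' ∧ B = B' ∧ C = C' ∧ D = D' := by
  refine ⟨?_, ?_, ?_, ?_⟩
  · have := congrArg b11 h
    rwa [b11_bl, b11_bl] at this
  · have := congrArg b12 h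
    rwa [b12_bl, b12_bl] at this
  · have := congrArg b21 h
    rwa [b21_bl, b21_bl] at this
  · have := congrArg b22 h
    rwa [b22_bl, b22_bl] at this

theorem bl_mul (A B C D A' B' C' D' : Matrix (Fin 2) (Fin 2) F) :
    bl A B C D * bl A' B' C' D' =
      bl (A * A' + B * C') (A * B' + B * D') (C * A' + D * C') (C * B' + D * D') := by
  rw [bl, bl, bl, Matrix.fromBlocks_multiply]
  congr 1 <;>
    (ext i j; fin_cases i <;> fin_cases j <;> simp [Matrix.mul_apply, Fin.sum_univ_two] <;> ring)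

theorem bl_one : bl (1 : Matrix (Fin 2) (Fin 2) F) 0 0 1 = 1 := by
  ext (i | i) (j | j) <;> fin_cases i <;> fin_cases j <;> simp [bl]

theorem bl_neg (A B C D : Matrix (Fin 2) (Fin 2) F) :
    -bl A B C D = bl (-A) (-B) (-C) (-D) := by
  ext (i | i) (j | j) <;> fin_cases i <;> fin_cases j <;> simp [bl]

theorem bl_transpose (A B C D : Matrix (Fin 2) (Fin 2) F) :
    (bl A B C D)ᵀ = bl Aᵀ Cᵀ Bᵀ Dᵀ := by
  ext (i | i) (j | j) <;> fin_cases i <;> fin_cases j <;> simp [bl]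

theorem J_eq : Matrix.J (Fin 2) F = bl (cm 0 1) 0 0 (cm 0 1) := by
  ext (i | i) (j | j) <;> fin_cases i <;> fin_cases j <;> simp [bl, cm, Matrix.J]

theorem mul_j_transpose (X : Matrix (Fin 2) (Fin 2) F) : X * cm 0 1 * Xᵀ = cm 0 X.det := by
  rw [Matrix.det_fin_two]
  ext i j
  fin_cases i <;> fin_cases j <;> simp [cm, Matrix.mul_apply, Fin.sum_univ_two] <;> ring

theorem bl_mem_iff (A B C D : Matrix (Fin 2) (Fin 2) F) :
    bl A B C D ∈ Matrix.symplecticGroup (Fin 2) F ↔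
      A * cm 0 1 * Aᵀ + B * cm 0 1 * Bᵀ = cm 0 1 ∧ A * cm 0 1 * Cᵀ + B * cm 0 1 * Dᵀ = 0 ∧
      C * cm 0 1 * Aᵀ + D * cm 0 1 * Bᵀ = 0 ∧ C * cm 0 1 * Cᵀ + D * cm 0 1 * Dᵀ = cm 0 1 := by
  rw [SymplecticGroup.mem_iff, J_eq, bl_transpose, bl_mul, bl_mul]
  simp only [Matrix.mul_zero, Matrix.zero_mul, add_zero, zero_add]
  constructor
  · intro h
    obtain ⟨h1, h2, h3, h4⟩ := bl_inj h
    exact ⟨h1, h2, h3, h4⟩
  · rintro ⟨h1, h2, h3, h4⟩
    rw [h1, h2, h3, h4]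

theorem mem_diag {x y : Matrix (Fin 2) (Fin 2) F} (hx : x.det = 1) (hy : y.det = 1) :
    bl x 0 0 y ∈ Matrix.symplecticGroup (Fin 2) F := by
  rw [bl_mem_iff]
  simp [mul_j_transpose, hx, hy]

theorem mem_anti {x y : Matrix (Fin 2) (Fin 2) F} (hx : x.det = 1) (hy : y.det = 1) :
    bl 0 x y 0 ∈ Matrix.symplecticGroup (Fin 2) F := by
  rw [bl_mem_iff]
  simp [mul_j_transpose, hx, hy]

theorem det_of_mem_diag {A D : Matrix (Fin 2) (Fin 2) F}
    (h : bl A 0 0 D ∈ Matrix.symplecticGroup (Fin 2) F) : A.det = 1 ∧ D.det = 1 := by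
  rw [bl_mem_iff] at h
  obtain ⟨h1, -, -, h4⟩ := h
  simp only [Matrix.zero_mul, Matrix.mul_zero, add_zero, zero_add, mul_j_transpose] at h1 h4
  exact ⟨(cm_inj h1).2, (cm_inj h4).2⟩

theorem det_of_mem_anti {B C : Matrix (Fin 2) (Fin 2) F}
    (h : bl 0 B C 0 ∈ Matrix.symplecticGroup (Fin 2) F) : B.det = 1 ∧ C.det = 1 := by
  rw [bl_mem_iff] at h
  obtain ⟨h1, -, -, h4⟩ := h
  simp only [Matrix.zero_mul, Matrix.mul_zero, add_zero, zero_add, mul_j_transpose] at h1 h4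
  exact ⟨(cm_inj h1).2, (cm_inj h4).2⟩

/-- `Sp_4(F)`. -/
abbrev G4 (F : Type*) [Field F] := ↥(Matrix.symplecticGroup (Fin 2) F)

theorem g4_mul_val (g h : G4 F) : (g * h).1 = g.1 * h.1 := rfl

theorem g4_one_val : (1 : G4 F).1 = 1 := rfl

theorem g4_pow_val (g : G4 F) (k : ℕ) : (g ^ k).1 = g.1 ^ k := by
  induction k with
  | zero => rfl
  | succ k ih =>
    rw [pow_succ, pow_succ, ← ih]
    rfl

theorem conj_val (g t : G4 F) : (g * t * g⁻¹).1 * g.1 = g.1 * t.1 := by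
  show ((g * t * g⁻¹) * g).1 = (g * t).1
  rw [inv_mul_cancel_right]

/-- Diagonal block elements. -/
def dgE (x y : Matrix (Fin 2) (Fin 2) F) (hx : x.det = 1) (hy : y.det = 1) : G4 F :=
  ⟨bl x 0 0 y, mem_diag hx hy⟩

/-- The swap. -/
def swE (F : Type*) [Field F] : G4 F :=
  ⟨bl 0 1 1 0, mem_anti Matrix.det_one Matrix.det_one⟩

theorem bl_diag_pow (x y : Matrix (Fin 2) (Fin 2) F) (n : ℕ) :
    bl x 0 0 y ^ n = bl (x ^ n) 0 0 (y ^ n) := by
  induction n with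
  | zero => rw [pow_zero, pow_zero, pow_zero, bl_one]
  | succ n ih =>
    rw [pow_succ, ih, bl_mul, pow_succ, pow_succ]
    simp

/-- Membership predicate of the Sylow `2`-subgroup of `Sp_4(F)`. -/
def InU (a b : F) (M : Matrix (Fin 2 ⊕ Fin 2) (Fin 2 ⊕ Fin 2) F) : Prop :=
  ∃ x y, InQ a b x ∧ InQ a b y ∧ (M = bl x 0 0 y ∨ M = bl 0 x y 0)

theorem inU_one (a b : F) : InU a b 1 :=
  ⟨1, 1, inQ_one a b, inQ_one a b, Or.inl bl_one.symm⟩

theorem inU_mul {a b : F} (hab : a * a + b * b = -1)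
    {M M' : Matrix (Fin 2 ⊕ Fin 2) (Fin 2 ⊕ Fin 2) F} (h : InU a b M) (h' : InU a b M') :
    InU a b (M * M') := by
  obtain ⟨x, y, hx, hy, hM⟩ := h
  obtain ⟨x', y', hx', hy', hM'⟩ := h'
  rcases hM with rfl | rfl <;> rcases hM' with rfl | rfl
  · exact ⟨x * x', y * y', inQ_mul hab hx hx', inQ_mul hab hy hy',
      Or.inl (by rw [bl_mul]; simp)⟩
  · exact ⟨x * x', y * y', inQ_mul hab hx hx', inQ_mul hab hy hy',
      Or.inr (by rw [bl_mul]; simp)⟩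
  · exact ⟨x * y', y * x', inQ_mul hab hx hy', inQ_mul hab hy hx',
      Or.inr (by rw [bl_mul]; simp)⟩
  · exact ⟨x * y', y * x', inQ_mul hab hx hy', inQ_mul hab hy hx',
      Or.inl (by rw [bl_mul]; simp)⟩

variable [Fintype F]

/-- The Sylow `2`-subgroup `Q ≀ 2` of `Sp_4(F)`. -/
noncomputable def UU (F : Type*) [Field F] [Fintype F] (a b : F) (hab : a * a + b * b = -1) :
    Subgroup (G4 F) :=
  ofMulClosed {g | InU a b g.1} (inU_one a b) (fun _ _ h h' => inU_mul hab h h')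

theorem mem_UU {a b : F} (hab : a * a + b * b = -1) (g : G4 F) :
    g ∈ UU F a b hab ↔ InU a b g.1 := Iff.rfl

theorem isPGroup_UU {a b : F} (hab : a * a + b * b = -1) : IsPGroup 2 (UU F a b hab) := by
  have h1 : ∀ (g : G4 F) (x y : Matrix (Fin 2) (Fin 2) F), InQ a b x → InQ a b y →
      g.1 = bl x 0 0 y → ∃ k : ℕ, g ^ (2 ^ k) = 1 := by
    intro g x y hx hy hg
    obtain ⟨m, hm⟩ := inQ_two hab hx
    obtain ⟨m', hm'⟩ := inQ_two hab hy
    refine ⟨m + m', Subtype.ext ?_⟩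
    rw [g4_pow_val, hg, bl_diag_pow, pow_add, pow_mul, hm, one_pow, mul_comm, pow_mul, hm',
      one_pow, bl_one]
    rfl
  rintro ⟨g, hg⟩
  obtain ⟨x, y, hx, hy, hg' | hg'⟩ := hg
  · obtain ⟨k, hk⟩ := h1 g x y hx hy hg'
    exact ⟨k, Subtype.ext hk⟩
  · have hgg : (g * g).1 = bl (x * y) 0 0 (y * x) := by
      rw [g4_mul_val, hg', bl_mul]
      simp
    obtain ⟨k, hk⟩ := h1 (g * g) _ _ (inQ_mul hab hx hy) (inQ_mul hab hy hx) hgg
    refine ⟨k + 1, Subtype.ext ?_⟩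
    show g ^ (2 ^ (k + 1)) = 1
    rw [pow_succ, mul_comm, pow_mul, pow_two]
    exact hk

end Cfsg.Agent.Lib.helper25.Sp4Odd
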