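import Mathlib
import Cfsg.Agent.Lib.helper25.Sp4Odd4

set_option autoImplicit false
set_option linter.unusedSectionVars false
set_option linter.unusedSimpArgs false
set_option linter.unusedVariables false
set_option linter.unreachableTactic false
set_option linter.unusedTactic false

/-!
# The normalizer of the Sylow `2`-subgroup `Q ≀ 2` of `Sp_4(F)`
-/

namespace Cfsg.Agent.Lib.helper25.Sp4Odd

open Matrix
open Cfsg.Agent.Lib.helper25.SL3Odd (Two two_mul two_of_sq)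

variable {F : Type*} [Field F]

theorem det_neg_one : (-1 : Matrix (Fin 2) (Fin 2) F).det = 1 := by
  rw [← cm_neg_one, det_cm]
  ring

theorem det_i : (cm (0 : F) 1).det = 1 := by
  rw [det_cm]
  ring

theorem bl_neg_one : bl (-1 : Matrix (Fin 2) (Fin 2) F) 0 0 (-1) = -1 := by
  rw [← bl_one, bl_neg]
  simp

theorem diag_eq_one {x y : Matrix (Fin 2) (Fin 2) F} (h : bl x 0 0 y = 1) : x = 1 ∧ y = 1 := by
  rw [← bl_one] at h
  exact ⟨(bl_inj h).1, (bl_inj h).2.2.2⟩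

theorem ne_zero_of_det {A : Matrix (Fin 2) (Fin 2) F} (h : A.det = 1) : A ≠ 0 := by
  rintro rfl
  simp at h

theorem form_diag (h2 : (2 : F) ≠ 0) (g : G4 F)
    (h : g.1 * bl (-1) 0 0 1 = bl (-1) 0 0 1 * g.1) :
    ∃ A D, A.det = 1 ∧ D.det = 1 ∧ g.1 = bl A 0 0 D := by
  obtain ⟨A, B, C, D, hg⟩ : ∃ A B C D, g.1 = bl A B C D := ⟨_, _, _, _, (bl_eta g.1).symm⟩
  rw [hg, bl_mul, bl_mul] at h
  simp only [Matrix.mul_zero, Matrix.zero_mul, add_zero, zero_add, Matrix.mul_neg, Matrix.mul_one,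
    Matrix.neg_mul, Matrix.one_mul] at h
  obtain ⟨-, hB, hC, -⟩ := bl_inj h
  have hB0 : B = 0 := eq_zero_of_eq_neg h2 B hB
  have hC0 : C = 0 := eq_zero_of_eq_neg h2 C hC.symm
  subst hB0 hC0
  have hm := g.2
  rw [hg] at hm
  obtain ⟨h1, h4⟩ := det_of_mem_diag hm
  exact ⟨A, D, h1, h4, hg⟩

theorem form_anti (h2 : (2 : F) ≠ 0) (g : G4 F)
    (h : g.1 * bl (-1) 0 0 1 = bl 1 0 0 (-1) * g.1) :
    ∃ B C, B.det = 1 ∧ C.det = 1 ∧ g.1 = bl 0 B C 0 := by
  obtain ⟨A, B, C, D, hg⟩ : ∃ A B C D, g.1 = bl A B C D := ⟨_, _, _, _, (bl_eta g.1).symm⟩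
  rw [hg, bl_mul, bl_mul] at h
  simp only [Matrix.mul_zero, Matrix.zero_mul, add_zero, zero_add, Matrix.mul_neg, Matrix.mul_one,
    Matrix.neg_mul, Matrix.one_mul] at h
  obtain ⟨hA, -, -, hD⟩ := bl_inj h
  have hA0 : A = 0 := eq_zero_of_eq_neg h2 A hA.symm
  have hD0 : D = 0 := eq_zero_of_eq_neg h2 D hD
  subst hA0 hD0
  have hm := g.2
  rw [hg] at hm
  obtain ⟨h1, h4⟩ := det_of_mem_anti hm
  exact ⟨B, C, h1, h4, hg⟩

theorem pow_mul_normal {G : Type*} [Group G] (H : Subgroup G) (g u : G)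
    (hg : g ∈ Subgroup.normalizer (H : Set G)) (hu : u ∈ H) (n : ℕ) :
    ∃ u' ∈ H, (g * u) ^ n = g ^ n * u' := by
  induction n with
  | zero => exact ⟨1, H.one_mem, by simp⟩
  | succ n ih =>
    obtain ⟨u', hu', e⟩ := ih
    refine ⟨g⁻¹ * u' * g * u, H.mul_mem ((Subgroup.mem_normalizer_iff''.1 hg u').1 hu') hu, ?_⟩
    rw [pow_succ, e, pow_succ]
    group

variable [Fintype F]

theorem norm_z1 {a b : F} (hab : a * a + b * b = -1) (h2 : (2 : F) ≠ 0) (g : G4 F)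
    (hg : ∀ u ∈ UU F a b hab, g * u * g⁻¹ ∈ UU F a b hab) :
    g.1 * bl (-1) 0 0 1 = bl (-1) 0 0 1 * g.1 ∨ g.1 * bl (-1) 0 0 1 = bl 1 0 0 (-1) * g.1 := by
  set u0 : G4 F := dgE (cm 0 1) 1 det_i Matrix.det_one with hu0
  have hu0U : u0 ∈ UU F a b hab := ⟨cm 0 1, 1, inQ_i a b, inQ_one a b, Or.inl rfl⟩
  have hu0sq : (u0 * u0).1 = bl (-1) 0 0 1 := by
    show bl (cm 0 1) 0 0 1 * bl (cm 0 1) 0 0 1 = _
    rw [bl_mul]
    simp [cm_i_sq, cm_neg_one]
  have hu4 : u0 * u0 * (u0 * u0) = 1 := by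
    apply Subtype.ext
    show (u0 * u0).1 * (u0 * u0).1 = 1
    rw [hu0sq, bl_mul]
    simp [bl_one]
  set v := g * u0 * g⁻¹ with hv
  have hvU := hg u0 hu0U
  have hv4 : v * v * (v * v) = 1 := by
    have : v * v * (v * v) = g * (u0 * u0 * (u0 * u0)) * g⁻¹ := by
      rw [hv]
      group
    rw [this, hu4]
    group
  have hvv : (v * v).1 * g.1 = g.1 * bl (-1) 0 0 1 := by
    have : v * v = g * (u0 * u0) * g⁻¹ := by
      rw [hv]
      group
    rw [this, conj_val, hu0sq]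
  have hne1 : (v * v).1 ≠ 1 := by
    intro h
    rw [h, Matrix.one_mul] at hvv
    have h3 : (g * ⟨bl (-1) 0 0 1, mem_diag det_neg_one Matrix.det_one⟩ : G4 F) = g * 1 := by
      apply Subtype.ext
      rw [mul_one]
      exact hvv.symm
    have h4 := mul_left_cancel h3
    have h5 : bl (-1 : Matrix (Fin 2) (Fin 2) F) 0 0 1 = bl 1 0 0 1 := by
      have := congrArg Subtype.val h4
      rw [bl_one]
      exact this
    exact one_ne_neg_one h2 (bl_inj h5).1.symm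
  have hne2 : (v * v).1 ≠ -1 := by
    intro h
    rw [h] at hvv
    have h3 : (g * ⟨bl (-1) 0 0 1, mem_diag det_neg_one Matrix.det_one⟩ : G4 F) =
        g * ⟨bl (-1) 0 0 (-1), mem_diag det_neg_one det_neg_one⟩ := by
      apply Subtype.ext
      show g.1 * bl (-1) 0 0 1 = g.1 * bl (-1) 0 0 (-1)
      rw [← hvv, bl_neg_one, Matrix.mul_neg, Matrix.mul_one, neg_one_mul]
    have h4 := mul_left_cancel h3
    have h5 : bl (-1 : Matrix (Fin 2) (Fin 2) F) 0 0 1 = bl (-1) 0 0 (-1) :=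
      congrArg Subtype.val h4
    exact one_ne_neg_one h2 (bl_inj h5).2.2.2
  have h44 : (v * v).1 * (v * v).1 = 1 := congrArg Subtype.val hv4
  obtain ⟨x, y, hx, hy, hvf | hvf⟩ := hvU
  · have hvv' : (v * v).1 = bl (x * x) 0 0 (y * y) := by
      rw [g4_mul_val, hvf, bl_mul]
      simp
    rw [hvv', bl_mul] at h44
    simp only [Matrix.mul_zero, Matrix.zero_mul, add_zero, zero_add] at h44
    obtain ⟨hx4, hy4⟩ := diag_eq_one h44
    have hdx : (x * x).det = 1 := by rw [Matrix.det_mul, inQ_det hab hx, mul_one]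
    have hdy : (y * y).det = 1 := by rw [Matrix.det_mul, inQ_det hab hy, mul_one]
    rcases sq_eq_one h2 _ hdx hx4 with hxx | hxx <;> rcases sq_eq_one h2 _ hdy hy4 with hyy | hyy
    · exfalso
      apply hne1
      rw [hvv', hxx, hyy, bl_one]
    · right
      rw [hvv', hxx, hyy] at hvv
      exact hvv.symm
    · left
      rw [hvv', hxx, hyy] at hvv
      exact hvv.symm
    · exfalso
      apply hne2
      rw [hvv', hxx, hyy, bl_neg_one]
  · have hvv' : (v * v).1 = bl (x * y) 0 0 (y * x) := by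
      rw [g4_mul_val, hvf, bl_mul]
      simp
    rw [hvv', bl_mul] at h44
    simp only [Matrix.mul_zero, Matrix.zero_mul, add_zero, zero_add] at h44
    obtain ⟨hx4, hy4⟩ := diag_eq_one h44
    have hdx : (x * y).det = 1 := by rw [Matrix.det_mul, inQ_det hab hx, inQ_det hab hy, mul_one]
    exfalso
    rcases sq_eq_one h2 _ hdx hx4 with hxy | hxy
    · have hyx : y * x = 1 := mul_eq_one_comm.1 hxy
      apply hne1
      rw [hvv', hxy, hyx, bl_one]
    · have h1 : x * (-y) = 1 := by rw [Matrix.mul_neg, hxy, neg_neg]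
      have h3 : (-y) * x = 1 := mul_eq_one_comm.1 h1
      have hyx : y * x = -1 := by
        rw [Matrix.neg_mul] at h3
        exact neg_eq_iff_eq_neg.1 h3
      apply hne2
      rw [hvv', hxy, hyx, bl_neg_one]

theorem norm_form {a b : F} (hab : a * a + b * b = -1) (h2 : (2 : F) ≠ 0) (g : G4 F)
    (hg : ∀ u ∈ UU F a b hab, g * u * g⁻¹ ∈ UU F a b hab) :
    (∃ A D, A.det = 1 ∧ D.det = 1 ∧ g.1 = bl A 0 0 D) ∨
      (∃ B C, B.det = 1 ∧ C.det = 1 ∧ g.1 = bl 0 B C 0) := by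
  rcases norm_z1 hab h2 g hg with h | h
  · exact Or.inl (form_diag h2 g h)
  · exact Or.inr (form_anti h2 g h)

theorem sw_mem {a b : F} (hab : a * a + b * b = -1) : swE F ∈ UU F a b hab :=
  ⟨1, 1, inQ_one a b, inQ_one a b, Or.inr rfl⟩

theorem dg_mem {a b : F} (hab : a * a + b * b = -1) {x y : Matrix (Fin 2) (Fin 2) F}
    (hx : InQ a b x) (hy : InQ a b y) :
    dgE x y (inQ_det hab hx) (inQ_det hab hy) ∈ UU F a b hab :=
  ⟨x, y, hx, hy, Or.inl rfl⟩

theorem norm_diag {a b : F} (hab : a * a + b * b = -1) (h2 : (2 : F) ≠ 0) (g : G4 F)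
    (hg : ∀ u ∈ UU F a b hab, g * u * g⁻¹ ∈ UU F a b hab)
    {A D : Matrix (Fin 2) (Fin 2) F} (hA : A.det = 1) (hD : D.det = 1)
    (hgf : g.1 = bl A 0 0 D) :
    NQ a b A ∧ NQ a b D ∧ ∃ q, InQ a b q ∧ A = q * D := by
  have hA0 := ne_zero_of_det hA
  have hD0 := ne_zero_of_det hD
  refine ⟨⟨hA, fun x hx => ?_⟩, ⟨hD, fun x hx => ?_⟩, ?_⟩
  · have hv := hg _ (dg_mem hab hx (inQ_one a b))
    have hc := conj_val g (dgE x 1 (inQ_det hab hx) (inQ_det hab (inQ_one a b)))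
    obtain ⟨x', y', hx', hy', hvf | hvf⟩ := hv
    · rw [hvf, hgf] at hc
      have hc' : bl x' 0 0 y' * bl A 0 0 D = bl A 0 0 D * bl x 0 0 1 := hc
      rw [bl_mul, bl_mul] at hc'
      simp only [Matrix.mul_zero, Matrix.zero_mul, add_zero, zero_add, Matrix.mul_one] at hc'
      exact ⟨x', hx', (bl_inj hc').1.symm⟩
    · rw [hvf, hgf] at hc
      have hc' : bl 0 x' y' 0 * bl A 0 0 D = bl A 0 0 D * bl x 0 0 1 := hc
      rw [bl_mul, bl_mul] at hc'
      simp only [Matrix.mul_zero, Matrix.zero_mul, add_zero, zero_add, Matrix.mul_one] at hc'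
      exact absurd (bl_inj hc').2.2.2.symm hD0
  · have hv := hg _ (dg_mem hab (inQ_one a b) hx)
    have hc := conj_val g (dgE 1 x (inQ_det hab (inQ_one a b)) (inQ_det hab hx))
    obtain ⟨x', y', hx', hy', hvf | hvf⟩ := hv
    · rw [hvf, hgf] at hc
      have hc' : bl x' 0 0 y' * bl A 0 0 D = bl A 0 0 D * bl 1 0 0 x := hc
      rw [bl_mul, bl_mul] at hc'
      simp only [Matrix.mul_zero, Matrix.zero_mul, add_zero, zero_add, Matrix.mul_one] at hc'
      exact ⟨y', hy', (bl_inj hc').2.2.2.symm⟩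
    · rw [hvf, hgf] at hc
      have hc' : bl 0 x' y' 0 * bl A 0 0 D = bl A 0 0 D * bl 1 0 0 x := hc
      rw [bl_mul, bl_mul] at hc'
      simp only [Matrix.mul_zero, Matrix.zero_mul, add_zero, zero_add, Matrix.mul_one] at hc'
      exact absurd (bl_inj hc').1.symm hA0
  · have hv := hg _ (sw_mem hab)
    have hc := conj_val g (swE F)
    obtain ⟨x', y', hx', hy', hvf | hvf⟩ := hv
    · rw [hvf, hgf] at hc
      have hc' : bl x' 0 0 y' * bl A 0 0 D = bl A 0 0 D * bl 0 1 1 0 := hc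
      rw [bl_mul, bl_mul] at hc'
      simp only [Matrix.mul_zero, Matrix.zero_mul, add_zero, zero_add, Matrix.mul_one] at hc'
      exact absurd (bl_inj hc').2.1.symm hA0
    · rw [hvf, hgf] at hc
      have hc' : bl 0 x' y' 0 * bl A 0 0 D = bl A 0 0 D * bl 0 1 1 0 := hc
      rw [bl_mul, bl_mul] at hc'
      simp only [Matrix.mul_zero, Matrix.zero_mul, add_zero, zero_add, Matrix.mul_one] at hc'
      exact ⟨x', hx', (bl_inj hc').2.1.symm⟩

theorem pelts_diag {a b : F} (hab : a * a + b * b = -1) (h2 : (2 : F) ≠ 0) (g : G4 F)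
    (hg : ∀ u ∈ UU F a b hab, g * u * g⁻¹ ∈ UU F a b hab)
    {A D : Matrix (Fin 2) (Fin 2) F} (hA : A.det = 1) (hD : D.det = 1)
    (hgf : g.1 = bl A 0 0 D) (k : ℕ) (hk : g ^ (2 ^ k) = 1) : g ∈ UU F a b hab := by
  obtain ⟨hNA, hND, -⟩ := norm_diag hab h2 g hg hA hD hgf
  have h1 : (g ^ (2 ^ k)).1 = 1 := congrArg Subtype.val hk
  rw [g4_pow_val, hgf, bl_diag_pow] at h1
  obtain ⟨e1, e2⟩ := diag_eq_one h1
  exact ⟨A, D, pelts_Q hab h2 hNA ⟨k, e1⟩, pelts_Q hab h2 hND ⟨k, e2⟩, Or.inl hgf⟩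

theorem pelts_UU {a b : F} (hab : a * a + b * b = -1) (h2 : (2 : F) ≠ 0) (g : G4 F)
    (hg : g ∈ Subgroup.normalizer (UU F a b hab : Set (G4 F))) (k : ℕ)
    (hk : g ^ (2 ^ k) = 1) : g ∈ UU F a b hab := by
  have hg' : ∀ u ∈ UU F a b hab, g * u * g⁻¹ ∈ UU F a b hab :=
    fun u hu => (Subgroup.mem_normalizer_iff.1 hg u).1 hu
  rcases norm_form hab h2 g hg' with ⟨A, D, hA, hD, hgf⟩ | ⟨B, C, hB, hC, hgf⟩
  · exact pelts_diag hab h2 g hg' hA hD hgf k hk
  · have hsw := sw_mem (F := F) hab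
    have hgs : g * swE F ∈ Subgroup.normalizer (UU F a b hab : Set (G4 F)) :=
      Subgroup.mul_mem _ hg (Subgroup.le_normalizer hsw)
    have hgs' : ∀ u ∈ UU F a b hab, (g * swE F) * u * (g * swE F)⁻¹ ∈ UU F a b hab :=
      fun u hu => (Subgroup.mem_normalizer_iff.1 hgs u).1 hu
    obtain ⟨u', hu', e⟩ := pow_mul_normal (UU F a b hab) g (swE F) hg hsw (2 ^ k)
    rw [hk, one_mul] at e
    obtain ⟨m, hm⟩ := isPGroup_UU hab ⟨u', hu'⟩
    have hm' : u' ^ (2 ^ m) = 1 := congrArg Subtype.val hm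
    have hpow : (g * swE F) ^ (2 ^ (k + m)) = 1 := by rw [pow_add, pow_mul, e, hm']
    have hform : (g * swE F).1 = bl B 0 0 C := by
      rw [g4_mul_val, hgf]
      show bl 0 B C 0 * bl 0 1 1 0 = _
      rw [bl_mul]
      simp
    have := pelts_diag hab h2 (g * swE F) hgs' hB hC hform (k + m) hpow
    have h3 : g = (g * swE F) * (swE F)⁻¹ := by group
    rw [h3]
    exact Subgroup.mul_mem _ this (Subgroup.inv_mem _ hsw)

theorem exists_sylow_UU {a b : F} (hab : a * a + b * b = -1) (h2 : (2 : F) ≠ 0) :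
    ∃ S : Sylow 2 (G4 F), (S : Subgroup (G4 F)) = UU F a b hab := by
  haveI : Fact (Nat.Prime 2) := ⟨Nat.prime_two⟩
  apply Cfsg.Agent.Lib.helper25.SUni.sylow_of_pelts 2 (UU F a b hab) (isPGroup_UU hab)
  rintro x hx ⟨k, hk⟩
  exact pelts_UU hab h2 x hx k hk

end Cfsg.Agent.Lib.helper25.Sp4Odd
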