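import Mathlib
import Cfsg.Agent.Lib.helper25.Sp4Odd5

set_option autoImplicit false
set_option linter.unusedSectionVars false
set_option linter.unusedSimpArgs false
set_option linter.unusedVariables false
set_option linter.unreachableTactic false
set_option linter.unusedTactic false

/-!
# Strongly closed subgroups of the Sylow `2`-subgroup of `Sp_4(F)` containing the centre
-/

namespace Cfsg.Agent.Lib.helper25.Sp4Odd

open Matrix
open Cfsg.Agent.Lib.helper25.SL3Odd (Two two_mul two_of_sq)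

variable {F : Type*} [Field F]

/-- `-1`. -/
def zE (F : Type*) [Field F] : G4 F := dgE (-1) (-1) det_neg_one det_neg_one

/-- The involution `diag(-1, 1)`. -/
def z1E (F : Type*) [Field F] : G4 F := dgE (-1) 1 det_neg_one Matrix.det_one

theorem zE_val : (zE F).1 = -1 := bl_neg_one

theorem det_ibar : (cm (0 : F) (-1)).det = 1 := by
  rw [det_cm]
  ring

theorem i_mul_ibar : cm (0 : F) 1 * cm 0 (-1) = 1 := by
  rw [cm_mul, ← cm_one]
  congr 1 <;> ring

theorem ibar_sq : cm (0 : F) (-1) * cm 0 (-1) = -1 := by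
  rw [cm_mul, ← cm_neg_one]
  congr 1 <;> ring

theorem i_sq : cm (0 : F) 1 * cm 0 1 = -1 := by
  rw [cm_i_sq, cm_neg_one]

theorem inQ_ibar (a b : F) : InQ a b (cm 0 (-1)) :=
  ⟨0, -1, by ring, two_cm_bar two_i, Or.inl rfl⟩

theorem i_ne_one : cm (0 : F) 1 ≠ 1 := by
  intro h
  have := congrFun (congrFun h 1) 0
  rw [cm_10, one_10] at this
  exact one_ne_zero this

theorem i_ne_neg_one : cm (0 : F) 1 ≠ -1 := by
  intro h
  have := congrFun (congrFun h 1) 0
  rw [cm_10, Matrix.neg_apply, one_10, neg_zero] at this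
  exact one_ne_zero this

theorem cm_add (x y x' y' : F) : cm x y + cm x' y' = cm (x + x') (y + y') := by
  ext i j
  fin_cases i <;> fin_cases j <;> simp [cm] <;> ring

variable [Fintype F]

theorem zE_mem {a b : F} (hab : a * a + b * b = -1) : zE F ∈ UU F a b hab :=
  ⟨-1, -1, inQ_neg_one a b, inQ_neg_one a b, Or.inl rfl⟩

theorem z1_of_diag {a b : F} (hab : a * a + b * b = -1) (h2 : (2 : F) ≠ 0)
    (T : Subgroup (G4 F)) (hTU : T ≤ UU F a b hab)
    (hTc : ∀ t ∈ T, ∀ g : G4 F, g * t * g⁻¹ ∈ UU F a b hab → g * t * g⁻¹ ∈ T)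
    (t : G4 F) (ht : t ∈ T) {c y : Matrix (Fin 2) (Fin 2) F} (hc : InQ a b c) (hy : InQ a b y)
    (htf : t.1 = bl c 0 0 y) (hc1 : c ≠ 1) (hc2 : c ≠ -1) : z1E F ∈ T := by
  obtain ⟨d, hd, hcd⟩ : ∃ d, InQ a b d ∧ c * d ≠ d * c := by
    by_contra hcon
    push_neg at hcon
    rcases pm_one_of_comm_ij hab h2 c (inQ_det hab hc) (hcon _ (inQ_i a b))
      (hcon _ (inQ_j a b)) with h | h
    · exact hc1 h
    · exact hc2 h
  have hdU : dgE d 1 (inQ_det hab hd) Matrix.det_one ∈ UU F a b hab :=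
    ⟨d, 1, hd, inQ_one a b, Or.inl rfl⟩
  generalize hdE : dgE d 1 (inQ_det hab hd) Matrix.det_one = dE at hdU
  have hdEv : dE.1 = bl d 0 0 1 := by rw [← hdE]; rfl
  have ht' : dE * t * dE⁻¹ ∈ T := hTc t ht dE
    (Subgroup.mul_mem _ (Subgroup.mul_mem _ hdU (hTU ht)) (Subgroup.inv_mem _ hdU))
  have hu : dE * t * dE⁻¹ * t⁻¹ ∈ T := Subgroup.mul_mem _ ht' (Subgroup.inv_mem _ ht)
  generalize hu_def : dE * t * dE⁻¹ * t⁻¹ = u at hu
  have hrel : u * t * dE = dE * t := by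
    rw [← hu_def]
    group
  have hrel' : u.1 * (bl c 0 0 y * bl d 0 0 1) = bl d 0 0 1 * bl c 0 0 y := by
    have := congrArg Subtype.val hrel
    rw [g4_mul_val, g4_mul_val, g4_mul_val, htf, hdEv] at this
    rw [← Matrix.mul_assoc]
    exact this
  rw [bl_mul, bl_mul] at hrel'
  simp only [Matrix.mul_zero, Matrix.zero_mul, add_zero, zero_add, Matrix.mul_one,
    Matrix.one_mul] at hrel'
  have hy0 := ne_zero_of_det (inQ_det hab hy)
  obtain ⟨p, q, hp, hq, huf | huf⟩ := hTU hu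
  · rw [huf, bl_mul] at hrel'
    simp only [Matrix.mul_zero, Matrix.zero_mul, add_zero, zero_add, Matrix.mul_one,
      Matrix.one_mul] at hrel'
    obtain ⟨e1, -, -, e4⟩ := bl_inj hrel'
    have hq1 : q = 1 := by
      apply cancelR (M := y) (by rw [inQ_det hab hy]; exact one_ne_zero)
      rw [e4, Matrix.one_mul]
    have hp1 : p ≠ 1 := by
      rintro rfl
      rw [Matrix.one_mul] at e1
      exact hcd e1
    obtain ⟨m, hm⟩ := inQ_two hab hp
    obtain ⟨n, hn⟩ := exists_pow_neg_one h2 m p (inQ_det hab hp) hm hp1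
    have : z1E F = u ^ n := by
      apply Subtype.ext
      rw [g4_pow_val, huf, hq1, bl_diag_pow, hn, one_pow]
      rfl
    rw [this]
    exact Subgroup.pow_mem _ hu n
  · rw [huf, bl_mul] at hrel'
    simp only [Matrix.mul_zero, Matrix.zero_mul, add_zero, zero_add, Matrix.mul_one,
      Matrix.one_mul] at hrel'
    exact absurd (bl_inj hrel').2.2.2.symm hy0

theorem z1_mem_of {a b : F} (hab : a * a + b * b = -1) (h2 : (2 : F) ≠ 0)
    (T : Subgroup (G4 F)) (hTU : T ≤ UU F a b hab) (hz : zE F ∈ T)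
    (hTc : ∀ t ∈ T, ∀ g : G4 F, g * t * g⁻¹ ∈ UU F a b hab → g * t * g⁻¹ ∈ T)
    (t : G4 F) (ht : t ∈ T) (ht1 : t.1 ≠ 1) (ht2 : t.1 ≠ -1) : z1E F ∈ T := by
  have hsw := sw_mem (F := F) hab
  obtain ⟨x, y, hx, hy, htf | htf⟩ := hTU ht
  · by_cases hx' : x ≠ 1 ∧ x ≠ -1
    · exact z1_of_diag hab h2 T hTU hTc t ht hx hy htf hx'.1 hx'.2
    by_cases hy' : y ≠ 1 ∧ y ≠ -1
    · have ht' : swE F * t * (swE F)⁻¹ ∈ T := hTc t ht _
        (Subgroup.mul_mem _ (Subgroup.mul_mem _ hsw (hTU ht)) (Subgroup.inv_mem _ hsw))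
      have hc := conj_val (swE F) t
      rw [htf] at hc
      have hc' : (swE F * t * (swE F)⁻¹).1 * bl 0 1 1 0 = bl 0 1 1 0 * bl x 0 0 y := hc
      rw [bl_mul] at hc'
      simp only [Matrix.mul_zero, Matrix.zero_mul, add_zero, zero_add, Matrix.mul_one,
        Matrix.one_mul] at hc'
      obtain ⟨p, q, hp, hq, hf | hf⟩ := hTU ht'
      · rw [hf, bl_mul] at hc'
        simp only [Matrix.mul_zero, Matrix.zero_mul, add_zero, zero_add, Matrix.mul_one,
          Matrix.one_mul] at hc'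
        obtain ⟨-, e2, e3, -⟩ := bl_inj hc'
        subst e2 e3
        exact z1_of_diag hab h2 T hTU hTc _ ht' hp hq hf hy'.1 hy'.2
      · rw [hf, bl_mul] at hc'
        simp only [Matrix.mul_zero, Matrix.zero_mul, add_zero, zero_add, Matrix.mul_one,
          Matrix.one_mul] at hc'
        exact absurd (bl_inj hc').1 (ne_zero_of_det (inQ_det hab hp))
    · have hx'' : x = 1 ∨ x = -1 := by
        by_contra h
        push_neg at h
        exact hx' h
      have hy'' : y = 1 ∨ y = -1 := by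
        by_contra h
        push_neg at h
        exact hy' h
      rcases hx'' with rfl | rfl <;> rcases hy'' with rfl | rfl
      · exact absurd (htf.trans bl_one) ht1
      · have : z1E F = t * zE F := by
          apply Subtype.ext
          rw [g4_mul_val, htf]
          show bl (-1) 0 0 1 = bl 1 0 0 (-1) * bl (-1) 0 0 (-1)
          rw [bl_mul]
          simp
        rw [this]
        exact Subgroup.mul_mem _ ht hz
      · have : z1E F = t := Subtype.ext htf.symm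
        rw [this]
        exact ht
      · exact absurd (htf.trans bl_neg_one) ht2
  · have hdU : dgE (cm 0 1) 1 det_i Matrix.det_one ∈ UU F a b hab :=
      ⟨cm 0 1, 1, inQ_i a b, inQ_one a b, Or.inl rfl⟩
    generalize hdE : dgE (cm (0 : F) 1) 1 det_i Matrix.det_one = dE at hdU
    have hdEv : dE.1 = bl (cm 0 1) 0 0 1 := by rw [← hdE]; rfl
    have ht' : dE * t * dE⁻¹ ∈ T := hTc t ht dE
      (Subgroup.mul_mem _ (Subgroup.mul_mem _ hdU (hTU ht)) (Subgroup.inv_mem _ hdU))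
    have hu : dE * t * dE⁻¹ * t⁻¹ ∈ T := Subgroup.mul_mem _ ht' (Subgroup.inv_mem _ ht)
    generalize hu_def : dE * t * dE⁻¹ * t⁻¹ = u at hu
    have hrel : u * t * dE = dE * t := by
      rw [← hu_def]
      group
    have hrel' : u.1 * (bl 0 x y 0 * bl (cm 0 1) 0 0 1) = bl (cm 0 1) 0 0 1 * bl 0 x y 0 := by
      have := congrArg Subtype.val hrel
      rw [g4_mul_val, g4_mul_val, g4_mul_val, htf, hdEv] at this
      rw [← Matrix.mul_assoc]
      exact this
    rw [bl_mul, bl_mul] at hrel'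
    simp only [Matrix.mul_zero, Matrix.zero_mul, add_zero, zero_add, Matrix.mul_one,
      Matrix.one_mul] at hrel'
    obtain ⟨p, q, hp, hq, huf | huf⟩ := hTU hu
    · rw [huf, bl_mul] at hrel'
      simp only [Matrix.mul_zero, Matrix.zero_mul, add_zero, zero_add, Matrix.mul_one,
        Matrix.one_mul] at hrel'
      obtain ⟨-, e2, -, -⟩ := bl_inj hrel'
      have hpi : p = cm 0 1 :=
        cancelR (M := x) (by rw [inQ_det hab hx]; exact one_ne_zero) e2
      subst hpi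
      exact z1_of_diag hab h2 T hTU hTc u hu (inQ_i a b) hq huf i_ne_one i_ne_neg_one
    · rw [huf, bl_mul] at hrel'
      simp only [Matrix.mul_zero, Matrix.zero_mul, add_zero, zero_add, Matrix.mul_one,
        Matrix.one_mul] at hrel'
      obtain ⟨-, e2, -, -⟩ := bl_inj hrel'
      have : (cm (0 : F) 1 * x).det = 1 := by
        rw [Matrix.det_mul, det_i, inQ_det hab hx, one_mul]
      rw [← e2] at this
      simp at this

theorem sw_mem_of {a b : F} (hab : a * a + b * b = -1) (h2 : (2 : F) ≠ 0)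
    (T : Subgroup (G4 F)) (hTU : T ≤ UU F a b hab) (hz : zE F ∈ T)
    (hTc : ∀ t ∈ T, ∀ g : G4 F, g * t * g⁻¹ ∈ UU F a b hab → g * t * g⁻¹ ∈ T)
    (hz1 : z1E F ∈ T) : swE F ∈ T := by
  have hdA : (cm (1 / 2 : F) (1 / 2)).det = 1 / 2 := by
    rw [det_cm]
    field_simp
    norm_num
  have hhalf : cm (0 : F) (1 / 2) + cm 0 (1 / 2) = cm 0 1 := by
    rw [cm_add]
    congr 1
    · ring
    · field_simp
      norm_num
  have hmem : bl (cm (1 / 2 : F) (1 / 2)) (cm (1 / 2) (1 / 2)) (cm (1 / 2) (1 / 2))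
      (-cm (1 / 2) (1 / 2)) ∈ Matrix.symplecticGroup (Fin 2) F := by
    rw [bl_mem_iff]
    simp only [Matrix.transpose_neg, Matrix.mul_neg, Matrix.neg_mul, neg_neg, mul_j_transpose,
      hdA, add_neg_cancel, neg_add_cancel]
    exact ⟨hhalf, trivial, trivial, hhalf⟩
  set g0 : G4 F := ⟨_, hmem⟩ with hg0
  have hrel : g0.1 * (z1E F).1 = (zE F * swE F).1 * g0.1 := by
    show bl (cm (1 / 2 : F) (1 / 2)) (cm (1 / 2) (1 / 2)) (cm (1 / 2) (1 / 2))
      (-cm (1 / 2) (1 / 2)) * bl (-1) 0 0 1 = bl (-1) 0 0 (-1) * bl 0 1 1 0 *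
      bl (cm (1 / 2 : F) (1 / 2)) (cm (1 / 2) (1 / 2)) (cm (1 / 2) (1 / 2))
      (-cm (1 / 2) (1 / 2))
    rw [bl_mul, bl_mul, bl_mul]
    simp
  have hw : g0 * z1E F * g0⁻¹ = zE F * swE F := by
    have h1 := conj_val g0 (z1E F)
    rw [hrel] at h1
    have h3 : (g0 * z1E F * g0⁻¹) * g0 = (zE F * swE F) * g0 := Subtype.ext h1
    exact mul_right_cancel h3
  have h4 := hTc _ hz1 g0 (by
    rw [hw]
    exact Subgroup.mul_mem _ (zE_mem hab) (sw_mem hab))
  rw [hw] at h4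
  have h5 : swE F = (zE F)⁻¹ * (zE F * swE F) := by group
  rw [h5]
  exact Subgroup.mul_mem _ (Subgroup.inv_mem _ hz) h4

theorem dg_i_mem {a b : F} (hab : a * a + b * b = -1) (h2 : (2 : F) ≠ 0)
    (T : Subgroup (G4 F)) (hTU : T ≤ UU F a b hab)
    (hTc : ∀ t ∈ T, ∀ g : G4 F, g * t * g⁻¹ ∈ UU F a b hab → g * t * g⁻¹ ∈ T)
    (hsw : swE F ∈ T) : dgE (cm 0 1) (cm 0 (-1)) det_i det_ibar ∈ T := by
  have hdU : dgE (cm 0 1) 1 det_i Matrix.det_one ∈ UU F a b hab :=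
    ⟨cm 0 1, 1, inQ_i a b, inQ_one a b, Or.inl rfl⟩
  generalize hdE : dgE (cm (0 : F) 1) 1 det_i Matrix.det_one = dE at hdU
  have hdEv : dE.1 = bl (cm 0 1) 0 0 1 := by rw [← hdE]; rfl
  have ht' : dE * swE F * dE⁻¹ ∈ T := hTc _ hsw dE
    (Subgroup.mul_mem _ (Subgroup.mul_mem _ hdU (sw_mem hab)) (Subgroup.inv_mem _ hdU))
  have hu : dE * swE F * dE⁻¹ * (swE F)⁻¹ ∈ T := Subgroup.mul_mem _ ht' (Subgroup.inv_mem _ hsw)
  generalize hu_def : dE * swE F * dE⁻¹ * (swE F)⁻¹ = u at hu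
  have hrel : u * swE F * dE = dE * swE F := by
    rw [← hu_def]
    group
  have hrel' : u.1 * (bl 0 1 1 0 * bl (cm 0 1) 0 0 1) = bl (cm 0 1) 0 0 1 * bl 0 1 1 0 := by
    have := congrArg Subtype.val hrel
    rw [g4_mul_val, g4_mul_val, g4_mul_val, hdEv] at this
    rw [← Matrix.mul_assoc]
    exact this
  rw [bl_mul, bl_mul] at hrel'
  simp only [Matrix.mul_zero, Matrix.zero_mul, add_zero, zero_add, Matrix.mul_one,
    Matrix.one_mul] at hrel'
  obtain ⟨p, q, hp, hq, huf | huf⟩ := hTU hu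
  · rw [huf, bl_mul] at hrel'
    simp only [Matrix.mul_zero, Matrix.zero_mul, add_zero, zero_add, Matrix.mul_one,
      Matrix.one_mul] at hrel'
    obtain ⟨-, e2, e3, -⟩ := bl_inj hrel'
    have hq' : q = cm 0 (-1) := by
      calc q = q * (cm 0 1 * cm 0 (-1)) := by rw [i_mul_ibar, Matrix.mul_one]
        _ = cm 0 (-1) := by rw [← Matrix.mul_assoc, e3, Matrix.one_mul]
    have : dgE (cm 0 1) (cm 0 (-1)) det_i det_ibar = u := by
      apply Subtype.ext
      rw [huf, e2, hq']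
      rfl
    rw [this]
    exact hu
  · rw [huf, bl_mul] at hrel'
    simp only [Matrix.mul_zero, Matrix.zero_mul, add_zero, zero_add, Matrix.mul_one,
      Matrix.one_mul] at hrel'
    exact absurd (bl_inj hrel').2.1.symm (ne_zero_of_det det_i)

theorem dg_sq_mem {a b : F} (hab : a * a + b * b = -1) (h2 : (2 : F) ≠ 0)
    (hodd : Fintype.card F % 2 = 1)
    (T : Subgroup (G4 F)) (hTU : T ≤ UU F a b hab)
    (hTc : ∀ t ∈ T, ∀ g : G4 F, g * t * g⁻¹ ∈ UU F a b hab → g * t * g⁻¹ ∈ T)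
    (hv : dgE (cm 0 1) (cm 0 (-1)) det_i det_ibar ∈ T)
    {x y : Matrix (Fin 2) (Fin 2) F} (hx : InQ a b x) (hy : InQ a b y)
    (hxx : x * x = -1) (hyy : y * y = -1) :
    dgE x y (inQ_det hab hx) (inQ_det hab hy) ∈ T := by
  obtain ⟨h1, hd1, hc1⟩ := exists_conj hodd h2 (cm 0 1) x det_i i_sq (inQ_det hab hx) hxx
  obtain ⟨h2', hd2, hc2⟩ := exists_conj hodd h2 (cm 0 (-1)) y det_ibar ibar_sq
    (inQ_det hab hy) hyy
  have hrel : (dgE h1 h2' hd1 hd2).1 * (dgE (cm 0 1) (cm 0 (-1)) det_i det_ibar).1 =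
      (dgE x y (inQ_det hab hx) (inQ_det hab hy)).1 * (dgE h1 h2' hd1 hd2).1 := by
    show bl h1 0 0 h2' * bl (cm 0 1) 0 0 (cm 0 (-1)) = bl x 0 0 y * bl h1 0 0 h2'
    rw [bl_mul, bl_mul]
    simp only [Matrix.mul_zero, Matrix.zero_mul, add_zero, zero_add]
    rw [hc1, hc2]
  have hw : dgE h1 h2' hd1 hd2 * dgE (cm 0 1) (cm 0 (-1)) det_i det_ibar *
      (dgE h1 h2' hd1 hd2)⁻¹ = dgE x y (inQ_det hab hx) (inQ_det hab hy) := by
    have h3 := conj_val (dgE h1 h2' hd1 hd2) (dgE (cm 0 1) (cm 0 (-1)) det_i det_ibar)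
    rw [hrel] at h3
    exact mul_right_cancel (Subtype.ext h3 : _ * dgE h1 h2' hd1 hd2 = _ * dgE h1 h2' hd1 hd2)
  have h4 := hTc _ hv (dgE h1 h2' hd1 hd2) (by
    rw [hw]
    exact dg_mem hab hx hy)
  rw [hw] at h4
  exact h4

theorem dg_one_mem {a b : F} (hab : a * a + b * b = -1) (h2 : (2 : F) ≠ 0)
    (hodd : Fintype.card F % 2 = 1)
    (T : Subgroup (G4 F)) (hTU : T ≤ UU F a b hab)
    (hTc : ∀ t ∈ T, ∀ g : G4 F, g * t * g⁻¹ ∈ UU F a b hab → g * t * g⁻¹ ∈ T)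
    (hv : dgE (cm 0 1) (cm 0 (-1)) det_i det_ibar ∈ T)
    {q : Matrix (Fin 2) (Fin 2) F} (hq : InQ a b q) :
    dgE q 1 (inQ_det hab hq) Matrix.det_one ∈ T := by
  obtain ⟨x, y, hx, hy, hxx, hyy, rfl⟩ := inQ_prod_sq hab hq
  have h1 := dg_sq_mem hab h2 hodd T hTU hTc hv hx (inQ_i a b) hxx i_sq
  have h3 := dg_sq_mem hab h2 hodd T hTU hTc hv hy (inQ_ibar a b) hyy ibar_sq
  have : dgE (x * y) 1 (inQ_det hab hq) Matrix.det_one =
      dgE x (cm 0 1) (inQ_det hab hx) (inQ_det hab (inQ_i a b)) *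
      dgE y (cm 0 (-1)) (inQ_det hab hy) (inQ_det hab (inQ_ibar a b)) := by
    apply Subtype.ext
    show bl (x * y) 0 0 1 = bl x 0 0 (cm 0 1) * bl y 0 0 (cm 0 (-1))
    rw [bl_mul]
    simp [i_mul_ibar]
  rw [this]
  exact Subgroup.mul_mem _ h1 h3

/-- A strongly closed subgroup of `U` properly containing the centre is `U`. -/
theorem hsc_UU {a b : F} (hab : a * a + b * b = -1) (h2 : (2 : F) ≠ 0)
    (hodd : Fintype.card F % 2 = 1)
    (T : Subgroup (G4 F)) (hTU : T ≤ UU F a b hab) (hz : zE F ∈ T)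
    (hT : ∃ t ∈ T, t.1 ≠ 1 ∧ t.1 ≠ -1)
    (hTc : ∀ t ∈ T, ∀ g : G4 F, g * t * g⁻¹ ∈ UU F a b hab → g * t * g⁻¹ ∈ T) :
    UU F a b hab ≤ T := by
  obtain ⟨t, ht, ht1, ht2⟩ := hT
  have hz1 := z1_mem_of hab h2 T hTU hz hTc t ht ht1 ht2
  have hsw := sw_mem_of hab h2 T hTU hz hTc hz1
  have hv := dg_i_mem hab h2 T hTU hTc hsw
  have hall : ∀ q (hq : InQ a b q), dgE q 1 (inQ_det hab hq) Matrix.det_one ∈ T :=
    fun q hq => dg_one_mem hab h2 hodd T hTU hTc hv hq
  intro u hu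
  obtain ⟨x, y, hx, hy, huf | huf⟩ := hu
  · have : u = dgE x 1 (inQ_det hab hx) Matrix.det_one * swE F *
        dgE y 1 (inQ_det hab hy) Matrix.det_one * swE F := by
      apply Subtype.ext
      rw [huf]
      show bl x 0 0 y = bl x 0 0 1 * bl 0 1 1 0 * bl y 0 0 1 * bl 0 1 1 0
      rw [bl_mul, bl_mul, bl_mul]
      simp
    rw [this]
    exact T.mul_mem (T.mul_mem (T.mul_mem (hall x hx) hsw) (hall y hy)) hsw
  · have : u = dgE x 1 (inQ_det hab hx) Matrix.det_one * swE F *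
        dgE y 1 (inQ_det hab hy) Matrix.det_one := by
      apply Subtype.ext
      rw [huf]
      show bl 0 x y 0 = bl x 0 0 1 * bl 0 1 1 0 * bl y 0 0 1
      rw [bl_mul, bl_mul]
      simp
    rw [this]
    exact T.mul_mem (T.mul_mem (hall x hx) hsw) (hall y hy)

end Cfsg.Agent.Lib.helper25.Sp4Odd
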