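import Mathlib
import Cfsg.Agent.Lib.helper25.Sp4Odd6
import Cfsg.Agent.Lib.helper25.FusionSimple6
import Cfsg.Agent.Lib.helper4.SpCenter

set_option autoImplicit false
set_option linter.unusedSectionVars false
set_option linter.unusedSimpArgs false
set_option linter.unusedVariables false
set_option linter.unreachableTactic false
set_option linter.unusedTactic false

/-!
# Centric subgroups of the Sylow `2`-subgroup of `Sp_4(F)` modulo the centre
-/

namespace Cfsg.Agent.Lib.helper25.Sp4Odd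

open Matrix
open Cfsg.Agent.Lib.helper25.SL3Odd (Two two_mul two_of_sq)
open Cfsg.Agent.Lib.helper25.SLUni (ofMulClosed mem_ofMulClosed)

variable {F : Type*} [Field F]

theorem mem_center_iff' (g : G4 F) :
    g ∈ Subgroup.center (G4 F) ↔ (g.1 = 1 ∨ g.1 = -1) :=
  Cfsg.Agent.Lib.helper4.mem_center_sp_iff (by norm_num) g

theorem comm_sign_of_center (g r : G4 F) (h : g * r * g⁻¹ * r⁻¹ ∈ Subgroup.center (G4 F)) :
    g.1 * r.1 = r.1 * g.1 ∨ g.1 * r.1 = -(r.1 * g.1) := by
  rw [mem_center_iff'] at h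
  have hrel : g * r = (g * r * g⁻¹ * r⁻¹) * (r * g) := by group
  have hrel' : g.1 * r.1 = (g * r * g⁻¹ * r⁻¹).1 * (r.1 * g.1) := congrArg Subtype.val hrel
  rcases h with h | h
  · left
    rw [hrel', h, Matrix.one_mul]
  · right
    rw [hrel', h, neg_one_mul]

/-- Membership predicate of the subgroup `E = Q ∘ D_8`. -/
def InE (a b : F) (M : Matrix (Fin 2 ⊕ Fin 2) (Fin 2 ⊕ Fin 2) F) : Prop :=
  ∃ x y, InQ a b x ∧ (y = x ∨ y = -x) ∧ (M = bl x 0 0 y ∨ M = bl 0 x y 0)

theorem inE_one (a b : F) : InE a b 1 :=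
  ⟨1, 1, inQ_one a b, Or.inl rfl, Or.inl bl_one.symm⟩

theorem inQ_of_sign {a b : F} (hab : a * a + b * b = -1) {x y : Matrix (Fin 2) (Fin 2) F}
    (hx : InQ a b x) (hy : y = x ∨ y = -x) : InQ a b y := by
  rcases hy with rfl | rfl
  · exact hx
  · exact inQ_neg hab hx

theorem inE_mul {a b : F} (hab : a * a + b * b = -1)
    {M M' : Matrix (Fin 2 ⊕ Fin 2) (Fin 2 ⊕ Fin 2) F} (h : InE a b M) (h' : InE a b M') :
    InE a b (M * M') := by
  obtain ⟨x, y, hx, hy, hM⟩ := h
  obtain ⟨x', y', hx', hy', hM'⟩ := h'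
  have hyQ := inQ_of_sign hab hx hy
  have hy'Q := inQ_of_sign hab hx' hy'
  rcases hM with rfl | rfl <;> rcases hM' with rfl | rfl
  · refine ⟨x * x', y * y', inQ_mul hab hx hx', ?_, Or.inl (by rw [bl_mul]; simp)⟩
    rcases hy with rfl | rfl <;> rcases hy' with rfl | rfl <;> simp
  · refine ⟨x * x', y * y', inQ_mul hab hx hx', ?_, Or.inr (by rw [bl_mul]; simp)⟩
    rcases hy with rfl | rfl <;> rcases hy' with rfl | rfl <;> simp
  · refine ⟨x * y', y * x', inQ_mul hab hx hy'Q, ?_, Or.inr (by rw [bl_mul]; simp)⟩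
    rcases hy with rfl | rfl <;> rcases hy' with rfl | rfl <;> simp
  · refine ⟨x * y', y * x', inQ_mul hab hx hy'Q, ?_, Or.inl (by rw [bl_mul]; simp)⟩
    rcases hy with rfl | rfl <;> rcases hy' with rfl | rfl <;> simp

theorem inE_inU {a b : F} (hab : a * a + b * b = -1)
    {M : Matrix (Fin 2 ⊕ Fin 2) (Fin 2 ⊕ Fin 2) F} (h : InE a b M) : InU a b M := by
  obtain ⟨x, y, hx, hy, hM⟩ := h
  exact ⟨x, y, hx, inQ_of_sign hab hx hy, hM⟩

variable [Fintype F]

theorem center_le_UU {a b : F} (hab : a * a + b * b = -1) :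
    Subgroup.center (G4 F) ≤ UU F a b hab := by
  intro g hg
  rw [mem_center_iff'] at hg
  rcases hg with h | h
  · exact ⟨1, 1, inQ_one a b, inQ_one a b, Or.inl (h.trans bl_one.symm)⟩
  · exact ⟨-1, -1, inQ_neg_one a b, inQ_neg_one a b, Or.inl (h.trans bl_neg_one.symm)⟩

theorem z1E_mem {a b : F} (hab : a * a + b * b = -1) : z1E F ∈ UU F a b hab :=
  ⟨-1, 1, inQ_neg_one a b, inQ_one a b, Or.inl rfl⟩

theorem anti_of_neg (g : G4 F) (h : g.1 * (z1E F).1 = -((z1E F).1 * g.1)) :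
    g.1 * bl (-1) 0 0 1 = bl 1 0 0 (-1) * g.1 := by
  have h' : g.1 * bl (-1) 0 0 1 = -(bl (-1) 0 0 1 * g.1) := h
  rw [h', ← Matrix.neg_mul, bl_neg]
  simp

/-- `U` is centric modulo the centre. -/
theorem ccond_UU {a b : F} (hab : a * a + b * b = -1) (h2 : (2 : F) ≠ 0) (g : G4 F)
    (hg : ∀ r ∈ UU F a b hab, g * r * g⁻¹ * r⁻¹ ∈ Subgroup.center (G4 F)) :
    g ∈ UU F a b hab := by
  have hc := fun r hr => comm_sign_of_center g r (hg r hr)
  rcases hc _ (z1E_mem hab) with h | h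
  · obtain ⟨A, D, hA, hD, hgf⟩ := form_diag h2 g h
    have hAx : ∀ x, InQ a b x → A * x = x * A := by
      intro x hx
      have h3 := hc _ (dg_mem hab hx (inQ_one a b))
      rw [hgf] at h3
      have h3' : bl A 0 0 D * bl x 0 0 1 = bl x 0 0 1 * bl A 0 0 D ∨
          bl A 0 0 D * bl x 0 0 1 = -(bl x 0 0 1 * bl A 0 0 D) := h3
      rw [bl_mul, bl_mul, bl_neg] at h3'
      simp only [Matrix.mul_zero, Matrix.zero_mul, add_zero, zero_add, Matrix.mul_one,
        Matrix.one_mul, neg_zero] at h3'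
      rcases h3' with h4 | h4
      · exact (bl_inj h4).1
      · exact absurd (eq_zero_of_eq_neg h2 D (bl_inj h4).2.2.2) (ne_zero_of_det hD)
    have hDx : ∀ x, InQ a b x → D * x = x * D := by
      intro x hx
      have h3 := hc _ (dg_mem hab (inQ_one a b) hx)
      rw [hgf] at h3
      have h3' : bl A 0 0 D * bl 1 0 0 x = bl 1 0 0 x * bl A 0 0 D ∨
          bl A 0 0 D * bl 1 0 0 x = -(bl 1 0 0 x * bl A 0 0 D) := h3
      rw [bl_mul, bl_mul, bl_neg] at h3'
      simp only [Matrix.mul_zero, Matrix.zero_mul, add_zero, zero_add, Matrix.mul_one,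
        Matrix.one_mul, neg_zero] at h3'
      rcases h3' with h4 | h4
      · exact (bl_inj h4).2.2.2
      · exact absurd (eq_zero_of_eq_neg h2 A (bl_inj h4).1) (ne_zero_of_det hA)
    have hAQ : InQ a b A := by
      rcases pm_one_of_comm_ij hab h2 A hA (hAx _ (inQ_i a b)) (hAx _ (inQ_j a b)) with h | h
      · rw [h]
        exact inQ_one a b
      · rw [h]
        exact inQ_neg_one a b
    have hDQ : InQ a b D := by
      rcases pm_one_of_comm_ij hab h2 D hD (hDx _ (inQ_i a b)) (hDx _ (inQ_j a b)) with h | h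
      · rw [h]
        exact inQ_one a b
      · rw [h]
        exact inQ_neg_one a b
    exact ⟨A, D, hAQ, hDQ, Or.inl hgf⟩
  · obtain ⟨B, C, hB, hC, hgf⟩ := form_anti h2 g (anti_of_neg g h)
    have h3 := hc _ (dg_mem hab (inQ_i a b) (inQ_one a b))
    rw [hgf] at h3
    have h3' : bl 0 B C 0 * bl (cm 0 1) 0 0 1 = bl (cm 0 1) 0 0 1 * bl 0 B C 0 ∨
        bl 0 B C 0 * bl (cm 0 1) 0 0 1 = -(bl (cm 0 1) 0 0 1 * bl 0 B C 0) := h3
    rw [bl_mul, bl_mul, bl_neg] at h3'
    simp only [Matrix.mul_zero, Matrix.zero_mul, add_zero, zero_add, Matrix.mul_one,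
      Matrix.one_mul, neg_zero] at h3'
    exfalso
    apply ne_zero_of_det hB
    apply eq_zero_of_eq_neg h2
    rcases h3' with h4 | h4
    · have e : B = cm 0 1 * B := (bl_inj h4).2.1
      have e2 : cm 0 1 * B = cm 0 1 * (cm 0 1 * B) := congrArg (fun M => cm 0 1 * M) e
      rw [← Matrix.mul_assoc, i_sq, neg_one_mul] at e2
      rw [← e] at e2
      exact e2
    · have e : B = -(cm 0 1 * B) := (bl_inj h4).2.1
      have e2 : cm 0 1 * B = cm 0 1 * (-(cm 0 1 * B)) := congrArg (fun M => cm 0 1 * M) e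
      rw [Matrix.mul_neg, ← Matrix.mul_assoc, i_sq, neg_one_mul, neg_neg] at e2
      rw [e2] at e
      exact e

/-- If every element of `N(Q)` lies in `Q`, then `U` is self-normalizing. -/
theorem normalizer_le_of_nq {a b : F} (hab : a * a + b * b = -1) (h2 : (2 : F) ≠ 0)
    (hall : ∀ A, NQ a b A → InQ a b A) :
    Subgroup.normalizer (UU F a b hab : Set (G4 F)) ≤ UU F a b hab := by
  intro g hg
  have hg' : ∀ u ∈ UU F a b hab, g * u * g⁻¹ ∈ UU F a b hab :=
    fun u hu => (Subgroup.mem_normalizer_iff.1 hg u).1 hu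
  rcases norm_form hab h2 g hg' with ⟨A, D, hA, hD, hgf⟩ | ⟨B, C, hB, hC, hgf⟩
  · obtain ⟨hNA, hND, -⟩ := norm_diag hab h2 g hg' hA hD hgf
    exact ⟨A, D, hall A hNA, hall D hND, Or.inl hgf⟩
  · have hsw := sw_mem (F := F) hab
    have hgs : g * swE F ∈ Subgroup.normalizer (UU F a b hab : Set (G4 F)) :=
      Subgroup.mul_mem _ hg (Subgroup.le_normalizer hsw)
    have hgs' : ∀ u ∈ UU F a b hab, (g * swE F) * u * (g * swE F)⁻¹ ∈ UU F a b hab :=
      fun u hu => (Subgroup.mem_normalizer_iff.1 hgs u).1 hu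
    have hform : (g * swE F).1 = bl B 0 0 C := by
      rw [g4_mul_val, hgf]
      show bl 0 B C 0 * bl 0 1 1 0 = _
      rw [bl_mul]
      simp
    obtain ⟨hNB, hNC, -⟩ := norm_diag hab h2 (g * swE F) hgs' hB hC hform
    exact ⟨B, C, hall B hNB, hall C hNC, Or.inr hgf⟩

/-- The subgroup `E = Q ∘ D_8`. -/
noncomputable def EE (F : Type*) [Field F] [Fintype F] (a b : F) (hab : a * a + b * b = -1) :
    Subgroup (G4 F) :=
  ofMulClosed {g | InE a b g.1} (inE_one a b) (fun _ _ h h' => inE_mul hab h h')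

theorem EE_le_UU {a b : F} (hab : a * a + b * b = -1) : EE F a b hab ≤ UU F a b hab :=
  fun g hg => inE_inU hab hg

theorem center_le_EE {a b : F} (hab : a * a + b * b = -1) :
    Subgroup.center (G4 F) ≤ EE F a b hab := by
  intro g hg
  rw [mem_center_iff'] at hg
  rcases hg with h | h
  · exact ⟨1, 1, inQ_one a b, Or.inl rfl, Or.inl (h.trans bl_one.symm)⟩
  · exact ⟨-1, -1, inQ_neg_one a b, Or.inl rfl, Or.inl (h.trans bl_neg_one.symm)⟩

theorem sw_mem_EE {a b : F} (hab : a * a + b * b = -1) : swE F ∈ EE F a b hab :=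
  ⟨1, 1, inQ_one a b, Or.inl rfl, Or.inr rfl⟩

theorem dg_norm_EE {a b : F} (hab : a * a + b * b = -1) (h2 : (2 : F) ≠ 0)
    (hns : ∀ s : F, s * s ≠ 2) {p : Matrix (Fin 2) (Fin 2) F} (hp : InQ a b p) :
    dgE p 1 (inQ_det hab hp) Matrix.det_one ∈
      Subgroup.normalizer (EE F a b hab : Set (G4 F)) := by
  rw [Subgroup.mem_normalizer_iff]
  intro e0
  apply Cfsg.Agent.Lib.helper25.conj_mem_iff_of_forall_conj_mem
  intro e he
  have hdU := dg_mem hab hp (inQ_one a b)
  have heU : e ∈ UU F a b hab := inE_inU hab he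
  have hwU : dgE p 1 (inQ_det hab hp) Matrix.det_one * e *
      (dgE p 1 (inQ_det hab hp) Matrix.det_one)⁻¹ ∈ UU F a b hab :=
    Subgroup.mul_mem _ (Subgroup.mul_mem _ hdU heU) (Subgroup.inv_mem _ hdU)
  have hc := conj_val (dgE p 1 (inQ_det hab hp) Matrix.det_one) e
  have hdp : p.det ≠ 0 := by
    rw [inQ_det hab hp]
    exact one_ne_zero
  obtain ⟨x, y, hx, hy, hef | hef⟩ := he
  · rw [hef] at hc
    have hc' : (dgE p 1 (inQ_det hab hp) Matrix.det_one * e *
        (dgE p 1 (inQ_det hab hp) Matrix.det_one)⁻¹).1 * bl p 0 0 1 =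
        bl p 0 0 1 * bl x 0 0 y := hc
    rw [bl_mul] at hc'
    simp only [Matrix.mul_zero, Matrix.zero_mul, add_zero, zero_add, Matrix.mul_one,
      Matrix.one_mul] at hc'
    obtain ⟨x', y', hx', hy', hwf | hwf⟩ := hwU
    · rw [hwf, bl_mul] at hc'
      simp only [Matrix.mul_zero, Matrix.zero_mul, add_zero, zero_add, Matrix.mul_one,
        Matrix.one_mul] at hc'
      obtain ⟨e1, -, -, e4⟩ := bl_inj hc'
      refine ⟨x', y', hx', ?_, Or.inl hwf⟩
      rcases inQ_comm_sign hab h2 hns hp hx with hs | hs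
      · have : x' = x := cancelR hdp (by rw [e1, hs])
        rw [e4, this]
        exact hy
      · have : x' = -x := cancelR hdp (by rw [e1, hs, Matrix.neg_mul])
        rw [e4, this]
        rcases hy with hy | hy
        · right
          rw [hy, neg_neg]
        · left
          exact hy
    · rw [hwf, bl_mul] at hc'
      simp only [Matrix.mul_zero, Matrix.zero_mul, add_zero, zero_add, Matrix.mul_one,
        Matrix.one_mul] at hc'
      exact absurd (bl_inj hc').2.2.2.symm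
        (ne_zero_of_det (inQ_det hab (inQ_of_sign hab hx hy)))
  · rw [hef] at hc
    have hc' : (dgE p 1 (inQ_det hab hp) Matrix.det_one * e *
        (dgE p 1 (inQ_det hab hp) Matrix.det_one)⁻¹).1 * bl p 0 0 1 =
        bl p 0 0 1 * bl 0 x y 0 := hc
    rw [bl_mul] at hc'
    simp only [Matrix.mul_zero, Matrix.zero_mul, add_zero, zero_add, Matrix.mul_one,
      Matrix.one_mul] at hc'
    obtain ⟨x', y', hx', hy', hwf | hwf⟩ := hwU
    · rw [hwf, bl_mul] at hc'
      simp only [Matrix.mul_zero, Matrix.zero_mul, add_zero, zero_add, Matrix.mul_one,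
        Matrix.one_mul] at hc'
      exfalso
      have : (p * x).det = 1 := by
        rw [Matrix.det_mul, inQ_det hab hp, inQ_det hab hx, one_mul]
      rw [← (bl_inj hc').2.1] at this
      simp at this
    · rw [hwf, bl_mul] at hc'
      simp only [Matrix.mul_zero, Matrix.zero_mul, add_zero, zero_add, Matrix.mul_one,
        Matrix.one_mul] at hc'
      obtain ⟨-, e2, e3, -⟩ := bl_inj hc'
      refine ⟨x', y', hx', ?_, Or.inr hwf⟩
      have hkey : x' * p = x ∨ x' * p = -x := by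
        rw [e2]
        rcases inQ_comm_sign hab h2 hns hp hx with hs | hs <;>
          rcases inQ_sq_cases hab h2 hns hp with hpp | hpp
        · left
          rw [hs, Matrix.mul_assoc, hpp, Matrix.mul_one]
        · right
          rw [hs, Matrix.mul_assoc, hpp, Matrix.mul_neg, Matrix.mul_one]
        · right
          rw [hs, Matrix.neg_mul, Matrix.mul_assoc, hpp, Matrix.mul_one]
        · left
          rw [hs, Matrix.neg_mul, Matrix.mul_assoc, hpp, Matrix.mul_neg, Matrix.mul_one, neg_neg]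
      rcases hkey with hk | hk <;> rcases hy with hy | hy
      · left
        apply cancelR hdp
        rw [e3, hk, hy]
      · right
        apply cancelR hdp
        rw [e3, Matrix.neg_mul, hk, hy]
      · right
        apply cancelR hdp
        rw [e3, Matrix.neg_mul, hk, hy, neg_neg]
      · left
        apply cancelR hdp
        rw [e3, hk, hy]

theorem UU_le_normalizer_EE {a b : F} (hab : a * a + b * b = -1) (h2 : (2 : F) ≠ 0)
    (hns : ∀ s : F, s * s ≠ 2) :
    UU F a b hab ≤ Subgroup.normalizer (EE F a b hab : Set (G4 F)) := by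
  intro u hu
  have hsw : swE F ∈ Subgroup.normalizer (EE F a b hab : Set (G4 F)) :=
    Subgroup.le_normalizer (sw_mem_EE hab)
  obtain ⟨x, y, hx, hy, huf | huf⟩ := hu
  · have : u = dgE x 1 (inQ_det hab hx) Matrix.det_one * swE F *
        dgE y 1 (inQ_det hab hy) Matrix.det_one * swE F := by
      apply Subtype.ext
      rw [huf]
      show bl x 0 0 y = bl x 0 0 1 * bl 0 1 1 0 * bl y 0 0 1 * bl 0 1 1 0
      rw [bl_mul, bl_mul, bl_mul]
      simp
    rw [this]
    exact Subgroup.mul_mem _ (Subgroup.mul_mem _ (Subgroup.mul_mem _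
      (dg_norm_EE hab h2 hns hx) hsw) (dg_norm_EE hab h2 hns hy)) hsw
  · have : u = dgE x 1 (inQ_det hab hx) Matrix.det_one * swE F *
        dgE y 1 (inQ_det hab hy) Matrix.det_one := by
      apply Subtype.ext
      rw [huf]
      show bl 0 x y 0 = bl x 0 0 1 * bl 0 1 1 0 * bl y 0 0 1
      rw [bl_mul, bl_mul]
      simp
    rw [this]
    exact Subgroup.mul_mem _ (Subgroup.mul_mem _ (dg_norm_EE hab h2 hns hx) hsw)
      (dg_norm_EE hab h2 hns hy)

/-- `E` is centric modulo the centre. -/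
theorem ccond_EE {a b : F} (hab : a * a + b * b = -1) (h2 : (2 : F) ≠ 0) (g : G4 F)
    (hg : ∀ r ∈ EE F a b hab, g * r * g⁻¹ * r⁻¹ ∈ Subgroup.center (G4 F)) :
    g ∈ EE F a b hab := by
  have hc := fun r hr => comm_sign_of_center g r (hg r hr)
  have hz1 : z1E F ∈ EE F a b hab := ⟨-1, 1, inQ_neg_one a b, Or.inr (neg_neg 1).symm, Or.inl rfl⟩
  have hii : dgE (cm 0 1) (cm 0 1) det_i det_i ∈ EE F a b hab :=
    ⟨cm 0 1, cm 0 1, inQ_i a b, Or.inl rfl, Or.inl rfl⟩
  have hjj : dgE (jm a b) (jm a b) (inQ_det hab (inQ_j a b)) (inQ_det hab (inQ_j a b)) ∈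
      EE F a b hab := ⟨jm a b, jm a b, inQ_j a b, Or.inl rfl, Or.inl rfl⟩
  have hcs := hc _ (sw_mem_EE hab)
  have hci := hc _ hii
  have hcj := hc _ hjj
  rcases hc _ hz1 with h | h
  · obtain ⟨A, D, hA, hD, hgf⟩ := form_diag h2 g h
    rw [hgf] at hcs hci hcj
    have hcs' : bl A 0 0 D * bl 0 1 1 0 = bl 0 1 1 0 * bl A 0 0 D ∨
        bl A 0 0 D * bl 0 1 1 0 = -(bl 0 1 1 0 * bl A 0 0 D) := hcs
    have hci' : bl A 0 0 D * bl (cm 0 1) 0 0 (cm 0 1) = bl (cm 0 1) 0 0 (cm 0 1) * bl A 0 0 D ∨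
        bl A 0 0 D * bl (cm 0 1) 0 0 (cm 0 1) = -(bl (cm 0 1) 0 0 (cm 0 1) * bl A 0 0 D) := hci
    have hcj' : bl A 0 0 D * bl (jm a b) 0 0 (jm a b) = bl (jm a b) 0 0 (jm a b) * bl A 0 0 D ∨
        bl A 0 0 D * bl (jm a b) 0 0 (jm a b) = -(bl (jm a b) 0 0 (jm a b) * bl A 0 0 D) := hcj
    rw [bl_mul, bl_mul, bl_neg] at hcs' hci' hcj'
    simp only [Matrix.mul_zero, Matrix.zero_mul, add_zero, zero_add, Matrix.mul_one,
      Matrix.one_mul, neg_zero] at hcs' hci' hcj'
    have hAi : A * cm 0 1 = cm 0 1 * A ∨ A * cm 0 1 = -(cm 0 1 * A) := by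
      rcases hci' with h4 | h4
      · exact Or.inl (bl_inj h4).1
      · exact Or.inr (bl_inj h4).1
    have hAj : A * jm a b = jm a b * A ∨ A * jm a b = -(jm a b * A) := by
      rcases hcj' with h4 | h4
      · exact Or.inl (bl_inj h4).1
      · exact Or.inr (bl_inj h4).1
    have hAQ := inQ_of_comm_signs hab h2 A hA hAi hAj
    refine ⟨A, D, hAQ, ?_, Or.inl hgf⟩
    rcases hcs' with h4 | h4
    · exact Or.inl (bl_inj h4).2.2.1
    · exact Or.inr (bl_inj h4).2.2.1
  · obtain ⟨B, C, hB, hC, hgf⟩ := form_anti h2 g (anti_of_neg g h)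
    rw [hgf] at hcs hci hcj
    have hcs' : bl 0 B C 0 * bl 0 1 1 0 = bl 0 1 1 0 * bl 0 B C 0 ∨
        bl 0 B C 0 * bl 0 1 1 0 = -(bl 0 1 1 0 * bl 0 B C 0) := hcs
    have hci' : bl 0 B C 0 * bl (cm 0 1) 0 0 (cm 0 1) = bl (cm 0 1) 0 0 (cm 0 1) * bl 0 B C 0 ∨
        bl 0 B C 0 * bl (cm 0 1) 0 0 (cm 0 1) = -(bl (cm 0 1) 0 0 (cm 0 1) * bl 0 B C 0) := hci
    have hcj' : bl 0 B C 0 * bl (jm a b) 0 0 (jm a b) = bl (jm a b) 0 0 (jm a b) * bl 0 B C 0 ∨
        bl 0 B C 0 * bl (jm a b) 0 0 (jm a b) = -(bl (jm a b) 0 0 (jm a b) * bl 0 B C 0) := hcj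
    rw [bl_mul, bl_mul, bl_neg] at hcs' hci' hcj'
    simp only [Matrix.mul_zero, Matrix.zero_mul, add_zero, zero_add, Matrix.mul_one,
      Matrix.one_mul, neg_zero] at hcs' hci' hcj'
    have hBi : B * cm 0 1 = cm 0 1 * B ∨ B * cm 0 1 = -(cm 0 1 * B) := by
      rcases hci' with h4 | h4
      · exact Or.inl (bl_inj h4).2.1
      · exact Or.inr (bl_inj h4).2.1
    have hBj : B * jm a b = jm a b * B ∨ B * jm a b = -(jm a b * B) := by
      rcases hcj' with h4 | h4
      · exact Or.inl (bl_inj h4).2.1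
      · exact Or.inr (bl_inj h4).2.1
    have hBQ := inQ_of_comm_signs hab h2 B hB hBi hBj
    refine ⟨B, C, hBQ, ?_, Or.inr hgf⟩
    rcases hcs' with h4 | h4
    · exact Or.inl (bl_inj h4).2.2.2
    · exact Or.inr (bl_inj h4).2.2.2

end Cfsg.Agent.Lib.helper25.Sp4Odd
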