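import Mathlib
import Cfsg.Agent.Lib.helper25.Sp4Odd7

set_option autoImplicit false
set_option linter.unusedSectionVars false
set_option linter.unusedSimpArgs false
set_option linter.unusedVariables false
set_option linter.unreachableTactic false
set_option linter.unusedTactic false

/-!
# Generation of the normalizer of the Sylow `2`-subgroup of `Sp_4(F)` and the simplicity of the
`2`-fusion system of `PSp_4(F)`, `F` of odd order
-/

namespace Cfsg.Agent.Lib.helper25.Sp4Odd

open Matrix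
open Cfsg.Agent.Lib.helper25.SL3Odd (Two two_mul two_of_sq)

variable {F : Type*} [Field F]

theorem val_cancel (g : G4 F) {M N : Matrix (Fin 2 ⊕ Fin 2) (Fin 2 ⊕ Fin 2) F}
    (h : M * g.1 = N * g.1) : M = N := by
  have h1 : g.1 * (g⁻¹).1 = 1 := congrArg Subtype.val (mul_inv_cancel g)
  calc M = M * (g.1 * (g⁻¹).1) := by rw [h1, Matrix.mul_one]
    _ = N * g.1 * (g⁻¹).1 := by rw [← Matrix.mul_assoc, h]
    _ = N := by rw [Matrix.mul_assoc, h1, Matrix.mul_one]

theorem tw_mem {Y : Matrix (Fin 2) (Fin 2) F} (hY : Y.det + Y.det = 1) :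
    bl Y (-Y) Y Y ∈ Matrix.symplecticGroup (Fin 2) F := by
  have hh : cm (0 : F) Y.det + cm 0 Y.det = cm 0 1 := by rw [cm_add, hY, add_zero]
  rw [bl_mem_iff]
  simp only [Matrix.transpose_neg, Matrix.mul_neg, Matrix.neg_mul, neg_neg, mul_j_transpose,
    add_neg_cancel, neg_add_cancel]
  exact ⟨hh, trivial, trivial, hh⟩

/-- The elements `Y ⊗ (1 + ρ)` of `Sp_4(F)`. -/
def twE (Y : Matrix (Fin 2) (Fin 2) F) (hY : Y.det + Y.det = 1) : G4 F :=
  ⟨bl Y (-Y) Y Y, tw_mem hY⟩

/-- `ω ⊗ 1`. -/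
def OmE (a b : F) (hab : a * a + b * b = -1) (h2 : (2 : F) ≠ 0) : G4 F :=
  dgE (om a b) (om a b) (det_om hab h2) (det_om hab h2)

theorem norm_of_gens {a b : F} (hab : a * a + b * b = -1) (h2 : (2 : F) ≠ 0)
    (hns : ∀ s : F, s * s ≠ 2) (Y : Matrix (Fin 2) (Fin 2) F)
    (hi : ∃ x', InQ a b x' ∧ Y * cm 0 1 = x' * Y)
    (hj : ∃ x', InQ a b x' ∧ Y * jm a b = x' * Y) :
    ∀ x, InQ a b x → ∃ x', InQ a b x' ∧ Y * x = x' * Y := by
  obtain ⟨xi, hxi, ei⟩ := hi
  obtain ⟨xj, hxj, ej⟩ := hj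
  have hP1 : ∀ x y : F, x * x + y * y = 1 → Two (cm x y) →
      ∃ x', InQ a b x' ∧ Y * cm x y = x' * Y := by
    intro x y hn ht
    rcases inQ_T_cases h2 hns hn ht with ⟨rfl, rfl⟩ | ⟨rfl, rfl⟩ | ⟨rfl, rfl⟩ | ⟨rfl, rfl⟩
    · exact ⟨1, inQ_one a b, by rw [cm_one, Matrix.mul_one, Matrix.one_mul]⟩
    · exact ⟨-1, inQ_neg_one a b, by
        rw [cm_neg_one, Matrix.mul_neg, Matrix.mul_one, Matrix.neg_mul, Matrix.one_mul]⟩
    · exact ⟨xi, hxi, ei⟩
    · refine ⟨-xi, inQ_neg hab hxi, ?_⟩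
      have : cm (0 : F) (-1) = -cm 0 1 := by rw [cm_neg, neg_zero]
      rw [this, Matrix.mul_neg, ei, Matrix.neg_mul]
  intro x hx
  obtain ⟨x0, y0, hn, ht, rfl | rfl⟩ := hx
  · exact hP1 x0 y0 hn ht
  · obtain ⟨x', hx', e⟩ := hP1 x0 y0 hn ht
    refine ⟨x' * xj, inQ_mul hab hx' hxj, ?_⟩
    rw [← Matrix.mul_assoc, e, Matrix.mul_assoc, ej]
    simp only [Matrix.mul_assoc]

variable [Fintype F]

theorem tw_norm_EE {a b : F} (hab : a * a + b * b = -1) {Y : Matrix (Fin 2) (Fin 2) F}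
    (hY : Y.det + Y.det = 1)
    (hN : ∀ x, InQ a b x → ∃ x', InQ a b x' ∧ Y * x = x' * Y) :
    twE Y hY ∈ Subgroup.normalizer (EE F a b hab : Set (G4 F)) := by
  rw [Subgroup.mem_normalizer_iff]
  intro e0
  apply Cfsg.Agent.Lib.helper25.conj_mem_iff_of_forall_conj_mem
  intro e he
  have hc := conj_val (twE Y hY) e
  obtain ⟨x, y, hx, hy, hef | hef⟩ := he
  · obtain ⟨x', hx', ex⟩ := hN x hx
    rcases hy with rfl | rfl
    · have hrel : (twE Y hY * e * (twE Y hY)⁻¹).1 * (twE Y hY).1 =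
          bl x' 0 0 x' * (twE Y hY).1 := by
        rw [hc, hef]
        show bl Y (-Y) Y Y * bl y 0 0 y = bl x' 0 0 x' * bl Y (-Y) Y Y
        rw [bl_mul, bl_mul]
        simp only [Matrix.mul_zero, Matrix.zero_mul, add_zero, zero_add, neg_zero, Matrix.neg_mul,
          Matrix.mul_neg, neg_neg, ex]
      have h3 := val_cancel _ hrel
      show InE a b _
      rw [h3]
      exact ⟨x', x', hx', Or.inl rfl, Or.inl rfl⟩
    · have hrel : (twE Y hY * e * (twE Y hY)⁻¹).1 * (twE Y hY).1 =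
          bl 0 x' x' 0 * (twE Y hY).1 := by
        rw [hc, hef]
        show bl Y (-Y) Y Y * bl x 0 0 (-x) = bl 0 x' x' 0 * bl Y (-Y) Y Y
        rw [bl_mul, bl_mul]
        simp only [Matrix.mul_zero, Matrix.zero_mul, add_zero, zero_add, neg_zero, Matrix.neg_mul,
          Matrix.mul_neg, neg_neg, ex]
      have h3 := val_cancel _ hrel
      show InE a b _
      rw [h3]
      exact ⟨x', x', hx', Or.inl rfl, Or.inr rfl⟩
  · obtain ⟨x', hx', ex⟩ := hN x hx
    rcases hy with rfl | rfl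
    · have hrel : (twE Y hY * e * (twE Y hY)⁻¹).1 * (twE Y hY).1 =
          bl (-x') 0 0 x' * (twE Y hY).1 := by
        rw [hc, hef]
        show bl Y (-Y) Y Y * bl 0 y y 0 = bl (-x') 0 0 x' * bl Y (-Y) Y Y
        rw [bl_mul, bl_mul]
        simp only [Matrix.mul_zero, Matrix.zero_mul, add_zero, zero_add, neg_zero, Matrix.neg_mul,
          Matrix.mul_neg, neg_neg, ex]
      have h3 := val_cancel _ hrel
      show InE a b _
      rw [h3]
      exact ⟨-x', x', inQ_neg hab hx', Or.inr (neg_neg x').symm, Or.inl rfl⟩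
    · have hrel : (twE Y hY * e * (twE Y hY)⁻¹).1 * (twE Y hY).1 =
          bl 0 x' (-x') 0 * (twE Y hY).1 := by
        rw [hc, hef]
        show bl Y (-Y) Y Y * bl 0 x (-x) 0 = bl 0 x' (-x') 0 * bl Y (-Y) Y Y
        rw [bl_mul, bl_mul]
        simp only [Matrix.mul_zero, Matrix.zero_mul, add_zero, zero_add, neg_zero, Matrix.neg_mul,
          Matrix.mul_neg, neg_neg, ex]
      have h3 := val_cancel _ hrel
      show InE a b _
      rw [h3]
      exact ⟨x', -x', hx', Or.inr rfl, Or.inr rfl⟩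

theorem tw_two {a b : F} (hab : a * a + b * b = -1) {Y : Matrix (Fin 2) (Fin 2) F}
    (hY : Y.det + Y.det = 1)
    (hsq : InE a b (bl 0 (-(Y * Y + Y * Y)) (Y * Y + Y * Y) 0)) :
    ∃ k : ℕ, twE Y hY ^ (2 ^ k) = 1 := by
  have hsqv : (twE Y hY * twE Y hY).1 = bl 0 (-(Y * Y + Y * Y)) (Y * Y + Y * Y) 0 := by
    show bl Y (-Y) Y Y * bl Y (-Y) Y Y = _
    rw [bl_mul]
    simp
  have hmem : twE Y hY * twE Y hY ∈ UU F a b hab := by
    show InU a b _
    rw [hsqv]
    exact inE_inU hab hsq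
  obtain ⟨k, hk⟩ := isPGroup_UU hab ⟨_, hmem⟩
  have hk' : (twE Y hY * twE Y hY) ^ (2 ^ k) = 1 := congrArg Subtype.val hk
  refine ⟨k + 1, ?_⟩
  rw [pow_succ, mul_comm, pow_mul, pow_two]
  exact hk'

theorem Om_norm_UU {a b : F} (hab : a * a + b * b = -1) (h2 : (2 : F) ≠ 0)
    (hns : ∀ s : F, s * s ≠ 2) :
    OmE a b hab h2 ∈ Subgroup.normalizer (UU F a b hab : Set (G4 F)) := by
  rw [Subgroup.mem_normalizer_iff]
  intro u0
  apply Cfsg.Agent.Lib.helper25.conj_mem_iff_of_forall_conj_mem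
  intro u hu
  have hom := nq_om hab h2 hns
  have hc := conj_val (OmE a b hab h2) u
  obtain ⟨x, y, hx, hy, huf | huf⟩ := hu
  · obtain ⟨x', hx', ex⟩ := hom.2 x hx
    obtain ⟨y', hy', ey⟩ := hom.2 y hy
    have hrel : (OmE a b hab h2 * u * (OmE a b hab h2)⁻¹).1 * (OmE a b hab h2).1 =
        bl x' 0 0 y' * (OmE a b hab h2).1 := by
      rw [hc, huf]
      show bl (om a b) 0 0 (om a b) * bl x 0 0 y = bl x' 0 0 y' * bl (om a b) 0 0 (om a b)
      rw [bl_mul, bl_mul]
      simp only [Matrix.mul_zero, Matrix.zero_mul, add_zero, zero_add, ex, ey]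
    have h3 := val_cancel _ hrel
    show InU a b _
    rw [h3]
    exact ⟨x', y', hx', hy', Or.inl rfl⟩
  · obtain ⟨x', hx', ex⟩ := hom.2 x hx
    obtain ⟨y', hy', ey⟩ := hom.2 y hy
    have hrel : (OmE a b hab h2 * u * (OmE a b hab h2)⁻¹).1 * (OmE a b hab h2).1 =
        bl 0 x' y' 0 * (OmE a b hab h2).1 := by
      rw [hc, huf]
      show bl (om a b) 0 0 (om a b) * bl 0 x y 0 = bl 0 x' y' 0 * bl (om a b) 0 0 (om a b)
      rw [bl_mul, bl_mul]
      simp only [Matrix.mul_zero, Matrix.zero_mul, add_zero, zero_add, ex, ey]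
    have h3 := val_cancel _ hrel
    show InU a b _
    rw [h3]
    exact ⟨x', y', hx', hy', Or.inr rfl⟩

theorem Om_mem_closure {a b : F} (hab : a * a + b * b = -1) (h2 : (2 : F) ≠ 0)
    (hns : ∀ s : F, s * s ≠ 2) :
    OmE a b hab h2 ∈ Subgroup.closure {y : G4 F |
      y ∈ Subgroup.normalizer (EE F a b hab : Set (G4 F)) ∧ ∃ k : ℕ, y ^ (2 ^ k) = 1} := by
  have hd1 : (!![a / 2, (b - 1) / 2; (b + 1) / 2, -a / 2] : Matrix (Fin 2) (Fin 2) F).det +
      (!![a / 2, (b - 1) / 2; (b + 1) / 2, -a / 2] : Matrix (Fin 2) (Fin 2) F).det = 1 := by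
    rw [Matrix.det_fin_two]
    simp
    field_simp
    linear_combination (-2 : F) * hab
  have hd2 : (cm (-1 / 2 : F) (1 / 2)).det + (cm (-1 / 2 : F) (1 / 2)).det = 1 := by
    rw [det_cm]
    field_simp
    norm_num
  have hrel : (!![a / 2, (b - 1) / 2; (b + 1) / 2, -a / 2] : Matrix (Fin 2) (Fin 2) F) * om a b =
      cm (-1 / 2 : F) (1 / 2) := by
    ext i j
    fin_cases i <;> fin_cases j <;> simp [om, cm, jm, Matrix.mul_apply, Fin.sum_univ_two] <;>
      field_simp <;>
    first | ring1 | linear_combination hab | linear_combination -hab |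
      linear_combination (1/2 : F) * hab | linear_combination (-1/2 : F) * hab |
      linear_combination (1/4 : F) * hab | linear_combination (-1/4 : F) * hab |
      linear_combination 2 * hab | linear_combination -2 * hab | linear_combination 4 * hab |
      linear_combination -4 * hab
  have h1i : (!![a / 2, (b - 1) / 2; (b + 1) / 2, -a / 2] : Matrix (Fin 2) (Fin 2) F) * cm 0 1 =
      jm a b * !![a / 2, (b - 1) / 2; (b + 1) / 2, -a / 2] := by
    ext i j
    fin_cases i <;> fin_cases j <;> simp [om, cm, jm, Matrix.mul_apply, Fin.sum_univ_two] <;>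
      field_simp <;>
    first | ring1 | linear_combination hab | linear_combination -hab |
      linear_combination (1/2 : F) * hab | linear_combination (-1/2 : F) * hab |
      linear_combination (1/4 : F) * hab | linear_combination (-1/4 : F) * hab |
      linear_combination 2 * hab | linear_combination -2 * hab | linear_combination 4 * hab |
      linear_combination -4 * hab
  have h1j : (!![a / 2, (b - 1) / 2; (b + 1) / 2, -a / 2] : Matrix (Fin 2) (Fin 2) F) * jm a b =
      cm 0 1 * !![a / 2, (b - 1) / 2; (b + 1) / 2, -a / 2] := by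
    ext i j
    fin_cases i <;> fin_cases j <;> simp [om, cm, jm, Matrix.mul_apply, Fin.sum_univ_two] <;>
      field_simp <;>
    first | ring1 | linear_combination hab | linear_combination -hab |
      linear_combination (1/2 : F) * hab | linear_combination (-1/2 : F) * hab |
      linear_combination (1/4 : F) * hab | linear_combination (-1/4 : F) * hab |
      linear_combination 2 * hab | linear_combination -2 * hab | linear_combination 4 * hab |
      linear_combination -4 * hab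
  have h2j : cm (-1 / 2 : F) (1 / 2) * jm a b = (jm a b * cm 0 1) * cm (-1 / 2 : F) (1 / 2) := by
    ext i j
    fin_cases i <;> fin_cases j <;> simp [om, cm, jm, Matrix.mul_apply, Fin.sum_univ_two] <;>
      field_simp <;>
    first | ring1 | linear_combination hab | linear_combination -hab |
      linear_combination (1/2 : F) * hab | linear_combination (-1/2 : F) * hab |
      linear_combination (1/4 : F) * hab | linear_combination (-1/4 : F) * hab |
      linear_combination 2 * hab | linear_combination -2 * hab | linear_combination 4 * hab |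
      linear_combination -4 * hab
  have hsq1 : (!![a / 2, (b - 1) / 2; (b + 1) / 2, -a / 2] : Matrix (Fin 2) (Fin 2) F) *
      !![a / 2, (b - 1) / 2; (b + 1) / 2, -a / 2] +
      !![a / 2, (b - 1) / 2; (b + 1) / 2, -a / 2] *
      !![a / 2, (b - 1) / 2; (b + 1) / 2, -a / 2] = -1 := by
    ext i j
    fin_cases i <;> fin_cases j <;> simp [om, cm, jm, Matrix.mul_apply, Fin.sum_univ_two] <;>
      field_simp <;>
    first | ring1 | linear_combination hab | linear_combination -hab |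
      linear_combination (1/2 : F) * hab | linear_combination (-1/2 : F) * hab |
      linear_combination (1/4 : F) * hab | linear_combination (-1/4 : F) * hab |
      linear_combination 2 * hab | linear_combination -2 * hab | linear_combination 4 * hab |
      linear_combination -4 * hab
  have hsq2 : cm (-1 / 2 : F) (1 / 2) * cm (-1 / 2 : F) (1 / 2) +
      cm (-1 / 2 : F) (1 / 2) * cm (-1 / 2 : F) (1 / 2) = cm 0 (-1) := by
    rw [cm_mul, cm_add]
    congr 1
    · ring
    · field_simp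
      norm_num
  have hN1 := norm_of_gens hab h2 hns _ ⟨jm a b, inQ_j a b, h1i⟩ ⟨cm 0 1, inQ_i a b, h1j⟩
  have hN2 := norm_of_gens hab h2 hns (cm (-1 / 2 : F) (1 / 2))
    ⟨cm 0 1, inQ_i a b, cm_comm _ _ _ _⟩
    ⟨jm a b * cm 0 1, inQ_mul hab (inQ_j a b) (inQ_i a b), h2j⟩
  have hn1 : twE _ hd1 ∈ {y : G4 F |
      y ∈ Subgroup.normalizer (EE F a b hab : Set (G4 F)) ∧ ∃ k : ℕ, y ^ (2 ^ k) = 1} :=
    ⟨tw_norm_EE hab hd1 hN1, tw_two hab hd1 (by
      rw [hsq1]
      exact ⟨-(-1), -1, inQ_neg hab (inQ_neg_one a b), Or.inr (neg_neg _).symm, Or.inr rfl⟩)⟩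
  have hn2 : twE _ hd2 ∈ {y : G4 F |
      y ∈ Subgroup.normalizer (EE F a b hab : Set (G4 F)) ∧ ∃ k : ℕ, y ^ (2 ^ k) = 1} :=
    ⟨tw_norm_EE hab hd2 hN2, tw_two hab hd2 (by
      rw [hsq2]
      exact ⟨-cm 0 (-1), cm 0 (-1), inQ_neg hab (inQ_ibar a b), Or.inr (neg_neg _).symm,
        Or.inr rfl⟩)⟩
  have hΩ : OmE a b hab h2 = (twE _ hd1)⁻¹ * twE _ hd2 := by
    apply eq_inv_mul_of_mul_eq
    apply Subtype.ext
    show bl _ (-_) _ _ * bl (om a b) 0 0 (om a b) = bl (cm (-1 / 2 : F) (1 / 2))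
      (-cm (-1 / 2 : F) (1 / 2)) (cm (-1 / 2 : F) (1 / 2)) (cm (-1 / 2 : F) (1 / 2))
    rw [bl_mul]
    simp only [Matrix.mul_zero, Matrix.zero_mul, add_zero, zero_add, Matrix.neg_mul, hrel]
  rw [hΩ]
  exact Subgroup.mul_mem _ (Subgroup.inv_mem _ (Subgroup.subset_closure hn1))
    (Subgroup.subset_closure hn2)

end Cfsg.Agent.Lib.helper25.Sp4Odd
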