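import Mathlib
import Cfsg.Agent.Lib.helper25.Sp4Odd8
import Cfsg.Agent.Lib.helper25.FusionSimple6

set_option autoImplicit false
set_option linter.unusedSectionVars false
set_option linter.unusedSimpArgs false
set_option linter.unusedVariables false
set_option linter.unreachableTactic false
set_option linter.unusedTactic false

/-!
# The `2`-fusion system of `PSp_4(F)`, `F` of odd order, is simple
-/

namespace Cfsg.Agent.Lib.helper25.Sp4Odd

open Matrix
open Cfsg.Agent.Lib.helper25.SL3Odd (Two two_mul two_of_sq)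

variable {F : Type*} [Field F] [Fintype F]

/-- The generating set used for the normalizer of `U`. -/
def GenS {a b : F} (hab : a * a + b * b = -1) : Set (G4 F) :=
  {x : G4 F | x ∈ Subgroup.normalizer (UU F a b hab : Set (G4 F)) ∧ ∃ R : Subgroup (G4 F),
    Subgroup.center (G4 F) ≤ R ∧ R ≤ UU F a b hab ∧
    UU F a b hab ≤ Subgroup.normalizer (R : Set (G4 F)) ∧
    (∀ g : G4 F, (∀ r ∈ R, g * r * g⁻¹ * r⁻¹ ∈ Subgroup.center (G4 F)) → g ∈ R) ∧
    x ∈ Subgroup.closure {y : G4 F | y ∈ Subgroup.normalizer (R : Set (G4 F)) ∧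
      ∃ k : ℕ, y ^ (2 ^ k) = 1}}

theorem UU_sub_GenS {a b : F} (hab : a * a + b * b = -1) (h2 : (2 : F) ≠ 0) {u : G4 F}
    (hu : u ∈ UU F a b hab) : u ∈ GenS hab := by
  refine ⟨Subgroup.le_normalizer hu, UU F a b hab, center_le_UU hab, le_rfl,
    Subgroup.le_normalizer, ccond_UU hab h2, ?_⟩
  apply Subgroup.subset_closure
  refine ⟨Subgroup.le_normalizer hu, ?_⟩
  obtain ⟨k, hk⟩ := isPGroup_UU hab ⟨u, hu⟩
  exact ⟨k, congrArg Subtype.val hk⟩

theorem Om_mem_GenS {a b : F} (hab : a * a + b * b = -1) (h2 : (2 : F) ≠ 0)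
    (hns : ∀ s : F, s * s ≠ 2) : OmE a b hab h2 ∈ GenS hab :=
  ⟨Om_norm_UU hab h2 hns, EE F a b hab, center_le_EE hab, EE_le_UU hab,
    UU_le_normalizer_EE hab h2 hns, ccond_EE hab h2, Om_mem_closure hab h2 hns⟩

theorem hgen_diag {a b : F} (hab : a * a + b * b = -1) (h2 : (2 : F) ≠ 0)
    (hns : ∀ s : F, s * s ≠ 2) (g : G4 F)
    (hg : g ∈ Subgroup.normalizer (UU F a b hab : Set (G4 F)))
    {A D : Matrix (Fin 2) (Fin 2) F} (hA : A.det = 1) (hD : D.det = 1)
    (hgv : g.1 = bl A 0 0 D) : g ∈ Subgroup.closure (GenS hab) := by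
  have hg' : ∀ u ∈ UU F a b hab, g * u * g⁻¹ ∈ UU F a b hab :=
    fun u hu => (Subgroup.mem_normalizer_iff.mp hg u).mp hu
  obtain ⟨hNA, hND, q, hq, hAq⟩ := norm_diag hab h2 g hg' hA hD hgv
  have hΩ := Om_mem_GenS hab h2 hns
  have hom := nq_om hab h2 hns
  rcases nq_cases hab h2 hns hND with h | h | h
  · apply Subgroup.subset_closure
    apply UU_sub_GenS hab h2
    rw [mem_UU, hgv]
    exact ⟨A, D, by rw [hAq]; exact inQ_mul hab hq h, h, Or.inl rfl⟩
  · obtain ⟨q', hq', e⟩ := hom.2 q hq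
    have hmem : OmE a b hab h2 * g ∈ UU F a b hab := by
      rw [mem_UU]
      show InU a b (bl (om a b) 0 0 (om a b) * g.1)
      rw [hgv, bl_mul]
      simp only [Matrix.mul_zero, Matrix.zero_mul, add_zero, zero_add]
      refine ⟨om a b * A, om a b * D, ?_, h, Or.inl rfl⟩
      rw [hAq, ← Matrix.mul_assoc, e, Matrix.mul_assoc]
      exact inQ_mul hab hq' h
    have e2 : g = (OmE a b hab h2)⁻¹ * (OmE a b hab h2 * g) := by group
    rw [e2]
    exact Subgroup.mul_mem _ (Subgroup.inv_mem _ (Subgroup.subset_closure hΩ))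
      (Subgroup.subset_closure (UU_sub_GenS hab h2 hmem))
  · obtain ⟨q', hq', e⟩ := hom.2 q hq
    obtain ⟨q'', hq'', e'⟩ := hom.2 q' hq'
    have hmem : OmE a b hab h2 * OmE a b hab h2 * g ∈ UU F a b hab := by
      rw [mem_UU]
      show InU a b (bl (om a b) 0 0 (om a b) * bl (om a b) 0 0 (om a b) * g.1)
      rw [hgv, bl_mul, bl_mul]
      simp only [Matrix.mul_zero, Matrix.zero_mul, add_zero, zero_add]
      refine ⟨om a b * om a b * A, om a b * om a b * D, ?_, h, Or.inl rfl⟩
      have e3 : om a b * om a b * A = q'' * (om a b * om a b * D) := by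
        rw [hAq]
        calc om a b * om a b * (q * D) = om a b * (om a b * q) * D := by
              simp only [Matrix.mul_assoc]
          _ = om a b * (q' * om a b) * D := by rw [e]
          _ = (om a b * q') * om a b * D := by simp only [Matrix.mul_assoc]
          _ = (q'' * om a b) * om a b * D := by rw [e']
          _ = q'' * (om a b * om a b * D) := by simp only [Matrix.mul_assoc]
      rw [e3]
      exact inQ_mul hab hq'' h
    have e2 : g = (OmE a b hab h2)⁻¹ * (OmE a b hab h2)⁻¹ *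
        (OmE a b hab h2 * OmE a b hab h2 * g) := by group
    rw [e2]
    exact Subgroup.mul_mem _ (Subgroup.mul_mem _
      (Subgroup.inv_mem _ (Subgroup.subset_closure hΩ))
      (Subgroup.inv_mem _ (Subgroup.subset_closure hΩ)))
      (Subgroup.subset_closure (UU_sub_GenS hab h2 hmem))

theorem hgen_UU {a b : F} (hab : a * a + b * b = -1) (h2 : (2 : F) ≠ 0) :
    Subgroup.normalizer (UU F a b hab : Set (G4 F)) ≤ Subgroup.closure (GenS hab) := by
  by_cases hs : ∃ s : F, s * s = 2
  · obtain ⟨s, hs⟩ := hs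
    intro g hg
    exact Subgroup.subset_closure (UU_sub_GenS hab h2
      (normalizer_le_of_nq hab h2 (fun A hA => inQ_of_nq_sq hab h2 hs hA) hg))
  · have hns : ∀ s : F, s * s ≠ 2 := fun s h => hs ⟨s, h⟩
    intro g hg
    have hg' : ∀ u ∈ UU F a b hab, g * u * g⁻¹ ∈ UU F a b hab :=
      fun u hu => (Subgroup.mem_normalizer_iff.mp hg u).mp hu
    rcases norm_form hab h2 g hg' with ⟨A, D, hA, hD, hgv⟩ | ⟨B, C, hB, hC, hgv⟩
    · exact hgen_diag hab h2 hns g hg hA hD hgv
    · have hsw : swE F ∈ UU F a b hab := sw_mem hab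
      have hgs : g * swE F ∈ Subgroup.normalizer (UU F a b hab : Set (G4 F)) :=
        Subgroup.mul_mem _ hg (Subgroup.le_normalizer hsw)
      have hv : (g * swE F).1 = bl B 0 0 C := by
        show g.1 * bl 0 1 1 0 = _
        rw [hgv, bl_mul]
        simp
      have h3 := hgen_diag hab h2 hns _ hgs hB hC hv
      have e : g = (g * swE F) * (swE F)⁻¹ := by group
      rw [e]
      exact Subgroup.mul_mem _ h3
        (Subgroup.inv_mem _ (Subgroup.subset_closure (UU_sub_GenS hab h2 hsw)))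

/-- **The `2`-fusion system of `PSp_4(F)`, `F` a finite field of odd order, is simple.** -/
theorem psp4_odd_fusion_simple (hodd : Fintype.card F % 2 = 1) (S : Sylow 2 (Cfsg.PSp 2 F)) :
    (Cfsg.groupFusionSystem (S : Subgroup (Cfsg.PSp 2 F))).IsSimple 2 := by
  haveI : Fact (Nat.Prime 2) := ⟨Nat.prime_two⟩
  have h2 : (2 : F) ≠ 0 := by
    apply Ring.two_ne_zero
    intro h
    have := FiniteField.even_card_iff_char_two.1 h
    omega
  obtain ⟨a, b, hab⟩ := sum_two_sq hodd (-1 : F)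
  set π : G4 F →* Cfsg.PSp 2 F := QuotientGroup.mk' (Subgroup.center (G4 F)) with hπ
  have hπker : π.ker = Subgroup.center (G4 F) := QuotientGroup.ker_mk' _
  have hπsurj : Function.Surjective π := QuotientGroup.mk'_surjective _
  obtain ⟨S0, hS0⟩ := exists_sylow_UU hab h2
  obtain ⟨g, hg⟩ := MulAction.exists_smul_eq (Cfsg.PSp 2 F) (S0.mapSurjective hπsurj) S
  set φ : G4 F →* Cfsg.PSp 2 F := (MulAut.conj g).toMonoidHom.comp π with hφ
  have hφapp : ∀ x, φ x = g * π x * g⁻¹ := fun x => rfl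
  have hφker : φ.ker = Subgroup.center (G4 F) := by
    ext x
    have hx : x ∈ π.ker ↔ x ∈ Subgroup.center (G4 F) := by rw [hπker]
    rw [← hx, MonoidHom.mem_ker, MonoidHom.mem_ker, hφapp]
    constructor
    · intro h
      have : π x = g⁻¹ * (g * π x * g⁻¹) * g := by group
      rw [this, h]
      group
    · intro h
      rw [h]
      group
  have hφsurj : Function.Surjective φ := by
    intro y
    obtain ⟨x, hx⟩ := hπsurj (g⁻¹ * y * g)
    refine ⟨x, ?_⟩
    rw [hφapp, hx]
    group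
  have hS : (S : Subgroup (Cfsg.PSp 2 F)) = (UU F a b hab).map φ := by
    rw [← hg, Sylow.coe_subgroup_smul, Sylow.coe_mapSurjective, hS0]
    ext x
    rw [Subgroup.mem_pointwise_smul_iff_inv_smul_mem, MulAut.smul_def, MulAut.conj_inv_apply]
    constructor
    · rintro ⟨u, hu, hux⟩
      refine ⟨u, hu, ?_⟩
      rw [hφapp, hux]
      group
    · rintro ⟨u, hu, rfl⟩
      refine ⟨u, hu, ?_⟩
      rw [hφapp]
      group
  apply Cfsg.Agent.Lib.helper25.isSimple_groupFusion_of_cover_ker 2 φ hφsurj (UU F a b hab)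
    (by rw [hφker]; exact center_le_UU hab) ?_ S hS ?_ ?_
  · rw [hφker]
    intro h
    have h1 := h (z1E_mem hab)
    rw [mem_center_iff'] at h1
    rcases h1 with h1 | h1
    · have h3 : bl (-1 : Matrix (Fin 2) (Fin 2) F) 0 0 1 = bl 1 0 0 1 := h1.trans bl_one.symm
      exact one_ne_neg_one h2 (bl_inj h3).1.symm
    · have h3 : bl (-1 : Matrix (Fin 2) (Fin 2) F) 0 0 1 = bl (-1) 0 0 (-1) :=
        h1.trans bl_neg_one.symm
      exact one_ne_neg_one h2 (bl_inj h3).2.2.2
  · rw [hφker]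
    intro T hTU hkT hTk hTc
    have hz : zE F ∈ T := by
      apply hkT
      rw [mem_center_iff']
      exact Or.inr zE_val
    have hex : ∃ t ∈ T, t.1 ≠ 1 ∧ t.1 ≠ -1 := by
      by_contra hcon
      apply hTk
      intro t ht
      rw [mem_center_iff']
      by_contra h3
      exact hcon ⟨t, ht, fun h => h3 (Or.inl h), fun h => h3 (Or.inr h)⟩
    exact hsc_UU hab h2 hodd T hTU hz hex hTc
  · rw [hφker]
    exact hgen_UU hab h2

end Cfsg.Agent.Lib.helper25.Sp4Odd
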