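import Mathlib
import Cfsg.Agent.Lib.helper2.Suzuki6

/-!
# Additive maps compatible with `a ↦ a^(s+1)` are semilinear (library, seat helper25)
-/

set_option autoImplicit false
set_option linter.unusedSectionVars false
set_option linter.unusedSimpArgs false

namespace Cfsg.Agent.Lib.helper25.SzAut

open Cfsg.Agent.Lib.helper2.Suzuki

variable {F : Type*} [Field F] [Fintype F] {s : ℕ} (H : Hyp F s)
include H

theorem pi_inj {a b : F} (h : a ^ (s + 1) = b ^ (s + 1)) : a = b := by
  by_cases hb : b = 0
  · rw [hb, zero_pow (by omega)] at h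
    rw [hb]
    exact (pow_eq_zero_iff (by omega)).1 h
  · have h1 : (a / b) ^ (s + 1) = 1 := by
      rw [div_pow, h]
      exact div_self (pow_ne_zero _ hb)
    have h2 := pow_s1_eq_one H h1
    field_simp at h2
    exact h2

/-- The additive map `t ↦ t^s + t`. -/
def Tm : F →+ F where
  toFun := fun t => t ^ s + t
  map_zero' := by simp [s_ne_zero H]
  map_add' := by
    intro a b
    show (a + b) ^ s + (a + b) = a ^ s + a + (b ^ s + b)
    rw [H.hadd]; ring

theorem Tm_apply (t : F) : Tm H t = t ^ s + t := rfl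

theorem card_ker_Tm : Nat.card (Tm H).ker = 2 := by
  classical
  have h1 : ∀ t : F, t ∈ (Tm H).ker ↔ t = 0 ∨ t = 1 := by
    intro t
    rw [AddMonoidHom.mem_ker, Tm_apply]
    constructor
    · intro h
      apply pow_s_fix H
      linear_combination h - t * H.h2
    · rintro (rfl | rfl)
      · simp [s_ne_zero H]
      · rw [one_pow]; linear_combination H.h2
  have h2 : ((Tm H).ker : Set F) = {0, 1} := by
    ext t
    simp [h1 t]
  have h3 : Nat.card (Tm H).ker = Nat.card (({0, 1} : Set F)) := Nat.card_congr (Equiv.setCongr h2)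
  rw [h3, Nat.card_coe_set_eq, Set.ncard_pair zero_ne_one]

theorem index_range_Tm : (Tm H).range.index = 2 := by
  rw [AddSubgroup.index_range, card_ker_Tm H]

/-- The parity functional attached to the hyperplane `{t^s + t}`. -/
noncomputable def chi (x : F) : ZMod 2 := by
  classical
  exact if x ∈ (Tm H).range then 0 else 1

theorem chi_eq_zero_iff (x : F) : chi H x = 0 ↔ x ∈ (Tm H).range := by
  classical
  unfold chi
  split_ifs with h
  · simp [h]
  · simp [h]

theorem chi_cases (x : F) : chi H x = 0 ∨ chi H x = 1 := by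
  classical
  unfold chi
  split_ifs
  · left; rfl
  · right; rfl

theorem chi_add (x y : F) : chi H (x + y) = chi H x + chi H y := by
  classical
  have h := AddSubgroup.add_mem_iff_of_index_two (index_range_Tm H) (a := x) (b := y)
  unfold chi
  by_cases hx : x ∈ (Tm H).range <;> by_cases hy : y ∈ (Tm H).range
  · have : x + y ∈ (Tm H).range := h.2 (by simp [hx, hy])
    simp [hx, hy, this]
  · have : x + y ∉ (Tm H).range := fun h' => hy ((h.1 h').1 hx)
    simp [hx, hy, this]
  · have : x + y ∉ (Tm H).range := fun h' => hx ((h.1 h').2 hy)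
    simp [hx, hy, this]
  · have : x + y ∈ (Tm H).range := h.2 (by simp [hx, hy])
    simp [hx, hy, this]
    decide

theorem chi_zero : chi H (0 : F) = 0 := (chi_eq_zero_iff H 0).2 (zero_mem _)

theorem exists_chi_one : ∃ w : F, chi H w = 1 := by
  by_contra hcon
  push Not at hcon
  have h1 : (Tm H).range = ⊤ := by
    rw [eq_top_iff]
    intro x _
    rcases chi_cases H x with h | h
    · exact (chi_eq_zero_iff H x).1 h
    · exact absurd h (hcon x)
  have h2 := index_range_Tm H
  rw [h1, AddSubgroup.index_top] at h2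
  omega

/-- nondegeneracy -/
theorem chi_nondeg {u : F} (h : ∀ z, chi H (u * z) = 0) : u = 0 := by
  by_contra hu
  obtain ⟨w, hw⟩ := exists_chi_one H
  have := h (u⁻¹ * w)
  rw [← mul_assoc, mul_inv_cancel₀ hu, one_mul, hw] at this
  exact one_ne_zero this

/-- Hua's identity. -/
theorem hua_id {a b : F} (ha : a ≠ 0) (hb : b ≠ 0) (hab : b⁻¹ - a ≠ 0) :
    (a⁻¹ + (b⁻¹ - a)⁻¹)⁻¹ = a - a ^ 2 * b := by
  have h1 : 1 - a * b ≠ 0 := by
    intro h
    apply hab
    field_simp
    linear_combination h
  apply inv_eq_of_mul_eq_one_right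
  have e : b⁻¹ - a = (1 - a * b) / b := by field_simp
  rw [e, inv_div]
  field_simp
  ring

/-- An additive bijection whose "inverse transpose" is additive is multiplicative. -/
theorem hua (g h : F → F) (hg : ∀ a b, g (a + b) = g a + g b) (hh : ∀ a b, h (a + b) = h a + h b)
    (hgi : Function.Injective g) (hgh : ∀ x, x ≠ 0 → h x⁻¹ = (g x)⁻¹) (hg1 : g 1 = 1) :
    ∀ a b, g (a * b) = g a * g b := by
  have hg0 : g 0 = 0 := by
    have := hg 0 0
    rw [add_zero] at this
    linear_combination -this
  have hh0 : h 0 = 0 := by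
    have := hh 0 0
    rw [add_zero] at this
    linear_combination -this
  have hgne : ∀ x, x ≠ 0 → g x ≠ 0 := fun x hx h0 => hx (hgi (h0.trans hg0.symm))
  have hhg : ∀ x, x ≠ 0 → g x⁻¹ = (h x)⁻¹ := by
    intro x hx
    have := hgh x⁻¹ (inv_ne_zero hx)
    rw [inv_inv] at this
    rw [this, inv_inv]
  have hhne : ∀ x, x ≠ 0 → h x ≠ 0 := by
    intro x hx h0
    have := hhg x hx
    rw [h0, inv_zero] at this
    exact hgne _ (inv_ne_zero hx) this
  have hgsub : ∀ a b, g (a - b) = g a - g b := by
    intro a b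
    have := hg (a - b) b
    rw [sub_add_cancel] at this
    linear_combination -this
  have step1 : ∀ a b, g (a ^ 2 * b) = g a ^ 2 * h b := by
    intro a b
    by_cases ha : a = 0
    · rw [ha]; simp [hg0]
    by_cases hb : b = 0
    · rw [hb]; simp [hg0, hh0]
    by_cases hab : b⁻¹ - a = 0
    · have hb' : b = a⁻¹ := by
        have : b⁻¹ = a := by linear_combination hab
        rw [← this, inv_inv]
      rw [hb', hgh a ha]
      have e : a ^ 2 * a⁻¹ = a := by field_simp
      rw [e]
      have := hgne a ha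
      field_simp
    · have h1 : g (b⁻¹ - a) = (h b)⁻¹ - g a := by rw [hgsub, hhg b hb]
      have h1ne : (h b)⁻¹ - g a ≠ 0 := by rw [← h1]; exact hgne _ hab
      have h2 : h (b⁻¹ - a)⁻¹ = ((h b)⁻¹ - g a)⁻¹ := by rw [hgh _ hab, h1]
      have h3 : h (a⁻¹ + (b⁻¹ - a)⁻¹) = (g a)⁻¹ + ((h b)⁻¹ - g a)⁻¹ := by
        rw [hh, hgh a ha, h2]
      have hw : a⁻¹ + (b⁻¹ - a)⁻¹ ≠ 0 := by
        intro h0
        have := hua_id H ha hb hab
        rw [h0, inv_zero] at this
        have h4 : a * (1 - a * b) = 0 := by linear_combination -this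
        rcases mul_eq_zero.1 h4 with h5 | h5
        · exact ha h5
        · apply hab
          field_simp
          linear_combination h5
      have h4 : g (a⁻¹ + (b⁻¹ - a)⁻¹)⁻¹ = (h (a⁻¹ + (b⁻¹ - a)⁻¹))⁻¹ := hhg _ hw
      rw [hua_id H ha hb hab, h3, hua_id H (hgne a ha) (hhne b hb) h1ne, hgsub] at h4
      linear_combination -h4
  have hh1 : h 1 = 1 := by
    have := hgh 1 one_ne_zero
    rw [inv_one, hg1, inv_one] at this
    exact this
  have step2 : ∀ c b, g (c * b) = g c * h b := by
    intro c b
    obtain ⟨d, rfl⟩ := exists_sqrt H c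
    rw [step1]
    have := step1 d 1
    rw [mul_one, hh1, mul_one] at this
    rw [this]
  have step3 : ∀ b, g b = h b := by
    intro b
    have := step2 1 b
    rw [one_mul, hg1, one_mul] at this
    exact this
  intro a b
  rw [step2, step3 b]

end Cfsg.Agent.Lib.helper25.SzAut
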