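import Mathlib
import Cfsg.Agent.Lib.helper25.SzAut1

/-!
# Additive maps compatible with `a ↦ a^(s+1)` are semilinear, conclusion (library, seat helper25)
-/

set_option autoImplicit false
set_option linter.unusedSectionVars false
set_option linter.unusedSimpArgs false

namespace Cfsg.Agent.Lib.helper25.SzAut

open Cfsg.Agent.Lib.helper2.Suzuki

variable {F : Type*} [Field F] [Fintype F] {s : ℕ} (H : Hyp F s)
include H

theorem zmod2_aux : ∀ A B : ZMod 2, A + B + A + B = 0 := by decide

theorem semilin1 (f g : F → F) (hf : ∀ a b, f (a + b) = f a + f b) (hfb : Function.Bijective f)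
    (hg : ∀ a b, g (a + b) = g a + g b) (hfg : ∀ a, g (a ^ (s + 1)) = f a ^ (s + 1))
    (hf1 : f 1 = 1) : ∃ σ : F ≃+* F, ∀ a, f a = σ a := by
  have hs := s_ne_zero H
  have hf0 : f 0 = 0 := by
    have := hf 0 0
    rw [add_zero] at this
    linear_combination -this
  have hg0 : g 0 = 0 := by
    have := hg 0 0
    rw [add_zero] at this
    linear_combination -this
  have hg1 : g 1 = 1 := by
    have := hfg 1
    rw [one_pow, hf1, one_pow] at this
    exact this
  have hfne : ∀ a, a ≠ 0 → f a ≠ 0 := fun a ha h0 => ha (hfb.1 (h0.trans hf0.symm))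
  have hgi : Function.Injective g := by
    intro x y hxy
    obtain ⟨a, rfl⟩ := pow_s1_surj H x
    obtain ⟨b, rfl⟩ := pow_s1_surj H y
    rw [hfg, hfg] at hxy
    rw [hfb.1 (pi_inj H hxy)]
  have hgs : Function.Surjective g := Finite.surjective_of_injective hgi
  have hgne : ∀ x, x ≠ 0 → g x ≠ 0 := fun x hx h0 => hx (hgi (h0.trans hg0.symm))
  have e : ∀ a b : F, (a + b) ^ (s + 1) = a ^ (s + 1) + (a ^ s * b + a * b ^ s) + b ^ (s + 1) := by
    intro a b
    rw [pow_succ, H.hadd]; ring
  have polar : ∀ a b, g (a ^ s * b + a * b ^ s) = f a ^ s * f b + f a * f b ^ s := by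
    intro a b
    have := hfg (a + b)
    rw [e, hg, hg, hfg, hfg, hf, e] at this
    linear_combination this
  -- one direction of the hyperplane relation
  have D : ∀ x, x ≠ 0 → ∀ y, chi H (y / x) = 0 → chi H (g y / g x) = 0 := by
    intro x hx y hy
    rw [chi_eq_zero_iff] at hy ⊢
    obtain ⟨t, ht⟩ := hy
    rw [Tm_apply] at ht
    obtain ⟨a, ha⟩ := pow_s1_surj H x
    have ha0 : a ≠ 0 := by
      rintro rfl
      rw [zero_pow (by omega)] at ha
      exact hx ha.symm
    have hy' : y = a ^ s * (a * t) + a * (a * t) ^ s := by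
      have : y = x * (t ^ s + t) := by rw [ht]; field_simp
      rw [this, ← ha]; ring
    have hfa := hfne a ha0
    refine ⟨f (a * t) / f a, ?_⟩
    rw [Tm_apply, hy', polar, ← ha, hfg, div_pow]
    field_simp
    ring
  have R : ∀ x, x ≠ 0 → ∀ y, chi H (y / x) = chi H (g y / g x) := by
    intro x hx
    by_contra hcon
    push Not at hcon
    obtain ⟨y, hy⟩ := hcon
    have hφ : chi H (y / x) = 1 := by
      rcases chi_cases H (y / x) with h | h
      · exact absurd (h.trans (D x hx y h).symm) hy
      · exact h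
    have hψ : chi H (g y / g x) = 0 := by
      rcases chi_cases H (g y / g x) with h | h
      · exact h
      · exact absurd (hφ.trans h.symm) hy
    obtain ⟨w, hw⟩ := exists_chi_one H
    obtain ⟨y0, hy0⟩ := hgs (w * g x)
    have hψ0 : chi H (g y0 / g x) = 1 := by
      rw [hy0, mul_div_assoc, div_self (hgne x hx), mul_one, hw]
    have hφ0 : chi H (y0 / x) = 1 := by
      rcases chi_cases H (y0 / x) with h | h
      · have := D x hx y0 h
        rw [hψ0] at this
        exact absurd this one_ne_zero
      · exact h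
    have h1 : chi H ((y + y0) / x) = 0 := by
      rw [add_div, chi_add, hφ, hφ0]
      decide
    have h2 := D x hx (y + y0) h1
    rw [hg, add_div, chi_add, hψ, hψ0] at h2
    exact absurd h2 (by decide)
  classical
  set h : F → F := fun c => if c = 0 then 0 else (g c⁻¹)⁻¹ with hdef
  have hgh : ∀ x, x ≠ 0 → h x⁻¹ = (g x)⁻¹ := by
    intro x hx
    simp only [hdef, inv_eq_zero, hx, if_false, inv_inv]
  have key : ∀ c y, chi H (h c * g y) = chi H (c * y) := by
    intro c y
    by_cases hc : c = 0
    · simp only [hdef, hc, if_true, zero_mul]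
    · have := R c⁻¹ (inv_ne_zero hc) y
      rw [div_inv_eq_mul] at this
      simp only [hdef, hc, if_false]
      rw [mul_comm c y, this, div_eq_mul_inv, mul_comm]
  have hh : ∀ c c', h (c + c') = h c + h c' := by
    intro c c'
    have hu : h (c + c') + h c + h c' = 0 := by
      apply chi_nondeg H
      intro z
      obtain ⟨y, rfl⟩ := hgs z
      have e1 : (h (c + c') + h c + h c') * g y = h (c + c') * g y + h c * g y + h c' * g y := by
        ring
      rw [e1, chi_add, chi_add, key, key, key, add_mul, chi_add]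
      exact zmod2_aux H _ _
    linear_combination hu - (h c + h c') * H.h2
  have hmul := hua H g h hg hh hgi hgh hg1
  let φ : F →+* F :=
    { toFun := g
      map_one' := hg1
      map_mul' := hmul
      map_zero' := hg0
      map_add' := hg }
  refine ⟨RingEquiv.ofBijective φ ⟨hgi, hgs⟩, fun a => ?_⟩
  apply pi_inj H
  rw [← hfg]
  show g (a ^ (s + 1)) = (φ a) ^ (s + 1)
  rw [← map_pow]
  rfl

/-- Additive bijections compatible with `a ↦ a^(s+1)` are semilinear. -/
theorem semilin (f g : F → F) (hf : ∀ a b, f (a + b) = f a + f b) (hfb : Function.Bijective f)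
    (hg : ∀ a b, g (a + b) = g a + g b) (hfg : ∀ a, g (a ^ (s + 1)) = f a ^ (s + 1)) :
    ∃ (μ : F) (σ : F ≃+* F), μ ≠ 0 ∧ ∀ a, f a = μ * σ a := by
  have hf0 : f 0 = 0 := by
    have := hf 0 0
    rw [add_zero] at this
    linear_combination -this
  have hμ : f 1 ≠ 0 := fun h0 => one_ne_zero (hfb.1 (h0.trans hf0.symm))
  obtain ⟨σ, hσ⟩ := semilin1 H (fun a => (f 1)⁻¹ * f a) (fun x => ((f 1) ^ (s + 1))⁻¹ * g x)
    (fun a b => by simp only [hf]; ring)
    ⟨fun a b hab => hfb.1 (mul_left_cancel₀ (inv_ne_zero hμ) hab),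
      fun y => by
        obtain ⟨a, ha⟩ := hfb.2 (f 1 * y)
        exact ⟨a, by simp only [ha]; field_simp⟩⟩
    (fun a b => by simp only [hg]; ring)
    (fun a => by simp only [hfg, mul_pow, inv_pow])
    (inv_mul_cancel₀ hμ)
  refine ⟨f 1, σ, hμ, fun a => ?_⟩
  rw [← hσ a]
  field_simp

end Cfsg.Agent.Lib.helper25.SzAut
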