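import Mathlib
import Cfsg.Agent.Lib.helper25.SzAut2
import Cfsg.Prelude.Def_Solvable
import Cfsg.Prelude.Def_Transfer

/-!
# Coordinates on the Sylow 2-subgroup of a Suzuki group and its automorphisms
(library, seat helper25)
-/

set_option autoImplicit false
set_option linter.unusedSectionVars false
set_option linter.unusedSimpArgs false
set_option linter.style.haveILetI false

namespace Cfsg.Agent.Lib.helper25.SzAut

open Cfsg.Agent.Lib.helper2.Suzuki

/-- Coordinates `(A, B)` on a group with `(a, b) (a', b') = (a + a', b + b' + a^s a')`. -/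
structure SzCoord (F : Type*) [Field F] (s : ℕ) (T : Type*) [Group T] where
  A : T → F
  B : T → F
  inj : ∀ x y, A x = A y → B x = B y → x = y
  surj : ∀ a b : F, ∃ x, A x = a ∧ B x = b
  mulA : ∀ x y, A (x * y) = A x + A y
  mulB : ∀ x y, B (x * y) = B x + B y + A x ^ s * A y

variable {F : Type*} [Field F] [Fintype F] {s : ℕ} {T : Type*} [Group T]

namespace SzCoord

/-- Transport of coordinates along an isomorphism. -/
def comap {S : Type*} [Group S] (C : SzCoord F s T) (e : S ≃* T) : SzCoord F s S where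
  A := fun x => C.A (e x)
  B := fun x => C.B (e x)
  inj := fun x y h1 h2 => e.injective (C.inj _ _ h1 h2)
  surj := fun a b => by
    obtain ⟨x, hx1, hx2⟩ := C.surj a b
    exact ⟨e.symm x, by simp [hx1], by simp [hx2]⟩
  mulA := fun x y => by rw [map_mul, C.mulA]
  mulB := fun x y => by rw [map_mul, C.mulB]

variable (C : SzCoord F s T)

theorem A_one : C.A 1 = 0 := by
  have := C.mulA 1 1
  rw [one_mul] at this
  linear_combination -this

theorem B_one : C.B 1 = 0 := by
  have := C.mulB 1 1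
  rw [one_mul, C.A_one, mul_zero] at this
  linear_combination -this

theorem A_inv (x : T) : C.A x⁻¹ = -C.A x := by
  have := C.mulA x x⁻¹
  rw [mul_inv_cancel, C.A_one] at this
  linear_combination -this

theorem exists_A (a : F) : ∃ x, C.A x = a := by
  obtain ⟨x, hx, -⟩ := C.surj a 0
  exact ⟨x, hx⟩

/-- The point with given coordinates. -/
noncomputable def pt (a b : F) : T := Classical.choose (C.surj a b)

theorem A_pt (a b : F) : C.A (C.pt a b) = a := (Classical.choose_spec (C.surj a b)).1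

theorem B_pt (a b : F) : C.B (C.pt a b) = b := (Classical.choose_spec (C.surj a b)).2

theorem finite (C : SzCoord F s T) : Finite T := by
  have : Function.Injective (fun x : T => (C.A x, C.B x)) := by
    intro x y h
    exact C.inj x y (congrArg Prod.fst h) (congrArg Prod.snd h)
  exact Finite.of_injective _ this

variable (H : Hyp F s)
include H

theorem mem_center_iff (x : T) : x ∈ Subgroup.center T ↔ C.A x = 0 := by
  have hs := s_ne_zero H
  rw [Subgroup.mem_center_iff]
  constructor
  · intro h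
    obtain ⟨y1, hy1⟩ := C.exists_A 1
    obtain ⟨t, ht0, ht1⟩ := exists_ne01 H
    obtain ⟨y2, hy2⟩ := C.exists_A t
    have e1 := congrArg C.B (h y1)
    have e2 := congrArg C.B (h y2)
    rw [C.mulB, C.mulB, hy1] at e1
    rw [C.mulB, C.mulB, hy2] at e2
    have h1 : C.A x ^ s = C.A x := by
      rw [one_pow] at e1
      linear_combination -e1
    rcases pow_s_fix H h1 with h3 | h3
    · exact h3
    · exfalso
      rw [h3, one_pow] at e2
      have : t ^ s = t := by linear_combination e2
      rcases pow_s_fix H this with h4 | h4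
      · exact ht0 h4
      · exact ht1 h4
  · intro h y
    apply C.inj
    · rw [C.mulA, C.mulA, add_comm]
    · rw [C.mulB, C.mulB, h, zero_pow hs]
      ring

/-- An automorphism preserves the vanishing of the first coordinate. -/
theorem A_aut_zero (α : T ≃* T) (z : T) (hz : C.A z = 0) : C.A (α z) = 0 := by
  rw [← C.mem_center_iff H] at hz ⊢
  rw [Subgroup.mem_center_iff] at hz ⊢
  intro y
  have := hz (α.symm y)
  have h2 := congrArg α this
  rw [map_mul, map_mul, MulEquiv.apply_symm_apply] at h2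
  exact h2

/-- The first coordinate of the image depends only on the first coordinate. -/
theorem A_aut_congr (α : T ≃* T) (x y : T) (h : C.A x = C.A y) : C.A (α x) = C.A (α y) := by
  have h1 : C.A (x⁻¹ * y) = 0 := by rw [C.mulA, C.A_inv, h]; ring
  have h2 := C.A_aut_zero H α _ h1
  have h3 : α y = α x * α (x⁻¹ * y) := by rw [← map_mul]; congr 1; group
  rw [h3, C.mulA, h2, add_zero]

omit H in
/-- The induced map on first coordinates. -/
noncomputable def autA (α : T ≃* T) (a : F) : F :=
  C.A (α (Classical.choose (C.exists_A a)))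

theorem A_aut (α : T ≃* T) (x : T) : C.A (α x) = C.autA α (C.A x) :=
  C.A_aut_congr H α _ _ (Classical.choose_spec (C.exists_A (C.A x))).symm

theorem autA_add (α : T ≃* T) (a b : F) : C.autA α (a + b) = C.autA α a + C.autA α b := by
  obtain ⟨x, hx⟩ := C.exists_A a
  obtain ⟨y, hy⟩ := C.exists_A b
  rw [← hx, ← hy, ← C.mulA, ← C.A_aut H, ← C.A_aut H, ← C.A_aut H, map_mul, C.mulA]

theorem autA_comp (α β : T ≃* T) (a : F) : C.autA α (C.autA β a) = C.autA (β.trans α) a := by
  obtain ⟨x, hx⟩ := C.exists_A a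
  rw [← hx, ← C.A_aut H, ← C.A_aut H, ← C.A_aut H]
  rfl

theorem autA_refl (a : F) : C.autA (MulEquiv.refl T) a = a := by
  obtain ⟨x, hx⟩ := C.exists_A a
  rw [← hx, ← C.A_aut H]
  rfl

theorem autA_bij (α : T ≃* T) : Function.Bijective (C.autA α) := by
  rw [Function.bijective_iff_has_inverse]
  refine ⟨C.autA α.symm, fun a => ?_, fun a => ?_⟩
  · rw [C.autA_comp H]
    have : α.trans α.symm = MulEquiv.refl T := by ext x; simp
    rw [this, C.autA_refl H]
  · rw [C.autA_comp H]
    have : α.symm.trans α = MulEquiv.refl T := by ext x; simp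
    rw [this, C.autA_refl H]

theorem A_sq (x : T) : C.A (x * x) = 0 := by
  rw [C.mulA]; exact add_self H _

theorem B_sq (x : T) : C.B (x * x) = C.A x ^ (s + 1) := by
  rw [C.mulB, add_self H, zero_add, pow_succ]

theorem pt_zero_add (b b' : F) : C.pt 0 (b + b') = C.pt 0 b * C.pt 0 b' := by
  apply C.inj
  · rw [C.mulA, C.A_pt, C.A_pt, C.A_pt, add_zero]
  · rw [C.mulB, C.B_pt, C.B_pt, C.B_pt, C.A_pt, C.A_pt, mul_zero, add_zero]

omit H in
/-- The induced map on the centre. -/
noncomputable def autB (α : T ≃* T) (b : F) : F := C.B (α (C.pt 0 b))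

theorem autB_add (α : T ≃* T) (b b' : F) : C.autB α (b + b') = C.autB α b + C.autB α b' := by
  unfold autB
  rw [C.pt_zero_add H, map_mul, C.mulB, C.A_aut_zero H α _ (C.A_pt 0 b'), mul_zero, add_zero]

theorem autB_pow (α : T ≃* T) (a : F) : C.autB α (a ^ (s + 1)) = C.autA α a ^ (s + 1) := by
  obtain ⟨x, hx⟩ := C.exists_A a
  have h1 : C.pt 0 (a ^ (s + 1)) = x * x := by
    apply C.inj
    · rw [C.A_pt, C.A_sq H]
    · rw [C.B_pt, C.B_sq H, hx]
  unfold autB
  rw [h1, map_mul, C.B_sq H, C.A_aut H, hx]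

/-- Every automorphism acts semilinearly on the first coordinate. -/
theorem aut_semilin (α : T ≃* T) :
    ∃ (μ : F) (σ : F ≃+* F), μ ≠ 0 ∧ ∀ x, C.A (α x) = μ * σ (C.A x) := by
  obtain ⟨μ, σ, hμ, h⟩ := semilin H (C.autA α) (C.autB α) (C.autA_add H α) (C.autA_bij H α)
    (C.autB_add H α) (C.autB_pow H α)
  exact ⟨μ, σ, hμ, fun x => by rw [C.A_aut H, h]⟩

/-- The action on central elements. -/
theorem B_aut_center (α : T ≃* T) (μ : F) (σ : F ≃+* F)
    (h : ∀ x, C.A (α x) = μ * σ (C.A x)) (z : T) (hz : C.A z = 0) :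
    C.B (α z) = μ ^ (s + 1) * σ (C.B z) := by
  obtain ⟨a, ha⟩ := pow_s1_surj H (C.B z)
  obtain ⟨y, hy⟩ := C.exists_A a
  have hzy : z = y * y := by
    apply C.inj
    · rw [C.A_sq H, hz]
    · rw [C.B_sq H, hy, ha]
  rw [hzy, map_mul, C.B_sq H, C.B_sq H, h, hy, mul_pow, map_pow]

/-- Automorphisms trivial on first coordinates fix the centre pointwise. -/
theorem aut_fix_center (α : T ≃* T) (h : ∀ x, C.A (α x) = C.A x) (z : T) (hz : C.A z = 0) :
    α z = z := by
  have hB := C.B_aut_center H α 1 (RingEquiv.refl F) (fun x => by rw [h]; simp) z hz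
  apply C.inj
  · rw [h]
  · rw [hB]; simp

theorem mul_self_of_A_zero (w : T) (hw : C.A w = 0) : w * w = 1 := by
  apply C.inj
  · rw [C.A_sq H, C.A_one]
  · rw [C.B_sq H, hw, zero_pow (by omega), C.B_one]

/-- An automorphism acting trivially on first coordinates is an involution. -/
theorem aut_sq_of_A (α : T ≃* T) (h : ∀ x, C.A (α x) = C.A x) (x : T) : α (α x) = x := by
  have hw : C.A (x⁻¹ * α x) = 0 := by rw [C.mulA, C.A_inv, h]; ring
  have h2 : α (α x) = α x * α (x⁻¹ * α x) := by rw [← map_mul]; congr 1; group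
  rw [h2, C.aut_fix_center H α h _ hw]
  have h3 : (x⁻¹ * α x) * (x⁻¹ * α x) = 1 := C.mul_self_of_A_zero H _ hw
  calc α x * (x⁻¹ * α x) = x * ((x⁻¹ * α x) * (x⁻¹ * α x)) := by group
    _ = x := by rw [h3, mul_one]

omit H in
/-- The subgroup of automorphisms trivial on first coordinates. -/
def Cen (C : SzCoord F s T) : Subgroup (MulAut T) where
  carrier := {α | ∀ x, C.A (α x) = C.A x}
  mul_mem' := by
    intro α β hα hβ x
    rw [MulAut.mul_apply, hα, hβ]
  one_mem' := fun x => rfl
  inv_mem' := by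
    intro α hα x
    have := hα (α⁻¹ x)
    rw [MulAut.apply_inv_self] at this
    exact this.symm

theorem Cen_normal : (C.Cen).Normal := by
  constructor
  intro α hα β x
  rw [MulAut.mul_apply, MulAut.mul_apply]
  have h1 := C.A_aut_congr H β (α (β⁻¹ x)) (β⁻¹ x) (hα _)
  rw [h1, MulAut.apply_inv_self]

theorem Cen_sq (α : MulAut T) (hα : α ∈ C.Cen) : α * α = 1 := by
  apply MulEquiv.ext
  intro x
  rw [MulAut.mul_apply]
  exact C.aut_sq_of_A H α hα x

theorem Cen_comm (α β : MulAut T) (hα : α ∈ C.Cen) (hβ : β ∈ C.Cen) : α * β = β * α := by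
  apply MulEquiv.ext
  intro x
  rw [MulAut.mul_apply, MulAut.mul_apply]
  have hwα : C.A (x⁻¹ * α x) = 0 := by rw [C.mulA, C.A_inv, hα]; ring
  have hwβ : C.A (x⁻¹ * β x) = 0 := by rw [C.mulA, C.A_inv, hβ]; ring
  have h1 : α (β x) = α x * (x⁻¹ * β x) := by
    have : β x = x * (x⁻¹ * β x) := by group
    conv_lhs => rw [this]
    rw [map_mul, C.aut_fix_center H α hα _ hwβ]
  have h2 : β (α x) = β x * (x⁻¹ * α x) := by
    have : α x = x * (x⁻¹ * α x) := by group
    conv_lhs => rw [this]
    rw [map_mul, C.aut_fix_center H β hβ _ hwα]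
  have hc : (x⁻¹ * α x) * (x⁻¹ * β x) = (x⁻¹ * β x) * (x⁻¹ * α x) := by
    have := (C.mem_center_iff H (x⁻¹ * α x)).2 hwα
    rw [Subgroup.mem_center_iff] at this
    exact (this _).symm
  rw [h1, h2]
  calc α x * (x⁻¹ * β x) = x * ((x⁻¹ * α x) * (x⁻¹ * β x)) := by group
    _ = x * ((x⁻¹ * β x) * (x⁻¹ * α x)) := by rw [hc]
    _ = β x * (x⁻¹ * α x) := by group

theorem Cen_isPGroup : IsPGroup 2 ↥(C.Cen) := by
  intro α
  refine ⟨1, Subtype.ext ?_⟩
  show (α : MulAut T) ^ 2 ^ 1 = 1
  rw [pow_one, pow_two]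
  exact C.Cen_sq H α.1 α.2

theorem elemAb_Cen : Cfsg.IsElementaryAbelian 2 (C.Cen) := by
  refine ⟨⟨⟨fun a b => Subtype.ext (C.Cen_comm H a.1 b.1 a.2 b.2)⟩⟩, fun a ha => ?_⟩
  rw [pow_two]
  exact C.Cen_sq H a ha

end SzCoord

end Cfsg.Agent.Lib.helper25.SzAut
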