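import Mathlib
import Cfsg.Agent.Lib.helper25.SzAut3

/-!
# The automorphism group of the Sylow 2-subgroup of a Suzuki group: counting
(library, seat helper25)
-/

set_option autoImplicit false
set_option linter.unusedSectionVars false
set_option linter.unusedSimpArgs false
set_option linter.style.haveILetI false

namespace Cfsg.Agent.Lib.helper25.SzAut

open Cfsg.Agent.Lib.helper2.Suzuki

theorem szcard_fiber_count {α β : Type*} [Finite α] [Finite β] (φ : α → β) (c : ℕ)
    (h : ∀ b, Nat.card {a // φ a = b} = c) : Nat.card α = Nat.card β * c := by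
  classical
  have := Fintype.ofFinite β
  rw [← Nat.card_congr (Equiv.sigmaFiberEquiv φ), Nat.card_sigma]
  simp only [h, Finset.sum_const, Finset.card_univ, smul_eq_mul, Nat.card_eq_fintype_card]

variable {F : Type*} [Field F] [Fintype F] {s : ℕ} {T : Type*} [Group T]

/-- The number of ring automorphisms of a field with `2^d` elements. -/
theorem szcard_ringAut [CharP F 2] (d : ℕ) (hd : Fintype.card F = 2 ^ d) :
    Nat.card (F ≃+* F) = d := by
  letI : Algebra (ZMod 2) F := ZMod.algebra F 2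
  have hcomm : ∀ (σ : F ≃+* F) (x : ZMod 2), σ (algebraMap (ZMod 2) F x) = algebraMap (ZMod 2) F x := by
    intro σ x
    have h1 : (algebraMap (ZMod 2) F) x = ((x.val : ℕ) : F) := by
      conv_lhs => rw [← ZMod.natCast_zmod_val x]
      rw [map_natCast]
    rw [h1, map_natCast]
  let e : (F ≃+* F) ≃ (F ≃ₐ[ZMod 2] F) :=
    { toFun := fun σ => AlgEquiv.ofRingEquiv (f := σ) (hcomm σ)
      invFun := fun τ => τ.toRingEquiv
      left_inv := fun σ => by ext x; rfl
      right_inv := fun τ => by ext x; rfl }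
  rw [Nat.card_congr e, IsGalois.card_aut_eq_finrank]
  have h2 := Module.card_eq_pow_finrank (K := ZMod 2) (V := F)
  rw [hd, ZMod.card] at h2
  exact (Nat.pow_right_injective (le_refl 2) h2).symm

/-- The number of additive self-maps of a field with `2^d` elements. -/
theorem szcard_addmaps [CharP F 2] (d : ℕ) (hd : Fintype.card F = 2 ^ d) :
    Nat.card {ζ : F → F // ∀ a b, ζ (a + b) = ζ a + ζ b} = Fintype.card F ^ d := by
  classical
  letI : Algebra (ZMod 2) F := ZMod.algebra F 2
  let e1 : {ζ : F → F // ∀ a b, ζ (a + b) = ζ a + ζ b} ≃ (F →ₗ[ZMod 2] F) :=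
    { toFun := fun ζ => AddMonoidHom.toZModLinearMap 2
        { toFun := fun a => ζ.1 a
          map_zero' := by
            have := ζ.2 0 0
            rw [add_zero] at this
            linear_combination -this
          map_add' := ζ.2 }
      invFun := fun L => ⟨fun a => L a, fun a b => map_add L a b⟩
      left_inv := fun ζ => by
        apply Subtype.ext
        funext a
        rfl
      right_inv := fun L => by
        apply LinearMap.ext
        intro a
        rfl }
  have e2 := ((Module.finBasis (ZMod 2) F).constr (ZMod 2) (M' := F)).toEquiv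
  rw [Nat.card_congr e1, ← Nat.card_congr e2, Nat.card_fun]
  have h2 := Module.card_eq_pow_finrank (K := ZMod 2) (V := F)
  rw [hd, ZMod.card] at h2
  have h3 : Module.finrank (ZMod 2) F = d := (Nat.pow_right_injective (le_refl 2) h2).symm
  simp only [Nat.card_eq_fintype_card, Fintype.card_fin, h3]

namespace SzCoord

variable (C : SzCoord F s T)

/-- The additive datum of an automorphism trivial on first coordinates. -/
noncomputable def zeta (α : MulAut T) (a : F) : F :=
  C.B (α (Classical.choose (C.exists_A a))) + C.B (Classical.choose (C.exists_A a))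

/-- The map attached to an additive map. -/
noncomputable def ofZetaFun (ζ : F → F) (x : T) : T := C.pt (C.A x) (C.B x + ζ (C.A x))

theorem A_ofZetaFun (ζ : F → F) (x : T) : C.A (C.ofZetaFun ζ x) = C.A x := C.A_pt _ _

theorem B_ofZetaFun (ζ : F → F) (x : T) : C.B (C.ofZetaFun ζ x) = C.B x + ζ (C.A x) := C.B_pt _ _

/-- The action of a field automorphism. -/
noncomputable def sigFun (σ : F ≃+* F) (x : T) : T := C.pt (σ (C.A x)) (σ (C.B x))

theorem A_sigFun (σ : F ≃+* F) (x : T) : C.A (C.sigFun σ x) = σ (C.A x) := C.A_pt _ _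

theorem B_sigFun (σ : F ≃+* F) (x : T) : C.B (C.sigFun σ x) = σ (C.B x) := C.B_pt _ _

/-- The action of a field automorphism. -/
noncomputable def sigAut (σ : F ≃+* F) : MulAut T where
  toFun := C.sigFun σ
  invFun := C.sigFun σ.symm
  left_inv := fun x => by
    apply C.inj
    · rw [C.A_sigFun, C.A_sigFun, RingEquiv.symm_apply_apply]
    · rw [C.B_sigFun, C.B_sigFun, RingEquiv.symm_apply_apply]
  right_inv := fun x => by
    apply C.inj
    · rw [C.A_sigFun, C.A_sigFun, RingEquiv.apply_symm_apply]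
    · rw [C.B_sigFun, C.B_sigFun, RingEquiv.apply_symm_apply]
  map_mul' := by
    intro x y
    apply C.inj
    · rw [C.A_sigFun, C.mulA, C.mulA, C.A_sigFun, C.A_sigFun, map_add]
    · rw [C.B_sigFun, C.mulB, C.mulB, C.B_sigFun, C.B_sigFun, C.A_sigFun, C.A_sigFun, map_add,
        map_add, map_mul, map_pow]

theorem A_sigAut (σ : F ≃+* F) (x : T) : C.A (C.sigAut σ x) = σ (C.A x) := C.A_sigFun σ x

/-- The scaling map. -/
noncomputable def dlFun (μ : F) (x : T) : T := C.pt (μ * C.A x) (μ ^ (s + 1) * C.B x)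

theorem A_dlFun (μ : F) (x : T) : C.A (C.dlFun μ x) = μ * C.A x := C.A_pt _ _

theorem B_dlFun (μ : F) (x : T) : C.B (C.dlFun μ x) = μ ^ (s + 1) * C.B x := C.B_pt _ _

/-- The scaling automorphisms. -/
noncomputable def dlAut (μ : Fˣ) : MulAut T where
  toFun := C.dlFun (μ : F)
  invFun := C.dlFun ((μ⁻¹ : Fˣ) : F)
  left_inv := fun x => by
    apply C.inj
    · rw [C.A_dlFun, C.A_dlFun, ← mul_assoc, ← Units.val_mul, inv_mul_cancel, Units.val_one,
        one_mul]
    · rw [C.B_dlFun, C.B_dlFun, ← mul_assoc, ← mul_pow, ← Units.val_mul, inv_mul_cancel,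
        Units.val_one, one_pow, one_mul]
  right_inv := fun x => by
    apply C.inj
    · rw [C.A_dlFun, C.A_dlFun, ← mul_assoc, ← Units.val_mul, mul_inv_cancel, Units.val_one,
        one_mul]
    · rw [C.B_dlFun, C.B_dlFun, ← mul_assoc, ← mul_pow, ← Units.val_mul, mul_inv_cancel,
        Units.val_one, one_pow, one_mul]
  map_mul' := by
    intro x y
    apply C.inj
    · rw [C.A_dlFun, C.mulA, C.mulA, C.A_dlFun, C.A_dlFun]; ring
    · rw [C.B_dlFun, C.mulB, C.mulB, C.B_dlFun, C.B_dlFun, C.A_dlFun, C.A_dlFun, mul_pow,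
        pow_succ (μ : F) s]; ring

theorem A_dlAut (μ : Fˣ) (x : T) : C.A (C.dlAut μ x) = (μ : F) * C.A x := C.A_dlFun _ x

variable (H : Hyp F s)
include H

theorem zeta_spec (α : MulAut T) (hα : α ∈ C.Cen) (x : T) :
    C.B (α x) + C.B x = C.zeta α (C.A x) := by
  have hs := s_ne_zero H
  set x0 := Classical.choose (C.exists_A (C.A x)) with hx0
  have hA0 : C.A x0 = C.A x := Classical.choose_spec (C.exists_A (C.A x))
  have hz : C.A (x0⁻¹ * x) = 0 := by rw [C.mulA, C.A_inv, hA0]; ring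
  have hx : x = x0 * (x0⁻¹ * x) := by group
  have h1 : α x = α x0 * (x0⁻¹ * x) := by
    conv_lhs => rw [hx]
    rw [map_mul, C.aut_fix_center H α hα _ hz]
  have h2 : C.B (α x) = C.B (α x0) + C.B (x0⁻¹ * x) := by
    rw [h1, C.mulB, hz, mul_zero, add_zero]
  have h3 : C.B x = C.B x0 + C.B (x0⁻¹ * x) := by
    conv_lhs => rw [hx]
    rw [C.mulB, hz, mul_zero, add_zero]
  show C.B (α x) + C.B x = C.B (α x0) + C.B x0
  rw [h2, h3]
  linear_combination C.B (x0⁻¹ * x) * H.h2

theorem zeta_add (α : MulAut T) (hα : α ∈ C.Cen) (a b : F) :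
    C.zeta α (a + b) = C.zeta α a + C.zeta α b := by
  obtain ⟨x, hx⟩ := C.exists_A a
  obtain ⟨y, hy⟩ := C.exists_A b
  rw [← hx, ← hy, ← C.mulA, ← C.zeta_spec H α hα, ← C.zeta_spec H α hα, ← C.zeta_spec H α hα,
    map_mul, C.mulB, C.mulB, hα x, hα y]
  linear_combination (C.A x ^ s * C.A y) * H.h2

theorem ofZetaFun_invol (ζ : F → F) (x : T) : C.ofZetaFun ζ (C.ofZetaFun ζ x) = x := by
  apply C.inj
  · rw [C.A_ofZetaFun, C.A_ofZetaFun]
  · rw [C.B_ofZetaFun, C.B_ofZetaFun, C.A_ofZetaFun]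
    linear_combination ζ (C.A x) * H.h2

/-- The automorphism attached to an additive map. -/
noncomputable def ofZeta (ζ : F → F) (h1 : ∀ a b, ζ (a + b) = ζ a + ζ b) : MulAut T where
  toFun := C.ofZetaFun ζ
  invFun := C.ofZetaFun ζ
  left_inv := C.ofZetaFun_invol H ζ
  right_inv := C.ofZetaFun_invol H ζ
  map_mul' := by
    intro x y
    apply C.inj
    · rw [C.A_ofZetaFun, C.mulA, C.mulA, C.A_ofZetaFun, C.A_ofZetaFun]
    · rw [C.B_ofZetaFun, C.mulB, C.mulB, C.B_ofZetaFun, C.B_ofZetaFun, C.A_ofZetaFun,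
        C.A_ofZetaFun, C.mulA, h1]
      ring

theorem ofZeta_apply (ζ : F → F) (h1 : ∀ a b, ζ (a + b) = ζ a + ζ b) (x : T) :
    C.ofZeta H ζ h1 x = C.ofZetaFun ζ x := rfl

/-- Central automorphisms correspond to additive maps. -/
noncomputable def cenEquiv : C.Cen ≃ {ζ : F → F // ∀ a b, ζ (a + b) = ζ a + ζ b} where
  toFun α := ⟨C.zeta α.1, C.zeta_add H α.1 α.2⟩
  invFun ζ := ⟨C.ofZeta H ζ.1 ζ.2, fun x => by rw [C.ofZeta_apply, C.A_ofZetaFun]⟩
  left_inv α := by
    apply Subtype.ext
    apply MulEquiv.ext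
    intro x
    apply C.inj
    · change C.A (C.ofZeta H (C.zeta α.1) (C.zeta_add H α.1 α.2) x) = C.A (α.1 x)
      rw [C.ofZeta_apply, C.A_ofZetaFun, α.2 x]
    · change C.B (C.ofZeta H (C.zeta α.1) (C.zeta_add H α.1 α.2) x) = C.B (α.1 x)
      rw [C.ofZeta_apply, C.B_ofZetaFun, ← C.zeta_spec H α.1 α.2]
      linear_combination C.B x * H.h2
  right_inv ζ := by
    apply Subtype.ext
    funext a
    obtain ⟨x, hx⟩ := C.exists_A a
    have hmem : C.ofZeta H ζ.1 ζ.2 ∈ C.Cen := fun x => by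
      rw [C.ofZeta_apply, C.A_ofZetaFun]
    show C.zeta (C.ofZeta H ζ.1 ζ.2) a = ζ.1 a
    rw [← hx, ← C.zeta_spec H _ hmem, C.ofZeta_apply, C.B_ofZetaFun]
    linear_combination C.B x * H.h2

theorem charP : CharP F 2 := CharTwo.of_one_ne_zero_of_two_eq_zero one_ne_zero H.h2

theorem card_Cen (d : ℕ) (hd : Fintype.card F = 2 ^ d) :
    Nat.card (C.Cen) = Fintype.card F ^ d := by
  haveI := charP H
  rw [Nat.card_congr (C.cenEquiv H)]
  exact szcard_addmaps d hd

theorem exists_dat (α : MulAut T) :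
    ∃ p : Fˣ × (F ≃+* F), ∀ x, C.A (α x) = (p.1 : F) * p.2 (C.A x) := by
  obtain ⟨μ, σ, hμ, h⟩ := C.aut_semilin H α
  exact ⟨(Units.mk0 μ hμ, σ), h⟩

/-- The semilinear datum of an automorphism. -/
noncomputable def dat (α : MulAut T) : Fˣ × (F ≃+* F) := Classical.choose (C.exists_dat H α)

theorem dat_spec (α : MulAut T) (x : T) :
    C.A (α x) = ((C.dat H α).1 : F) * (C.dat H α).2 (C.A x) :=
  Classical.choose_spec (C.exists_dat H α) x

theorem dat_unique (α : MulAut T) (p : Fˣ × (F ≃+* F))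
    (h : ∀ x, C.A (α x) = (p.1 : F) * p.2 (C.A x)) : C.dat H α = p := by
  have h1 : ∀ a : F, ((C.dat H α).1 : F) * (C.dat H α).2 a = (p.1 : F) * p.2 a := by
    intro a
    obtain ⟨x, hx⟩ := C.exists_A a
    rw [← hx, ← C.dat_spec H α x, h]
  have h2 : ((C.dat H α).1 : F) = (p.1 : F) := by
    have := h1 1
    simpa using this
  have h3 : ∀ a : F, (C.dat H α).2 a = p.2 a := by
    intro a
    have := h1 a
    rw [h2] at this
    exact mul_left_cancel₀ p.1.ne_zero this
  exact Prod.ext (Units.ext h2) (RingEquiv.ext h3)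

/-- The fibres of the datum map are cosets of the central automorphisms. -/
noncomputable def fiberEquivCen (p : Fˣ × (F ≃+* F)) :
    {α : MulAut T // C.dat H α = p} ≃ C.Cen where
  toFun α := ⟨(C.dlAut p.1 * C.sigAut p.2)⁻¹ * α.1, by
    intro x
    have h0 : ∀ y, C.A ((C.dlAut p.1 * C.sigAut p.2) y) = (p.1 : F) * p.2 (C.A y) := by
      intro y
      rw [MulAut.mul_apply, C.A_dlAut, C.A_sigAut]
    have hy : (C.dlAut p.1 * C.sigAut p.2) (((C.dlAut p.1 * C.sigAut p.2)⁻¹ * α.1) x) = α.1 x := by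
      show (C.dlAut p.1 * C.sigAut p.2) ((C.dlAut p.1 * C.sigAut p.2)⁻¹ (α.1 x)) = α.1 x
      rw [MulAut.apply_inv_self]
    have h1 := h0 (((C.dlAut p.1 * C.sigAut p.2)⁻¹ * α.1) x)
    rw [hy] at h1
    have h2 := C.dat_spec H α.1 x
    rw [α.2] at h2
    rw [h2] at h1
    have h3 := mul_left_cancel₀ p.1.ne_zero h1
    exact (p.2.injective h3).symm⟩
  invFun γ := ⟨(C.dlAut p.1 * C.sigAut p.2) * γ.1, by
    apply C.dat_unique H
    intro x
    rw [MulAut.mul_apply, MulAut.mul_apply, C.A_dlAut, C.A_sigAut, γ.2 x]⟩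
  left_inv α := by
    apply Subtype.ext
    show (C.dlAut p.1 * C.sigAut p.2) * ((C.dlAut p.1 * C.sigAut p.2)⁻¹ * α.1) = α.1
    rw [mul_inv_cancel_left]
  right_inv γ := by
    apply Subtype.ext
    show (C.dlAut p.1 * C.sigAut p.2)⁻¹ * ((C.dlAut p.1 * C.sigAut p.2) * γ.1) = γ.1
    rw [inv_mul_cancel_left]

omit H in
theorem finite_aut (C : SzCoord F s T) : Finite (MulAut T) := by
  haveI := C.finite
  have : Function.Injective (fun α : MulAut T => (α : T → T)) := by
    intro α β h
    exact MulEquiv.ext (congrFun h)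
  exact Finite.of_injective _ this

/-- The order of the automorphism group. -/
theorem card_aut (C : SzCoord F s T) (d : ℕ) (hd : Fintype.card F = 2 ^ d) :
    Nat.card (MulAut T) = (Fintype.card F - 1) * d * Fintype.card F ^ d := by
  classical
  haveI := charP H
  haveI := C.finite
  haveI : Finite (F ≃+* F) :=
    Finite.of_injective (fun σ : F ≃+* F => (σ : F → F)) (fun σ τ h => RingEquiv.ext (congrFun h))
  haveI := C.finite_aut
  have h := szcard_fiber_count (C.dat H) (Nat.card (C.Cen))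
    (fun p => Nat.card_congr (C.fiberEquivCen H p))
  rw [h, Nat.card_prod, C.card_Cen H d hd, szcard_ringAut d hd, Nat.card_eq_fintype_card,
    Fintype.card_units]

/-- The `2`-core of the automorphism group. -/
theorem pCore_eq (d : ℕ) (hd : Fintype.card F = 2 ^ d) (hodd : Odd d) :
    Cfsg.pCore 2 (MulAut T) = C.Cen := by
  haveI : Fact (Nat.Prime 2) := ⟨Nat.prime_two⟩
  haveI := C.finite_aut
  haveI := C.Cen_normal H
  have hd0 : d ≠ 0 := by
    rintro rfl
    exact absurd hodd (by decide)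
  have hidx : ¬ 2 ∣ (C.Cen).index := by
    have h1 := Subgroup.card_mul_index (C.Cen)
    rw [C.card_Cen H d hd, C.card_aut H d hd] at h1
    have h2 : (C.Cen).index = (Fintype.card F - 1) * d := by
      apply Nat.eq_of_mul_eq_mul_left (pow_pos (Fintype.card_pos (α := F)) d)
      rw [h1]; ring
    rw [h2]
    have hodd2 : Odd ((Fintype.card F - 1) * d) := by
      apply Odd.mul _ hodd
      rw [hd]
      exact Nat.Even.sub_odd (Nat.one_le_two_pow) (Even.pow_of_ne_zero even_two hd0) odd_one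
    intro hdv
    exact (Nat.not_even_iff_odd.2 hodd2) (even_iff_two_dvd.2 hdv)
  let P : Sylow 2 (MulAut T) := (C.Cen_isPGroup H).toSylow hidx
  have hP : (P : Subgroup (MulAut T)) = C.Cen := rfl
  have hPn : (P : Subgroup (MulAut T)).Normal := by rw [hP]; infer_instance
  have huniq := Sylow.unique_of_normal P hPn
  apply le_antisymm
  · apply sSup_le
    rintro N ⟨hNn, hNp⟩
    obtain ⟨Q, hQ⟩ := hNp.exists_le_sylow
    have : Q = P := Subsingleton.elim _ _
    rw [this] at hQ
    exact hQ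
  · exact le_sSup ⟨C.Cen_normal H, C.Cen_isPGroup H⟩

/-- The automorphism group of a group with Suzuki coordinates. -/
theorem aut_structure (C : SzCoord F s T) (d : ℕ) (hd : Fintype.card F = 2 ^ d) (hodd : Odd d) :
    Cfsg.IsElementaryAbelian 2 (Cfsg.pCore 2 (MulAut T)) ∧
      Nat.card ↥(Cfsg.pCore 2 (MulAut T)) = 2 ^ (d ^ 2) ∧
      Nat.card (MulAut T) = 2 ^ (d ^ 2) * (d * (2 ^ d - 1)) := by
  have hpc := C.pCore_eq H d hd hodd
  have hpow : Fintype.card F ^ d = 2 ^ (d ^ 2) := by
    rw [hd, ← pow_mul, sq]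
  refine ⟨?_, ?_, ?_⟩
  · rw [hpc]; exact C.elemAb_Cen H
  · rw [hpc, C.card_Cen H d hd, hpow]
  · rw [C.card_aut H d hd, hpow, hd]
    ring

end SzCoord

end Cfsg.Agent.Lib.helper25.SzAut
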