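import Mathlib
import Cfsg.Agent.Lib.helper25.SzAut4
import Cfsg.Agent.Lib.helper25.SzStruct

/-!
# Coordinates on the Sylow 2-subgroups of the matrix Suzuki group (library, seat helper25)
-/

set_option autoImplicit false
set_option linter.unusedSectionVars false
set_option linter.unusedSimpArgs false

namespace Cfsg.Agent.Lib.helper25.SzAut

open Cfsg.Agent.Lib.helper2.Suzuki Cfsg.Agent.Lib.helper25.SzIso

variable {F : Type*} [Field F] [Fintype F] {s : ℕ}

/-- Coordinates on the translation group. -/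
noncomputable def coordUs (H : Hyp F s) : SzCoord F s ↥(Us H) where
  A := fun g => g.1.val 2 3
  B := fun g => g.1.val 1 3
  inj := by
    rintro ⟨_, a, b, rfl⟩ ⟨_, a', b', rfl⟩ h1 h2
    have ha : a = a' := by simpa [tS, tm] using h1
    have hb : b = b' := by simpa [tS, tm] using h2
    subst ha; subst hb; rfl
  surj := fun a b => ⟨⟨tS s a b, a, b, rfl⟩, by simp [tS, tm], by simp [tS, tm]⟩
  mulA := by
    rintro ⟨_, a, b, rfl⟩ ⟨_, a', b', rfl⟩
    show (tS s a b * tS s a' b').val 2 3 = (tS s a b).val 2 3 + (tS s a' b').val 2 3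
    rw [tS_mul H]; simp [tS, tm]
  mulB := by
    rintro ⟨_, a, b, rfl⟩ ⟨_, a', b', rfl⟩
    show (tS s a b * tS s a' b').val 1 3
      = (tS s a b).val 1 3 + (tS s a' b').val 1 3 + (tS s a b).val 2 3 ^ s * (tS s a' b').val 2 3
    rw [tS_mul H]; simp [tS, tm]

/-- Coordinates on every Sylow `2`-subgroup of the matrix Suzuki group. -/
theorem exists_coord (H : Hyp F s) (r : ℕ) (hr : 1 ≤ r) (hq : Fintype.card F = 2 ^ r)
    (P : Sylow 2 ↥(Cfsg.Lie.Sz F s)) :
    Nonempty (SzCoord F s ↥(P : Subgroup ↥(Cfsg.Lie.Sz F s))) := by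
  haveI : Fact (Nat.Prime 2) := ⟨Nat.prime_two⟩
  obtain ⟨S, hS, -⟩ := sz_struct H r hr hq
  haveI : Finite ↥(Cfsg.Lie.Sz F s) := Finite.of_injective _ Subtype.val_injective
  have e1 : ↥(P : Subgroup ↥(Cfsg.Lie.Sz F s)) ≃* ↥(S : Subgroup ↥(Cfsg.Lie.Sz F s)) :=
    Sylow.equiv P S
  have e2 : ↥(S : Subgroup ↥(Cfsg.Lie.Sz F s)) ≃* ↥(szU H) := MulEquiv.subgroupCongr hS
  have e3 : ↥(szU H) ≃* ↥((Us H).subgroupOf (Gs F s)) :=
    (Subgroup.equivMapOfInjective _ _ (szEquiv H).injective).symm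
  have e4 : ↥((Us H).subgroupOf (Gs F s)) ≃* ↥(Us H) :=
    Subgroup.subgroupOfEquivOfLe (Us_le_Gs H)
  exact ⟨(coordUs H).comap (((e1.trans e2).trans e3).trans e4)⟩

end Cfsg.Agent.Lib.helper25.SzAut
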