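import Mathlib
import Cfsg.Agent.Lib.helper25.SzDeg1

/-!
# Suzuki groups: minimal degree of a complex representation (library, seat helper25)
-/

set_option autoImplicit false
set_option linter.unusedSectionVars false
set_option linter.unusedSimpArgs false
set_option linter.unusedVariables false
set_option linter.style.haveILetI false

namespace Cfsg.Agent.Lib.helper25.SzDeg

open Cfsg.Agent.Lib.helper2.Suzuki
open Cfsg.Agent.Lib.helper2
open Cfsg.Agent.Lib.helper25.SzOut
open Cfsg.Agent.Lib.helper25.SzSub (tG_congr)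
open scoped Kronecker
open scoped Matrix

section main

variable {F : Type*} [Field F] [Fintype F] {s : ℕ} (H : Hyp F s) {k : ℕ}
  (M : ↥(Gs F s) →* Matrix (Fin k) (Fin k) ℂ)

/-- central translations -/
noncomputable def Zm (b : F) : Matrix (Fin k) (Fin k) ℂ := M (tG H 0 b)

/-- translations -/
noncomputable def Xm (a : F) : Matrix (Fin k) (Fin k) ℂ := M (tG H a 0)

/-- the projection onto the eigenspace of the chosen central character -/
noncomputable def Pm : Matrix (Fin k) (Fin k) ℂ :=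
  (Fintype.card F : ℂ)⁻¹ • ∑ b : F, lam F s b • Zm H M b

/-- the projection onto the fixed space of the centre -/
noncomputable def P1m : Matrix (Fin k) (Fin k) ℂ :=
  (Fintype.card F : ℂ)⁻¹ • ∑ b : F, Zm H M b

/-- translations cut down to the eigenspace -/
noncomputable def Am (a : F) : Matrix (Fin k) (Fin k) ℂ := Xm H M a * Pm H M

/-- the averaging idempotent summands -/
noncomputable def Tm (a : F) : Matrix (Fin k × Fin k) (Fin k × Fin k) ℂ :=
  lam F s (a ^ (s + 1)) • ((Am H M a)ᵀ ⊗ₖ (Am H M a))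

/-- the averaging idempotent -/
noncomputable def Km : Matrix (Fin k × Fin k) (Fin k × Fin k) ℂ :=
  (Fintype.card F : ℂ)⁻¹ • ∑ a : F, Tm H M a

include H

theorem card_ne : (Fintype.card F : ℂ) ≠ 0 := by exact_mod_cast Fintype.card_ne_zero

theorem Zm_mul (b b' : F) : Zm H M b * Zm H M b' = Zm H M (b + b') := by
  unfold Zm
  rw [← map_mul, tG_mul]
  exact congrArg M (tG_congr H (by ring) (by ring))

theorem Zm_zero : Zm H M 0 = 1 := by
  unfold Zm
  rw [tG_zero, map_one]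

theorem Xm_zero : Xm H M 0 = 1 := by
  unfold Xm
  rw [tG_zero, map_one]

theorem Xm_mul (a a' : F) : Xm H M a * Xm H M a' = Xm H M (a + a') * Zm H M (a ^ s * a') := by
  unfold Xm Zm
  rw [← map_mul, ← map_mul, tG_mul, tG_mul]
  exact congrArg M (tG_congr H (by ring) (by ring))

theorem Xm_Zm_comm (a b : F) : Xm H M a * Zm H M b = Zm H M b * Xm H M a := by
  unfold Xm Zm
  rw [← map_mul, ← map_mul, tG_mul, tG_mul]
  exact congrArg M (tG_congr H (by ring) (by rw [zero_pow (s_ne_zero H)]; ring))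

theorem Zm_Pm (b : F) : Zm H M b * Pm H M = lam F s b • Pm H M := by
  unfold Pm
  rw [Matrix.mul_smul, Finset.mul_sum, smul_comm (lam F s b),
    Finset.smul_sum (r := lam F s b)]
  congr 1
  rw [← Equiv.sum_comp (Equiv.addLeft b) (fun c => lam F s b • lam F s c • Zm H M c)]
  apply Finset.sum_congr rfl
  intro c _
  show Zm H M b * (lam F s c • Zm H M c) = lam F s b • lam F s (b + c) • Zm H M (b + c)
  rw [Matrix.mul_smul, Zm_mul, lam_add H, smul_smul]
  congr 1
  have h1 := lam_sq H b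
  linear_combination (-(lam F s c)) * h1

theorem Pm_idem : Pm H M * Pm H M = Pm H M := by
  have hq := card_ne H
  have hP : Pm H M = (Fintype.card F : ℂ)⁻¹ • ∑ b : F, lam F s b • Zm H M b := rfl
  have e : Pm H M * Pm H M
      = (Fintype.card F : ℂ)⁻¹ • ∑ b : F, lam F s b • (Zm H M b * Pm H M) := by
    nth_rewrite 1 [hP]
    rw [Matrix.smul_mul, Finset.sum_mul]
    congr 1
    apply Finset.sum_congr rfl
    intro b _
    rw [Matrix.smul_mul]
  rw [e]
  have e2 : ∑ b : F, lam F s b • (Zm H M b * Pm H M) = (Fintype.card F : ℂ) • Pm H M := by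
    have h1 : ∀ b : F, lam F s b • (Zm H M b * Pm H M) = Pm H M := by
      intro b
      rw [Zm_Pm, smul_smul, lam_sq H, one_smul]
    simp only [h1, Finset.sum_const, Finset.card_univ]
    rw [Nat.cast_smul_eq_nsmul]
  rw [e2, smul_smul, inv_mul_cancel₀ hq, one_smul]

theorem Zm_S (b : F) : Zm H M b * ∑ c : F, Zm H M c = ∑ c : F, Zm H M c := by
  rw [Finset.mul_sum, ← Equiv.sum_comp (Equiv.addLeft b) (fun c => Zm H M c)]
  apply Finset.sum_congr rfl
  intro c _
  exact Zm_mul H M b c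

theorem P1m_idem : P1m H M * P1m H M = P1m H M := by
  have hq := card_ne H
  have hSS : (∑ c : F, Zm H M c) * (∑ c : F, Zm H M c)
      = (Fintype.card F : ℂ) • ∑ c : F, Zm H M c := by
    rw [Finset.sum_mul]
    simp only [Zm_S H M, Finset.sum_const, Finset.card_univ]
    rw [Nat.cast_smul_eq_nsmul]
  unfold P1m
  rw [Matrix.smul_mul, Matrix.mul_smul, hSS, smul_smul, smul_smul, mul_assoc,
    inv_mul_cancel₀ hq, mul_one]

theorem tr_Zm {b : F} (hb : b ≠ 0) : (Zm H M b).trace = (Zm H M 1).trace := by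
  have hs := s_ne_zero H
  obtain ⟨d, hd⟩ := pow_s1_surj H b
  obtain ⟨e, he⟩ := exists_sqrt H d
  have he0 : e ≠ 0 := by
    rintro rfl
    rw [zero_pow (by norm_num)] at he
    rw [← he, zero_pow (by omega)] at hd
    exact hb hd.symm
  have h1 : eG H (Units.mk0 e he0) * tG H 0 1 * (eG H (Units.mk0 e he0))⁻¹ = tG H 0 b := by
    rw [eG_conj]
    refine tG_congr H (by simp) ?_
    rw [Units.val_mk0, mul_one, ← hd, ← he]
    ring
  unfold Zm
  rw [← h1, map_mul, map_mul, Matrix.trace_mul_comm, ← mul_assoc, ← map_mul, inv_mul_cancel,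
    map_one, one_mul]

open Classical in
theorem tr_Zm' (b : F) : (Zm H M b).trace
    = (Zm H M 1).trace + if b = 0 then ((k : ℂ) - (Zm H M 1).trace) else 0 := by
  by_cases hb : b = 0
  · subst hb
    rw [if_pos rfl, Zm_zero, Matrix.trace_one, Fintype.card_fin]
    ring
  · rw [if_neg hb, tr_Zm H M hb, add_zero]

theorem tr_Pm : (Fintype.card F : ℂ) * (Pm H M).trace = (k : ℂ) - (Zm H M 1).trace := by
  classical
  have hq := card_ne H
  unfold Pm
  rw [Matrix.trace_smul, Matrix.trace_sum, smul_eq_mul, ← mul_assoc, mul_inv_cancel₀ hq, one_mul]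
  have h1 : ∀ b : F, (lam F s b • Zm H M b).trace
      = lam F s b * (Zm H M 1).trace + if b = 0 then ((k : ℂ) - (Zm H M 1).trace) else 0 := by
    intro b
    rw [Matrix.trace_smul, smul_eq_mul, tr_Zm' H M b, mul_add]
    by_cases hb : b = 0
    · subst hb
      rw [if_pos rfl, lam_zero H]
      ring
    · rw [if_neg hb, mul_zero]
  simp only [h1]
  rw [Finset.sum_add_distrib, ← Finset.sum_mul, lam_sum H, zero_mul, zero_add,
    Finset.sum_ite_eq' Finset.univ (0 : F) (fun _ => (k : ℂ) - (Zm H M 1).trace)]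
  simp

theorem tr_P1m : (Fintype.card F : ℂ) * (P1m H M).trace
    = (k : ℂ) + ((Fintype.card F : ℂ) - 1) * (Zm H M 1).trace := by
  classical
  have hq := card_ne H
  unfold P1m
  rw [Matrix.trace_smul, Matrix.trace_sum, smul_eq_mul, ← mul_assoc, mul_inv_cancel₀ hq, one_mul]
  have h1 : ∑ b : F, (Zm H M b).trace = ∑ b : F, ((Zm H M 1).trace
      + if b = 0 then ((k : ℂ) - (Zm H M 1).trace) else 0) :=
    Finset.sum_congr rfl (fun b _ => tr_Zm' H M b)
  rw [h1, Finset.sum_add_distrib, Finset.sum_const, Finset.card_univ,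
    Finset.sum_ite_eq' Finset.univ (0 : F) (fun _ => (k : ℂ) - (Zm H M 1).trace)]
  simp only [Finset.mem_univ, if_true, nsmul_eq_mul]
  ring

theorem deg_rel (hne : (Zm H M 1).trace ≠ k) :
    ∃ d₁ : ℕ, d₁ ≠ 0 ∧ (Pm H M).trace = d₁ ∧ (Fintype.card F - 1) * d₁ ≤ k := by
  have hq := card_ne H
  obtain ⟨d₁, hd₁, -⟩ := idem_trace _ (Pm_idem H M)
  obtain ⟨d₀, hd₀, -⟩ := idem_trace _ (P1m_idem H M)
  have e1 := tr_Pm H M
  have e2 := tr_P1m H M
  rw [hd₁] at e1
  rw [hd₀] at e2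
  have hτ : (Zm H M 1).trace = (d₀ : ℂ) - d₁ := by
    apply mul_left_cancel₀ hq
    linear_combination e1 - e2
  refine ⟨d₁, ?_, hd₁, ?_⟩
  · rintro rfl
    apply hne
    rw [Nat.cast_zero, mul_zero] at e1
    linear_combination e1
  · have h3 : ((k + d₁ : ℕ) : ℂ) = ((Fintype.card F * d₁ + d₀ : ℕ) : ℂ) := by
      push_cast
      rw [hτ] at e1
      linear_combination (-1 : ℂ) * e1
    have h4 : k + d₁ = Fintype.card F * d₁ + d₀ := by exact_mod_cast h3
    have hq1 : 1 ≤ Fintype.card F := Fintype.card_pos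
    obtain ⟨q', hq'⟩ : ∃ q', Fintype.card F = q' + 1 := ⟨Fintype.card F - 1, by omega⟩
    rw [hq'] at h4 ⊢
    rw [Nat.add_sub_cancel]
    have h5 : (q' + 1) * d₁ = q' * d₁ + d₁ := by ring
    rw [h5] at h4
    omega

theorem Xm_Pm_comm (a : F) : Xm H M a * Pm H M = Pm H M * Xm H M a := by
  unfold Pm
  rw [Matrix.mul_smul, Matrix.smul_mul, Finset.mul_sum, Finset.sum_mul]
  congr 1
  apply Finset.sum_congr rfl
  intro c _
  rw [Matrix.mul_smul, Matrix.smul_mul, Xm_Zm_comm]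

theorem Pm_Am (a : F) : Pm H M * Am H M a = Am H M a := by
  unfold Am
  rw [← mul_assoc, ← Xm_Pm_comm, mul_assoc, Pm_idem]

theorem Am_Pm (a : F) : Am H M a * Pm H M = Am H M a := by
  unfold Am
  rw [mul_assoc, Pm_idem]

theorem Am_zero : Am H M 0 = Pm H M := by
  unfold Am
  rw [Xm_zero, one_mul]

theorem Am_mul (a a' : F) :
    Am H M a * Am H M a' = lam F s (a ^ s * a') • Am H M (a + a') := by
  unfold Am
  calc Xm H M a * Pm H M * (Xm H M a' * Pm H M)
      = Xm H M a * (Pm H M * Xm H M a') * Pm H M := by simp only [mul_assoc]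
    _ = Xm H M a * (Xm H M a' * Pm H M) * Pm H M := by rw [← Xm_Pm_comm]
    _ = (Xm H M a * Xm H M a') * (Pm H M * Pm H M) := by simp only [mul_assoc]
    _ = Xm H M (a + a') * (Zm H M (a ^ s * a') * Pm H M) := by
        rw [Xm_mul, Pm_idem, mul_assoc]
    _ = lam F s (a ^ s * a') • (Xm H M (a + a') * Pm H M) := by rw [Zm_Pm, Matrix.mul_smul]

theorem Am_sq (a : F) : Am H M a * Am H M a = lam F s (a ^ (s + 1)) • Pm H M := by
  rw [Am_mul, add_self_zero H, Am_zero, ← pow_succ]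

theorem Tm_mul (a a' : F) : Tm H M a * Tm H M a' = Tm H M (a + a') := by
  have e : (a + a') ^ (s + 1) = a ^ (s + 1) + a' ^ (s + 1) + a' ^ s * a + a ^ s * a' := by
    rw [pow_succ, H.hadd]
    ring
  have hlam : lam F s ((a + a') ^ (s + 1)) = lam F s (a ^ (s + 1)) * lam F s (a' ^ (s + 1))
      * lam F s (a' ^ s * a) * lam F s (a ^ s * a') := by
    rw [e, lam_add H, lam_add H, lam_add H]
  have h1 : (Am H M a)ᵀ * (Am H M a')ᵀ = lam F s (a' ^ s * a) • (Am H M (a + a'))ᵀ := by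
    rw [← Matrix.transpose_mul, Am_mul H M a' a, Matrix.transpose_smul, add_comm a' a]
  have h2 := Am_mul H M a a'
  unfold Tm
  rw [Matrix.smul_mul, Matrix.mul_smul, smul_smul, ← Matrix.mul_kronecker_mul, h1, h2,
    Matrix.smul_kronecker, Matrix.kronecker_smul, smul_smul, smul_smul, hlam]

theorem Km_idem : Km H M * Km H M = Km H M := by
  have hq := card_ne H
  have hSS : (∑ a : F, Tm H M a) * (∑ a : F, Tm H M a)
      = (Fintype.card F : ℂ) • ∑ a : F, Tm H M a := by
    rw [Finset.sum_mul]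
    have h1 : ∀ a : F, Tm H M a * ∑ c : F, Tm H M c = ∑ c : F, Tm H M c := by
      intro a
      rw [Finset.mul_sum, ← Equiv.sum_comp (Equiv.addLeft a) (fun c => Tm H M c)]
      apply Finset.sum_congr rfl
      intro c _
      exact Tm_mul H M a c
    simp only [h1, Finset.sum_const, Finset.card_univ]
    rw [Nat.cast_smul_eq_nsmul]
  unfold Km
  rw [Matrix.smul_mul, Matrix.mul_smul, hSS, smul_smul, smul_smul, mul_assoc,
    inv_mul_cancel₀ hq, mul_one]

theorem tr_Km : (Fintype.card F : ℂ) * (Km H M).trace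
    = ∑ a : F, lam F s (a ^ (s + 1)) * (Am H M a).trace ^ 2 := by
  have hq := card_ne H
  unfold Km
  rw [Matrix.trace_smul, Matrix.trace_sum, smul_eq_mul, ← mul_assoc, mul_inv_cancel₀ hq, one_mul]
  apply Finset.sum_congr rfl
  intro a _
  unfold Tm
  rw [Matrix.trace_smul, Matrix.trace_kronecker, Matrix.trace_transpose, smul_eq_mul]
  ring

theorem Km_ne_zero (hP : Pm H M ≠ 0) : Km H M ≠ 0 := by
  have hq := card_ne H
  intro hK
  apply hP
  have h1 : ∀ a : F, Tm H M a *ᵥ Matrix.vec (Pm H M) = Matrix.vec (Pm H M) := by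
    intro a
    unfold Tm
    rw [Matrix.smul_mulVec, Matrix.kronecker_mulVec_vec, Matrix.transpose_transpose, Am_Pm,
      Am_sq, Matrix.vec_smul, smul_smul, lam_sq H, one_smul]
  have h2 : Km H M *ᵥ Matrix.vec (Pm H M) = Matrix.vec (Pm H M) := by
    unfold Km
    rw [Matrix.smul_mulVec, Matrix.sum_mulVec]
    simp only [h1, Finset.sum_const, Finset.card_univ]
    rw [← Nat.cast_smul_eq_nsmul ℂ, smul_smul, inv_mul_cancel₀ hq, one_smul]
  rw [hK, Matrix.zero_mulVec] at h2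
  exact Matrix.vec_eq_zero_iff.1 h2.symm

theorem tr_Am_zero {a : F} (ha0 : a ≠ 0) (ha1 : a ≠ 1) : (Am H M a).trace = 0 := by
  obtain ⟨a', ha'⟩ := exists_anti H ha0 ha1
  have hlam := lam_not H ha'
  have hXX : Xm H M a' * Xm H M a
      = Xm H M a * Xm H M a' * Zm H M (a' ^ s * a + a ^ s * a') := by
    unfold Xm Zm
    rw [← map_mul, ← map_mul, ← map_mul, tG_mul, tG_mul, tG_mul]
    exact congrArg M (tG_congr H (by ring) (by linear_combination (-(a ^ s * a')) * H.h2))
  have hY1 : M ((tG H a' 0)⁻¹) * Xm H M a' = 1 := by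
    unfold Xm
    rw [← map_mul, inv_mul_cancel, map_one]
  have hY2 : Xm H M a' * M ((tG H a' 0)⁻¹) = 1 := by
    unfold Xm
    rw [← map_mul, mul_inv_cancel, map_one]
  have hconj : Xm H M a' * (Xm H M a * Pm H M) * M ((tG H a' 0)⁻¹)
      = lam F s (a' ^ s * a + a ^ s * a') • (Xm H M a * Pm H M) := by
    calc Xm H M a' * (Xm H M a * Pm H M) * M ((tG H a' 0)⁻¹)
        = (Xm H M a' * Xm H M a) * Pm H M * M ((tG H a' 0)⁻¹) := by simp only [mul_assoc]
      _ = Xm H M a * Xm H M a' * (Zm H M (a' ^ s * a + a ^ s * a') * Pm H M)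
            * M ((tG H a' 0)⁻¹) := by
          rw [hXX]
          simp only [mul_assoc]
      _ = lam F s (a' ^ s * a + a ^ s * a')
            • (Xm H M a * (Xm H M a' * Pm H M) * M ((tG H a' 0)⁻¹)) := by
          rw [Zm_Pm, Matrix.mul_smul, Matrix.smul_mul]
          simp only [mul_assoc]
      _ = lam F s (a' ^ s * a + a ^ s * a')
            • (Xm H M a * (Pm H M * Xm H M a') * M ((tG H a' 0)⁻¹)) := by
          rw [Xm_Pm_comm H M a']
      _ = lam F s (a' ^ s * a + a ^ s * a') • (Xm H M a * Pm H M) := by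
          congr 1
          rw [mul_assoc, mul_assoc, hY2, mul_one]
  have htr : (Xm H M a' * (Xm H M a * Pm H M) * M ((tG H a' 0)⁻¹)).trace
      = (Xm H M a * Pm H M).trace := by
    rw [Matrix.trace_mul_comm, ← mul_assoc, hY1, one_mul]
  rw [hconj, Matrix.trace_smul, smul_eq_mul, hlam] at htr
  unfold Am
  linear_combination (-1 / 2 : ℂ) * htr

theorem twisted_bound {d₁ : ℕ} (hd0 : d₁ ≠ 0) (hd : (Pm H M).trace = d₁) :
    Fintype.card F ≤ 2 * d₁ ^ 2 := by
  have hq := card_ne H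
  have hP0 : Pm H M ≠ 0 := by
    intro h
    rw [h, Matrix.trace_zero] at hd
    exact hd0 (by exact_mod_cast hd.symm)
  obtain ⟨dK, hdK, hdK0⟩ := idem_trace _ (Km_idem H M)
  have hdKne : dK ≠ 0 := fun h => Km_ne_zero H M hP0 (hdK0 h)
  have hsum := tr_Km H M
  rw [hdK] at hsum
  have h01 : (0 : F) ≠ 1 := zero_ne_one
  have hS : ∑ a : F, lam F s (a ^ (s + 1)) * (Am H M a).trace ^ 2
      = lam F s ((0 : F) ^ (s + 1)) * (Am H M 0).trace ^ 2
        + lam F s ((1 : F) ^ (s + 1)) * (Am H M 1).trace ^ 2 := by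
    apply Finset.sum_eq_add (0 : F) 1 h01
    · intro c _ hc
      rw [tr_Am_zero H M hc.1 hc.2]
      ring
    · intro h
      exact absurd (Finset.mem_univ _) h
    · intro h
      exact absurd (Finset.mem_univ _) h
  rw [hS, Am_zero, hd, zero_pow (Nat.succ_ne_zero s), lam_zero H, one_pow, one_mul] at hsum
  obtain ⟨j₁, j₂, hj, hjt⟩ : ∃ j₁ j₂ : ℕ, j₁ + j₂ = d₁ ∧
      lam F s 1 * (Am H M 1).trace ^ 2 = ((j₁ : ℂ) - j₂) ^ 2 := by
    have hsq := Am_sq H M 1
    rw [one_pow] at hsq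
    rcases lam_cases H (1 : F) with h1 | h1
    · rw [h1, one_smul] at hsq
      obtain ⟨j₁, j₂, hj, ht⟩ := invol_trace (Pm H M) (Am H M 1) (Pm_idem H M) (Pm_Am H M 1)
        (Am_Pm H M 1) hsq d₁ hd
      exact ⟨j₁, j₂, hj, by rw [h1, ht, one_mul]⟩
    · rw [h1] at hsq
      have hA' : (Complex.I • Am H M 1) * (Complex.I • Am H M 1) = Pm H M := by
        rw [Matrix.smul_mul, Matrix.mul_smul, smul_smul, hsq, smul_smul, Complex.I_mul_I]
        norm_num
      obtain ⟨j₁, j₂, hj, ht⟩ := invol_trace (Pm H M) (Complex.I • Am H M 1) (Pm_idem H M)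
        (by rw [Matrix.mul_smul, Pm_Am]) (by rw [Matrix.smul_mul, Am_Pm]) hA' d₁ hd
      rw [Matrix.trace_smul, smul_eq_mul] at ht
      refine ⟨j₁, j₂, hj, ?_⟩
      rw [h1, ← ht]
      have hI := Complex.I_mul_I
      linear_combination (-(Am H M 1).trace ^ 2) * hI
  rw [hjt] at hsum
  have h5 : (Fintype.card F : ℤ) * dK = (d₁ : ℤ) ^ 2 + ((j₁ : ℤ) - j₂) ^ 2 := by
    exact_mod_cast hsum
  have h6 : ((j₁ : ℤ) - j₂) ^ 2 ≤ (d₁ : ℤ) ^ 2 := by
    have e : (d₁ : ℤ) = j₁ + j₂ := by exact_mod_cast hj.symm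
    rw [e]
    nlinarith [mul_nonneg (Int.natCast_nonneg j₁) (Int.natCast_nonneg j₂)]
  have h7 : (Fintype.card F : ℤ) ≤ (Fintype.card F : ℤ) * dK := by
    have h8 : (1 : ℤ) ≤ dK := by exact_mod_cast Nat.pos_of_ne_zero hdKne
    nlinarith [Int.natCast_nonneg (Fintype.card F)]
  have h9 : (Fintype.card F : ℤ) ≤ 2 * (d₁ : ℤ) ^ 2 := by linarith
  exact_mod_cast h9

end main

/-- the degree bound in matrix form -/
theorem deg_bound {F : Type*} [Field F] [Fintype F] {m : ℕ} (hm : 1 ≤ m)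
    (hF : Fintype.card F = 2 ^ (2 * m + 1)) (H : Hyp F (2 ^ (m + 1))) {k : ℕ}
    (M : ↥(Gs F (2 ^ (m + 1))) →* Matrix (Fin k) (Fin k) ℂ)
    (hne : (M (tG H 0 1)).trace ≠ k) : 2 ^ m * (2 ^ (2 * m + 1) - 1) ≤ k := by
  obtain ⟨d₁, hd0, hd, hk⟩ := deg_rel H M hne
  have hb := twisted_bound H M hd0 hd
  rw [hF] at hb hk
  have h1 : 2 ^ m ≤ d₁ := by
    by_contra hlt
    push Not at hlt
    have h2 : d₁ ^ 2 < (2 ^ m) ^ 2 := Nat.pow_lt_pow_left hlt (by norm_num)
    have e : 2 ^ (2 * m + 1) = 2 * (2 ^ m) ^ 2 := by ring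
    rw [e] at hb
    omega
  calc 2 ^ m * (2 ^ (2 * m + 1) - 1) ≤ d₁ * (2 ^ (2 * m + 1) - 1) := Nat.mul_le_mul_right _ h1
    _ = (2 ^ (2 * m + 1) - 1) * d₁ := Nat.mul_comm _ _
    _ ≤ k := hk

end Cfsg.Agent.Lib.helper25.SzDeg
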