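import Mathlib
import Cfsg.Agent.Lib.helper25.SzFix1

/-!
# Fixity-two actions of Suzuki groups: the torus case (library, seat helper25)
-/

set_option autoImplicit false
set_option linter.unusedSectionVars false
set_option linter.unusedSimpArgs false
set_option linter.style.haveILetI false

namespace Cfsg.Agent.Lib.helper25.SzFix

open Cfsg.Agent.Lib.helper2.Suzuki
open Cfsg.Agent.Lib.helper2
open Cfsg.Agent.Lib.helper25.SzOut
open Cfsg.Agent.Lib.helper25.SzCover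
open Cfsg.Agent.Lib.helper25.SzPart
open Subgroup

/-- three elements of a subgroup of order divisible by four with pairwise nontrivial
`2`-element quotients -/
theorem four_three {G : Type*} [Group G] (N : Subgroup G) [Finite N] (hN : 4 ∣ Nat.card N) :
    ∃ n0 n1 n2 : G, n0 ∈ N ∧ n1 ∈ N ∧ n2 ∈ N ∧
      (n0⁻¹ * n1 ≠ 1 ∧ (n0⁻¹ * n1) ^ 4 = 1) ∧ (n0⁻¹ * n2 ≠ 1 ∧ (n0⁻¹ * n2) ^ 4 = 1) ∧
      (n1⁻¹ * n2 ≠ 1 ∧ (n1⁻¹ * n2) ^ 4 = 1) := by
  classical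
  haveI : Fact (Nat.Prime 2) := ⟨Nat.prime_two⟩
  obtain ⟨K, hK⟩ := Sylow.exists_subgroup_card_pow_prime (G := ↥N) 2 (n := 2)
    (by norm_num; exact hN)
  haveI : Fintype ↥K := Fintype.ofFinite _
  have h3 : 2 < Fintype.card ↥K := by
    rw [← Nat.card_eq_fintype_card, hK]; norm_num
  obtain ⟨k0, k1, k2, d01, d02, d12⟩ := Fintype.two_lt_card_iff.1 h3
  have hpow : ∀ k : ↥K, ((k : ↥N) : G) ^ 4 = 1 := by
    intro k
    have h := pow_card_eq_one' (x := k)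
    rw [hK] at h
    have h' := congrArg (fun k : ↥K => ((k : ↥N) : G)) h
    simpa using h'
  have hne : ∀ a b : ↥K, a ≠ b → ((a : ↥N) : G)⁻¹ * ((b : ↥N) : G) ≠ 1 := by
    intro a b hab h
    apply hab
    have h' : ((a : ↥N) : G) = ((b : ↥N) : G) := inv_injective (eq_inv_of_mul_eq_one_left h)
    exact Subtype.ext (Subtype.ext h')
  refine ⟨((k0 : ↥N) : G), ((k1 : ↥N) : G), ((k2 : ↥N) : G), k0.1.2, k1.1.2, k2.1.2,
    ⟨hne k0 k1 d01, hpow (k0⁻¹ * k1)⟩, ⟨hne k0 k2 d02, hpow (k0⁻¹ * k2)⟩,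
    ⟨hne k1 k2 d12, hpow (k1⁻¹ * k2)⟩⟩

section geom

variable {F : Type*} [Field F] [Fintype F] {m : ℕ} (hm : 1 ≤ m)
  (hF : Fintype.card F = 2 ^ (2 * m + 1)) (H : Hyp F (2 ^ (m + 1)))
  {Ω : Type*} [Fintype Ω] [MulAction ↥(Gs F (2 ^ (m + 1))) Ω]
  (hfix : ∀ g : ↥(Gs F (2 ^ (m + 1))), g ≠ 1 → Nat.card (MulAction.fixedBy Ω g) ≤ 2)
include hm hF H hfix

theorem caseA (α : Ω) (y : ↥(Gs F (2 ^ (m + 1)))) (hyα : y • α = α) (hy1 : y ≠ 1)
    (hy4 : y ^ 4 = 1) : ∃ α' : Ω, ∀ g ∈ BG F (2 ^ (m + 1)), g • α' = α' := by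
  obtain ⟨t, ht1, ht2, htα⟩ : ∃ t : ↥(Gs F (2 ^ (m + 1))), t ≠ 1 ∧ t * t = 1 ∧ t • α = α := by
    by_cases h : y * y = 1
    · exact ⟨y, hy1, h, hyα⟩
    · refine ⟨y * y, h, ?_, by rw [mul_smul, hyα, hyα]⟩
      rw [← pow_two, ← pow_two, ← pow_mul]
      exact hy4
  obtain ⟨hq8, hqe, -, -⟩ := q_facts m hm
  have h4 : t ^ 4 = 1 := by
    have e : t ^ 4 = (t ^ 2) ^ 2 := pow_mul t 2 2
    rw [e, pow_two t, ht2, one_pow]
  rcases classify hm hF H t ht1 with htN | ⟨k, a, b, hab, hk⟩ | ⟨k, l, hl, hk⟩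
  · exfalso
    apply ht1
    refine odd_four (c := (2 ^ (2 * m + 1)) ^ 2 + 1) ?_ h4 htN
    obtain ⟨u, hu⟩ := hqe
    rw [hu]
    have e : (2 * u) ^ 2 + 1 = 2 * (2 * u ^ 2) + 1 := by ring
    rw [e]
    omega
  · have hsq : tG H a b * tG H a b = 1 := by
      rw [← hk]
      have e : k * t * k⁻¹ * (k * t * k⁻¹) = k * (t * t) * k⁻¹ := by group
      rw [e, ht2]
      group
    rw [tG_sq, ← tG_zero H] at hsq
    have ha : a = 0 := (pow_eq_zero_iff (Nat.succ_ne_zero _)).1 (tG_inj H hsq).2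
    subst ha
    have hb : b ≠ 0 := fun h => hab ⟨rfl, h⟩
    refine ⟨k • α, ?_⟩
    have hbα : tG H 0 b • (k • α) = k • α := by
      rw [← hk, ← mul_smul]
      have e : k * t * k⁻¹ * k = k * t := by group
      rw [e, mul_smul, htα]
    intro g hg
    exact borel_sub H hfix (k • α) (center_sub H hfix (k • α) hb hbα) hg
  · exfalso
    apply ht1
    have hpe := pow_rest_e hm hF H hk
    exact odd_four (by omega) h4 hpe

theorem tor_case (hB : ∀ (α : Ω) (y : ↥(Gs F (2 ^ (m + 1)))), y • α = α → y ≠ 1 → y ^ 4 ≠ 1)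
    (α : Ω) (y : ↥(Gs F (2 ^ (m + 1)))) (hy1 : y ≠ 1)
    (hyN : y ^ ((2 ^ (2 * m + 1)) ^ 2 + 1) = 1)
    (hN : 4 ∣ Nat.card (normalizer ((centralizer ({y} : Set ↥(Gs F (2 ^ (m + 1)))) :
      Subgroup ↥(Gs F (2 ^ (m + 1)))) : Set ↥(Gs F (2 ^ (m + 1))))))
    (x : ↥(Gs F (2 ^ (m + 1)))) (hx1 : x ≠ 1)
    (hxC : x ∈ centralizer ({y} : Set ↥(Gs F (2 ^ (m + 1))))) (hxα : x • α = α) : False := by
  classical
  haveI : Finite ↥(Gs F (2 ^ (m + 1))) := Finite.of_injective _ Subtype.val_injective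
  have T := toriHyp hm hF H
  haveI := T.cyc y hy1 hyN
  obtain ⟨t0, ht0⟩ := IsCyclic.exists_generator
    (α := ↥(centralizer ({y} : Set ↥(Gs F (2 ^ (m + 1))))))
  obtain ⟨i, hi⟩ := Subgroup.mem_zpowers_iff.1 (ht0 ⟨x, hxC⟩)
  have hxi : x = (t0 : ↥(Gs F (2 ^ (m + 1)))) ^ i := by
    have h : ((t0 ^ i : ↥(centralizer ({y} : Set ↥(Gs F (2 ^ (m + 1)))))) :
        ↥(Gs F (2 ^ (m + 1)))) = x := congrArg Subtype.val hi
    exact h.symm.trans (by simp)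
  have hconj : ∀ n ∈ normalizer ((centralizer ({y} : Set ↥(Gs F (2 ^ (m + 1)))) :
      Subgroup ↥(Gs F (2 ^ (m + 1)))) : Set ↥(Gs F (2 ^ (m + 1)))),
      (n⁻¹ * x * n) • α = α := by
    intro n hn
    have hmem : n⁻¹ * (t0 : ↥(Gs F (2 ^ (m + 1)))) * n
        ∈ centralizer ({y} : Set ↥(Gs F (2 ^ (m + 1)))) := by
      have h := (mem_normalizer_iff.1 (inv_mem hn) (t0 : ↥(Gs F (2 ^ (m + 1))))).1 t0.2
      rw [inv_inv] at h
      exact h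
    obtain ⟨j, hj⟩ := Subgroup.mem_zpowers_iff.1 (ht0 ⟨_, hmem⟩)
    have hj' : n⁻¹ * (t0 : ↥(Gs F (2 ^ (m + 1)))) * n = (t0 : ↥(Gs F (2 ^ (m + 1)))) ^ j := by
      have h : ((t0 ^ j : ↥(centralizer ({y} : Set ↥(Gs F (2 ^ (m + 1)))))) :
          ↥(Gs F (2 ^ (m + 1)))) = n⁻¹ * (t0 : ↥(Gs F (2 ^ (m + 1)))) * n :=
        congrArg Subtype.val hj
      exact h.symm.trans (by simp)
    have e : n⁻¹ * x * n = x ^ j := by
      rw [hxi]
      have h := conj_zpow (a := n⁻¹) (b := (t0 : ↥(Gs F (2 ^ (m + 1))))) (i := i)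
      rw [inv_inv] at h
      rw [← h, hj', ← zpow_mul, mul_comm, zpow_mul]
    rw [e]
    exact MulAction.mem_stabilizer_iff.1 (zpow_mem (MulAction.mem_stabilizer_iff.2 hxα) j)
  obtain ⟨n0, n1, n2, m0, m1, m2, ⟨a1, a2⟩, ⟨b1, b2⟩, ⟨c1, c2⟩⟩ := four_three _ hN
  rcases three_pts hfix α hx1 n0 n1 n2 (hconj _ m0) (hconj _ m1) (hconj _ m2) with h | h | h
  · exact hB α _ h a1 a2
  · exact hB α _ h b1 b2
  · exact hB α _ h c1 c2

theorem no_N (hB : ∀ (α : Ω) (y : ↥(Gs F (2 ^ (m + 1)))), y • α = α → y ≠ 1 → y ^ 4 ≠ 1)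
    (α : Ω) (x : ↥(Gs F (2 ^ (m + 1)))) (hxα : x • α = α) (hx1 : x ≠ 1)
    (hxN : x ^ ((2 ^ (2 * m + 1)) ^ 2 + 1) = 1) : False := by
  haveI : Finite ↥(Gs F (2 ^ (m + 1))) := Finite.of_injective _ Subtype.val_injective
  have T := toriHyp hm hF H
  have hr : (2 ^ (m + 1)) ^ 2 = 2 * 2 ^ (2 * m + 1) := by
    rw [← pow_mul, ← pow_succ']
    congr 1
    ring
  obtain ⟨y1, y2, ⟨h11, h1N⟩, ⟨h21, h2N⟩, e1, e2, n1, n2, cov, cop⟩ :=
    tori_exist T (2 ^ (m + 1)) hr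
  have hmove : ∀ g : ↥(Gs F (2 ^ (m + 1))), (g * x * g⁻¹) • (g • α) = g • α := by
    intro g
    rw [← mul_smul]
    have e : g * x * g⁻¹ * g = g * x := by group
    rw [e, mul_smul, hxα]
  rcases cov x hx1 hxN with ⟨g, hg⟩ | ⟨g, hg⟩
  · exact tor_case hm hF H hfix hB (g • α) y1 h11 h1N (by rw [n1]; exact Dvd.intro _ rfl)
      (g * x * g⁻¹) (fun h => hx1 (conj_eq_one_iff.1 h)) hg (hmove g)
  · exact tor_case hm hF H hfix hB (g • α) y2 h21 h2N (by rw [n2]; exact Dvd.intro _ rfl)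
      (g * x * g⁻¹) (fun h => hx1 (conj_eq_one_iff.1 h)) hg (hmove g)

theorem torus_sub (α : Ω) {l0 : Fˣ} (hl0 : l0 ≠ 1) (h0 : eG H l0 • α = α) (l : Fˣ) :
    eG H l • α = α := by
  obtain ⟨l', hl'⟩ := exists_sqrt_unit H l
  have hx : eG H l0 ≠ 1 := eG_ne_one H hl0
  have h := sq_comm hfix α hx h0 (eG H l') (by rw [eG_mul, eG_mul, mul_comm])
  rw [eG_mul, ← pow_two, hl'] at h
  exact h

theorem norm_in (hB : ∀ (α : Ω) (y : ↥(Gs F (2 ^ (m + 1)))), y • α = α → y ≠ 1 → y ^ 4 ≠ 1)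
    (α : Ω) {z : ↥(Gs F (2 ^ (m + 1)))} (hz : z • α = α) {l1 l2 : Fˣ} (hl1 : l1 ≠ 1)
    (hconj : z * eG H l1 * z⁻¹ = eG H l2) : ∃ l, z = eG H l := by
  obtain ⟨l, h | h⟩ := norm_torus H hl1 hconj
  · exact ⟨l, h⟩
  · exfalso
    have hz1 : z ≠ 1 := by
      intro h1
      rw [h1] at h
      apply wG_not_mem_BG H
      have e : wG H = (eG H l)⁻¹ := eq_inv_of_mul_eq_one_left h.symm
      rw [e]
      exact inv_mem (eG_mem_BG H l)
    have hz2 : z * z = 1 := by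
      rw [h]
      have e : wG H * eG H l * (wG H * eG H l) = (wG H * eG H l * wG H) * eG H l := by group
      rw [e, wG_eG, eG_mul, inv_mul_cancel, eG_one]
    apply hB α z hz hz1
    have e : z ^ 4 = (z ^ 2) ^ 2 := pow_mul z 2 2
    rw [e, pow_two z, hz2, one_pow]

end geom

end Cfsg.Agent.Lib.helper25.SzFix
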