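import Mathlib
import Cfsg.Agent.Lib.helper25.SzFix2
import Cfsg.Agent.Lib.helper25.SzIso3

/-!
# Fixity-two actions of Suzuki groups: counting and the main statement (library, seat helper25)
-/

set_option autoImplicit false
set_option linter.unusedSectionVars false
set_option linter.unusedSimpArgs false
set_option linter.style.haveILetI false

namespace Cfsg.Agent.Lib.helper25.SzFix

open Cfsg.Agent.Lib.helper2.Suzuki
open Cfsg.Agent.Lib.helper2
open Cfsg.Agent.Lib.helper25.SzOut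
open Cfsg.Agent.Lib.helper25.SzCover
open Cfsg.Agent.Lib.helper25.SzPart
open Subgroup

/-- the part of a conjugate of the split torus inside a point stabiliser -/
def HK {F : Type*} [Field F] [Fintype F] {s : ℕ} (H : Hyp F s)
    {Ω : Type*} [MulAction ↥(Gs F s) Ω] (α : Ω) (k : ↥(Gs F s)) :
    Subgroup ↥(MulAction.stabilizer ↥(Gs F s) α) :=
  (HG H).comap ((MulAut.conj k).toMonoidHom.comp (MulAction.stabilizer ↥(Gs F s) α).subtype)

theorem mem_HK {F : Type*} [Field F] [Fintype F] {s : ℕ} (H : Hyp F s)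
    {Ω : Type*} [MulAction ↥(Gs F s) Ω] (α : Ω) (k : ↥(Gs F s))
    (z : ↥(MulAction.stabilizer ↥(Gs F s) α)) :
    z ∈ HK H α k ↔ k * (z : ↥(Gs F s)) * k⁻¹ ∈ HG H := Iff.rfl

section geom

variable {F : Type*} [Field F] [Fintype F] {m : ℕ} (hm : 1 ≤ m)
  (hF : Fintype.card F = 2 ^ (2 * m + 1)) (H : Hyp F (2 ^ (m + 1)))
  {Ω : Type*} [Fintype Ω] [MulAction ↥(Gs F (2 ^ (m + 1))) Ω]
  (hfix : ∀ g : ↥(Gs F (2 ^ (m + 1))), g ≠ 1 → Nat.card (MulAction.fixedBy Ω g) ≤ 2)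
include hm hF H hfix

theorem count_k (hB : ∀ (α : Ω) (y : ↥(Gs F (2 ^ (m + 1)))), y • α = α → y ≠ 1 → y ^ 4 ≠ 1)
    (α : Ω) (k : ↥(Gs F (2 ^ (m + 1))))
    (hk : ∀ l : Fˣ, (k⁻¹ * eG H l * k) • α = α) :
    Nat.card {x : ↥(MulAction.stabilizer ↥(Gs F (2 ^ (m + 1))) α) //
        x ≠ 1 ∧ ∃ g : ↥(MulAction.stabilizer ↥(Gs F (2 ^ (m + 1))) α), g * x * g⁻¹ ∈ HK H α k}
      * (Fintype.card F - 1)
      = Nat.card ↥(MulAction.stabilizer ↥(Gs F (2 ^ (m + 1))) α) * (Fintype.card F - 1 - 1) := by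
  haveI : Finite ↥(Gs F (2 ^ (m + 1))) := Finite.of_injective _ Subtype.val_injective
  have hcardK : Nat.card (HK H α k) = Fintype.card F - 1 := by
    rw [← card_HG H]
    apply Nat.card_eq_of_bijective (fun z : ↥(HK H α k) =>
      (⟨k * ((z : ↥(MulAction.stabilizer ↥(Gs F (2 ^ (m + 1))) α)) : ↥(Gs F (2 ^ (m + 1)))) * k⁻¹,
        z.2⟩ : ↥(HG H)))
    constructor
    · intro z1 z2 h
      have h' : k * ((z1 : ↥(MulAction.stabilizer ↥(Gs F (2 ^ (m + 1))) α)) :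
            ↥(Gs F (2 ^ (m + 1)))) * k⁻¹
          = k * ((z2 : ↥(MulAction.stabilizer ↥(Gs F (2 ^ (m + 1))) α)) :
            ↥(Gs F (2 ^ (m + 1)))) * k⁻¹ := congrArg Subtype.val h
      have h'' := mul_left_cancel (mul_right_cancel h')
      exact Subtype.ext (Subtype.ext h'')
    · rintro ⟨w, hw⟩
      obtain ⟨l, rfl⟩ := (mem_HG H).1 hw
      have e : k * (k⁻¹ * eG H l * k) * k⁻¹ = eG H l := by group
      refine ⟨⟨⟨k⁻¹ * eG H l * k, MulAction.mem_stabilizer_iff.2 (hk l)⟩, ?_⟩, ?_⟩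
      · rw [mem_HK]
        show k * (k⁻¹ * eG H l * k) * k⁻¹ ∈ HG H
        rw [e]
        exact (mem_HG H).2 ⟨l, rfl⟩
      · apply Subtype.ext
        exact e
  have hTI : ∀ g : ↥(MulAction.stabilizer ↥(Gs F (2 ^ (m + 1))) α), ∀ x ∈ HK H α k, x ≠ 1 →
      g * x * g⁻¹ ∈ HK H α k → g ∈ HK H α k := by
    intro g x hx hx1 hgx
    obtain ⟨l1, hl1⟩ := (mem_HG H).1 ((mem_HK H α k x).1 hx)
    obtain ⟨l2, hl2⟩ := (mem_HG H).1 ((mem_HK H α k _).1 hgx)
    have hl2' : k * ((g : ↥(Gs F (2 ^ (m + 1)))) * (x : ↥(Gs F (2 ^ (m + 1))))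
        * (g : ↥(Gs F (2 ^ (m + 1))))⁻¹) * k⁻¹ = eG H l2 := hl2
    have hl1ne : l1 ≠ 1 := by
      rintro rfl
      rw [eG_one] at hl1
      apply hx1
      apply Subtype.ext
      exact conj_eq_one_iff.1 hl1
    have hzα : (k * (g : ↥(Gs F (2 ^ (m + 1)))) * k⁻¹) • (k • α) = k • α := by
      rw [← mul_smul]
      have e : k * (g : ↥(Gs F (2 ^ (m + 1)))) * k⁻¹ * k = k * g := by group
      rw [e, mul_smul, MulAction.mem_stabilizer_iff.1 g.2]
    have hc : (k * (g : ↥(Gs F (2 ^ (m + 1)))) * k⁻¹) * eG H l1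
        * (k * (g : ↥(Gs F (2 ^ (m + 1)))) * k⁻¹)⁻¹ = eG H l2 := by
      rw [← hl1, ← hl2']
      group
    obtain ⟨l, hl⟩ := norm_in hm hF H hfix hB (k • α) hzα hl1ne hc
    rw [mem_HK, hl]
    exact (mem_HG H).2 ⟨l, rfl⟩
  have hN : ∀ n ∈ HK H α k, ∀ x ∈ HK H α k, n * x * n⁻¹ ∈ HK H α k :=
    fun n hn x hx => mul_mem (mul_mem hn hx) (inv_mem hn)
  have h := ti_count (HK H α k) (HK H α k) hTI hN
  rw [hcardK] at h
  exact h

theorem caseB (hB : ∀ (α : Ω) (y : ↥(Gs F (2 ^ (m + 1)))), y • α = α → y ≠ 1 → y ^ 4 ≠ 1)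
    (α : Ω) {l0 : Fˣ} (hl0 : l0 ≠ 1) (h0 : eG H l0 • α = α) :
    Nat.card ↥(MulAction.stabilizer ↥(Gs F (2 ^ (m + 1))) α) = Fintype.card F - 1 := by
  classical
  haveI : Finite ↥(Gs F (2 ^ (m + 1))) := Finite.of_injective _ Subtype.val_injective
  have hq8 : 8 ≤ Fintype.card F := by
    rw [hF]
    exact (q_facts m hm).1
  have he : ∀ l : Fˣ, eG H l • α = α := torus_sub hm hF H hfix α hl0 h0
  have hk1 : ∀ l : Fˣ, ((1 : ↥(Gs F (2 ^ (m + 1))))⁻¹ * eG H l * 1) • α = α := by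
    intro l
    rw [inv_one, one_mul, mul_one]
    exact he l
  have c1 := count_k hm hF H hfix hB α 1 hk1
  haveI : Fintype ↥(MulAction.stabilizer ↥(Gs F (2 ^ (m + 1))) α) := Fintype.ofFinite _
  have hn : 1 ≤ Nat.card ↥(MulAction.stabilizer ↥(Gs F (2 ^ (m + 1))) α) := Nat.card_pos
  obtain ⟨c, hc⟩ : ∃ c, Fintype.card F - 1 = c + 1 := ⟨Fintype.card F - 2, by omega⟩
  have hc6 : 6 ≤ c := by omega
  obtain ⟨n', hn'⟩ : ∃ n', Nat.card ↥(MulAction.stabilizer ↥(Gs F (2 ^ (m + 1))) α) = n' + 1 :=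
    ⟨Nat.card ↥(MulAction.stabilizer ↥(Gs F (2 ^ (m + 1))) α) - 1, by omega⟩
  have e1 : n' + 1 - 1 = n' := by omega
  have e2 : c + 1 - 1 = c := by omega
  by_cases hall : ∀ z : ↥(MulAction.stabilizer ↥(Gs F (2 ^ (m + 1))) α), z ≠ 1 →
      ∃ g : ↥(MulAction.stabilizer ↥(Gs F (2 ^ (m + 1))) α), g * z * g⁻¹ ∈ HK H α 1
  · have e : Nat.card {x : ↥(MulAction.stabilizer ↥(Gs F (2 ^ (m + 1))) α) //
        x ≠ 1 ∧ ∃ g : ↥(MulAction.stabilizer ↥(Gs F (2 ^ (m + 1))) α), g * x * g⁻¹ ∈ HK H α 1}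
        = Nat.card ↥(MulAction.stabilizer ↥(Gs F (2 ^ (m + 1))) α) - 1 := by
      rw [Nat.card_congr (Equiv.subtypeEquivRight
        (q := fun x : ↥(MulAction.stabilizer ↥(Gs F (2 ^ (m + 1))) α) => ¬ x = 1)
        (fun x => ⟨fun h => h.1, fun h => ⟨h, hall x h⟩⟩))]
      rw [Nat.card_eq_fintype_card, Fintype.card_subtype_compl, Fintype.card_subtype_eq,
        Nat.card_eq_fintype_card]
    rw [e, hn', hc, e1, e2] at c1
    have h3 : n' = c := by nlinarith [c1]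
    rw [hn', hc, h3]
  · exfalso
    push Not at hall
    obtain ⟨y, hy1, hy⟩ := hall
    have hyα : (y : ↥(Gs F (2 ^ (m + 1)))) • α = α := MulAction.mem_stabilizer_iff.1 y.2
    have hy1' : (y : ↥(Gs F (2 ^ (m + 1)))) ≠ 1 := fun h => hy1 (Subtype.ext h)
    rcases classify hm hF H (y : ↥(Gs F (2 ^ (m + 1)))) hy1' with
      hyN | ⟨k, a, b, hab, hk⟩ | ⟨k, l2, hl2, hk⟩
    · exact no_N hm hF H hfix hB α _ hyα hy1' hyN
    · exact hB α _ hyα hy1' (pow_rest_t hm hF H hk)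
    · have h2α : eG H l2 • (k • α) = k • α := by
        rw [← hk, ← mul_smul]
        have e : k * (y : ↥(Gs F (2 ^ (m + 1)))) * k⁻¹ * k = k * y := by group
        rw [e, mul_smul, hyα]
      have he2 : ∀ l : Fˣ, eG H l • (k • α) = k • α :=
        torus_sub hm hF H hfix (k • α) hl2 h2α
      have hk2 : ∀ l : Fˣ, (k⁻¹ * eG H l * k) • α = α := by
        intro l
        rw [mul_smul, mul_smul, he2 l, inv_smul_smul]
      have c2 := count_k hm hF H hfix hB α k hk2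
      have hdisj : ∀ x : ↥(MulAction.stabilizer ↥(Gs F (2 ^ (m + 1))) α), x ≠ 1 →
          (∃ g : ↥(MulAction.stabilizer ↥(Gs F (2 ^ (m + 1))) α), g * x * g⁻¹ ∈ HK H α 1) →
          (∃ g : ↥(MulAction.stabilizer ↥(Gs F (2 ^ (m + 1))) α), g * x * g⁻¹ ∈ HK H α k) →
          False := by
        intro x hx1 ⟨g1, hg1⟩ ⟨g2, hg2⟩
        obtain ⟨l', hl'⟩ := (mem_HG H).1 ((mem_HK H α 1 _).1 hg1)
        obtain ⟨l'', hl''⟩ := (mem_HG H).1 ((mem_HK H α k _).1 hg2)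
        have hl'v : (g1 : ↥(Gs F (2 ^ (m + 1)))) * (x : ↥(Gs F (2 ^ (m + 1))))
            * (g1 : ↥(Gs F (2 ^ (m + 1))))⁻¹ = eG H l' := by
          have h : (1 : ↥(Gs F (2 ^ (m + 1)))) * ((g1 : ↥(Gs F (2 ^ (m + 1))))
              * (x : ↥(Gs F (2 ^ (m + 1)))) * (g1 : ↥(Gs F (2 ^ (m + 1))))⁻¹)
              * (1 : ↥(Gs F (2 ^ (m + 1))))⁻¹ = eG H l' := hl'
          rwa [one_mul, inv_one, mul_one] at h
        have hl''v : k * ((g2 : ↥(Gs F (2 ^ (m + 1)))) * (x : ↥(Gs F (2 ^ (m + 1))))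
            * (g2 : ↥(Gs F (2 ^ (m + 1))))⁻¹) * k⁻¹ = eG H l'' := hl''
        have hl'1 : l' ≠ 1 := by
          rintro rfl
          rw [eG_one] at hl'v
          apply hx1
          apply Subtype.ext
          exact conj_eq_one_iff.1 hl'v
        have hnc : (k * (g2 : ↥(Gs F (2 ^ (m + 1)))) * (g1 : ↥(Gs F (2 ^ (m + 1))))⁻¹) * eG H l'
            * (k * (g2 : ↥(Gs F (2 ^ (m + 1)))) * (g1 : ↥(Gs F (2 ^ (m + 1))))⁻¹)⁻¹
            = eG H l'' := by
          rw [← hl'v, ← hl''v]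
          group
        apply hy (g1 * g2⁻¹)
        rw [mem_HK]
        have ey : (1 : ↥(Gs F (2 ^ (m + 1)))) * ((g1 * g2⁻¹ * y * (g1 * g2⁻¹)⁻¹ :
              ↥(MulAction.stabilizer ↥(Gs F (2 ^ (m + 1))) α)) : ↥(Gs F (2 ^ (m + 1))))
              * (1 : ↥(Gs F (2 ^ (m + 1))))⁻¹
            = (k * (g2 : ↥(Gs F (2 ^ (m + 1)))) * (g1 : ↥(Gs F (2 ^ (m + 1))))⁻¹)⁻¹ * eG H l2
              * (k * (g2 : ↥(Gs F (2 ^ (m + 1)))) * (g1 : ↥(Gs F (2 ^ (m + 1))))⁻¹) := by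
          rw [← hk]
          show (1 : ↥(Gs F (2 ^ (m + 1)))) * ((g1 : ↥(Gs F (2 ^ (m + 1))))
              * (g2 : ↥(Gs F (2 ^ (m + 1))))⁻¹ * (y : ↥(Gs F (2 ^ (m + 1))))
              * ((g1 : ↥(Gs F (2 ^ (m + 1)))) * (g2 : ↥(Gs F (2 ^ (m + 1))))⁻¹)⁻¹)
              * (1 : ↥(Gs F (2 ^ (m + 1))))⁻¹ = _
          group
        rw [ey]
        obtain ⟨l, h | h⟩ := norm_torus H hl'1 hnc
        · rw [h, eG_inv, eG_mul, eG_mul]
          exact (mem_HG H).2 ⟨_, rfl⟩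
        · rw [h]
          have e : (wG H * eG H l)⁻¹ * eG H l2 * (wG H * eG H l)
              = (eG H l)⁻¹ * (wG H * eG H l2 * wG H) * eG H l := by
            rw [mul_inv_rev, wG_inv]
            group
          rw [e, wG_eG, eG_inv, eG_mul, eG_mul]
          exact (mem_HG H).2 ⟨_, rfl⟩
      let S1 : Finset ↥(MulAction.stabilizer ↥(Gs F (2 ^ (m + 1))) α) :=
        Finset.univ.filter (fun x => x ≠ 1 ∧
          ∃ g : ↥(MulAction.stabilizer ↥(Gs F (2 ^ (m + 1))) α), g * x * g⁻¹ ∈ HK H α 1)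
      let S2 : Finset ↥(MulAction.stabilizer ↥(Gs F (2 ^ (m + 1))) α) :=
        Finset.univ.filter (fun x => x ≠ 1 ∧
          ∃ g : ↥(MulAction.stabilizer ↥(Gs F (2 ^ (m + 1))) α), g * x * g⁻¹ ∈ HK H α k)
      have hS1 : Nat.card {x : ↥(MulAction.stabilizer ↥(Gs F (2 ^ (m + 1))) α) //
          x ≠ 1 ∧ ∃ g : ↥(MulAction.stabilizer ↥(Gs F (2 ^ (m + 1))) α),
            g * x * g⁻¹ ∈ HK H α 1} = S1.card := by
        rw [Nat.card_eq_fintype_card, Fintype.card_of_subtype S1 (fun x => by simp [S1])]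
      have hS2 : Nat.card {x : ↥(MulAction.stabilizer ↥(Gs F (2 ^ (m + 1))) α) //
          x ≠ 1 ∧ ∃ g : ↥(MulAction.stabilizer ↥(Gs F (2 ^ (m + 1))) α),
            g * x * g⁻¹ ∈ HK H α k} = S2.card := by
        rw [Nat.card_eq_fintype_card, Fintype.card_of_subtype S2 (fun x => by simp [S2])]
      have hdis : Disjoint S1 S2 := by
        rw [Finset.disjoint_left]
        intro x h1 h2
        simp only [S1, S2, Finset.mem_filter, Finset.mem_univ, true_and] at h1 h2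
        exact hdisj x h1.1 h1.2 h2.2
      have hsub : S1 ∪ S2 ⊆ Finset.univ.erase 1 := by
        intro x hx
        rw [Finset.mem_union] at hx
        rw [Finset.mem_erase]
        refine ⟨?_, Finset.mem_univ _⟩
        rcases hx with h | h
        · simp only [S1, Finset.mem_filter, Finset.mem_univ, true_and] at h
          exact h.1
        · simp only [S2, Finset.mem_filter, Finset.mem_univ, true_and] at h
          exact h.1
      have hle := Finset.card_le_card hsub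
      rw [Finset.card_union_of_disjoint hdis, Finset.card_erase_of_mem (Finset.mem_univ _),
        Finset.card_univ, ← Nat.card_eq_fintype_card] at hle
      rw [hS1] at c1
      rw [hS2] at c2
      rw [hn', hc, e2] at c1 c2
      rw [hn', e1] at hle
      have h1 : (S1.card + S2.card) * (c + 1) = 2 * ((n' + 1) * c) := by
        rw [add_mul, c1, c2]
        ring
      have h2 := Nat.mul_le_mul_right (c + 1) hle
      rw [h1] at h2
      have h3 := Nat.mul_le_mul_left n' hc6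
      nlinarith [h2, h3]

theorem fix_main [MulAction.IsPretransitive ↥(Gs F (2 ^ (m + 1))) Ω]
    (hex : ∃ g : ↥(Gs F (2 ^ (m + 1))), g ≠ 1 ∧ Nat.card (MulAction.fixedBy Ω g) = 2) :
    (Fintype.card Ω = Fintype.card F ^ 2 + 1 ∧
      ∀ a b c d : Ω, a ≠ b → c ≠ d → ∃ g : ↥(Gs F (2 ^ (m + 1))), g • a = c ∧ g • b = d) ∨
    (Fintype.card Ω = Fintype.card F ^ 2 * (Fintype.card F ^ 2 + 1) ∧
      ∀ α : Ω, Nat.card ↥(MulAction.stabilizer ↥(Gs F (2 ^ (m + 1))) α) = Fintype.card F - 1) := by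
  classical
  haveI : Finite ↥(Gs F (2 ^ (m + 1))) := Finite.of_injective _ Subtype.val_injective
  obtain ⟨g0, hg01, hg0c⟩ := hex
  haveI : Fintype ↥(MulAction.fixedBy Ω g0) := Fintype.ofFinite _
  have hq : 1 < Fintype.card F := Fintype.one_lt_card
  have hne : ∀ α : Ω, ∃ g : ↥(Gs F (2 ^ (m + 1))), g • α ≠ α := by
    intro α
    have h1 : 1 < Fintype.card ↥(MulAction.fixedBy Ω g0) := by
      rw [← Nat.card_eq_fintype_card, hg0c]
      norm_num
    obtain ⟨ω1, ω2, h12⟩ := Fintype.one_lt_card_iff.1 h1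
    by_cases h : (ω1 : Ω) = α
    · obtain ⟨g, hg⟩ := MulAction.exists_smul_eq ↥(Gs F (2 ^ (m + 1))) α (ω2 : Ω)
      refine ⟨g, ?_⟩
      rw [hg]
      intro h'
      exact h12 (Subtype.ext (h.trans h'.symm))
    · obtain ⟨g, hg⟩ := MulAction.exists_smul_eq ↥(Gs F (2 ^ (m + 1))) α (ω1 : Ω)
      refine ⟨g, ?_⟩
      rw [hg]
      exact h
  by_cases hA : ∃ (α : Ω) (y : ↥(Gs F (2 ^ (m + 1)))), y • α = α ∧ y ≠ 1 ∧ y ^ 4 = 1
  · left
    obtain ⟨α, y, hyα, hy1, hy4⟩ := hA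
    obtain ⟨α', hα'⟩ := caseA hm hF H hfix α y hyα hy1 hy4
    have hL := borel_max H hfix α' hα' (hne α')
    exact ⟨card_A H hfix α' hL, two_trans H hfix α' hL⟩
  · right
    have hB : ∀ (α : Ω) (y : ↥(Gs F (2 ^ (m + 1)))), y • α = α → y ≠ 1 → y ^ 4 ≠ 1 := by
      intro α y h1 h2 h3
      exact hA ⟨α, y, h1, h2, h3⟩
    obtain ⟨ω, hω⟩ : ∃ ω : Ω, g0 • ω = ω := by
      have h1 : 0 < Fintype.card ↥(MulAction.fixedBy Ω g0) := by
        rw [← Nat.card_eq_fintype_card, hg0c]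
        norm_num
      obtain ⟨ω⟩ := Fintype.card_pos_iff.1 h1
      exact ⟨ω.1, ω.2⟩
    rcases classify hm hF H g0 hg01 with hN | ⟨k, a, b, hab, hk⟩ | ⟨k, l0, hl0, hk⟩
    · exact (no_N hm hF H hfix hB ω g0 hω hg01 hN).elim
    · exact absurd (pow_rest_t hm hF H hk) (hB ω g0 hω hg01)
    · have h0 : eG H l0 • (k • ω) = k • ω := by
        rw [← hk, ← mul_smul]
        have e : k * g0 * k⁻¹ * k = k * g0 := by group
        rw [e, mul_smul, hω]
      have hc := caseB hm hF H hfix hB (k • ω) hl0 h0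
      have hcardΩ : Fintype.card Ω = Fintype.card F ^ 2 * (Fintype.card F ^ 2 + 1) := by
        have h1 := MulAction.index_stabilizer_of_transitive (G := ↥(Gs F (2 ^ (m + 1))))
          (x := k • ω)
        have h2 := Subgroup.index_mul_card (MulAction.stabilizer ↥(Gs F (2 ^ (m + 1))) (k • ω))
        rw [h1, hc, card_Gs H, Nat.card_eq_fintype_card] at h2
        exact Nat.eq_of_mul_eq_mul_right (by omega : 0 < Fintype.card F - 1) h2
      refine ⟨hcardΩ, ?_⟩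
      intro α
      have h1 := MulAction.index_stabilizer_of_transitive (G := ↥(Gs F (2 ^ (m + 1)))) (x := α)
      have h2 := Subgroup.index_mul_card (MulAction.stabilizer ↥(Gs F (2 ^ (m + 1))) α)
      rw [h1, card_Gs H, Nat.card_eq_fintype_card, hcardΩ] at h2
      have hpos : 0 < Fintype.card F ^ 2 * (Fintype.card F ^ 2 + 1) :=
        Nat.mul_pos (pow_pos (by omega) 2) (by omega)
      exact Nat.eq_of_mul_eq_mul_left hpos h2

end geom

end Cfsg.Agent.Lib.helper25.SzFix
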