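import Mathlib

/-!
# Affine extensions of a linear group by copies of its module (library, seat helper25)
-/

set_option autoImplicit false
set_option linter.unusedSectionVars false
set_option linter.unusedSimpArgs false
set_option linter.style.haveILetI false

namespace Cfsg.Agent.Lib.helper25.SzGraph

universe u1 u2

/-- The semidirect product of `k` copies of the module `F^n` with a group represented on it. -/
@[ext]
structure Aff {G : Type u1} [Group G] {F : Type u2} [Field F] {n : ℕ}
    (ρ : G →* Matrix (Fin n) (Fin n) F) (k : ℕ) where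
  v : Fin k → Fin n → F
  g : G

namespace Aff

variable {G : Type u1} [Group G] {F : Type u2} [Field F] {n : ℕ}
  {ρ : G →* Matrix (Fin n) (Fin n) F} {k : ℕ}

instance : Mul (Aff ρ k) :=
  ⟨fun a b => ⟨fun i => a.v i + (ρ a.g).mulVec (b.v i), a.g * b.g⟩⟩

instance : One (Aff ρ k) := ⟨⟨fun _ => 0, 1⟩⟩

instance : Inv (Aff ρ k) :=
  ⟨fun a => ⟨fun i => -(ρ a.g⁻¹).mulVec (a.v i), a.g⁻¹⟩⟩

theorem mul_v (a b : Aff ρ k) (i : Fin k) :
    (a * b).v i = a.v i + (ρ a.g).mulVec (b.v i) := rfl

theorem mul_g (a b : Aff ρ k) : (a * b).g = a.g * b.g := rfl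

theorem one_v (i : Fin k) : (1 : Aff ρ k).v i = 0 := rfl

theorem one_g : (1 : Aff ρ k).g = 1 := rfl

theorem inv_v (a : Aff ρ k) (i : Fin k) :
    (a⁻¹).v i = -(ρ a.g⁻¹).mulVec (a.v i) := rfl

theorem inv_g (a : Aff ρ k) : (a⁻¹).g = a.g⁻¹ := rfl

instance : Group (Aff ρ k) := Group.ofLeftAxioms
  (by
    intro a b c
    apply Aff.ext
    · funext i
      simp only [mul_v, mul_g, Matrix.mulVec_add, Matrix.mulVec_mulVec, map_mul, add_assoc]
    · simp only [mul_g, mul_assoc])
  (by
    intro a
    apply Aff.ext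
    · funext i
      simp only [mul_v, one_v, one_g, map_one, Matrix.one_mulVec, zero_add]
    · simp only [mul_g, one_g, one_mul])
  (by
    intro a
    apply Aff.ext
    · funext i
      simp only [mul_v, inv_v, inv_g, one_v, neg_add_cancel]
    · simp only [mul_g, inv_g, one_g, inv_mul_cancel])

/-- the inclusion of the group -/
def inr : G →* Aff ρ k where
  toFun g := ⟨fun _ => 0, g⟩
  map_one' := rfl
  map_mul' a b := by
    apply Aff.ext
    · funext i
      simp only [mul_v, Matrix.mulVec_zero, add_zero]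
    · rfl

theorem inr_injective : Function.Injective (inr : G → Aff ρ k) := by
  intro a b h
  exact congrArg Aff.g h

/-- the projection to the group -/
def right : Aff ρ k →* G where
  toFun a := a.g
  map_one' := rfl
  map_mul' _ _ := rfl

theorem pow_g (a : Aff ρ k) (j : ℕ) : (a ^ j).g = a.g ^ j := map_pow (right : Aff ρ k →* G) a j

instance [Finite F] [Finite G] : Finite (Aff ρ k) :=
  Finite.of_injective (fun a : Aff ρ k => (a.v, a.g)) (by
    intro a b h
    rw [Prod.mk.injEq] at h
    exact Aff.ext h.1 h.2)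

theorem card_lt [Fintype F] [Finite G] (hn : 1 ≤ n) : k < Nat.card (Aff ρ k) := by
  have hinj : Function.Injective (fun w : Fin k → Fin n → F => (⟨w, 1⟩ : Aff ρ k)) := by
    intro a b h
    exact congrArg Aff.v h
  have h1 := Nat.card_le_card_of_injective _ hinj
  have h2 : Nat.card (Fin k → Fin n → F) = (Fintype.card F ^ n) ^ k := by
    simp [Nat.card_eq_fintype_card]
  have h3 : 2 ≤ Fintype.card F ^ n := by
    have h : 1 < Fintype.card F := Fintype.one_lt_card
    calc 2 ≤ Fintype.card F := h
      _ = Fintype.card F ^ 1 := (pow_one _).symm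
      _ ≤ Fintype.card F ^ n := Nat.pow_le_pow_right (by omega) hn
  have h4 : k < 2 ^ k := Nat.lt_two_pow_self
  have h5 : 2 ^ k ≤ (Fintype.card F ^ n) ^ k := Nat.pow_le_pow_left h3 k
  omega

/-- an element whose linear part has no nonzero fixed vector is conjugate to its linear part -/
theorem order_of_fpf (a : Aff ρ k) (hfp : ∀ v, (ρ a.g).mulVec v = v → v = 0) :
    orderOf a = orderOf a.g := by
  set A : Matrix (Fin n) (Fin n) F := ρ a.g with hA
  set M : Matrix (Fin n) (Fin n) F := 1 - A with hM
  have hinj : Function.Injective M.mulVec := by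
    intro x y hxy
    have h1 : A.mulVec (x - y) = x - y := by
      have h2 : M.mulVec x - M.mulVec y = 0 := by rw [hxy, sub_self]
      rw [hM, Matrix.sub_mulVec, Matrix.sub_mulVec, Matrix.one_mulVec, Matrix.one_mulVec] at h2
      rw [Matrix.mulVec_sub]
      have h3 : x - y - (A.mulVec x - A.mulVec y) = 0 := by rw [← h2]; abel
      exact (sub_eq_zero.1 h3).symm
    exact sub_eq_zero.1 (hfp _ h1)
  have hMu : IsUnit M.det := (Matrix.isUnit_iff_isUnit_det M).1
    (Matrix.mulVec_injective_iff_isUnit.1 hinj)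
  let w : Fin k → Fin n → F := fun i => M⁻¹.mulVec (a.v i)
  have hw : ∀ i, w i - A.mulVec (w i) = a.v i := by
    intro i
    have h1 : w i - A.mulVec (w i) = M.mulVec (w i) := by
      rw [hM, Matrix.sub_mulVec, Matrix.one_mulVec]
    rw [h1, Matrix.mulVec_mulVec, Matrix.mul_nonsing_inv _ hMu, Matrix.one_mulVec]
  let c : Aff ρ k := ⟨w, 1⟩
  have hconj : a = MulAut.conj c (inr a.g) := by
    rw [MulAut.conj_apply]
    apply Aff.ext
    · funext i
      simp only [mul_v, mul_g, inv_v, c, inr, MonoidHom.coe_mk, OneHom.coe_mk,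
        map_one, Matrix.one_mulVec, Matrix.mulVec_zero, add_zero,
        inv_one, one_mul, Matrix.mulVec_neg]
      rw [← hw i, hA, sub_eq_add_neg]
    · simp only [mul_g, inv_g, c, inr, MonoidHom.coe_mk, OneHom.coe_mk, inv_one, one_mul,
        mul_one]
  have h5 : orderOf (MulAut.conj c (inr a.g)) = orderOf (inr a.g : Aff ρ k) :=
    MulEquiv.orderOf_eq _ _
  rw [← hconj] at h5
  rw [h5, orderOf_injective inr inr_injective]

/-- in characteristic two, an element whose linear part has order dividing four has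
order dividing eight -/
theorem pow_eight (h2 : (2 : F) = 0) (a : Aff ρ k) (h4 : a.g ^ 4 = 1) : a ^ 8 = 1 := by
  have hg : (a ^ 4).g = 1 := by rw [pow_g, h4]
  have e : a ^ 8 = a ^ 4 * a ^ 4 := by rw [← pow_add]
  rw [e]
  apply Aff.ext
  · funext i
    rw [mul_v, hg, map_one, Matrix.one_mulVec, one_v]
    have : (a ^ 4).v i + (a ^ 4).v i = (2 : F) • (a ^ 4).v i := (two_smul F _).symm
    rw [this, h2, zero_smul]
  · rw [mul_g, hg, one_g, one_mul]

end Aff

/-- a finite group has a copy in `Type` -/
theorem exists_type_zero (K : Type u1) [Group K] [Finite K] :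
    ∃ (H : Type) (_ : Group H) (_ : Finite H), Nonempty (K ≃* H) := by
  have : Small.{0} K := inferInstance
  exact ⟨Shrink.{0} K, inferInstance, Finite.of_equiv K (equivShrink K),
    ⟨(Shrink.mulEquiv).symm⟩⟩

/-- Arbitrarily large finite groups with the same prime graph as a linear group in
characteristic two all of whose elements have order dividing four or act without nonzero
fixed vectors. -/
theorem aff_graph {G : Type u1} [Group G] [Finite G] {F : Type u2} [Field F] [Fintype F] {n : ℕ}
    (hn : 1 ≤ n) (ρ : G →* Matrix (Fin n) (Fin n) F) (h2 : (2 : F) = 0)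
    (hcard : 2 ∣ Nat.card G)
    (hdich : ∀ g : G, g ^ 4 = 1 ∨ ∀ v, (ρ g).mulVec v = v → v = 0) (N : ℕ) :
    ∃ (H : Type) (_ : Group H) (_ : Finite H), N < Nat.card H ∧
      ((∀ p : ℕ, p.Prime → (p ∣ Nat.card G ↔ p ∣ Nat.card H)) ∧
      (∀ p q : ℕ, p.Prime → q.Prime → p ≠ q →
        ((∃ g : G, orderOf g = p * q) ↔ (∃ g : H, orderOf g = p * q)))) := by
  have order_cases : ∀ a : Aff ρ N, orderOf a = orderOf a.g ∨ a ^ 8 = 1 := by
    intro a
    rcases hdich a.g with h | h
    · exact Or.inr (Aff.pow_eight h2 a h)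
    · exact Or.inl (Aff.order_of_fpf a h)
  have h3 : ∀ r : ℕ, r.Prime → r ∣ 8 → r = 2 := by
    intro r hr h
    have : r ∣ 2 ^ 3 := by norm_num; exact h
    exact (Nat.prime_dvd_prime_iff_eq hr Nat.prime_two).mp (hr.dvd_of_dvd_pow this)
  obtain ⟨H, hG, hFin, ⟨e⟩⟩ := exists_type_zero (Aff ρ N)
  refine ⟨H, hG, hFin, ?_, ?_, ?_⟩
  · rw [← Nat.card_congr e.toEquiv]
    exact Aff.card_lt hn
  · intro p hp
    have := Fact.mk hp
    rw [← Nat.card_congr e.toEquiv]
    constructor
    · intro h
      obtain ⟨g, hg⟩ := exists_prime_orderOf_dvd_card' p h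
      rw [← hg, ← orderOf_injective (Aff.inr (ρ := ρ) (k := N)) Aff.inr_injective g]
      exact orderOf_dvd_natCard _
    · intro h
      obtain ⟨a, ha⟩ := exists_prime_orderOf_dvd_card' p h
      rcases order_cases a with h1 | h1
      · rw [← ha, h1]
        exact orderOf_dvd_natCard _
      · have h4 : p ∣ 8 := ha ▸ orderOf_dvd_of_pow_eq_one h1
        rw [h3 p hp h4]
        exact hcard
  · intro p q hp hq hpq
    constructor
    · rintro ⟨g, hg⟩
      refine ⟨e (Aff.inr g), ?_⟩
      rw [MulEquiv.orderOf_eq, orderOf_injective Aff.inr Aff.inr_injective, hg]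
    · rintro ⟨h, hh⟩
      obtain ⟨a, rfl⟩ := e.surjective h
      rw [MulEquiv.orderOf_eq] at hh
      rcases order_cases a with h1 | h1
      · exact ⟨a.g, by rw [← h1, hh]⟩
      · exfalso
        have h4 : p * q ∣ 8 := hh ▸ orderOf_dvd_of_pow_eq_one h1
        have h5 := h3 p hp ((dvd_mul_right p q).trans h4)
        have h6 := h3 q hq ((dvd_mul_left q p).trans h4)
        exact hpq (h5.trans h6.symm)

end Cfsg.Agent.Lib.helper25.SzGraph
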