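import Mathlib
import Cfsg.Agent.Lib.helper25.SzGraph1
import Cfsg.Agent.Lib.helper25.SzPart9
import Cfsg.Agent.Lib.helper25.SzIso3

/-!
# Groups with the prime graph of a Suzuki group (library, seat helper25)
-/

set_option autoImplicit false
set_option linter.unusedSectionVars false
set_option linter.unusedSimpArgs false
set_option linter.style.haveILetI false

namespace Cfsg.Agent.Lib.helper25.SzGraph

open Cfsg.Agent.Lib.helper2.Suzuki
open Cfsg.Agent.Lib.helper2
open Cfsg.Agent.Lib.helper25.SzOut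
open Cfsg.Agent.Lib.helper25.SzCover
open Cfsg.Agent.Lib.helper25.SzPart

/-- an element of suitable prime order of `GL₄(F)` fixes no nonzero vector -/
theorem fpf_singer {F : Type*} [Field F] [Fintype F] {p : ℕ} [Fact p.Prime]
    (h0 : ¬ p ∣ Fintype.card F)
    (h1 : ¬ p ∣ Fintype.card F - 1) (h2 : ¬ p ∣ Fintype.card F ^ 2 - 1)
    (h3 : ¬ p ∣ Fintype.card F ^ 3 - 1) (y : GL (Fin 4) F) (hy : orderOf y = p)
    (v : Fin 4 → F) (hv : (y : Matrix (Fin 4) (Fin 4) F).mulVec v = v) : v = 0 := by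
  obtain ⟨K, _, _, _, b, g, ζ, hK, hζ, -⟩ := gl4_pack h0 h1 h2 h3 y hy
  have hζ1 : ζ ≠ 1 := by
    rintro rfl
    rw [map_one] at hζ
    have hy1 : y = 1 := conj_eq_one_iff.1 hζ.symm
    rw [hy1, orderOf_one] at hy
    exact (Fact.out : p.Prime).ne_one hy.symm
  set w : Fin 4 → F := (g : Matrix (Fin 4) (Fin 4) F).mulVec v with hw
  have hfix : (Algebra.leftMulMatrix b (ζ : K)).mulVec w = w := by
    have e : (Algebra.leftMulMatrix b (ζ : K)) = (g * y * g⁻¹ : GL (Fin 4) F).val := by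
      rw [← hζ]; rfl
    rw [e, hw, Matrix.mulVec_mulVec]
    have e2 : (g * y * g⁻¹ : GL (Fin 4) F).val * g.val = g.val * y.val := by
      rw [← Units.val_mul, ← Units.val_mul]
      congr 1
      group
    rw [e2, ← Matrix.mulVec_mulVec, hv]
  obtain ⟨k, hk⟩ : ∃ k : K, (b.repr k : Fin 4 → F) = w :=
    ⟨b.equivFun.symm w, b.equivFun.apply_symm_apply w⟩
  rw [← hk, Algebra.leftMulMatrix_mulVec_repr] at hfix
  have hk2 : (ζ : K) * k = k := by
    apply b.repr.injective
    exact DFunLike.coe_injective hfix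
  have hk0 : k = 0 := by
    have h : ((ζ : K) - 1) * k = 0 := by rw [sub_mul, one_mul, hk2, sub_self]
    rcases mul_eq_zero.1 h with h | h
    · exfalso
      apply hζ1
      ext
      exact sub_eq_zero.1 h
    · exact h
  have hw0 : w = 0 := by
    rw [← hk, hk0]; simp
  have hback : (g⁻¹ : GL (Fin 4) F).val.mulVec w = v := by
    rw [hw, Matrix.mulVec_mulVec, ← Units.val_mul, inv_mul_cancel]; simp
  rw [← hback, hw0, Matrix.mulVec_zero]

section diag

variable {F : Type*} [Field F] [Fintype F] {s : ℕ} (H : Hyp F s)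
include H

theorem fpf_e {l : Fˣ} (hl : l ≠ 1) (w : Fin 4 → F) (hw : (em s l).mulVec w = w) : w = 0 := by
  have hls : (l : F) ^ s ≠ 1 := by
    intro h
    apply hl
    apply unit_sq_eq_one H
    rw [← H.hs2, h, one_pow]
  have hls2 : (l : F) ^ (s + 2) ≠ 1 := by
    intro h
    apply hl
    apply unit_pow_eq_one H
    calc (l : F) ^ (2 * s + 2) = (l : F) ^ 2 * ((l : F) ^ s) ^ 2 := by ring
      _ = (((l : F) ^ s) ^ s) * ((l : F) ^ s) ^ 2 := by rw [H.hs2]
      _ = ((l : F) ^ (s + 2)) ^ s := by ring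
      _ = 1 := by rw [h, one_pow]
  have hl0 : (l : F) ≠ 0 := l.ne_zero
  have hlsi : ((l : F) ^ s)⁻¹ ≠ 1 := by
    intro h
    exact hls (inv_eq_one.1 h)
  have hls2i : ((l : F) ^ (s + 2))⁻¹ ≠ 1 := by
    intro h
    exact hls2 (inv_eq_one.1 h)
  have key : ∀ (c x : F), c ≠ 1 → c * x = x → x = 0 := by
    intro c x hc hx
    have h : (c - 1) * x = 0 := by rw [sub_mul, one_mul, hx, sub_self]
    rcases mul_eq_zero.1 h with h | h
    · exact absurd (sub_eq_zero.1 h) hc
    · exact h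
  have h0 := congrFun hw 0
  have h1 := congrFun hw 1
  have h2 := congrFun hw 2
  have h3 := congrFun hw 3
  simp only [Cfsg.Agent.Lib.helper2.Suzuki.em, Matrix.mulVec, dotProduct, Fin.sum_univ_four, Matrix.of_apply,
    Matrix.cons_val_zero, Matrix.cons_val_one, Matrix.cons_val', Matrix.cons_val_fin_one,
    Matrix.cons_val, zero_mul, add_zero, zero_add] at h0 h1 h2 h3
  funext i
  fin_cases i
  · exact key _ _ hls2 h0
  · exact key _ _ hls h1
  · exact key _ _ hlsi h2
  · exact key _ _ hls2i h3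

end diag

/-- the matrix representation of the ovoid stabiliser -/
def rho (F : Type*) [Field F] (s : ℕ) : ↥(Gs F s) →* Matrix (Fin 4) (Fin 4) F :=
  (Units.coeHom _).comp ((Matrix.SpecialLinearGroup.toGL).comp (Gs F s).subtype)

section geom

variable {F : Type*} [Field F] [Fintype F] {m : ℕ} (hm : 1 ≤ m)
  (hF : Fintype.card F = 2 ^ (2 * m + 1)) (H : Hyp F (2 ^ (m + 1)))
include hm hF H

theorem dich (g : ↥(Gs F (2 ^ (m + 1)))) :
    g ^ 4 = 1 ∨ ∀ v, (rho F (2 ^ (m + 1)) g).mulVec v = v → v = 0 := by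
  by_cases hg : g = 1
  · left
    rw [hg, one_pow]
  rcases classify hm hF H g hg with hgN | ⟨k, a, b, hab, hk⟩ | ⟨k, l, hl, hk⟩
  · right
    intro v hv
    obtain ⟨p, _, j, hj, h0, h1, h2, h3⟩ := prime_pack hm hF H g hg hgN
    have hpow : ∀ i : ℕ, (rho F (2 ^ (m + 1)) (g ^ i)).mulVec v = v := by
      intro i
      induction i with
      | zero => rw [pow_zero, map_one, Matrix.one_mulVec]
      | succ i ih => rw [pow_succ g i, map_mul, ← Matrix.mulVec_mulVec, hv, ih]
    exact fpf_singer h0 h1 h2 h3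
      (((Matrix.SpecialLinearGroup.toGL : Matrix.SpecialLinearGroup (Fin 4) F →* GL (Fin 4) F).comp
        (Subgroup.subtype (Gs F (2 ^ (m + 1))))) (g ^ j))
      (by rw [orderOf_injective _ (iota_inj hm hF H), hj]) v (hpow j)
  · left
    exact pow_rest_t hm hF H hk
  · right
    intro v hv
    have h1 : (em (2 ^ (m + 1)) l).mulVec ((rho F (2 ^ (m + 1)) k).mulVec v)
        = (rho F (2 ^ (m + 1)) k).mulVec v := by
      have e : em (2 ^ (m + 1)) l = rho F (2 ^ (m + 1)) (k * g * k⁻¹) := by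
        rw [hk]; rfl
      rw [e, Matrix.mulVec_mulVec, ← map_mul]
      have e2 : k * g * k⁻¹ * k = k * g := by group
      rw [e2, map_mul, ← Matrix.mulVec_mulVec, hv]
    have h2 := fpf_e H hl _ h1
    have e3 : v = (rho F (2 ^ (m + 1)) k⁻¹).mulVec ((rho F (2 ^ (m + 1)) k).mulVec v) := by
      rw [Matrix.mulVec_mulVec, ← map_mul, inv_mul_cancel, map_one, Matrix.one_mulVec]
    rw [e3, h2, Matrix.mulVec_zero]

theorem sz_graph (N : ℕ) :
    ∃ (K : Type) (_ : Group K) (_ : Fintype K), N < Fintype.card K ∧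
      ((∀ r : ℕ, r.Prime → (r ∣ Nat.card ↥(Cfsg.Lie.Sz F (2 ^ (m + 1))) ↔ r ∣ Nat.card K)) ∧
      (∀ r s : ℕ, r.Prime → s.Prime → r ≠ s →
        ((∃ x : ↥(Cfsg.Lie.Sz F (2 ^ (m + 1))), orderOf x = r * s) ↔
          (∃ y : K, orderOf y = r * s)))) := by
  haveI : Finite ↥(Gs F (2 ^ (m + 1))) := Finite.of_injective _ Subtype.val_injective
  have hcard : 2 ∣ Nat.card ↥(Gs F (2 ^ (m + 1))) := by
    rw [card_G hm hF H]
    obtain ⟨-, hqe, -, -⟩ := q_facts m hm
    exact Dvd.dvd.mul_right (Dvd.dvd.mul_right (Dvd.dvd.pow hqe (by norm_num)) _) _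
  obtain ⟨K, hG, hFin, hN, h1, h2⟩ :=
    aff_graph (by norm_num : 1 ≤ 4) (rho F (2 ^ (m + 1))) H.h2 hcard (dich hm hF H) N
  let e := Cfsg.Agent.Lib.helper25.SzIso.szEquiv H
  letI : Fintype K := Fintype.ofFinite K
  refine ⟨K, hG, inferInstance, ?_, ?_, ?_⟩
  · rw [← Nat.card_eq_fintype_card]
    exact hN
  · intro r hr
    rw [← Nat.card_congr e.toEquiv]
    exact h1 r hr
  · intro r s hr hs hrs
    rw [← h2 r s hr hs hrs]
    constructor
    · rintro ⟨g, hg⟩
      exact ⟨e.symm g, by rw [MulEquiv.orderOf_eq, hg]⟩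
    · rintro ⟨g, hg⟩
      exact ⟨e g, by rw [MulEquiv.orderOf_eq, hg]⟩

end geom

end Cfsg.Agent.Lib.helper25.SzGraph
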