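import Mathlib
import Cfsg.Agent.Lib.helper25.SzMax2
import Cfsg.Prelude.Def_Transfer

/-!
# Elementary abelian TI-subgroups of Suzuki groups (library, seat helper25)
-/

set_option autoImplicit false
set_option linter.unusedSectionVars false
set_option linter.unusedSimpArgs false
set_option linter.style.haveILetI false

namespace Cfsg.Agent.Lib.helper25.SzOut

open Cfsg.Agent.Lib.helper2.Suzuki
open Cfsg.Agent.Lib.helper2.Ovoid (N)

variable {F : Type*} [Field F] [Fintype F] {s : ℕ} (H : Hyp F s)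

theorem conj_central (a b : F) (l : Fˣ) (c : F) :
    (tG H a b * eG H l) * tG H 0 c * (tG H a b * eG H l)⁻¹
      = tG H 0 ((l : F) ^ (2 * s + 2) * c) := by
  have e : (tG H a b * eG H l) * tG H 0 c * (tG H a b * eG H l)⁻¹
      = tG H a b * (eG H l * tG H 0 c * (eG H l)⁻¹) * (tG H a b)⁻¹ := by group
  rw [e, eG_conj, tG_inv, tG_mul, tG_mul, mul_zero, add_zero]
  congr 1
  · exact add_self H a
  · rw [pow_succ]
    linear_combination (b + a ^ s * a) * H.h2

theorem tG_central_mul (c c' : F) : tG H 0 c * tG H 0 c' = tG H 0 (c + c') := by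
  rw [tG_mul, mul_zero, add_zero, add_zero]

theorem tG_central_inv (c : F) : (tG H 0 c)⁻¹ = tG H 0 c := by
  rw [tG_inv, zero_pow (by omega), add_zero]

include H in
/-- existence of the TI-subgroup attached to a subfield -/
theorem ti_exists {K0 : Type*} [Field K0] (f : K0 →+* F) (n : ℕ) (hcard : Nat.card K0 = 2 ^ n) :
    ∃ E : Subgroup ↥(Gs F s), Cfsg.IsElementaryAbelian 2 E ∧ Nat.card ↥E = 2 ^ n ∧
      ∀ x : ↥(Gs F s), E ⊓ E.map (MulAut.conj x).toMonoidHom ≠ ⊥ →
        x ∈ Subgroup.normalizer (E : Set ↥(Gs F s)) := by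
  have hs := s_ne_zero H
  let E : Subgroup ↥(Gs F s) :=
    { carrier := {g | ∃ y : K0, g = tG H 0 (f y)}
      mul_mem' := by
        rintro _ _ ⟨y, rfl⟩ ⟨y', rfl⟩
        exact ⟨y + y', by rw [tG_central_mul, map_add]⟩
      one_mem' := ⟨0, by rw [map_zero, tG_zero]⟩
      inv_mem' := by
        rintro _ ⟨y, rfl⟩
        exact ⟨y, tG_central_inv H _⟩ }
  have hE : ∀ g, g ∈ E ↔ ∃ y : K0, g = tG H 0 (f y) := fun g => Iff.rfl
  refine ⟨E, ⟨⟨⟨?_⟩⟩, ?_⟩, ?_, ?_⟩
  · rintro ⟨_, y, rfl⟩ ⟨_, y', rfl⟩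
    apply Subtype.ext
    show tG H 0 (f y) * tG H 0 (f y') = tG H 0 (f y') * tG H 0 (f y)
    rw [tG_central_mul, tG_central_mul, add_comm]
  · rintro _ ⟨y, rfl⟩
    rw [pow_two, tG_central_mul, add_self H, tG_zero]
  · rw [← hcard]
    symm
    apply Nat.card_eq_of_bijective (fun y : K0 => (⟨tG H 0 (f y), ⟨y, rfl⟩⟩ : ↥E))
    constructor
    · intro y y' h
      have h1 : tG H 0 (f y) = tG H 0 (f y') := congrArg Subtype.val h
      exact f.injective (tG_inj H h1).2
    · rintro ⟨_, y, rfl⟩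
      exact ⟨y, rfl⟩
  · intro x hx
    have hex : ∃ g ∈ E ⊓ E.map (MulAut.conj x).toMonoidHom, g ≠ 1 := by
      by_contra hcon
      push Not at hcon
      apply hx
      rw [eq_bot_iff]
      intro g hg
      exact hcon g hg
    obtain ⟨g, ⟨hg1, hg2⟩, hgne⟩ := hex
    obtain ⟨y, rfl⟩ := (hE g).1 hg1
    obtain ⟨g', hg', hgg⟩ := hg2
    obtain ⟨y', rfl⟩ := (hE g').1 hg'
    have hxc : x * tG H 0 (f y') * x⁻¹ = tG H 0 (f y) := hgg
    have hy' : y' ≠ 0 := by
      rintro rfl
      apply hgne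
      rw [← hxc, map_zero, tG_zero, mul_one, mul_inv_cancel]
    have hfy' : f y' ≠ 0 := fun h0 => hy' (f.injective (h0.trans (map_zero f).symm))
    have hfix := fix_inf_of_norm' H hxc (fun h => hfy' h.2)
    obtain ⟨a, b, l, rfl⟩ := stabG H hfix
    rw [conj_central] at hxc
    have hμ : ((l : F)) ^ (2 * s + 2) = f (y / y') := by
      have := (tG_inj H hxc).2
      rw [map_div₀]
      field_simp
      exact this
    have hz : y / y' ≠ 0 := by
      intro h0
      rw [h0, map_zero] at hμ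
      exact (pow_ne_zero _ l.ne_zero) hμ
    rw [Subgroup.mem_normalizer_iff]
    intro h
    constructor
    · rintro ⟨u, rfl⟩
      rw [conj_central, hμ, ← map_mul]
      exact ⟨_, rfl⟩
    · rintro ⟨u, hu⟩
      have h1 : (tG H a b * eG H l) * tG H 0 (f ((y / y')⁻¹ * u)) * (tG H a b * eG H l)⁻¹
          = tG H 0 (f u) := by
        rw [conj_central, hμ, ← map_mul, ← mul_assoc, mul_inv_cancel₀ hz, one_mul]
      have h2 : h = tG H 0 (f ((y / y')⁻¹ * u)) := by
        have h3 := hu.trans h1.symm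
        have h4 := mul_right_cancel h3
        exact mul_left_cancel h4
      rw [h2]
      exact ⟨_, rfl⟩

end Cfsg.Agent.Lib.helper25.SzOut
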