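import Mathlib
import Cfsg.Agent.Lib.helper25.SzTI

/-!
# Elementary abelian TI-subgroups of Suzuki groups: the divisibility (library, seat helper25)
-/

set_option autoImplicit false
set_option linter.unusedSectionVars false
set_option linter.unusedSimpArgs false
set_option linter.style.haveILetI false

namespace Cfsg.Agent.Lib.helper25.SzOut

open Cfsg.Agent.Lib.helper2.Suzuki
open Cfsg.Agent.Lib.helper2.Ovoid (N)

variable {F : Type*} [Field F] [Fintype F] {s : ℕ} (H : Hyp F s)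

include H in
/-- a multiplicatively closed additive subgroup of order `2^n` forces `n ∣ r` -/
theorem dvd_of_subfield (r : ℕ) (hq : Fintype.card F = 2 ^ r) (n : ℕ) (W : Set F)
    (h0 : (0 : F) ∈ W) (h1 : (1 : F) ∈ W) (hadd : ∀ x ∈ W, ∀ y ∈ W, x + y ∈ W)
    (hmul : ∀ x ∈ W, ∀ y ∈ W, x * y ∈ W) (hcard : Nat.card W = 2 ^ n) : n ∣ r := by
  classical
  have hneg : ∀ x ∈ W, -x ∈ W := fun x hx => by rw [neg_eq H]; exact hx
  have hinv : ∀ x ∈ W, x⁻¹ ∈ W := by
    intro x hx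
    by_cases hx0 : x = 0
    · rw [hx0, inv_zero]; exact h0
    · let φ : W → W := fun u => ⟨x * u.1, hmul x hx u.1 u.2⟩
      have hφ : Function.Injective φ := by
        intro u v huv
        have : x * u.1 = x * v.1 := congrArg Subtype.val huv
        exact Subtype.ext (mul_left_cancel₀ hx0 this)
      obtain ⟨u, hu⟩ := Finite.surjective_of_injective hφ ⟨1, h1⟩
      have hu' : x * u.1 = 1 := congrArg Subtype.val hu
      have : x⁻¹ = u.1 := by
        field_simp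
        linear_combination -hu'
      rw [this]; exact u.2
  let Wf : Subfield F :=
    { carrier := W
      mul_mem' := fun {a b} ha hb => hmul a ha b hb
      one_mem' := h1
      add_mem' := fun {a b} ha hb => hadd a ha b hb
      zero_mem' := h0
      neg_mem' := fun {a} ha => hneg a ha
      inv_mem' := fun a ha => hinv a ha }
  have hc1 : Nat.card ↥Wf = 2 ^ n := hcard
  have h2 := Module.natCard_eq_pow_finrank (K := ↥Wf) (V := F)
  rw [hc1, Nat.card_eq_fintype_card, hq, ← pow_mul] at h2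
  have h3 := Nat.pow_right_injective (le_refl 2) h2
  exact ⟨_, h3⟩

include H in
/-- The order of an elementary abelian TI-subgroup. -/
theorem ti_dvd (r : ℕ) (hr : 1 ≤ r) (hq : Fintype.card F = 2 ^ r) (n : ℕ) (hn : 2 ≤ n)
    (E : Subgroup ↥(Gs F s)) (hE : Cfsg.IsElementaryAbelian 2 E) (hc : Nat.card ↥E = 2 ^ n)
    (hTI : ∀ x : ↥(Gs F s), E ⊓ E.map (MulAut.conj x).toMonoidHom ≠ ⊥ →
        x ∈ Subgroup.normalizer (E : Set ↥(Gs F s))) : n ∣ r := by
  haveI : Fact (Nat.Prime 2) := ⟨Nat.prime_two⟩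
  have hs := s_ne_zero H
  have hp : IsPGroup 2 ↥E := IsPGroup.of_card hc
  obtain ⟨P, hEP⟩ := hp.exists_le_sylow
  obtain ⟨k, hk⟩ := sylow_conj H r hr hq P
  have hmem : ∀ g ∈ E, ∃ c, g = k * tG H 0 c * k⁻¹ := by
    intro g hg
    have h1 : g ∈ (P : Subgroup ↥(Gs F s)) := hEP hg
    rw [hk] at h1
    obtain ⟨u, hu, rfl⟩ := h1
    obtain ⟨a, b, rfl⟩ := (mem_UG H).1 hu
    have h2 := hE.2 _ hg
    have h3 : (MulAut.conj k).toMonoidHom (tG H a b) ^ 2 = k * (tG H a b * tG H a b) * k⁻¹ := by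
      show (k * tG H a b * k⁻¹) ^ 2 = _
      rw [pow_two]; group
    have hsq : tG H a b * tG H a b = tG H 0 (a ^ (s + 1)) := Subtype.ext (tS_sq H a b)
    rw [h3, hsq] at h2
    have h4 : tG H 0 (a ^ (s + 1)) = 1 := by
      have : tG H 0 (a ^ (s + 1)) = k⁻¹ * (k * tG H 0 (a ^ (s + 1)) * k⁻¹) * k := by group
      rw [this, h2]; group
    rw [← tG_zero H] at h4
    have ha : a = 0 := (pow_eq_zero_iff (by omega)).1 (tG_inj H h4).2
    exact ⟨b, by rw [ha]; rfl⟩
  set V : Set F := {c | k * tG H 0 c * k⁻¹ ∈ E} with hV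
  have hV0 : (0 : F) ∈ V := by
    show k * tG H 0 0 * k⁻¹ ∈ E
    rw [tG_zero, mul_one, mul_inv_cancel]
    exact one_mem _
  have hVadd : ∀ c ∈ V, ∀ c' ∈ V, c + c' ∈ V := by
    intro c hc c' hc'
    show k * tG H 0 (c + c') * k⁻¹ ∈ E
    have e : k * tG H 0 (c + c') * k⁻¹ = (k * tG H 0 c * k⁻¹) * (k * tG H 0 c' * k⁻¹) := by
      rw [← tG_central_mul]; group
    rw [e]
    exact mul_mem hc hc'
  have hVcard : Nat.card V = 2 ^ n := by
    rw [← hc]
    apply Nat.card_eq_of_bijective (fun c : V => (⟨k * tG H 0 c.1 * k⁻¹, c.2⟩ : ↥E))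
    constructor
    · intro c c' h
      have h1 : k * tG H 0 c.1 * k⁻¹ = k * tG H 0 c'.1 * k⁻¹ := congrArg Subtype.val h
      have h2 := mul_left_cancel (mul_right_cancel h1)
      exact Subtype.ext (tG_inj H h2).2
    · rintro ⟨g, hg⟩
      obtain ⟨c, rfl⟩ := hmem g hg
      exact ⟨⟨c, hg⟩, rfl⟩
  -- the torus condition
  have key : ∀ l : Fˣ, ∀ c ∈ V, ∀ c' ∈ V, c ≠ 0 → c = (l : F) ^ (2 * s + 2) * c' →
      ∀ v ∈ V, (l : F) ^ (2 * s + 2) * v ∈ V := by
    intro l c hc c' hc' hc0 hcc v hv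
    have hconj : ∀ w : F, (k * eG H l * k⁻¹) * (k * tG H 0 w * k⁻¹) * (k * eG H l * k⁻¹)⁻¹
        = k * tG H 0 ((l : F) ^ (2 * s + 2) * w) * k⁻¹ := by
      intro w
      have e : (k * eG H l * k⁻¹) * (k * tG H 0 w * k⁻¹) * (k * eG H l * k⁻¹)⁻¹
          = k * (eG H l * tG H 0 w * (eG H l)⁻¹) * k⁻¹ := by group
      rw [e, eG_conj, mul_zero]
    have hx : E ⊓ E.map (MulAut.conj (k * eG H l * k⁻¹)).toMonoidHom ≠ ⊥ := by
      intro hbot
      have h1 : k * tG H 0 c * k⁻¹ ∈ E ⊓ E.map (MulAut.conj (k * eG H l * k⁻¹)).toMonoidHom := by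
        refine ⟨hc, ⟨k * tG H 0 c' * k⁻¹, hc', ?_⟩⟩
        show (k * eG H l * k⁻¹) * (k * tG H 0 c' * k⁻¹) * (k * eG H l * k⁻¹)⁻¹ = _
        rw [hconj, ← hcc]
      rw [hbot, Subgroup.mem_bot] at h1
      have h2 : tG H 0 c = 1 := by
        have : tG H 0 c = k⁻¹ * (k * tG H 0 c * k⁻¹) * k := by group
        rw [this, h1]; group
      rw [← tG_zero H] at h2
      exact hc0 (tG_inj H h2).2
    have hnorm := hTI _ hx
    have := (Subgroup.mem_normalizer_iff.1 hnorm (k * tG H 0 v * k⁻¹)).1 hv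
    rw [hconj] at this
    exact this
  have key2 : ∀ μ : F, μ ≠ 0 → ∀ c ∈ V, ∀ c' ∈ V, c ≠ 0 → c = μ * c' → ∀ v ∈ V, μ * v ∈ V := by
    intro μ hμ c hc c' hc' hc0 hcc v hv
    obtain ⟨a, ha⟩ := pow_s1_surj H μ
    obtain ⟨l, hl⟩ := exists_sqrt H a
    have hl0 : l ≠ 0 := by
      rintro rfl
      rw [zero_pow (by norm_num)] at hl
      rw [← hl, zero_pow (by omega)] at ha
      exact hμ ha.symm
    have e : ((Units.mk0 l hl0 : Fˣ) : F) ^ (2 * s + 2) = μ := by
      rw [Units.val_mk0, ← ha, ← hl, ← pow_mul]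
      congr 1
    have := key (Units.mk0 l hl0) c hc c' hc' hc0 (by rw [e]; exact hcc) v hv
    rw [e] at this
    exact this
  -- a nonzero element
  have hex : ∃ c0 ∈ V, c0 ≠ 0 := by
    by_contra hcon
    push Not at hcon
    have hsub : V ⊆ {0} := fun c hc => hcon c hc
    have h1 : Nat.card V ≤ 1 := by
      rw [Nat.card_coe_set_eq]
      calc V.ncard ≤ ({0} : Set F).ncard := Set.ncard_le_ncard hsub (Set.toFinite _)
        _ = 1 := Set.ncard_singleton 0
    rw [hVcard] at h1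
    have : 2 ^ 2 ≤ 2 ^ n := Nat.pow_le_pow_right (by norm_num) hn
    omega
  obtain ⟨c0, hc0V, hc0⟩ := hex
  set W : Set F := {w | w * c0 ∈ V} with hW
  have hW0 : (0 : F) ∈ W := by
    show 0 * c0 ∈ V
    rw [zero_mul]; exact hV0
  have hW1 : (1 : F) ∈ W := by
    show 1 * c0 ∈ V
    rw [one_mul]; exact hc0V
  have hWadd : ∀ x ∈ W, ∀ y ∈ W, x + y ∈ W := by
    intro x hx y hy
    show (x + y) * c0 ∈ V
    rw [add_mul]
    exact hVadd _ hx _ hy
  have hWmul : ∀ x ∈ W, ∀ y ∈ W, x * y ∈ W := by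
    intro x hx y hy
    show x * y * c0 ∈ V
    by_cases hx0 : x = 0
    · rw [hx0, zero_mul, zero_mul]; exact hV0
    · have := key2 x hx0 (x * c0) hx c0 hc0V (mul_ne_zero hx0 hc0) rfl (y * c0) hy
      rw [mul_assoc]
      exact this
  have hWcard : Nat.card W = 2 ^ n := by
    rw [← hVcard]
    apply Nat.card_eq_of_bijective (fun w : W => (⟨w.1 * c0, w.2⟩ : V))
    constructor
    · intro w w' h
      have h1 : w.1 * c0 = w'.1 * c0 := congrArg Subtype.val h
      exact Subtype.ext (mul_right_cancel₀ hc0 h1)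
    · rintro ⟨v, hv⟩
      refine ⟨⟨v / c0, ?_⟩, ?_⟩
      · show v / c0 * c0 ∈ V
        rw [div_mul_cancel₀ v hc0]; exact hv
      · apply Subtype.ext
        show v / c0 * c0 = v
        rw [div_mul_cancel₀ v hc0]
  exact dvd_of_subfield H r hq n W hW0 hW1 hWadd hWmul hWcard

end Cfsg.Agent.Lib.helper25.SzOut
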