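import Mathlib
import Cfsg.Agent.Lib.helper25.U3Aut2

/-!
# The automorphism group of the Sylow 2-subgroup of `U₃(4)` has no subgroup `S₃`
(library, seat helper25)
-/

set_option autoImplicit false
set_option linter.unusedSectionVars false
set_option linter.unusedSimpArgs false
set_option linter.style.haveILetI false

namespace Cfsg.Agent.Lib.helper25.U3Syl

open Cfsg.Agent.Lib.helper4 Cfsg.Agent.Lib.helper25.U3Aut

variable {K : Type*} [Field K] [Fintype K] {T : Type*} [Group T]

theorem no_s3 [CharP K 2] (hK : Fintype.card K = 16) (C : Coord K 4 T)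
    (H : Subgroup (MulAut T)) : ¬ Nonempty (↥H ≃* Equiv.Perm (Fin 3)) := by
  rintro ⟨e⟩
  have hK' : Fintype.card K = 4 ^ 2 := by rw [hK]; norm_num
  have hK'' : Fintype.card K = (2 ^ 2) ^ 2 := by rw [hK]; norm_num
  set c : Equiv.Perm (Fin 3) := finRotate 3 with hc
  set t : Equiv.Perm (Fin 3) := Equiv.swap 0 1 with ht
  have c3 : c * c * c = 1 := by decide
  have c1 : c ≠ 1 := by decide
  have t2 : t * t = 1 := by decide
  have ctc : c * t * c = t := by decide
  set ρ : MulAut T := (e.symm c : MulAut T) with hρ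
  set τ : MulAut T := (e.symm t : MulAut T) with hτ
  have hρ3 : ρ * ρ * ρ = 1 := by
    have : e.symm c * e.symm c * e.symm c = 1 := by rw [← map_mul, ← map_mul, c3, map_one]
    exact congrArg Subtype.val this
  have hρ1 : ρ ≠ 1 := by
    intro h
    apply c1
    have : e.symm c = 1 := Subtype.ext h
    have h2 := congrArg e this
    rwa [MulEquiv.apply_symm_apply, map_one] at h2
  have hτ2 : τ * τ = 1 := by
    have : e.symm t * e.symm t = 1 := by rw [← map_mul, t2, map_one]
    exact congrArg Subtype.val this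
  have hrel : ρ * τ * ρ = τ := by
    have : e.symm c * e.symm t * e.symm c = e.symm t := by rw [← map_mul, ← map_mul, ctc]
    exact congrArg Subtype.val this
  have fρ3 : ∀ x, ρ (ρ (ρ x)) = x := fun x => by
    have := congrArg (fun f : MulAut T => f x) hρ3
    simpa [MulAut.mul_apply] using this
  have fτ2 : ∀ x, τ (τ x) = x := fun x => by
    have := congrArg (fun f : MulAut T => f x) hτ2
    simpa [MulAut.mul_apply] using this
  have frel : ∀ x, ρ (τ (ρ x)) = τ x := fun x => by
    have := congrArg (fun f : MulAut T => f x) hrel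
    simpa [MulAut.mul_apply] using this
  obtain ⟨μ, σ, hμ, hA⟩ := C.aut_semilin hK' ⟨2, rfl⟩ ρ
  obtain ⟨ν, σ', hν, hA'⟩ := C.aut_semilin hK' ⟨2, rfl⟩ τ
  have h1 : ∀ a : K, μ * σ (μ * σ (μ * σ a)) = a := by
    intro a
    obtain ⟨x, hx⟩ := C.exists_A hK' a
    rw [← hx, ← hA, ← hA, ← hA, fρ3]
  have h1' : μ * σ μ * σ (σ μ) = 1 := by
    have := h1 1
    simp only [map_mul, map_one, mul_one] at this
    rw [← this]; ring
  have hσ3 : ∀ a, σ (σ (σ a)) = a := by
    intro a
    have := h1 a
    simp only [map_mul] at this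
    have e1 : μ * (σ μ * (σ (σ μ) * σ (σ (σ a)))) = (μ * σ μ * σ (σ μ)) * σ (σ (σ a)) := by ring
    rw [e1, h1', one_mul] at this
    exact this
  have hσ := ringAut_cube hK σ hσ3
  rw [hσ, hσ] at h1'
  have hμ1 : μ ≠ 1 := by
    intro h
    apply hρ1
    have hsq : ∀ x, ρ (ρ x) = x := C.aut_sq_of_A hK' ρ (fun x => by rw [hA, hσ, h, one_mul])
    apply MulEquiv.ext
    intro x
    have := fρ3 x
    rw [hsq] at this
    exact this
  have h2 : ∀ a : K, ν * σ' (ν * σ' a) = a := by
    intro a
    obtain ⟨x, hx⟩ := C.exists_A hK' a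
    rw [← hx, ← hA', ← hA', fτ2]
  have hνσ : ν * σ' ν = 1 := by
    have := h2 1
    simpa using this
  have hσσ : ∀ a, σ' (σ' a) = a := by
    intro a
    have := h2 a
    rw [map_mul, ← mul_assoc, hνσ, one_mul] at this
    exact this
  have hσ'μ : σ' μ = μ := by
    rcases ringAut_sq hK'' σ' hσσ with h | h
    · exact h μ
    · rw [h]
      have : μ ^ 2 ^ 2 = μ * μ * μ * μ := by ring
      rw [this, h1', one_mul]
  have h3 : μ * σ (ν * σ' (μ * σ 1)) = ν * σ' 1 := by
    obtain ⟨x, hx⟩ := C.exists_A hK' 1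
    rw [← hx, ← hA, ← hA', ← hA, frel, hA']
  simp only [hσ, map_one, mul_one, map_mul, hσ'μ] at h3
  have h4 : μ * μ = 1 := by
    have : ν * (μ * μ - 1) = 0 := by linear_combination h3
    rcases mul_eq_zero.mp this with h | h
    · exact absurd h hν
    · linear_combination h
  apply hμ1
  rw [h4, one_mul] at h1'
  exact h1'

end Cfsg.Agent.Lib.helper25.U3Syl
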