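import Mathlib
import Cfsg.Agent.Lib.helper25.U3Aut2
import Cfsg.Prelude.Def_Solvable
import Cfsg.Prelude.Def_Transfer

/-!
# The automorphism group of the Sylow 2-subgroup of `SU₃(2^n)` (library, seat helper25)
-/

set_option autoImplicit false
set_option linter.unusedSectionVars false
set_option linter.unusedSimpArgs false
set_option linter.style.haveILetI false

namespace Cfsg.Agent.Lib.helper25.U3Syl

open Cfsg.Agent.Lib.helper4 Cfsg.Agent.Lib.helper25.U3Aut

variable {K : Type*} [Field K] [Fintype K] {q : ℕ} {T : Type*} [Group T]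

namespace Coord

variable (C : Coord K q T) [CharP K 2]

/-- Automorphisms trivial on first coordinates fix the centre pointwise. -/
theorem aut_fix_center (hK : Fintype.card K = q ^ 2) (α : T ≃* T)
    (h : ∀ x, C.A (α x) = C.A x) (z : T) (hz : C.A z = 0) : α z = z := by
  have hB := C.B_aut_center hK α 1 (RingEquiv.refl K) (fun x => by rw [h]; simp) z hz
  apply C.inj
  · rw [h]
  · rw [hB]; simp

/-- The subgroup of automorphisms trivial on first coordinates. -/
def Cen (C : Coord K q T) : Subgroup (MulAut T) where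
  carrier := {α | ∀ x, C.A (α x) = C.A x}
  mul_mem' := by
    intro α β hα hβ x
    rw [MulAut.mul_apply, hα, hβ]
  one_mem' := fun x => rfl
  inv_mem' := by
    intro α hα x
    have := hα (α⁻¹ x)
    rw [MulAut.apply_inv_self] at this
    exact this.symm

theorem mem_Cen (α : MulAut T) : α ∈ C.Cen ↔ ∀ x, C.A (α x) = C.A x := Iff.rfl

theorem Cen_normal (C : Coord K q T) (hK : Fintype.card K = q ^ 2) : (C.Cen).Normal := by
  constructor
  intro α hα β x
  rw [MulAut.mul_apply, MulAut.mul_apply]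
  have h1 := C.A_aut_congr hK β (α (β⁻¹ x)) (β⁻¹ x) (hα _)
  rw [h1, MulAut.apply_inv_self]

theorem Cen_sq (C : Coord K q T) (hK : Fintype.card K = q ^ 2) (α : MulAut T) (hα : α ∈ C.Cen) :
    α * α = 1 := by
  apply MulEquiv.ext
  intro x
  rw [MulAut.mul_apply]
  exact C.aut_sq_of_A hK α hα x

theorem Cen_comm (C : Coord K q T) (hK : Fintype.card K = q ^ 2) (α β : MulAut T)
    (hα : α ∈ C.Cen) (hβ : β ∈ C.Cen) : α * β = β * α := by
  apply MulEquiv.ext
  intro x
  rw [MulAut.mul_apply, MulAut.mul_apply]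
  have hwα : C.A (x⁻¹ * α x) = 0 := by rw [C.mulA, C.A_inv, hα]; ring
  have hwβ : C.A (x⁻¹ * β x) = 0 := by rw [C.mulA, C.A_inv, hβ]; ring
  have h1 : α (β x) = α x * (x⁻¹ * β x) := by
    have : β x = x * (x⁻¹ * β x) := by group
    conv_lhs => rw [this]
    rw [map_mul, C.aut_fix_center hK α hα _ hwβ]
  have h2 : β (α x) = β x * (x⁻¹ * α x) := by
    have : α x = x * (x⁻¹ * α x) := by group
    conv_lhs => rw [this]
    rw [map_mul, C.aut_fix_center hK β hβ _ hwα]
  have hc : (x⁻¹ * α x) * (x⁻¹ * β x) = (x⁻¹ * β x) * (x⁻¹ * α x) := by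
    have := (C.mem_center_iff hK (x⁻¹ * α x)).2 hwα
    rw [Subgroup.mem_center_iff] at this
    exact (this _).symm
  rw [h1, h2]
  calc α x * (x⁻¹ * β x) = x * ((x⁻¹ * α x) * (x⁻¹ * β x)) := by group
    _ = x * ((x⁻¹ * β x) * (x⁻¹ * α x)) := by rw [hc]
    _ = β x * (x⁻¹ * α x) := by group

theorem Cen_isPGroup (C : Coord K q T) (hK : Fintype.card K = q ^ 2) : IsPGroup 2 ↥(C.Cen) := by
  intro α
  refine ⟨1, Subtype.ext ?_⟩
  show (α : MulAut T) ^ 2 ^ 1 = 1
  rw [pow_one, pow_two]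
  exact C.Cen_sq hK α.1 α.2

theorem pow_two_pow_eq_one (c : K) (k : ℕ) (h : c ^ 2 ^ k = 1) : c = 1 := by
  have h1 : (c - 1) ^ 2 ^ k = 0 := by
    rw [sub_pow_char_pow, h, one_pow, sub_self]
  have h2 := pow_eq_zero_iff (Nat.pos_of_ne_zero (by positivity)).ne' |>.mp h1
  linear_combination h2

theorem A_pow (α : MulAut T) (c : K) (h : ∀ x, C.A (α x) = c * C.A x) (k : ℕ) (x : T) :
    C.A ((α ^ k) x) = c ^ k * C.A x := by
  induction k generalizing x with
  | zero => simp
  | succ k ih =>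
    rw [pow_succ, MulAut.mul_apply, ih, h, pow_succ]
    ring

/-- The `2`-core of the automorphism group. -/
theorem pCore_eq (C : Coord K q T) (hK : Fintype.card K = q ^ 2) (hqe : ∃ r, q = 2 * r) :
    Cfsg.pCore 2 (MulAut T) = C.Cen := by
  apply le_antisymm
  · apply sSup_le
    rintro N ⟨hNn, hNp⟩ α hα
    obtain ⟨μ, σ, hμ, hA⟩ := C.aut_semilin hK hqe α
    have hσ : ∀ ν : Kˣ, σ (ν : K) = ν := by
      intro ν
      set β : MulAut T := α * (C.Dl hK ν * α⁻¹ * (C.Dl hK ν)⁻¹) with hβ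
      have hβN : β ∈ N := N.mul_mem hα (hNn.conj_mem _ (N.inv_mem hα) _)
      have hβA : ∀ x, C.A (β x) = (σ (ν : K) * (ν : K)⁻¹) * C.A x := by
        intro x
        set y := (C.Dl hK ν)⁻¹ x with hy
        set w := α⁻¹ y with hw
        have h1 : C.Dl hK ν y = x := by rw [hy, MulAut.apply_inv_self]
        have h2 : α w = y := by rw [hw, MulAut.apply_inv_self]
        have h3 : C.A x = (ν : K) * C.A y := by rw [← h1, C.Dl_apply, C.A_dl]
        have h4 : μ * σ (C.A w) = C.A y := by rw [← hA, h2]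
        have h5 : β x = α (C.Dl hK ν w) := rfl
        rw [h5, hA, C.Dl_apply, C.A_dl, map_mul, h3]
        have hν0 : (ν : K) ≠ 0 := ν.ne_zero
        field_simp
        linear_combination h4
      obtain ⟨k, hk⟩ := hNp ⟨β, hβN⟩
      have hk' : β ^ 2 ^ k = 1 := congrArg Subtype.val hk
      obtain ⟨x, hx⟩ := C.exists_A hK 1
      have h6 := C.A_pow β _ hβA (2 ^ k) x
      rw [hk', hx, mul_one] at h6
      have h7 : C.A ((1 : MulAut T) x) = 1 := hx
      rw [h7] at h6
      have h8 := pow_two_pow_eq_one _ k h6.symm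
      have hν0 : (ν : K) ≠ 0 := ν.ne_zero
      field_simp at h8
      exact h8
    have hσ' : ∀ a : K, σ a = a := by
      intro a
      by_cases ha : a = 0
      · rw [ha, map_zero]
      · exact hσ (Units.mk0 a ha)
    have hA' : ∀ x, C.A (α x) = μ * C.A x := fun x => by rw [hA, hσ']
    obtain ⟨k, hk⟩ := hNp ⟨α, hα⟩
    have hk' : α ^ 2 ^ k = 1 := congrArg Subtype.val hk
    obtain ⟨x, hx⟩ := C.exists_A hK 1
    have h6 := C.A_pow α μ hA' (2 ^ k) x
    rw [hk', hx, mul_one] at h6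
    have h7 : C.A ((1 : MulAut T) x) = 1 := hx
    rw [h7] at h6
    have h8 := pow_two_pow_eq_one _ k h6.symm
    intro x
    rw [hA', h8, one_mul]
  · exact le_sSup ⟨C.Cen_normal hK, C.Cen_isPGroup hK⟩

theorem elemAb_Cen (C : Coord K q T) (hK : Fintype.card K = q ^ 2) :
    Cfsg.IsElementaryAbelian 2 (C.Cen) := by
  refine ⟨⟨⟨fun a b => Subtype.ext (C.Cen_comm hK a.1 b.1 a.2 b.2)⟩⟩, fun a ha => ?_⟩
  rw [pow_two]
  exact C.Cen_sq hK a ha

end Coord

end Cfsg.Agent.Lib.helper25.U3Syl
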