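import Mathlib
import Cfsg.Agent.Lib.helper25.U3Aut4

/-!
# Counting the automorphisms of the Sylow 2-subgroup of `SU₃(2^n)` (library, seat helper25)
-/

set_option autoImplicit false
set_option linter.unusedSectionVars false
set_option linter.unusedSimpArgs false
set_option linter.style.haveILetI false

namespace Cfsg.Agent.Lib.helper25.U3Syl

open Cfsg.Agent.Lib.helper4 Cfsg.Agent.Lib.helper25.U3Aut

variable {K : Type*} [Field K] [Fintype K] {q : ℕ} {T : Type*} [Group T]

/-- The number of ring automorphisms of a field with `2^d` elements. -/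
theorem card_ringAut [CharP K 2] (d : ℕ) (hd : Fintype.card K = 2 ^ d) :
    Nat.card (K ≃+* K) = d := by
  letI : Algebra (ZMod 2) K := ZMod.algebra K 2
  have hcomm : ∀ (σ : K ≃+* K) (x : ZMod 2), σ (algebraMap (ZMod 2) K x) = algebraMap (ZMod 2) K x := by
    intro σ x
    have h1 : (algebraMap (ZMod 2) K) x = ((x.val : ℕ) : K) := by
      conv_lhs => rw [← ZMod.natCast_zmod_val x]
      rw [map_natCast]
    rw [h1, map_natCast]
  let e : (K ≃+* K) ≃ (K ≃ₐ[ZMod 2] K) :=
    { toFun := fun σ => AlgEquiv.ofRingEquiv (f := σ) (hcomm σ)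
      invFun := fun τ => τ.toRingEquiv
      left_inv := fun σ => by ext x; rfl
      right_inv := fun τ => by ext x; rfl }
  rw [Nat.card_congr e, IsGalois.card_aut_eq_finrank]
  have h2 := Module.card_eq_pow_finrank (K := ZMod 2) (V := K)
  rw [hd, ZMod.card] at h2
  exact (Nat.pow_right_injective (le_refl 2) h2).symm

/-- The number of additive maps from a field with `2^d = q²` elements into the fixed field of
`x ↦ x^q`. -/
theorem card_Zt [CharP K 2] (hK : Fintype.card K = q ^ 2) (d : ℕ) (hd : Fintype.card K = 2 ^ d) :
    Nat.card {ζ : K → K // (∀ a b, ζ (a + b) = ζ a + ζ b) ∧ ∀ a, ζ a ^ q = ζ a} = q ^ d := by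
  classical
  have hq := uq_ge_two hK
  letI : Algebra (ZMod 2) K := ZMod.algebra K 2
  let Fq : Submodule (ZMod 2) K :=
    { carrier := {b | b ^ q = b}
      add_mem' := by
        intro a b ha hb
        show (a + b) ^ q = a + b
        rw [frob_add hK, ha, hb]
      zero_mem' := zero_pow (by omega)
      smul_mem' := by
        intro c b hb
        show (c • b) ^ q = c • b
        have hc : c = 0 ∨ c = 1 := by
          revert c; decide
        rcases hc with rfl | rfl
        · rw [zero_smul, zero_pow (by omega)]
        · rw [one_smul]; exact hb }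
  have hFq : ∀ b : K, b ∈ Fq ↔ b ^ q = b := fun b => Iff.rfl
  let e1 : {ζ : K → K // (∀ a b, ζ (a + b) = ζ a + ζ b) ∧ ∀ a, ζ a ^ q = ζ a} ≃
      (K →ₗ[ZMod 2] Fq) :=
    { toFun := fun ζ => AddMonoidHom.toZModLinearMap 2
        { toFun := fun a => (⟨ζ.1 a, ζ.2.2 a⟩ : Fq)
          map_zero' := by
            apply Subtype.ext
            show ζ.1 0 = 0
            have := ζ.2.1 0 0
            rw [add_zero] at this
            linear_combination -this
          map_add' := by
            intro a b
            apply Subtype.ext
            exact ζ.2.1 a b }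
      invFun := fun L => ⟨fun a => ((L a : Fq) : K),
        fun a b => by
          show ((L (a + b) : Fq) : K) = ((L a : Fq) : K) + ((L b : Fq) : K)
          rw [map_add]; rfl, fun a => (L a).2⟩
      left_inv := fun ζ => by
        apply Subtype.ext
        funext a
        rfl
      right_inv := fun L => by
        apply LinearMap.ext
        intro a
        apply Subtype.ext
        rfl }
  have e2 := ((Module.finBasis (ZMod 2) K).constr (ZMod 2) (M' := Fq)).toEquiv
  rw [Nat.card_congr e1, ← Nat.card_congr e2, Nat.card_fun]
  have h2 := Module.card_eq_pow_finrank (K := ZMod 2) (V := K)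
  rw [hd, ZMod.card] at h2
  have h3 : Module.finrank (ZMod 2) K = d := (Nat.pow_right_injective (le_refl 2) h2).symm
  have h4 : Nat.card Fq = q := by
    have e3 : Fq ≃ {t : K // t + t ^ q = 0} :=
      { toFun := fun b => ⟨b.1, by
          have : b.1 ^ q = b.1 := b.2
          rw [this]; exact CharTwo.add_self_eq_zero _⟩
        invFun := fun t => ⟨t.1, by
          show t.1 ^ q = t.1
          exact (CharTwo.add_eq_zero.mp t.2).symm⟩
        left_inv := fun b => rfl
        right_inv := fun t => rfl }
    rw [Nat.card_congr e3]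
    exact card_trace_fiber hK 0 (zero_pow (by omega))
  rw [h4, Nat.card_eq_fintype_card, Fintype.card_fin, h3]

end Cfsg.Agent.Lib.helper25.U3Syl
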