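import Mathlib
import Cfsg.Agent.Lib.helper25.U3Aut5

/-!
# The order of the automorphism group of the Sylow 2-subgroup of `SU₃(2^n)`
(library, seat helper25)
-/

set_option autoImplicit false
set_option linter.unusedSectionVars false
set_option linter.unusedSimpArgs false
set_option linter.style.haveILetI false

namespace Cfsg.Agent.Lib.helper25.U3Syl

open Cfsg.Agent.Lib.helper4 Cfsg.Agent.Lib.helper25.U3Aut

variable {K : Type*} [Field K] [Fintype K] {q : ℕ} {T : Type*} [Group T]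

namespace Coord

variable (C : Coord K q T) [CharP K 2]

/-- The additive datum of an automorphism trivial on first coordinates. -/
noncomputable def zeta (hK : Fintype.card K = q ^ 2) (α : MulAut T) (a : K) : K :=
  C.B (α (Classical.choose (C.exists_A hK a))) + C.B (Classical.choose (C.exists_A hK a))

theorem zeta_spec (hK : Fintype.card K = q ^ 2) (α : MulAut T) (hα : α ∈ C.Cen) (x : T) :
    C.B (α x) + C.B x = C.zeta hK α (C.A x) := by
  have hq := uq_ge_two hK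
  set x0 := Classical.choose (C.exists_A hK (C.A x)) with hx0
  have hA0 : C.A x0 = C.A x := Classical.choose_spec (C.exists_A hK (C.A x))
  have hz : C.A (x0⁻¹ * x) = 0 := by rw [C.mulA, C.A_inv, hA0]; ring
  have hx : x = x0 * (x0⁻¹ * x) := by group
  have h1 : α x = α x0 * (x0⁻¹ * x) := by
    conv_lhs => rw [hx]
    rw [map_mul, C.aut_fix_center hK α hα _ hz]
  have h2 : C.B (α x) = C.B (α x0) + C.B (x0⁻¹ * x) := by
    rw [h1, C.mulB, hz, zero_pow (by omega), mul_zero, sub_zero]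
  have h3 : C.B x = C.B x0 + C.B (x0⁻¹ * x) := by
    conv_lhs => rw [hx]
    rw [C.mulB, hz, zero_pow (by omega), mul_zero, sub_zero]
  show C.B (α x) + C.B x = C.B (α x0) + C.B x0
  rw [h2, h3]
  have : C.B (α x0) + C.B (x0⁻¹ * x) + (C.B x0 + C.B (x0⁻¹ * x)) =
      C.B (α x0) + C.B x0 + 2 * C.B (x0⁻¹ * x) := by ring
  rw [this, CharTwo.two_eq_zero, zero_mul, add_zero]

theorem zeta_add (hK : Fintype.card K = q ^ 2) (α : MulAut T) (hα : α ∈ C.Cen) (a b : K) :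
    C.zeta hK α (a + b) = C.zeta hK α a + C.zeta hK α b := by
  obtain ⟨x, hx⟩ := C.exists_A hK a
  obtain ⟨y, hy⟩ := C.exists_A hK b
  rw [← hx, ← hy, ← C.mulA, ← C.zeta_spec hK α hα, ← C.zeta_spec hK α hα, ← C.zeta_spec hK α hα,
    map_mul, C.mulB, C.mulB, hα x, hα y]
  have : C.B (α x) + C.B (α y) - C.A x * C.A y ^ q + (C.B x + C.B y - C.A x * C.A y ^ q) =
      C.B (α x) + C.B x + (C.B (α y) + C.B y) - 2 * (C.A x * C.A y ^ q) := by ring
  rw [this, CharTwo.two_eq_zero, zero_mul, sub_zero]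

theorem zeta_fix (hK : Fintype.card K = q ^ 2) (α : MulAut T) (hα : α ∈ C.Cen) (a : K) :
    C.zeta hK α a ^ q = C.zeta hK α a := by
  obtain ⟨x, hx⟩ := C.exists_A hK a
  rw [← hx, ← C.zeta_spec hK α hα, frob_add hK]
  have h1 := C.rel (α x)
  have h2 := C.rel x
  rw [hα x] at h1
  have h3 : C.B (α x) ^ q + C.B x ^ q = -(C.B (α x) + C.B x) - 2 * C.A x ^ (q + 1) := by
    linear_combination h1 + h2
  rw [h3, CharTwo.two_eq_zero, zero_mul, sub_zero, CharTwo.neg_eq]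

theorem ofZeta_ok (ζ : K → K) (hK : Fintype.card K = q ^ 2)
    (h2 : ∀ a, ζ a ^ q = ζ a) (x : T) :
    (C.B x + ζ (C.A x)) + (C.B x + ζ (C.A x)) ^ q + C.A x ^ (q + 1) = 0 := by
  rw [frob_add hK, h2]
  have : C.B x + ζ (C.A x) + (C.B x ^ q + ζ (C.A x)) + C.A x ^ (q + 1) =
      (C.B x + C.B x ^ q + C.A x ^ (q + 1)) + 2 * ζ (C.A x) := by ring
  rw [this, C.rel, CharTwo.two_eq_zero, zero_mul, add_zero]

/-- The automorphism attached to an additive map into the fixed field. -/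
noncomputable def ofZetaFun (ζ : K → K) (hK : Fintype.card K = q ^ 2)
    (h2 : ∀ a, ζ a ^ q = ζ a) (x : T) : T :=
  C.pt (C.A x) (C.B x + ζ (C.A x)) (C.ofZeta_ok ζ hK h2 x)

theorem A_ofZetaFun (ζ : K → K) (hK : Fintype.card K = q ^ 2)
    (h2 : ∀ a, ζ a ^ q = ζ a) (x : T) : C.A (C.ofZetaFun ζ hK h2 x) = C.A x := C.A_pt _ _ _

theorem B_ofZetaFun (ζ : K → K) (hK : Fintype.card K = q ^ 2)
    (h2 : ∀ a, ζ a ^ q = ζ a) (x : T) :
    C.B (C.ofZetaFun ζ hK h2 x) = C.B x + ζ (C.A x) := C.B_pt _ _ _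

theorem ofZetaFun_invol (ζ : K → K) (hK : Fintype.card K = q ^ 2)
    (h2 : ∀ a, ζ a ^ q = ζ a) (x : T) :
    C.ofZetaFun ζ hK h2 (C.ofZetaFun ζ hK h2 x) = x := by
  apply C.inj
  · rw [C.A_ofZetaFun, C.A_ofZetaFun]
  · rw [C.B_ofZetaFun, C.B_ofZetaFun, C.A_ofZetaFun, add_assoc, CharTwo.add_self_eq_zero,
      add_zero]

/-- The automorphism attached to an additive map into the fixed field. -/
noncomputable def ofZeta (ζ : K → K) (hK : Fintype.card K = q ^ 2)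
    (h1 : ∀ a b, ζ (a + b) = ζ a + ζ b) (h2 : ∀ a, ζ a ^ q = ζ a) : MulAut T where
  toFun := C.ofZetaFun ζ hK h2
  invFun := C.ofZetaFun ζ hK h2
  left_inv := C.ofZetaFun_invol ζ hK h2
  right_inv := C.ofZetaFun_invol ζ hK h2
  map_mul' := by
    intro x y
    apply C.inj
    · rw [C.A_ofZetaFun, C.mulA, C.mulA, C.A_ofZetaFun, C.A_ofZetaFun]
    · rw [C.B_ofZetaFun, C.mulB, C.mulB, C.B_ofZetaFun, C.B_ofZetaFun, C.A_ofZetaFun,
        C.A_ofZetaFun, C.mulA, h1]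
      ring

theorem ofZeta_apply (ζ : K → K) (hK : Fintype.card K = q ^ 2)
    (h1 : ∀ a b, ζ (a + b) = ζ a + ζ b) (h2 : ∀ a, ζ a ^ q = ζ a) (x : T) :
    C.ofZeta ζ hK h1 h2 x = C.ofZetaFun ζ hK h2 x := rfl

/-- Central automorphisms correspond to additive maps into the fixed field. -/
noncomputable def cenEquiv (hK : Fintype.card K = q ^ 2) :
    C.Cen ≃ {ζ : K → K // (∀ a b, ζ (a + b) = ζ a + ζ b) ∧ ∀ a, ζ a ^ q = ζ a} where
  toFun α := ⟨C.zeta hK α.1, C.zeta_add hK α.1 α.2, C.zeta_fix hK α.1 α.2⟩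
  invFun ζ := ⟨C.ofZeta ζ.1 hK ζ.2.1 ζ.2.2, fun x => by
    rw [C.ofZeta_apply, C.A_ofZetaFun]⟩
  left_inv α := by
    apply Subtype.ext
    apply MulEquiv.ext
    intro x
    apply C.inj
    · change C.A (C.ofZeta (C.zeta hK α.1) hK (C.zeta_add hK α.1 α.2)
        (C.zeta_fix hK α.1 α.2) x) = C.A (α.1 x)
      rw [C.ofZeta_apply, C.A_ofZetaFun, α.2 x]
    · change C.B (C.ofZeta (C.zeta hK α.1) hK (C.zeta_add hK α.1 α.2)
        (C.zeta_fix hK α.1 α.2) x) = C.B (α.1 x)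
      rw [C.ofZeta_apply, C.B_ofZetaFun, ← C.zeta_spec hK α.1 α.2]
      have : C.B x + (C.B (α.1 x) + C.B x) = C.B (α.1 x) + 2 * C.B x := by ring
      rw [this, CharTwo.two_eq_zero, zero_mul, add_zero]
  right_inv ζ := by
    apply Subtype.ext
    funext a
    obtain ⟨x, hx⟩ := C.exists_A hK a
    have hmem : C.ofZeta ζ.1 hK ζ.2.1 ζ.2.2 ∈ C.Cen := fun x => by
      rw [C.ofZeta_apply, C.A_ofZetaFun]
    show C.zeta hK (C.ofZeta ζ.1 hK ζ.2.1 ζ.2.2) a = ζ.1 a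
    rw [← hx, ← C.zeta_spec hK _ hmem, C.ofZeta_apply, C.B_ofZetaFun]
    have : C.B x + ζ.1 (C.A x) + C.B x = ζ.1 (C.A x) + 2 * C.B x := by ring
    rw [this, CharTwo.two_eq_zero, zero_mul, add_zero]

theorem card_Cen (C : Coord K q T) (hK : Fintype.card K = q ^ 2) (d : ℕ)
    (hd : Fintype.card K = 2 ^ d) : Nat.card (C.Cen) = q ^ d := by
  rw [Nat.card_congr (C.cenEquiv hK)]
  exact card_Zt hK d hd

end Coord

end Cfsg.Agent.Lib.helper25.U3Syl
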