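import Mathlib
import Cfsg.Agent.Lib.helper25.U3Aut6

/-!
# The order of the automorphism group of the Sylow 2-subgroup of `SU₃(2^n)`, conclusion
(library, seat helper25)
-/

set_option autoImplicit false
set_option linter.unusedSectionVars false
set_option linter.unusedSimpArgs false
set_option linter.style.haveILetI false

namespace Cfsg.Agent.Lib.helper25.U3Syl

open Cfsg.Agent.Lib.helper4 Cfsg.Agent.Lib.helper25.U3Aut

variable {K : Type*} [Field K] [Fintype K] {q : ℕ} {T : Type*} [Group T]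

namespace Coord

variable (C : Coord K q T)

theorem sig_ok (σ : K ≃+* K) (x : T) :
    σ (C.B x) + σ (C.B x) ^ q + σ (C.A x) ^ (q + 1) = 0 := by
  rw [← map_pow, ← map_pow, ← map_add, ← map_add, C.rel, map_zero]

/-- The action of a field automorphism. -/
noncomputable def sigFun (σ : K ≃+* K) (x : T) : T :=
  C.pt (σ (C.A x)) (σ (C.B x)) (C.sig_ok σ x)

theorem A_sigFun (σ : K ≃+* K) (x : T) : C.A (C.sigFun σ x) = σ (C.A x) := C.A_pt _ _ _

theorem B_sigFun (σ : K ≃+* K) (x : T) : C.B (C.sigFun σ x) = σ (C.B x) := C.B_pt _ _ _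

/-- The action of a field automorphism. -/
noncomputable def sigAut (σ : K ≃+* K) : MulAut T where
  toFun := C.sigFun σ
  invFun := C.sigFun σ.symm
  left_inv := fun x => by
    apply C.inj
    · rw [C.A_sigFun, C.A_sigFun, RingEquiv.symm_apply_apply]
    · rw [C.B_sigFun, C.B_sigFun, RingEquiv.symm_apply_apply]
  right_inv := fun x => by
    apply C.inj
    · rw [C.A_sigFun, C.A_sigFun, RingEquiv.apply_symm_apply]
    · rw [C.B_sigFun, C.B_sigFun, RingEquiv.apply_symm_apply]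
  map_mul' := by
    intro x y
    apply C.inj
    · rw [C.A_sigFun, C.mulA, C.mulA, C.A_sigFun, C.A_sigFun, map_add]
    · rw [C.B_sigFun, C.mulB, C.mulB, C.B_sigFun, C.B_sigFun, C.A_sigFun, C.A_sigFun, map_sub,
        map_add, map_mul, map_pow]

theorem A_sigAut (σ : K ≃+* K) (x : T) : C.A (C.sigAut σ x) = σ (C.A x) := C.A_sigFun σ x

variable [CharP K 2]

theorem exists_dat (hK : Fintype.card K = q ^ 2) (hqe : ∃ r, q = 2 * r) (α : MulAut T) :
    ∃ p : Kˣ × (K ≃+* K), ∀ x, C.A (α x) = (p.1 : K) * p.2 (C.A x) := by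
  obtain ⟨μ, σ, hμ, h⟩ := C.aut_semilin hK hqe α
  exact ⟨(Units.mk0 μ hμ, σ), h⟩

/-- The semilinear datum of an automorphism. -/
noncomputable def dat (hK : Fintype.card K = q ^ 2) (hqe : ∃ r, q = 2 * r) (α : MulAut T) :
    Kˣ × (K ≃+* K) := Classical.choose (C.exists_dat hK hqe α)

theorem dat_spec (hK : Fintype.card K = q ^ 2) (hqe : ∃ r, q = 2 * r) (α : MulAut T) (x : T) :
    C.A (α x) = ((C.dat hK hqe α).1 : K) * (C.dat hK hqe α).2 (C.A x) :=
  Classical.choose_spec (C.exists_dat hK hqe α) x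

theorem dat_unique (hK : Fintype.card K = q ^ 2) (hqe : ∃ r, q = 2 * r) (α : MulAut T)
    (p : Kˣ × (K ≃+* K)) (h : ∀ x, C.A (α x) = (p.1 : K) * p.2 (C.A x)) :
    C.dat hK hqe α = p := by
  have h1 : ∀ a : K, ((C.dat hK hqe α).1 : K) * (C.dat hK hqe α).2 a = (p.1 : K) * p.2 a := by
    intro a
    obtain ⟨x, hx⟩ := C.exists_A hK a
    rw [← hx, ← C.dat_spec hK hqe α x, h]
  have h2 : ((C.dat hK hqe α).1 : K) = (p.1 : K) := by
    have := h1 1
    simpa using this
  have h3 : ∀ a : K, (C.dat hK hqe α).2 a = p.2 a := by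
    intro a
    have := h1 a
    rw [h2] at this
    exact mul_left_cancel₀ p.1.ne_zero this
  exact Prod.ext (Units.ext h2) (RingEquiv.ext h3)

/-- The fibres of the datum map are cosets of the central automorphisms. -/
noncomputable def fiberEquivCen (hK : Fintype.card K = q ^ 2) (hqe : ∃ r, q = 2 * r)
    (p : Kˣ × (K ≃+* K)) : {α : MulAut T // C.dat hK hqe α = p} ≃ C.Cen where
  toFun α := ⟨(C.Dl hK p.1 * C.sigAut p.2)⁻¹ * α.1, by
    intro x
    have h0 : ∀ y, C.A ((C.Dl hK p.1 * C.sigAut p.2) y) = (p.1 : K) * p.2 (C.A y) := by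
      intro y
      rw [MulAut.mul_apply, C.Dl_apply, C.A_dl, C.A_sigAut]
    have hy : (C.Dl hK p.1 * C.sigAut p.2) (((C.Dl hK p.1 * C.sigAut p.2)⁻¹ * α.1) x) = α.1 x := by
      show (C.Dl hK p.1 * C.sigAut p.2) ((C.Dl hK p.1 * C.sigAut p.2)⁻¹ (α.1 x)) = α.1 x
      rw [MulAut.apply_inv_self]
    have h1 := h0 (((C.Dl hK p.1 * C.sigAut p.2)⁻¹ * α.1) x)
    rw [hy] at h1
    have h2 := C.dat_spec hK hqe α.1 x
    rw [α.2] at h2
    rw [h2] at h1
    have h3 := mul_left_cancel₀ p.1.ne_zero h1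
    exact (p.2.injective h3).symm⟩
  invFun γ := ⟨(C.Dl hK p.1 * C.sigAut p.2) * γ.1, by
    apply C.dat_unique
    intro x
    rw [MulAut.mul_apply, MulAut.mul_apply, C.Dl_apply, C.A_dl, C.A_sigAut, γ.2 x]⟩
  left_inv α := by
    apply Subtype.ext
    show (C.Dl hK p.1 * C.sigAut p.2) * ((C.Dl hK p.1 * C.sigAut p.2)⁻¹ * α.1) = α.1
    rw [mul_inv_cancel_left]
  right_inv γ := by
    apply Subtype.ext
    show (C.Dl hK p.1 * C.sigAut p.2)⁻¹ * ((C.Dl hK p.1 * C.sigAut p.2) * γ.1) = γ.1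
    rw [inv_mul_cancel_left]

/-- The order of the automorphism group. -/
theorem card_aut (C : Coord K q T) (hK : Fintype.card K = q ^ 2) (hqe : ∃ r, q = 2 * r) (d : ℕ)
    (hd : Fintype.card K = 2 ^ d) :
    Nat.card (MulAut T) = (q ^ 2 - 1) * d * q ^ d := by
  classical
  haveI := C.finite
  haveI : Finite (K ≃+* K) :=
    Finite.of_injective (fun σ : K ≃+* K => (σ : K → K)) (fun σ τ h => RingEquiv.ext (congrFun h))
  haveI : Finite (MulAut T) := by
    have : Function.Injective (fun α : MulAut T => (α : T → T)) := by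
      intro α β h
      exact MulEquiv.ext (congrFun h)
    exact Finite.of_injective _ this
  have h := Cfsg.Agent.Lib.helper4.card_fiber_count (C.dat hK hqe) (Nat.card (C.Cen))
    (fun p => Nat.card_congr (C.fiberEquivCen hK hqe p))
  rw [h, Nat.card_prod, C.card_Cen hK d hd, card_ringAut d hd, Nat.card_eq_fintype_card,
    Fintype.card_units, hK]

/-- The automorphism group of a group with coordinates over the field with `(2^n)²` elements. -/
theorem aut_structure {n : ℕ} (C : Coord K (2 ^ n) T)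
    (hK : Fintype.card K = (2 ^ n) ^ 2) (hn1 : 1 ≤ n) :
    Cfsg.IsElementaryAbelian 2 (Cfsg.pCore 2 (MulAut T)) ∧
      Nat.card ↥(Cfsg.pCore 2 (MulAut T)) = 2 ^ (2 * n ^ 2) ∧
      Nat.card (MulAut T) = 2 ^ (2 * n ^ 2) * (2 * n * ((2 ^ n) ^ 2 - 1)) := by
  have hqe : ∃ r, 2 ^ n = 2 * r := by
    obtain ⟨m, rfl⟩ : ∃ m, n = m + 1 := ⟨n - 1, by omega⟩
    exact ⟨2 ^ m, by rw [pow_succ]; ring⟩
  have hd : Fintype.card K = 2 ^ (2 * n) := by rw [hK, ← pow_mul, mul_comm]
  have hpc := C.pCore_eq hK hqe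
  have hpow : (2 ^ n) ^ (2 * n) = 2 ^ (2 * n ^ 2) := by
    rw [← pow_mul]; congr 1; ring
  refine ⟨?_, ?_, ?_⟩
  · rw [hpc]; exact C.elemAb_Cen hK
  · rw [hpc, C.card_Cen hK (2 * n) hd, hpow]
  · rw [C.card_aut hK hqe (2 * n) hd, hpow]
    ring

end Coord

end Cfsg.Agent.Lib.helper25.U3Syl
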